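/-
CLAS/T2 (S2193): definitions for the Lie type part
-/
import Cfsg.Agent.CLAS.T2.Def
import Cfsg.Agent.CHEV.LieSyl

set_option autoImplicit false

namespace CL.T2

open CL.Chev

variable {ι κ κ' : Type*} [Fintype κ] [DecidableEq κ] {R : RootSys ι κ} {F Γ G : Type*} [Field F]
  [Group Γ] [Group G] {S : StData R F Γ}

/-- `U` is generated by the simple root groups -/
def Gen (T : S.Twist κ') (j : G →* Γ) : Prop := S.U.comap j ≤ ⨆ a, (S.XS (T.pos a)).comap j

/-- a root with full support -/
def Full (R : RootSys ι κ) (r : ι) : Prop := ∀ i, 0 < R.rt r i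

end CL.T2
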