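/-
CLAS/T2 (S2193): actions of degree prime to p
-/
import Cfsg.Agent.CLAS.T2.Def2

set_option autoImplicit false

namespace CL.T2

open CL.Chev

variable {ι κ κ' : Type*} [Fintype κ] [DecidableEq κ] {R : RootSys ι κ} [Finite ι] {F Γ G : Type*} [Field F]
  [Group Γ] [Group G] {S : StData R F Γ} {T : S.Twist κ'} {j : G →* Γ}
  {Ω : Type*} [MulAction G Ω] [Finite Ω] [Finite G] [Finite F] {p : ℕ} [Fact p.Prime] [CharP F p]

/-- `U` fixes a point `ω`; `K = G_ω ≠ ⊤` contains `U`, so `K ≤ P_J` with `J` `π`-stable and proper (`le_P_of_le` /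
`eq_top_or_pCore_ne_bot` + `exists_parabolic`; after conjugating), and `K = P_J ∩ G` by maximality (or: 2-transitivity
gives `G = K ∪ K g K` for every `g ∉ K`, so `G = P ∪ P g P` for `g ∉ P = P_J ∩ G`).  Take a class `a` outside `J` and
`n_a, n₀ ∈ N ∩ G` acting as `w_a` and as the longest element `w₀ ∈ W¹` (all positive roots to negative ones).  Both lie
outside `P`, so `w₀ = u w_a v` with `u, v ∈ W_J` (`Acts.exists_mul_P` twice, uniqueness of the Bruhat cell).  For `r` of full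
support `-w₀ r` has full support (`-w₀` permutes the simple roots), `W_J` preserves `Φ± \ Φ_J`, so `v r > 0` and
`w_a v r < 0`, i.e. `v r ∈ pos a`. -/
theorem alpha [Nonempty κ] (h : T.IsLie j) (tw : Tw G Ω) (hp : ¬ p ∣ Nat.card Ω) :
    ∃ (J : Set κ) (a : κ'), (∀ i ∈ T.J a, i ∉ J) ∧ ∃ v ∈ R.WJ J, ∀ r, Full R r → v r ∈ T.pos a := by
  have hM := h.isTw
  have hS := h.good
  obtain ⟨ω, hω⟩ := IsPGroup.nonempty_fixed_point_of_prime_not_dvd_card (h.sylIn (p := p)).pgroup Ω hp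
  have hUK : S.U.comap j ≤ MulAction.stabilizer G ω := fun u hu => hω ⟨u, hu⟩
  have a1 : ∀ g ∈ j.range, ∀ k ∈ (⊤ : Subgroup Γ), g * k * g⁻¹ ∈ (⊤ : Subgroup Γ) := fun _ _ _ _ => trivial
  have a2 : ∀ a, ∀ u ∈ S.U ⊓ j.range, ∃ v ∈ S.U ⊓ j.range ⊓ ⊤, ∃ z ∈ S.UJ (T.J a), u = v * z :=
    fun a u hu => ⟨u, ⟨hu, trivial⟩, 1, one_mem _, (mul_one u).symm⟩
  have a3 : ∀ a, ∃ y ∈ j.range ⊓ ⊤, y ∈ S.XS (T.ngt a) ∧ y ≠ 1 := fun a =>
    let ⟨v, h1, h2⟩ := hM.exists_ngt a; ⟨v, ⟨h1, trivial⟩, h2⟩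
  have a4 : S.U ⊓ j.range ⊓ ⊤ ≤ (MulAction.stabilizer G ω).map j := by
    rintro _ ⟨⟨hu, u, rfl⟩, -⟩
    exact ⟨u, hUK hu, rfl⟩
  have a5 : (MulAction.stabilizer G ω).map j ≤ j.range := Subgroup.map_le_range _ _
  obtain ⟨a, ha⟩ : ∃ a, ¬ ∃ m ∈ (MulAction.stabilizer G ω).map j, m ∈ S.P (T.J a) ∧ m ∉ S.B := by
    by_contra hc
    push Not at hc
    refine tw.stab_ne_top ω (top_unique ?_)
    rw [← h.normalClosure_U]
    refine (Subgroup.closure_le _).2 fun x hx => ?_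
    obtain ⟨u, hu, g, rfl⟩ := by simpa only [Group.mem_conjugatesOfSet_iff, isConj_iff] using hx
    simpa [← map_inv, ← map_mul, Subgroup.mem_map_iff_mem h.inj] using
      hM.conj_mem_of_forall hS a1 a2 a4 a5 hc (g := j g) ⟨g, rfl⟩ (u := j u) ⟨⟨hu, u, rfl⟩, trivial⟩
  have hP := hM.le_P_of_le hS a1 a2 a3 a4 a5
  generalize hJ : {i | ∃ m ∈ (MulAction.stabilizer G ω).map j, m ∈ S.P (T.J (T.c i)) ∧ m ∉ S.B} = J at hP
  have haJ : ∀ i ∈ T.J a, i ∉ J := fun i (hi : T.c i = a) hi' => ha (by rw [← hJ] at hi'; exact hi ▸ hi')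
  obtain ⟨i, hi⟩ := T.exists_mem_J a
  have hsi : R.simple i ∉ R.sub J := fun e => by simpa [R.rt_simple] using e i (haJ i hi)
  obtain ⟨_, ⟨-, g, rfl⟩, hg⟩ := hM.exists_n hS a
  obtain ⟨_, ⟨-, g₀, rfl⟩, hg₀⟩ := hM.exists_acts hS T.w0_univ_mem_W1
  have mv : ∀ {x w}, S.Acts (j x) w → ¬ R.IsPos (w (R.simple i)) → ω ≠ x • ω := fun {x w} hx hn e =>
    hsi (RootSys.invs_sub (hS.mem_WJ_of_mem_P hx (hP ⟨x, e.symm, rfl⟩)) ⟨R.isPos_simple i, hn⟩)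
  obtain ⟨k, hk, hk'⟩ := tw.two ω (g • ω) ω (g₀ • ω) (mv hg (T.w_mem_ngt.2 (T.simple_mem_pos hi)).1)
    (mv hg₀ fun e => (R.isPos_w0_univ _).1 e (R.isPos_simple i))
  have hk1 : j k ∈ S.P J := hP ⟨k, hk, rfl⟩
  have hk2 : j ((k * g)⁻¹ * g₀) ∈ S.P J := hP ⟨_, by
    rw [SetLike.mem_coe, MulAction.mem_stabilizer_iff, mul_smul, inv_smul_eq_iff, mul_smul, hk'], rfl⟩
  obtain ⟨b1, hb1, m, v, hv, hm, b2, hb2, e⟩ := hg.exists_mul_P hk2
  obtain ⟨c1, hc1, m', u, hu, hm', c2, hc2, e'⟩ := hm.inv.exists_mul_P (inv_mem (mul_mem hk1 (S.B_le_P J hb1)))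
  have e1 : (R.w0 Set.univ)⁻¹ = (T.w a * v)⁻¹ * u := by
    refine hS.eq_of_bruhat' hg₀.inv hm' hb2 (one_mem _) hc1 hc2 ?_
    have : j g₀ = j k * (b1 * m * b2) := by rw [← e]; simp [mul_assoc]
    rw [← e', this]; group
  refine ⟨J, a, haJ, v, hv, fun r hr => ?_⟩
  have e2 : T.w a (v r) = u (R.w0 Set.univ r) := by
    have : T.w a * v = u * R.w0 Set.univ := by
      rw [← mul_inv_eq_iff_eq_mul, e1]; group
    exact DFunLike.congr_fun this r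
  have h1 : R.w0 Set.univ r ∉ R.sub J := fun hs => by
    have h2 := hs i (haJ i hi)
    have h3 : ∀ l, R.rt (R.w0 Set.univ (R.simple l)) i ≤ 0 := fun l =>
      (R.not_isPos_iff _).1 (fun e => (R.isPos_w0_univ _).1 e (R.isPos_simple l)) i
    rw [RootSys.rt_W_eq_sum (R.w0_mem_W _), Finset.sum_apply] at h2
    replace h2 := (Finset.sum_eq_zero_iff_of_nonpos fun l _ =>
      mul_nonpos_of_nonneg_of_nonpos (hr l).le (h3 l)).1 h2
    have h4 := congrFun (RootSys.rt_W_eq_sum (R.w0_mem_W Set.univ) ((R.w0 Set.univ)⁻¹ (R.simple i))) i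
    rw [RootSys.perm_apply_inv, Finset.sum_apply, Finset.sum_eq_zero fun l _ => by
      rw [Pi.smul_apply, (mul_eq_zero.1 (h2 l (Finset.mem_univ l))).resolve_left (hr l).ne', smul_zero]] at h4
    simp [R.rt_simple] at h4
  rw [← T.invs_w]
  refine ⟨(RootSys.WJ_isPos_iff hv fun hs => (hr i).ne' (hs i (haJ i hi))).2 (R.isPos_of_pos (hr i)), ?_⟩
  rw [e2, RootSys.WJ_isPos_iff hu h1, R.isPos_w0_univ, not_not]
  exact R.isPos_of_pos (hr i)

/-- `v ∈ W_J` keeps the coefficients at `i ∉ J`.  For orthogonal `J a`, `pos a` consists of the simple roots `α_i`,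
`i ∈ J a`; `v r = α_i` forces `J a = {i}`, and then two full roots have the same image. -/
theorem dvd_of_full [Nonempty κ] (h : T.IsLie j) (tw : Tw G Ω) (hf : ∃ r s, r ≠ s ∧ Full R r ∧ Full R s)
    (ho : ∀ a, ∀ i ∈ T.J a, ∀ k ∈ T.J a, i ≠ k → R.A i k = 0) : p ∣ Nat.card Ω := by
  by_contra hp
  obtain ⟨J, a, ha, v, hv, hr⟩ := alpha h tw hp
  obtain ⟨r, s, hne, h1, h2⟩ := hf
  rw [T.pos_eq_orth (ho a)] at hr
  obtain ⟨i, hi, e⟩ := hr r h1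
  obtain ⟨k, hk, e'⟩ := hr s h2
  have h3 := h2 i
  rw [← RootSys.WJ_rt_of_not_mem hv s (ha i hi), ← e', R.rt_simple] at h3
  obtain rfl : i = k := by
    by_contra hik
    simp [hik] at h3
  exact hne (v.injective (e.symm.trans e'))

end CL.T2
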