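/-
CLAS/T2 (S2193): blocks from normal subgroups of a transitive subgroup, degrees, orbit kernels
-/
import Cfsg.Agent.CLAS.T2.Def

set_option autoImplicit false

namespace CL.T2

open MulAction

variable {G Ω : Type*} [Group G] [Finite G] [MulAction G Ω] [Finite Ω]

namespace Blk

theorem oc (Q : Subgroup G) (ω : Ω) :
    Nat.card Q = (orbit Q ω).ncard * Nat.card (Q ⊓ stabilizer G ω : Subgroup G) := by
  rw [← index_stabilizer, ← (stabilizer Q ω).index_mul_card, ← Nat.card_congr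
    (Subgroup.subgroupOfEquivOfLe (inf_le_left : Q ⊓ stabilizer G ω ≤ Q)).toEquiv, Subgroup.inf_subgroupOf_left]
  rfl

omit [Finite G] [Finite Ω] in
theorem mem_orb {Q : Subgroup G} {a b : Ω} : b ∈ orbit Q a ↔ ∃ x ∈ Q, x • a = b :=
  ⟨fun ⟨x, e⟩ => ⟨x, x.2, e⟩, fun ⟨x, hx, e⟩ => ⟨⟨x, hx⟩, e⟩⟩

theorem eq_of {Q : Subgroup G} {ω : Ω} {κ : ℕ}
    (h : Nat.card Q = κ * Nat.card (Q ⊓ stabilizer G ω : Subgroup G)) : (orbit Q ω).ncard = κ :=
  Nat.eq_of_mul_eq_mul_right Nat.card_pos ((oc Q ω).symm.trans h)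

omit [Finite G] in
theorem const {P X : Subgroup G} (hn : Nz P X) (hP : Tr P Ω) (a b : Ω) : (orbit X a).ncard = (orbit X b).ncard := by
  have k : ∀ a b : Ω, (orbit X a).ncard ≤ (orbit X b).ncard := fun a b => by
    obtain ⟨g, hg, rfl⟩ := hP a b
    refine Set.ncard_le_ncard_of_injOn (g • ·) (fun c hc => ?_) (MulAction.injective g).injOn
    obtain ⟨x, hx, rfl⟩ := mem_orb.1 hc
    exact mem_orb.2 ⟨_, hn g hg x hx, by simp only [mul_smul, inv_smul_smul]⟩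
  exact (k a b).antisymm (k b a)

omit [Finite G] in
theorem sum_orb (Q : Subgroup G) [Fintype (orbitRel.Quotient Q Ω)] :
    Nat.card Ω = ∑ c : orbitRel.Quotient Q Ω, (orbit Q c.out).ncard := by
  rw [Nat.card_congr (selfEquivSigmaOrbits Q Ω), Nat.card_sigma]
  rfl

/-- the action on the `Q`-orbits -/
@[reducible] def act {P Q : Subgroup G} (hn : Nz P Q) : MulAction P (orbitRel.Quotient Q Ω) where
  smul g := Quotient.map' ((g : G) • ·) fun a b e => by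
    obtain ⟨x, hx, rfl⟩ := mem_orb.1 (orbitRel_apply.1 e)
    exact orbitRel_apply.2 (mem_orb.2 ⟨_, hn g g.2 x hx, by simp only [mul_smul, inv_smul_smul]⟩)
  one_smul c := Quotient.inductionOn' c fun a => congrArg Quotient.mk'' (one_smul G a)
  mul_smul g k c := Quotient.inductionOn' c fun a => congrArg Quotient.mk'' (mul_smul (g : G) k a)

omit [Finite G] [Finite Ω] in
theorem act_fix {P Q : Subgroup G} (hn : Nz P Q) (g : P) (ω : Ω) :
    letI := act (Ω := Ω) hn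
    g • (Quotient.mk'' ω : orbitRel.Quotient Q Ω) = Quotient.mk'' ω ↔ ∃ x ∈ Q, (g : G) • ω = x • ω :=
  Quotient.eq''.trans (orbitRel_apply.trans (mem_orb.trans (exists_congr fun _ => and_congr_right fun _ => eq_comm)))

end Blk

open Blk

theorem card_orbits {Q : Subgroup G} {κ : ℕ}
    (hκ : ∀ ω : Ω, Nat.card Q = κ * Nat.card (Q ⊓ stabilizer G ω : Subgroup G)) :
    Nat.card (orbitRel.Quotient Q Ω) * κ = Nat.card Ω := by
  have := Fintype.ofFinite (orbitRel.Quotient Q Ω)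
  simp [sum_orb (Ω := Ω) Q, fun ω => eq_of (hκ ω)]

/-- (P3) block equation.  All `X`-orbits have the same size `κ` (`P` permutes them transitively), so `κ ∣ n`.  Count
triples `(c, ω, ω')`, `c = gP ∈ G ⧸ P`, `ω ≠ ω' ∈ (g X g⁻¹) ω` (well defined on cosets): for each `c` there are
`n (κ - 1)` pairs, for each pair `ω ≠ ω'` the same number `b` of cosets (2-transitivity).  Last clause: the cosets
`P` and `gP` both count for the pair `(ω, x ω)`. -/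
theorem Tw.blk (h : Tw G Ω) {P X : Subgroup G} (hn : Nz P X) (hP : Tr P Ω) :
    ∃ κ b : ℕ, (∀ ω : Ω, Nat.card X = κ * Nat.card (X ⊓ stabilizer G ω : Subgroup G)) ∧ κ ∣ Nat.card Ω ∧
      b * (Nat.card Ω - 1) = P.index * (κ - 1) ∧ (κ = 1 → Triv X Ω) ∧
      ∀ g ∉ P, ∀ x ∈ X, ∀ x' ∈ X, ∀ ω : Ω, x • ω ≠ ω → (g * x' * g⁻¹) • ω = x • ω → 2 ≤ b := by
  classical
  obtain ⟨ω, ω', hω⟩ := h.nt
  have := Fintype.ofFinite Ω
  have := Fintype.ofFinite (G ⧸ P)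
  have hκ : ∀ a : Ω, Nat.card X = (orbit X ω).ncard * Nat.card (X ⊓ stabilizer G a : Subgroup G) :=
    fun a => const hn hP a ω ▸ oc X a
  let R : Ω → Ω → G ⧸ P → Prop := fun a b c => ∃ x ∈ X, (c.out * x * c.out⁻¹) • a = b
  have hR : ∀ a b (g : G), R a b g ↔ ∃ x ∈ X, (g * x * g⁻¹) • a = b := fun a b g => by
    obtain ⟨k, e⟩ := QuotientGroup.mk_out_eq_mul P g
    simp only [R, e]
    refine ⟨fun ⟨x, hx, e⟩ => ⟨_, hn k k.2 x hx, by rw [← e]; congr 1; group⟩,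
      fun ⟨x, hx, e⟩ => ⟨_, hn _ (inv_mem k.2) x hx, by rw [← e]; congr 1; group⟩⟩
  have le : ∀ a b c d, a ≠ b → c ≠ d → (Finset.univ.filter (R a b)).card ≤ (Finset.univ.filter (R c d)).card :=
    fun a b c d h1 h2 => by
      obtain ⟨k, rfl, rfl⟩ := h.two a b c d h1 h2
      refine Finset.card_le_card_of_injOn (k • ·) (fun q hq => ?_) (MulAction.injective k).injOn
      obtain ⟨g, rfl⟩ := QuotientGroup.mk_surjective q
      obtain ⟨x, hx, rfl⟩ := (hR _ _ _).1 (Finset.mem_filter.1 hq).2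
      exact Finset.mem_coe.2 (Finset.mem_filter.2 ⟨Finset.mem_univ _, (hR _ _ (k * g)).2
        ⟨x, hx, by simp [mul_smul]⟩⟩)
  refine ⟨_, (Finset.univ.filter (R ω ω')).card, hκ, Dvd.intro_left _ (card_orbits hκ), ?_, fun e x hx a => ?_,
    fun g hg x hx x' hx' a h1 h2 => ?_⟩
  · have := Finset.card_mul_eq_card_mul (s := Finset.univ.erase ω) (t := Finset.univ) (R ω)
      (m := (Finset.univ.filter (R ω ω')).card) (n := (orbit X ω).ncard - 1)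
      (fun b hb => (le _ _ _ _ (Finset.ne_of_mem_erase hb).symm hω).antisymm
        (le _ _ _ _ hω (Finset.ne_of_mem_erase hb).symm)) fun c _ => by
        rw [const hn hP ω (c.out⁻¹ • ω), ← Set.ncard_image_of_injective _ (MulAction.injective c.out),
          ← Set.ncard_diff_singleton_of_mem (Set.mem_image_of_mem _ (mem_orbit_self _)), smul_inv_smul,
          ← Set.ncard_coe_finset]
        congr 1
        ext b
        simp only [Finset.bipartiteBelow, Finset.coe_filter, Finset.mem_erase, Finset.mem_univ, and_true,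
          Set.mem_setOf_eq, Set.mem_diff, Set.mem_image, mem_orb, Set.mem_singleton_iff, R, mul_smul]
        exact ⟨fun ⟨h1, x, hx, e⟩ => ⟨⟨_, ⟨x, hx, rfl⟩, e⟩, h1⟩, fun ⟨⟨_, ⟨x, hx, rfl⟩, e⟩, h1⟩ => ⟨h1, x, hx, e⟩⟩
    rwa [Finset.card_erase_of_mem (Finset.mem_univ _), Finset.card_univ, Finset.card_univ, mul_comm,
      ← Nat.card_eq_fintype_card, ← Nat.card_eq_fintype_card] at this
  · obtain ⟨b, hb⟩ := Set.ncard_eq_one.1 (const hn hP a ω ▸ e)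
    exact (Set.mem_singleton_iff.1 (hb ▸ mem_orb.2 ⟨x, hx, rfl⟩)).trans
      (Set.mem_singleton_iff.1 (hb ▸ mem_orbit_self a)).symm
  · refine le_trans (Finset.one_lt_card.2 ⟨(g : G ⧸ P), Finset.mem_filter.2 ⟨Finset.mem_univ _, (hR _ _ _).2 ⟨x', hx', h2⟩⟩,
      ((1 : G) : G ⧸ P), Finset.mem_filter.2 ⟨Finset.mem_univ _, (hR _ _ _).2 ⟨x, hx, by simp⟩⟩, fun e => hg ?_⟩)
      (le a (x • a) ω ω' h1.symm hω)
    simpa using QuotientGroup.eq.1 e

theorem tr_of_card {Q : Subgroup G} {ω : Ω}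
    (hκ : Nat.card Q = Nat.card Ω * Nat.card (Q ⊓ stabilizer G ω : Subgroup G)) : Tr Q Ω := by
  have e : orbit Q ω = Set.univ := Set.eq_of_subset_of_ncard_le (Set.subset_univ _) (by rw [eq_of hκ, Set.ncard_univ])
  intro a b
  obtain ⟨x, hx, rfl⟩ := mem_orb.1 (e ▸ Set.mem_univ a)
  obtain ⟨y, hy, rfl⟩ := mem_orb.1 (e ▸ Set.mem_univ b)
  exact ⟨y * x⁻¹, mul_mem hy (inv_mem hx), by rw [mul_smul, inv_smul_smul]⟩

theorem Tr.card_eq {Q : Subgroup G} (h : Tr Q Ω) (ω : Ω) :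
    Nat.card Q = Nat.card Ω * Nat.card (Q ⊓ stabilizer G ω : Subgroup G) := by
  rw [oc Q ω, Set.eq_univ_of_forall fun b => mem_orb.2 (h ω b), Set.ncard_univ]

/-- the stabiliser in `P` of the `Q`-orbit of `ω` -/
theorem Tr.relIndex {P Q : Subgroup G} (hP : Tr P Ω) (hQ : Q ≤ P) (hn : Nz P Q) (ω : Ω) :
    (Q ⊔ (P ⊓ stabilizer G ω)).relIndex P = Nat.card (orbitRel.Quotient Q Ω) ∧
      ∀ g, g ∈ Q ⊔ (P ⊓ stabilizer G ω) ↔ g ∈ P ∧ ∃ x ∈ Q, g • ω = x • ω := by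
  let D : Subgroup G :=
    { carrier := {g | g ∈ P ∧ ∃ x ∈ Q, g • ω = x • ω}
      one_mem' := ⟨one_mem _, 1, one_mem _, rfl⟩
      mul_mem' := fun {a b} ⟨ha, x, hx, e⟩ ⟨hb, y, hy, e'⟩ => ⟨mul_mem ha hb, a * y * a⁻¹ * x,
        mul_mem (hn a ha y hy) hx, by simp only [mul_smul, e', ← e, inv_smul_smul]⟩
      inv_mem' := fun {a} ⟨ha, x, hx, e⟩ => ⟨inv_mem ha, a⁻¹ * x⁻¹ * a⁻¹⁻¹, hn _ (inv_mem ha) _ (inv_mem hx),
        by simp only [mul_smul, inv_inv, e, inv_smul_smul]⟩ }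
  have e : Q ⊔ (P ⊓ stabilizer G ω) = D := le_antisymm (sup_le (fun x hx => ⟨hQ hx, x, hx, rfl⟩)
    fun g hg => ⟨hg.1, 1, one_mem _, hg.2.trans (one_smul _ _).symm⟩) fun g ⟨hg, x, hx, e⟩ => by
      rw [← mul_inv_cancel_left x g]
      exact Subgroup.mul_mem_sup hx (Subgroup.mem_inf.2 ⟨mul_mem (inv_mem (hQ hx)) hg, by
        rw [mem_stabilizer_iff, mul_smul, e, inv_smul_smul]⟩)
  refine ⟨?_, fun g => e ▸ Iff.rfl⟩
  have e1 : orbit D ω = orbit Q ω := Set.ext fun b => by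
    rw [mem_orb, mem_orb]
    exact ⟨fun ⟨g, ⟨_, x, hx, e⟩, e'⟩ => ⟨x, hx, e.symm.trans e'⟩, fun ⟨x, hx, e⟩ => ⟨x, ⟨hQ hx, x, hx, rfl⟩, e⟩⟩
  have e2 : D ⊓ stabilizer G ω = P ⊓ stabilizer G ω := le_antisymm (fun g hg => ⟨hg.1.1, hg.2⟩)
    fun g hg => ⟨⟨hg.1, 1, one_mem _, hg.2.trans (one_smul _ _).symm⟩, hg.2⟩
  have e3 := oc D ω
  have e4 := hP.card_eq ω
  have e5 := card_orbits fun a => const hn hP a ω ▸ oc Q a
  have e6 := (D.subgroupOf P).index_mul_card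
  rw [Nat.card_congr (Subgroup.subgroupOfEquivOfLe (fun g hg => hg.1 : D ≤ P)).toEquiv] at e6
  rw [e4, ← e5, mul_assoc, ← e1, ← e2, ← e3] at e6
  rw [e]
  exact Nat.eq_of_mul_eq_mul_right Nat.card_pos e6

/-- if every orbit of the `p`-group `Q` has length at least `p ^ a`, then `p ^ a ∣ n` -/
theorem pow_dvd_card {p a : ℕ} [Fact p.Prime] {Q : Subgroup G} (hQ : IsPGroup p Q)
    (h : ∀ ω : Ω, p ^ a * Nat.card (Q ⊓ stabilizer G ω : Subgroup G) ≤ Nat.card Q) : p ^ a ∣ Nat.card Ω := by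
  have := Fintype.ofFinite (orbitRel.Quotient Q Ω)
  rw [sum_orb Q]
  refine Finset.dvd_sum fun c _ => ?_
  obtain ⟨k, hk⟩ := hQ.exists_card_eq
  obtain ⟨j, -, hj⟩ := (Nat.dvd_prime_pow Fact.out).1 (hk ▸ Dvd.intro _ (oc Q c.out).symm)
  have := h c.out
  rw [oc Q c.out, hj] at this
  rw [hj]
  exact pow_dvd_pow p ((Nat.pow_le_pow_iff_right (Fact.out : p.Prime).one_lt).1
    (Nat.le_of_mul_le_mul_right this Nat.card_pos))

theorem Tw.mul_pred_dvd (h : Tw G Ω) : Nat.card Ω * (Nat.card Ω - 1) ∣ Nat.card G := by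
  obtain ⟨a, b, hab⟩ := h.nt
  have e : orbit (stabilizer G a) b = Set.univ \ {a} := Set.ext fun c => by
    rw [mem_orb]
    refine ⟨fun ⟨x, hx, e⟩ => ⟨trivial, fun e' => hab (MulAction.injective x (hx.trans (e'.symm.trans e.symm)))⟩,
      fun hc => ?_⟩
    obtain ⟨g, e⟩ := h.two a b a c hab (Ne.symm hc.2)
    exact ⟨g, e⟩
  rw [← (stabilizer G a).index_mul_card, h.index, oc (stabilizer G a) b, e, Set.ncard_diff_singleton_of_mem (Set.mem_univ a),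
    Set.ncard_univ, ← mul_assoc]
  exact dvd_mul_right _ _

/-- a transitive group of degree a power of `p` has transitive Sylow `p`-subgroups
(`|U : U_ω| = |U G_ω : G_ω|`, count `p`-parts) -/
theorem Tr.of_sylow {p a : ℕ} [Fact p.Prime] {P U : Subgroup G} (hP : Tr P Ω) (hU : U ≤ P) (hp : IsPGroup p U)
    (hi : ¬ p ∣ U.relIndex P) (hn : Nat.card Ω = p ^ a) : Tr U Ω := by
  intro ω
  refine tr_of_card (ω := ω) ?_ ω
  have e1 := oc U ω
  have e2 := hP.card_eq ω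
  obtain ⟨m, e3⟩ := Subgroup.card_dvd_of_le (inf_le_inf_right (stabilizer G ω) hU)
  have e4 := (U.subgroupOf P).index_mul_card
  rw [Nat.card_congr (Subgroup.subgroupOfEquivOfLe hU).toEquiv, e2, e3, e1, ← mul_assoc, mul_comm _ m, ← mul_assoc] at e4
  have e5 : Nat.card Ω ∣ (orbit U ω).ncard := Nat.Coprime.dvd_of_dvd_mul_left
    (hn ▸ (((Nat.Prime.coprime_iff_not_dvd Fact.out).2 hi).pow_left a))
    (Dvd.intro _ (Nat.eq_of_mul_eq_mul_right Nat.card_pos e4).symm)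
  rw [e1, (Set.ncard_le_card _).antisymm (Nat.le_of_dvd ((Set.ncard_pos).2 ⟨ω, mem_orbit_self ω⟩) e5)]

/-- an `r`-element fixes a point when `r ∤ n` -/
theorem exists_fix {r : ℕ} [Fact r.Prime] {g : G} {a : ℕ} (hg : g ^ r ^ a = 1) (hn : ¬ r ∣ Nat.card Ω) :
    ∃ ω : Ω, g • ω = ω := by
  have hp : IsPGroup r (Subgroup.zpowers g) := fun ⟨_, k, rfl⟩ => ⟨a, Subtype.ext (by
    show (g ^ k) ^ r ^ a = 1
    rw [← zpow_natCast, ← zpow_mul, mul_comm, zpow_mul, zpow_natCast, hg, one_zpow])⟩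
  obtain ⟨ω, h⟩ := hp.nonempty_fixed_point_of_prime_not_dvd_card Ω hn
  exact ⟨ω, h ⟨g, Subgroup.mem_zpowers g⟩⟩

/-- an `r`-element normalising `Q` fixes a `Q`-orbit when `r` does not divide the number of orbits -/
theorem exists_fix_orbit {r : ℕ} [Fact r.Prime] {Q S : Subgroup G} (hS : IsPGroup r S) (hn : Nz S Q)
    (hr : ¬ r ∣ Nat.card (orbitRel.Quotient Q Ω)) : ∃ ω : Ω, ∀ g ∈ S, ∃ x ∈ Q, g • ω = x • ω := by
  letI := act (Ω := Ω) hn
  obtain ⟨c, h⟩ := hS.nonempty_fixed_point_of_prime_not_dvd_card _ hr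
  obtain ⟨ω, rfl⟩ := Quotient.exists_rep c
  exact ⟨ω, fun g hg => (act_fix hn ⟨g, hg⟩ ω).1 (h _)⟩

/-- (P9)  `P` acts on the set `Y` of `Q`-orbits; every `x ∈ X \ X₀` fixes the same number `f` of them; Burnside for
`X` on `Y` gives `m ∣ |Y| - f` for `m = [X : X₀] > |Y|`, so `f = |Y|`. -/
theorem le_okr_of_class {P Q X X₀ : Subgroup G} (hn : Nz P Q) (hX : X ≤ P) (h0 : X₀ ≤ X) (h1 : X₀ ≤ okr Q Ω)
    (hc : ∀ x ∈ X, x ∉ X₀ → ∀ y ∈ X, y ∉ X₀ → ∃ g ∈ P, g * x * g⁻¹ = y)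
    (hlt : Nat.card (orbitRel.Quotient Q Ω) * Nat.card X₀ < Nat.card X) : X ≤ okr Q Ω := by
  classical
  letI := act (Ω := Ω) hn
  intro x hx
  by_contra hx'
  have x0 : x ∉ X₀ := fun e => hx' (h1 e)
  have := Fintype.ofFinite (X.subgroupOf P)
  have := Fintype.ofFinite (orbitRel.Quotient Q Ω)
  have := Fintype.ofFinite (orbitRel.Quotient (X.subgroupOf P) (orbitRel.Quotient Q Ω))
  have B := sum_card_fixedBy_eq_card_orbits_mul_card_group (X.subgroupOf P) (orbitRel.Quotient Q Ω)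
  have full : ∀ g : P, fixedBy (orbitRel.Quotient Q Ω) g = Set.univ ↔ (g : G) ∈ okr Q Ω := fun g =>
    Set.eq_univ_iff_forall.trans ⟨fun e ω => (act_fix hn g ω).1 (e _), fun e c =>
      Quotient.inductionOn' c fun ω => (act_fix hn g ω).2 (e ω)⟩
  set f := (fixedBy (orbitRel.Quotient Q Ω) (⟨x, hX hx⟩ : P)).ncard
  have lt : f < Nat.card (orbitRel.Quotient Q Ω) := by
    rw [← Set.ncard_univ]
    exact Set.ncard_lt_ncard (Set.ssubset_univ_iff.2 fun e => hx' ((full _).1 e))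
  have e : ∀ y : X.subgroupOf P, Fintype.card (fixedBy (orbitRel.Quotient Q Ω) y) =
      f + if (y.1 : G) ∈ X₀ then Nat.card (orbitRel.Quotient Q Ω) - f else 0 := fun y => by
    rw [← Nat.card_eq_fintype_card]
    show (fixedBy (orbitRel.Quotient Q Ω) y.1).ncard = _
    split_ifs with hy
    · rw [(full _).2 (h1 hy), Set.ncard_univ]; omega
    · obtain ⟨g, hg, e⟩ := hc x hx x0 _ y.2 hy
      rw [show y.1 = ⟨g, hg⟩ * ⟨x, hX hx⟩ * ⟨g, hg⟩⁻¹ from Subtype.ext e.symm, ← smul_fixedBy, Set.ncard_smul_set, add_zero]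
  have c0 : (Finset.univ.filter fun y : X.subgroupOf P => (y.1 : G) ∈ X₀).card = Nat.card X₀ := by
    rw [← Fintype.card_subtype, ← Nat.card_eq_fintype_card]
    exact Nat.card_congr ⟨fun y => ⟨_, y.2⟩, fun y => ⟨⟨⟨y, hX (h0 y.2)⟩, h0 y.2⟩, y.2⟩, fun _ => rfl, fun _ => rfl⟩
  simp only [e, Finset.sum_add_distrib, Finset.sum_ite, Finset.sum_const, smul_eq_mul, mul_zero, add_zero, c0,
    Finset.card_univ] at B
  rw [← Nat.card_eq_fintype_card, Nat.card_congr (Subgroup.subgroupOfEquivOfLe hX).toEquiv] at B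
  have d : Nat.card X ∣ Nat.card X₀ * (Nat.card (orbitRel.Quotient Q Ω) - f) :=
    (Nat.dvd_add_right (dvd_mul_right _ _)).1 (B ▸ dvd_mul_left _ _)
  have := Nat.le_of_dvd (Nat.mul_pos Nat.card_pos (by omega)) d
  have := Nat.mul_le_mul_left (Nat.card X₀) (Nat.sub_le (Nat.card (orbitRel.Quotient Q Ω)) f)
  rw [mul_comm] at hlt
  omega

/-- (P8) lines trick.  `|Z^g ∩ G_ω| = q₀` for all `g, ω` (`blk`).  The `q + 1` conjugates cover `E`, so (counting)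
they meet pairwise trivially and `|E ∩ G_ω| = 1 + (q + 1) (q₀ - 1) = q₀ (q - q / q₀ + 1)` is a power of `p`;
if `1 < q₀ < q` the second factor is `≡ 1 mod p` and `> 1`. -/
theorem semi_or_triv {p q : ℕ} [Fact p.Prime] {P Z E : Subgroup G} (hn : Nz P Z) (hP : Tr P Ω)
    (hE : IsPGroup p E) (hZ : Nat.card Z = q) (hq : Nat.card E = q ^ 2) {ι : Type*} [Finite ι]
    (hι : Nat.card ι = q + 1) (g : ι → G) (h1 : ∀ i, ∀ z ∈ Z, g i * z * (g i)⁻¹ ∈ E)
    (h2 : ∀ e ∈ E, ∃ i, ∃ z ∈ Z, e = g i * z * (g i)⁻¹) : Semi Z Ω ∨ Triv Z Ω := by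
  classical
  rcases isEmpty_or_nonempty Ω with _ | ⟨⟨ω⟩⟩
  · exact .inr fun _ _ ω => isEmptyElim ω
  have hκ : ∀ a : Ω, Nat.card Z = (orbit Z ω).ncard * Nat.card (Z ⊓ stabilizer G a : Subgroup G) :=
    fun a => const hn hP a ω ▸ oc Z a
  have k0 : 0 < (orbit Z ω).ncard := (Set.ncard_pos).2 ⟨ω, mem_orbit_self ω⟩
  have hq0 : ∀ a : Ω, Nat.card (Z ⊓ stabilizer G a : Subgroup G) = Nat.card (Z ⊓ stabilizer G ω : Subgroup G) :=
    fun a => Nat.eq_of_mul_eq_mul_left k0 ((hκ a).symm.trans (hκ ω))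
  have := Fintype.ofFinite ι
  have ne : ∀ A : Subgroup G, Nat.card {x : G // x ∈ A ∧ x ≠ 1} = Nat.card A - 1 := fun A => by
    rw [← SetLike.coe_sort_coe, Nat.card_coe_set_eq, ← Set.ncard_diff_singleton_of_mem (one_mem A)]
    rfl
  let Φ : ι × {x : G // x ∈ Z ∧ x ≠ 1} → {x : G // x ∈ E ∧ x ≠ 1} := fun y =>
    ⟨g y.1 * y.2 * (g y.1)⁻¹, h1 _ _ y.2.2.1, by simpa using y.2.2.2⟩
  have sΦ : Function.Surjective Φ := fun e => by
    obtain ⟨i, z, hz, e'⟩ := h2 e e.2.1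
    exact ⟨⟨i, z, hz, fun z1 => e.2.2 (by simp [e', z1])⟩, Subtype.ext e'.symm⟩
  have bΦ := sΦ.bijective_of_nat_card_le (by
    rw [Nat.card_prod, ne, ne, hι, hZ, hq, ← Nat.sq_sub_sq q 1, one_pow])
  have c : Nat.card (E ⊓ stabilizer G ω : Subgroup G) - 1 =
      (q + 1) * (Nat.card (Z ⊓ stabilizer G ω : Subgroup G) - 1) := by
    let Ψ : (Σ i : ι, {x : G // x ∈ Z ⊓ stabilizer G ((g i)⁻¹ • ω) ∧ x ≠ 1}) → {x : G // x ∈ E ⊓ stabilizer G ω ∧ x ≠ 1} :=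
      fun y => ⟨g y.1 * y.2 * (g y.1)⁻¹, Subgroup.mem_inf.2 ⟨h1 _ _ y.2.2.1.1, by
        rw [mem_stabilizer_iff, mul_smul, mul_smul, mem_stabilizer_iff.1 y.2.2.1.2, smul_inv_smul]⟩,
        by simpa using y.2.2.2⟩
    rw [← ne, ← Nat.card_eq_of_bijective Ψ ⟨fun ⟨i, x, hx⟩ ⟨j, y, hy⟩ e => ?_, fun ⟨e, he⟩ => ?_⟩, Nat.card_sigma]
    · simp only [ne, hq0, Finset.sum_const, Finset.card_univ, smul_eq_mul, ← Nat.card_eq_fintype_card, hι]
    · obtain ⟨rfl, e'⟩ := Prod.mk.inj (bΦ.1 (a₁ := ⟨i, x, hx.1.1, hx.2⟩) (a₂ := ⟨j, y, hy.1.1, hy.2⟩)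
        (Subtype.ext (congrArg Subtype.val e :)))
      obtain rfl : x = y := congrArg Subtype.val e'
      rfl
    · obtain ⟨i, z, hz, rfl⟩ := h2 e he.1.1
      refine ⟨⟨i, z, Subgroup.mem_inf.2 ⟨hz, ?_⟩, fun z1 => he.2 (by simp [z1])⟩, rfl⟩
      rw [mem_stabilizer_iff, eq_inv_smul_iff, ← mul_smul, ← mul_smul]
      exact he.1.2
  by_cases s : Nat.card (Z ⊓ stabilizer G ω : Subgroup G) = 1
  · exact .inl fun x hx a e => Subgroup.mem_bot.1 (Subgroup.card_eq_one.1 ((hq0 a).trans s) ▸ ⟨hx, e⟩)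
  by_cases t : (orbit Z ω).ncard = 1
  · refine .inr fun x hx a => ?_
    exact ((Subgroup.eq_of_le_of_card_ge (inf_le_left : Z ⊓ stabilizer G a ≤ Z)
      (by rw [hκ a, t, one_mul])).ge hx).2
  exfalso
  have hp : p.Prime := Fact.out
  obtain ⟨k, hk⟩ := (hE.to_le (inf_le_left : E ⊓ stabilizer G ω ≤ E)).exists_card_eq
  obtain ⟨l, hl⟩ := hE.exists_card_eq
  have e := hκ ω
  have q0 : 0 < Nat.card (Z ⊓ stabilizer G ω : Subgroup G) := Nat.card_pos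
  have e0 : 0 < p ^ k := pow_pos hp.pos k
  rw [hZ] at e
  rw [hk] at c
  generalize Nat.card (Z ⊓ stabilizer G ω : Subgroup G) = q₀ at *
  generalize (orbit Z ω).ncard = κ at *
  obtain ⟨u, -, hu⟩ := (Nat.dvd_prime_pow hp).1 (show κ ∣ p ^ l by rw [← hl, hq, e, pow_two, mul_assoc]; exact dvd_mul_right _ _)
  have pκ : p ∣ κ := hu ▸ dvd_pow_self p fun u0 => t (by rw [hu, u0, pow_zero])
  obtain ⟨r, rfl⟩ : ∃ r, q₀ = r + 1 := ⟨q₀ - 1, by omega⟩
  have c' : p ^ k = (κ * r + 1) * (r + 1) := by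
    rw [Nat.add_sub_cancel, e] at c
    rw [Nat.sub_eq_iff_eq_add e0] at c
    rw [c]; ring
  obtain ⟨v, -, hv⟩ := (Nat.dvd_prime_pow hp).1 (Dvd.intro _ c'.symm)
  have : p ∣ κ * r + 1 := hv ▸ dvd_pow_self p fun v0 => by
    rw [v0, pow_zero] at hv
    have : κ * r = 0 := by omega
    rcases Nat.mul_eq_zero.1 this with h | h <;> omega
  exact hp.one_lt.ne' (Nat.dvd_one.1 ((Nat.dvd_add_right (pκ.mul_right r)).1 this))

end CL.T2
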