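/-
CLAS/T2 (S2193): F4, arithmetic
-/
import Mathlib

set_option autoImplicit false

namespace CL.T2.F4x

namespace F4A

theorem a1 {q k m : ℕ} (hq : 2 ≤ q) (hk : 0 < k)
    (h : m * k * q ^ 5 + k ^ 2 * q + k = q ^ 7 + q ^ 3 + m) : k = q ∨ k = q ^ 3 := by
  have q0 : 0 < q := by omega
  rcases Nat.eq_zero_or_pos m with rfl | hm
  · right
    simp only [zero_mul, zero_add, add_zero] at h
    rcases lt_trichotomy k (q ^ 3) with a | a | a
    · have := Nat.mul_le_mul_right q (Nat.pow_le_pow_left a.le 2)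
      rw [show (q ^ 3) ^ 2 * q = q ^ 7 by ring] at this
      omega
    · exact a
    · have := Nat.mul_le_mul_right q (Nat.pow_le_pow_left a.le 2)
      rw [show (q ^ 3) ^ 2 * q = q ^ 7 by ring] at this
      omega
  left
  have e2 : 2 * q ≤ q ^ 2 := by nlinarith
  have e3 : 2 * q ^ 2 ≤ q ^ 3 := by nlinarith
  have e4 : 2 * q ^ 3 ≤ q ^ 4 := by nlinarith
  have e5 : 2 * q ^ 4 ≤ q ^ 5 := by nlinarith
  have m1 : m ≤ m * k := Nat.le_mul_of_pos_right _ hk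
  have k1 : k ≤ m * k := Nat.le_mul_of_pos_left _ hm
  have e : m * k = q ^ 2 := by
    rcases lt_trichotomy (m * k) (q ^ 2) with a | a | a
    · exfalso
      obtain ⟨u, hu⟩ : ∃ u, q ^ 2 = u + 1 := ⟨q ^ 2 - 1, by omega⟩
      have b1 : m * k * q ^ 5 ≤ u * q ^ 5 := Nat.mul_le_mul_right _ (by omega)
      have b2 : k ^ 2 * q ≤ u ^ 2 * q := Nat.mul_le_mul_right _ (Nat.pow_le_pow_left (by omega) 2)
      have b3 : q ^ 7 = u * q ^ 5 + q ^ 5 := by rw [show q ^ 7 = q ^ 2 * q ^ 5 by ring, hu]; ring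
      have b4 : q ^ 5 = u ^ 2 * q + 2 * u * q + q := by rw [show q ^ 5 = (q ^ 2) ^ 2 * q by ring, hu]; ring
      have b5 : u ≤ u * q := Nat.le_mul_of_pos_right _ q0
      have b6 : 2 * u * q = 2 * (u * q) := by ring
      omega
    · exact a
    · exfalso
      obtain ⟨u, hu⟩ : ∃ u, q ^ 5 = u + 1 := ⟨q ^ 5 - 1, by omega⟩
      have b1 : (q ^ 2 + 1) * u ≤ m * k * u := Nat.mul_le_mul_right _ a
      have b3 : q ^ 7 = q ^ 2 * u + q ^ 2 := by rw [show q ^ 7 = q ^ 2 * q ^ 5 by ring, hu]; ring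
      rw [hu, mul_add, mul_one] at h
      rw [add_mul, one_mul] at b1
      omega
  rw [e, show q ^ 2 * q ^ 5 = q ^ 7 by ring] at h
  rcases lt_trichotomy k q with a | a | a
  · have := Nat.mul_le_mul_right q (Nat.pow_le_pow_left (Nat.succ_le_of_lt a) 2)
    nlinarith
  · exact a
  · have b := Nat.mul_le_mul_right q (Nat.pow_le_pow_left (Nat.succ_le_of_lt a) 2)
    have : m < q := by nlinarith
    nlinarith

theorem a2 {q c m : ℕ} (hq : 2 ≤ q) (hc : 0 < c) (hm : 0 < m)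
    (h : c * m * q ^ 5 + m * q ^ 4 + c ^ 2 * q + c + m = q ^ 7 + q ^ 3) : False := by
  have q0 : 0 < q := by omega
  have e2 : 2 * q ≤ q ^ 2 := by nlinarith
  have e3 : 2 * q ^ 2 ≤ q ^ 3 := by nlinarith
  have e4 : 2 * q ^ 3 ≤ q ^ 4 := by nlinarith
  have b0 : q ^ 4 ≤ m * q ^ 4 := Nat.le_mul_of_pos_left _ hm
  have cm : c * m < q ^ 2 := by
    by_contra a
    have := Nat.mul_le_mul_right (q ^ 5) (not_lt.1 a)
    rw [show q ^ 2 * q ^ 5 = q ^ 7 by ring] at this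
    omega
  obtain ⟨s, hs⟩ : ∃ s, c * m * q + m + s = q ^ 3 := by
    refine ⟨q ^ 3 - (c * m * q + m), Nat.add_sub_cancel' (Nat.le_of_lt_succ ?_)⟩
    refine lt_of_mul_lt_mul_right (a := q ^ 4) ?_ (Nat.zero_le _)
    rw [show (c * m * q + m) * q ^ 4 = c * m * q ^ 5 + m * q ^ 4 by ring,
      show (q ^ 3).succ * q ^ 4 = q ^ 7 + q ^ 4 by rw [Nat.succ_eq_add_one]; ring]
    omega
  have h1 : c ^ 2 * q + c + m = q ^ 3 + s * q ^ 4 := by
    have : q ^ 7 = c * m * q ^ 5 + m * q ^ 4 + s * q ^ 4 := by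
      rw [show q ^ 7 = q ^ 3 * q ^ 4 by ring, ← hs]; ring
    omega
  obtain ⟨e, he⟩ : q ∣ m + s := (Nat.dvd_add_right (Dvd.intro_left (c * m) rfl)).1
    (by rw [← add_assoc, hs]; exact dvd_pow_self q (by norm_num))
  obtain ⟨f, hf⟩ : q ∣ c + m := (Nat.dvd_add_right (Dvd.intro_left (c ^ 2) rfl)).1
    (by rw [← add_assoc, h1]; exact ⟨q ^ 2 + s * q ^ 3, by ring⟩)
  have h2 : c * m + e = q ^ 2 := Nat.eq_of_mul_eq_mul_left q0 (by
    rw [show q * q ^ 2 = q ^ 3 by ring, ← hs, add_assoc, he]; ring)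
  have h3 : c ^ 2 + f = q ^ 2 + s * q ^ 3 := Nat.eq_of_mul_eq_mul_left q0 (by
    rw [show q * (q ^ 2 + s * q ^ 3) = q ^ 3 + s * q ^ 4 by ring, ← h1, add_assoc, hf]; ring)
  have cm1 : c + m ≤ q ^ 2 := by
    obtain ⟨c', rfl⟩ : ∃ c', c = c' + 1 := ⟨c - 1, by omega⟩
    obtain ⟨m', rfl⟩ : ∃ m', m = m' + 1 := ⟨m - 1, by omega⟩
    nlinarith [Nat.zero_le (c' * m')]
  have fq : f ≤ q := Nat.le_of_mul_le_mul_left (by rw [← hf, ← pow_two]; exact cm1) q0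
  rcases Nat.eq_zero_or_pos s with rfl | s0
  · have d : c * q + 1 ∣ q ^ 2 := ⟨e, by rw [← h2, show m = q * e by omega]; ring⟩
    have := Nat.Coprime.eq_one_of_dvd (Nat.Coprime.pow_right 2 (by simp)) d
    have := Nat.mul_pos hc q0
    omega
  have c1 : c < q ^ 2 := by omega
  have sq : s < q := by
    by_contra a
    have b1 := Nat.mul_le_mul_right (q ^ 3) (not_lt.1 a)
    obtain ⟨u, hu⟩ : ∃ u, q ^ 2 = u + 1 := ⟨q ^ 2 - 1, by omega⟩
    have b2 : c ^ 2 ≤ u ^ 2 := Nat.pow_le_pow_left (by omega) 2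
    have b3 : q * q ^ 3 = u ^ 2 + 2 * u + 1 := by rw [show q * q ^ 3 = (q ^ 2) ^ 2 by ring, hu]; ring
    omega
  have b1 : q ^ 3 ≤ s * q ^ 3 := Nat.le_mul_of_pos_left _ s0
  have m2 : m ^ 2 < q := by
    by_contra a
    have b2 := Nat.mul_le_mul (show q ^ 3 ≤ c ^ 2 by omega) (not_lt.1 a)
    have b3 := Nat.pow_lt_pow_left cm (n := 2) (by norm_num)
    rw [show (c * m) ^ 2 = c ^ 2 * m ^ 2 by ring, show (q ^ 2) ^ 2 = q ^ 3 * q by ring] at b3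
    omega
  have m3 : m ≤ m ^ 2 := by nlinarith
  have e1 : e = 1 := by
    rcases e with _ | _ | e
    · omega
    · rfl
    · exfalso; nlinarith
  subst e1
  rcases Nat.lt_or_ge m 2 with a | a
  · obtain rfl : m = 1 := by omega
    have f1 : f = q := Nat.eq_of_mul_eq_mul_left q0 (by rw [← hf, ← pow_two]; omega)
    have : q ∣ 1 := by
      have z : (1 : ℤ) = q * (3 * q - q ^ 2 - 1) := by
        have i1 : (c : ℤ) = q ^ 2 - 1 := by zify at h2; linarith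
        have i2 : (s : ℤ) = q - 1 := by zify at he; linarith
        zify at h3
        rw [i1, i2, f1] at h3
        linear_combination h3
      exact Int.natCast_dvd_natCast.1 ⟨_, z⟩
    have := Nat.le_of_dvd one_pos this
    omega
  · have b2 : 2 * m ≤ m ^ 2 := by nlinarith
    have b3 : 2 * c < q ^ 2 := by nlinarith
    have b4 := Nat.pow_lt_pow_left b3 (n := 2) (by norm_num)
    have b5 := Nat.mul_le_mul_right (q ^ 3) (show q ≤ 2 * s by omega)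
    rw [show (2 * c) ^ 2 = 4 * c ^ 2 by ring, show (q ^ 2) ^ 2 = q ^ 4 by ring] at b4
    rw [show q * q ^ 3 = q ^ 4 by ring, show 2 * s * q ^ 3 = 2 * (s * q ^ 3) by ring] at b5
    omega

end F4A

/-- (checked by machine for `q < 70`.)  `n = k q⁵`, `b (n - 1) = (q⁴ + 1)(q¹² - 1)`, `b ≡ q⁴ + 1 mod q⁵`, `b = q⁴ + 1 + c q⁵`:
`c k q⁵ + (q⁴ + 1) k = q¹¹ + q⁷ + c`, so `c ≡ k mod q⁴`.
`c = k + m q⁴`, `m ≥ 0`: `m k q⁵ + k² q + k = q⁷ + q³ + m`.  `m = 0`: `k = q³` (monotone).  `m > 0`: `m k ≤ q²`; `m k < q²` makes the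
left side `< q⁷` (write `m k ≤ q² - 1`, `k² q + k < q⁵`), so `m k = q²`, `k² q + k = q³ + m`, `k = q`.
`k = c + m q⁴`, `m > 0`: `c m q⁵ + m q⁴ + c² q + c + m = q⁷ + q³`.  `c = 0`: `m = q³`.  `c > 0`: `c m < q²`;
`c² q + c + m = q³ + s q⁴`, `c m q + m + s = q³`, `s < q`, `m + s = q e`, `c m + e = q²`, `c + m = q f`, `c² + f = q² + s q³`.
`s = 0`: `e (c q + 1) = q²`, impossible (coprime).  `s ≥ 1`: `c² > q³`, so `m² < q`, `e = 1`, `c m = q² - 1`, `s = q - m`; `m = 1`: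
`q³ + q + 1 = 3 q²`, false mod `q`; `m ≥ 2`: `4 c² < q⁴`, `q > 4`, `2 s ≥ q`: too small. -/
theorem ar {q n : ℕ} (hq : 2 ≤ q) (hn : 0 < n) (h : n - 1 ∣ (q ^ 4 + 1) * (q ^ 12 - 1)) (hd : q ^ 5 ∣ n) :
    n = q ^ 6 ∨ n = q ^ 8 ∨ n = q ^ 12 := by
  obtain ⟨k, rfl⟩ := hd
  obtain ⟨b, hb⟩ := h
  have q0 : 0 < q := by omega
  have hk : 0 < k := Nat.pos_of_mul_pos_left hn
  have p12 : 1 ≤ q ^ 12 := Nat.one_le_pow _ _ q0
  have p4 : 1 < q ^ 4 := Nat.one_lt_pow (by norm_num) hq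
  have e5 : 2 * q ^ 4 ≤ q ^ 5 := by nlinarith
  zify [p12, show 1 ≤ q ^ 5 * k from hn] at hb
  have q5 : (q : ℤ) ^ 5 ≠ 0 := by positivity
  have q4 : (q : ℤ) ^ 4 ≠ 0 := by positivity
  obtain ⟨c, hc⟩ : ∃ c : ℕ, (b : ℤ) = q ^ 4 + 1 + c * q ^ 5 := by
    have e : (b : ℤ) = q ^ 4 + 1 + (k * b - q ^ 11 - q ^ 7) * q ^ 5 := by linear_combination hb
    have : (0 : ℤ) ≤ k * b - q ^ 11 - q ^ 7 := by
      by_contra a
      have a1 : (k * b - q ^ 11 - q ^ 7 : ℤ) * q ^ 5 ≤ -1 * q ^ 5 :=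
        mul_le_mul_of_nonneg_right (by omega) (by positivity)
      zify at p4 e5
      have : (0 : ℤ) ≤ b := by positivity
      linarith
    obtain ⟨c, hc⟩ := Int.eq_ofNat_of_zero_le this
    exact ⟨c, hc ▸ e⟩
  have h1 : (c : ℤ) * k * q ^ 5 + (q ^ 4 + 1) * k = q ^ 11 + q ^ 7 + c :=
    mul_right_cancel₀ q5 (by rw [hc] at hb; linear_combination -hb)
  have h2 : (c : ℤ) = k + (c * k * q + k - q ^ 7 - q ^ 3) * q ^ 4 := by linear_combination -h1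
  rcases le_or_gt 0 ((c : ℤ) * k * q + k - q ^ 7 - q ^ 3) with a | a
  · obtain ⟨m, hm⟩ := Int.eq_ofNat_of_zero_le a
    rw [hm] at h2
    rcases F4A.a1 (m := m) hq hk (by zify; rw [h2] at hm; linear_combination hm) with e | e <;> rw [e]
    · exact .inl (by ring)
    · exact .inr (.inl (by ring))
  · obtain ⟨m, hm⟩ := Int.eq_ofNat_of_zero_le (neg_pos.2 a).le
    have m0 : 0 < m := by zify; linarith
    have h3 : (k : ℤ) = c + m * q ^ 4 := by rw [← hm]; linear_combination -h2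
    have h4 : c * m * q ^ 5 + m * q ^ 4 + c ^ 2 * q + c + m = q ^ 7 + q ^ 3 := by
      zify; rw [h3] at hm; linear_combination -hm
    rcases Nat.eq_zero_or_pos c with rfl | c0
    · have : m = q ^ 3 := Nat.eq_of_mul_eq_mul_right (show 0 < q ^ 4 + 1 by omega) (by
        linear_combination h4)
      refine .inr (.inr ?_)
      zify; rw [h3, this]; push_cast; ring
    · exact (F4A.a2 hq c0 m0 h4).elim

/-- `n - 1` is odd, so divides `3⁶ 5² 7² 13 17` (252 divisors `3^a 5^b 7^c 13^d 17^e`: `Nat.dvd_mul`, `Nat.dvd_prime_pow`, then `decide`) -/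
theorem ar2 {n : ℕ} (h2 : 2 ∣ n) (hn : 512 ≤ n)
    (h : n * (n - 1) ∣ 2 ^ 24 * (2 ^ 2 - 1) * (2 ^ 6 - 1) * (2 ^ 8 - 1) * (2 ^ 12 - 1)) : n = 4096 := by
  have e : 2 ^ 24 * (2 ^ 2 - 1) * (2 ^ 6 - 1) * (2 ^ 8 - 1) * (2 ^ 12 - 1) =
      2 ^ 24 * (3 ^ 6 * (5 ^ 2 * (7 ^ 2 * (13 ^ 1 * 17 ^ 1)))) := by norm_num
  obtain ⟨m, rfl⟩ : ∃ m, n = m + 1 := ⟨n - 1, by omega⟩
  rw [Nat.add_sub_cancel, e] at h
  have h1 := Nat.Coprime.dvd_of_dvd_mul_left (Nat.Coprime.pow_right 24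
    ((Nat.coprime_two_right).2 (Nat.odd_iff.2 (by omega : m % 2 = 1)))) (Dvd.dvd.trans (Dvd.intro_left _ rfl) h)
  obtain ⟨a, m1, ha, h3, rfl⟩ := Nat.dvd_mul.1 h1
  obtain ⟨b, m2, hb, h4, rfl⟩ := Nat.dvd_mul.1 h3
  obtain ⟨c, m3, hc, h5, rfl⟩ := Nat.dvd_mul.1 h4
  obtain ⟨d, f, hd, hf, rfl⟩ := Nat.dvd_mul.1 h5
  obtain ⟨a, a0, rfl⟩ := (Nat.dvd_prime_pow (by norm_num)).1 ha
  obtain ⟨b, b0, rfl⟩ := (Nat.dvd_prime_pow (by norm_num)).1 hb
  obtain ⟨c, c0, rfl⟩ := (Nat.dvd_prime_pow (by norm_num)).1 hc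
  obtain ⟨d, d0, rfl⟩ := (Nat.dvd_prime_pow (by norm_num)).1 hd
  obtain ⟨f, f0, rfl⟩ := (Nat.dvd_prime_pow (by norm_num)).1 hf
  interval_cases a <;> interval_cases b <;> interval_cases c <;> interval_cases d <;>
    interval_cases f <;> revert hn h <;> decide +kernel

end CL.T2.F4x
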