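/-
CLAS/T2 (S2193): F4, notation.  Roots by index (coordinates on `p1, p2` short, `p3, p4` long; `24 .. 47` are positive):
`47 = e1+e2 = θ, 46 = e1+e3, 45 = e1+e4, 44 = e1, 43 = e1-e4, 42 = e1-e3, 41 = e1-e2, 40 = ½(++++), 39 = ½(+++-), 38 = ½(++-+),
37 = ½(+-++), 36 = ½(++--), 35 = ½(+-+-), 34 = ½(+--+), 33 = ½(+---), 32 = e2+e3, 31 = e2+e4, 30 = e3+e4, 29 = e2, 28 = e3, 27 = e4,
26 = e2-e4, 25 = e3-e4, 24 = e2-e3`, and `-r = 47 - r`.
-/
import Cfsg.Agent.CLAS.T2.Fish
import Cfsg.Agent.CLAS.T2.Heis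
import Cfsg.Agent.CHEV.TwF4
import Cfsg.Agent.CHEV.Rank2
import Cfsg.Agent.CHEV.Inv2F4
import Cfsg.Agent.CHEV.StGlue
import Cfsg.Agent.CHEV.OrderGlue

set_option autoImplicit false

namespace CL.T2.F4x

open CL.Chev Cfsg Cfsg.Lie

/-- the root system -/
abbrev R4 : RootSys (Rt chevF4) (Fin chevF4.rank) := rootSys chevF4

/-- the group -/
abbrev G4 (F : Type*) [Field F] := chevF4.group F

/-- the root elements -/
abbrev S4 (F : Type*) [Field F] : StData R4 F (G4 F) := stG chevF4 F

/-- the stabiliser of the highest root group -/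
abbrev J4 : Set (Fin chevF4.rank) := {i | R4.wt (rF4 47) i = 0}

theorem pair_eq (r s : Rt chevF4) : R4.pair r s = certF4.pairF 4 r s := (rootSys_pair r s).trans (A_eq_pairF r s)

theorem pos_iff (r : Rt chevF4) : R4.IsPos r ↔ 24 ≤ r.1 := (rootSys_isPos r).trans (pos_iff_le r)

theorem rt_eq (r : Rt chevF4) (i : Fin chevF4.rank) : R4.rt r i = certF4.co r i := rfl

theorem len_eq (r : Rt chevF4) : R4.len r = certF4.len r := rfl

theorem neg_val (r : Rt chevF4) : (R4.neg r).1 = 47 - r.1 := ng_val' r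

theorem card_rt : Nat.card (Rt chevF4) = 48 := Nat.card_eq_fintype_card.trans (Fintype.card_fin _)

/-- the index increases along combinations with a positive root -/
theorem lt_of_comb {r s k : Rt chevF4} (h : R4.IsComb r s k) (hr : R4.IsPos r) (hs : R4.IsPos s) : r < k := by
  obtain ⟨i, j, hi, hj, e⟩ := h
  have h1 := (pos_iff_key r).1 ((rootSys_isPos r).1 hr)
  have h2 := (pos_iff_key s).1 ((rootSys_isPos s).1 hs)
  rw [lt_iff_key, show co k = _ from e, map_add, map_zsmul, map_zsmul]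
  change key (co r) < (i : ℤ) * key (co r) + (j : ℤ) * key (co s)
  have h3 : (1 : ℤ) ≤ i := by exact_mod_cast hi
  have h4 : (1 : ℤ) ≤ j := by exact_mod_cast hj
  nlinarith

set_option maxRecDepth 100000 in
theorem conj_tab : ∀ r : Fin 48, ∃ a b : Fin 48, rf (D := chevF4) (rF4 a) (rf (D := chevF4) (rF4 b) (rF4 r)) =
    rF4 (if certF4.len r = 2 then 47 else 44) := by decide +kernel

/-- long roots are conjugate to `47`, short roots to `44` -/
theorem exists_W (r : Rt chevF4) : ∃ w ∈ R4.W, w r = rF4 (if certF4.len r = 2 then 47 else 44) := by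
  obtain ⟨a, b, e⟩ := conj_tab r
  exact ⟨R4.refl (rF4 a) * R4.refl (rF4 b), mul_mem (R4.refl_mem_W _) (R4.refl_mem_W _), by
    rw [rootSys_refl, rootSys_refl]; exact e⟩

variable {F : Type*} [Field F]

theorem good : (S4 F).Good := stG_good

theorem simple : IsSimpleGroup (G4 F) := isSimpleGroup_group (by simp) (by rintro (h | h) <;> cases congrArg (·.nroots) h)

theorem card_XS {T : Set (Rt chevF4)} (hT : ∀ s ∈ T, R4.IsPos s) (hc : R4.Closed T) :
    Nat.card ((S4 F).XS T) = Nat.card F ^ T.ncard := good.card_XS (one_mem _) hT hc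

theorem card_X (r : Rt chevF4) : Nat.card ((S4 F).X r) = Nat.card F := by
  obtain ⟨w, hw, e⟩ := exists_W r
  rw [StData.X, good.card_XS hw (T := {r}) (by
    rintro _ rfl
    rw [e, pos_iff]
    split_ifs <;> decide) (R4.closed_singleton r), Set.ncard_singleton, pow_one]

theorem card_G [Finite F] : Nat.card (G4 F) = Nat.card F ^ 24 * (Nat.card F ^ 2 - 1) * (Nat.card F ^ 6 - 1) *
    (Nat.card F ^ 8 - 1) * (Nat.card F ^ 12 - 1) := by
  rw [← Subgroup.card_top, ← stG_top]
  exact card_grp_F4 (R := R4) good stG_adjoint (of_rootSys_A _) card_rt rfl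

theorem card_U [Finite F] : Nat.card (S4 F).U = Nat.card F ^ 24 := card_stG_U chevF4 F

/-- in characteristic `2` root elements at a right or acute angle commute -/
theorem comm2 [CharP F 2] {r s : Rt chevF4} (h : 0 ≤ R4.pair r s) (t u : F) :
    (S4 F).x r t * (S4 F).x s u = (S4 F).x s u * (S4 F).x r t := by
  rcases h.lt_or_eq with h | h
  · refine (S4 F).commute_of_not_isComb (RootSys.ne_neg_of_pair (by omega)) (fun k ⟨i, j, hi, hj, e⟩ => ?_) t u
    have h1 := R4.len_of_lin e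
    have h2 := R4.len_pos r
    have h3 := R4.len_pos s
    have h4 : R4.len k ≤ 2 := (by decide +kernel : ∀ k : Fin 48, (certF4.len k : ℤ) ≤ 2) k
    have h5 : (1 : ℤ) ≤ i := by exact_mod_cast hi
    have h6 : (1 : ℤ) ≤ j := by exact_mod_cast hj
    have h7 : 1 ≤ (i : ℤ) ^ 2 * R4.len r := by nlinarith
    have h8 : 1 ≤ (j : ℤ) ^ 2 * R4.len s := by nlinarith
    have h9 : 0 < (i : ℤ) * j * (R4.len r * R4.pair r s) := by positivity
    omega
  · exact stG_exact.comm_of_chkOrth (by decide +kernel) r s h.symm t u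

variable {Ω : Type*} [MulAction (G4 F) Ω]

/-- all root elements of the same length move all points -/
theorem Semi.x_ne {r : Rt chevF4} (h : Semi ((S4 F).X (rF4 (if certF4.len r = 2 then 47 else 44))) Ω) {t : F} (ht : t ≠ 0)
    (ω : Ω) : (S4 F).x r t • ω ≠ ω := fun e => by
  obtain ⟨w, hw, e'⟩ := exists_W r
  obtain ⟨g, -, hg⟩ := (S4 F).exists_acts hw
  obtain ⟨c, -, hc⟩ := hg.exists_conj r
  exact ht (good.x_inj r t (h.conj (g := g) (by rw [hc, e']; exact (S4 F).x_mem_X _ _) e))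

end CL.T2.F4x
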