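/-
CLAS/T2 (S2193): F4, the stabiliser of the highest root group
-/
import Cfsg.Agent.CLAS.T2.F4D

set_option autoImplicit false

namespace CL.T2.F4x

open CL.Chev Cfsg Cfsg.Lie MulAction

variable {F : Type*} [Field F]

namespace B

theorem wt_θ (i : Fin chevF4.rank) : R4.wt (rF4 47) i = if i.1 = 3 then 1 else 0 := by
  rw [← R4.pair_simple, pair_eq]
  revert i
  decide +kernel

theorem pair_θ (s : Rt chevF4) : R4.pair (rF4 47) s = R4.rt s (⟨3, by decide⟩ : Fin chevF4.rank) := by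
  rw [pair_eq, rt_eq]
  revert s
  decide +kernel

theorem mem_sub_iff {β : Rt chevF4} : β ∈ R4.sub J4 ↔ R4.pair (rF4 47) β = 0 := by
  rw [pair_θ]
  refine ⟨fun h1 => h1 _ (by simp [wt_θ]), fun h1 i hi => ?_⟩
  obtain rfl : i = ⟨3, by decide⟩ := Fin.ext (by simpa [wt_θ] using hi)
  exact h1

theorem pair_nonneg {β : Rt chevF4} (h : R4.IsPos β) : 0 ≤ R4.pair (rF4 47) β := by
  rw [pair_θ]; exact (R4.isPos_iff β).1 h _

theorem pos_of_pair {β : Rt chevF4} (h : 0 < R4.pair (rF4 47) β) : R4.IsPos β := by_contra fun h1 => by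
  have := pair_nonneg ((R4.isPos_neg β).2 h1)
  rw [R4.pair_neg_right] at this
  omega

theorem fix_θ {w : Equiv.Perm (Rt chevF4)} (hw : w ∈ R4.WJ J4) : w (rF4 47) = rF4 47 := by
  refine R4.WJ_induction_left (P := fun w _ => w (rF4 47) = rF4 47) rfl (fun i hi w _ ih => ?_) hw
  rw [Equiv.Perm.mul_apply, ih]
  exact R4.rt_inj (by rw [show R4.sp i (rF4 47) = R4.σ i (rF4 47) from rfl, R4.rt_σ', show R4.wt (rF4 47) i = 0 from hi]; simp)

theorem exists_min {α : Rt chevF4} (hα : certF4.len α = 2) :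
    ∃ d ∈ R4.W, d (rF4 47) = α ∧ ∀ i ∈ J4, R4.IsPos (d (R4.simple i)) := by
  obtain ⟨d, ⟨h1, h2⟩, h3⟩ := Set.exists_min_image {w | w ∈ R4.W ∧ w (rF4 47) = α} R4.ell (Set.toFinite _) (by
    obtain ⟨w, hw, e⟩ := exists_W α
    exact ⟨w⁻¹, inv_mem hw, by rw [if_pos hα] at e; rw [← e]; simp⟩)
  refine ⟨d, h1, h2, fun i hi => by_contra fun h4 => ?_⟩
  have h6 := RootSys.ell_mul_sp_of_not_isPos h1 h4
  have h7 := h3 (d * R4.sp i) ⟨mul_mem h1 (R4.sp_mem_W _), by
    rw [Equiv.Perm.mul_apply, fix_θ (Subgroup.subset_closure ⟨i, hi, rfl⟩), h2]⟩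
  omega

/-- the number of positive roots at an obtuse angle -/
def nn (α : Rt chevF4) : ℕ := (Finset.univ.filter fun β : Rt chevF4 => 24 ≤ β.1 ∧ certF4.pairF 4 α β < 0).card

theorem nn_eq (α : Rt chevF4) : nn α = {β | R4.IsPos β ∧ R4.pair α β < 0}.ncard := by
  rw [nn, ← Set.ncard_coe_finset]
  congr 1
  ext β
  simp [pos_iff, pair_eq]

theorem ell_min {d v : Equiv.Perm (Rt chevF4)} (hd : d ∈ R4.W) (h1 : ∀ i ∈ J4, R4.IsPos (d (R4.simple i)))
    (hv : v ∈ R4.WJ J4) : R4.ell (d * v) = nn (d (rF4 47)) + R4.ell v := by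
  have hw := mul_mem hd (R4.WJ_le_W _ hv)
  have h2 : R4.invs (d * v) = {β | 0 < R4.pair (rF4 47) β ∧ ¬ R4.IsPos ((d * v) β)} ∪ R4.invs v := by
    ext β
    constructor
    · rintro ⟨h3, h4⟩
      rcases (pair_nonneg h3).lt_or_eq with h5 | h5
      · exact Or.inl ⟨h5, h4⟩
      · exact Or.inr ⟨h3, fun h6 => h4 (RootSys.isPos_W_of_simple hd h1 h6
          ((RootSys.WJ_mem_sub hv).2 (mem_sub_iff.2 h5.symm)))⟩
    · rintro (⟨h3, h4⟩ | h3)
      · exact ⟨pos_of_pair h3, h4⟩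
      · refine ⟨h3.1, ?_⟩
        have := RootSys.isPos_W_of_simple hd h1 ((R4.isPos_neg _).2 h3.2)
          (R4.neg_mem_sub.2 ((RootSys.WJ_mem_sub hv).2 (RootSys.invs_sub hv h3)))
        rwa [RootSys.W_neg hd, R4.isPos_neg] at this
  rw [RootSys.ell, h2, Set.ncard_union_eq (Set.disjoint_left.2 fun β h3 h4 =>
    h3.1.ne' (mem_sub_iff.1 (RootSys.invs_sub hv h4))), nn_eq, RootSys.ell,
    ← Set.ncard_image_of_injective _ (R4.neg_injective.comp (d * v).injective)]
  congr 2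
  have h3 : d (rF4 47) = (d * v) (rF4 47) := by rw [Equiv.Perm.mul_apply, fix_θ hv]
  ext β
  constructor
  · rintro ⟨γ, ⟨h4, h5⟩, rfl⟩
    exact ⟨(R4.isPos_neg _).2 h5, by
      rw [Function.comp_apply, R4.pair_neg_right, h3, RootSys.W_pair hw]; omega⟩
  · rintro ⟨h4, h5⟩
    refine ⟨(d * v)⁻¹ (R4.neg β), ⟨?_, by rwa [RootSys.perm_apply_inv, R4.not_isPos_neg]⟩, by
      rw [Function.comp_apply, RootSys.perm_apply_inv, R4.neg_neg]⟩
    rw [← RootSys.W_pair hw, RootSys.perm_apply_inv, R4.pair_neg_right, ← h3]; omega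

/-- the long roots -/
def L : Finset (Rt chevF4) := Finset.univ.filter fun α => certF4.len α = 2

set_option maxRecDepth 100000 in
theorem nn_val : L.val.map nn = ([0, 1, 2, 3, 4, 4, 5, 5, 6, 6, 7, 7, 8, 8, 9, 9, 10, 10, 11, 11, 12, 13, 14, 15] : List ℕ) := by
  decide +kernel

theorem index_sum [Finite F] : ((S4 F).P J4).index = ∑ α ∈ L, Nat.card F ^ nn α := by
  classical
  have := Fintype.ofFinite R4.W
  have := Fintype.ofFinite (R4.WJ J4)
  have hq : 0 < Nat.card F := Nat.card_pos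
  have hG : Finite (G4 F) := inferInstance
  have h3 := ((S4 F).P J4).card_mul_index
  rw [good.card_P, ← Subgroup.card_top (G := G4 F), ← stG_top, good.card_grp, mul_assoc] at h3
  replace h3 := Nat.eq_of_mul_eq_mul_left Nat.card_pos h3
  have h5 : ∑ w : R4.W, Nat.card F ^ R4.ell w = (∑ w : R4.WJ J4, Nat.card F ^ R4.ell w) * ∑ α ∈ L, Nat.card F ^ nn α := by
    rw [← Finset.sum_fiberwise_of_maps_to (g := fun w : R4.W => w.1 (rF4 47)) (t := L) (fun w _ => by
      have := RootSys.W_len w.2 (rF4 47)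
      rw [len_eq, len_eq] at this
      exact Finset.mem_filter.2 ⟨Finset.mem_univ _, by exact_mod_cast this⟩), Finset.mul_sum]
    refine Finset.sum_congr rfl fun α hα => ?_
    obtain ⟨d, h6, h7, h8⟩ := exists_min (Finset.mem_filter.1 hα).2
    rw [Finset.sum_mul]
    refine (Finset.sum_bij (fun v _ => ⟨d * v.1, mul_mem h6 (R4.WJ_le_W _ v.2)⟩) (fun v _ => ?_) (fun v _ v' _ e => ?_)
      (fun w hw => ?_) fun v _ => ?_).symm
    · simp [fix_θ v.2, h7]
    · exact Subtype.ext (mul_left_cancel (Subtype.mk.inj e))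
    · refine ⟨⟨d⁻¹ * w.1, RootSys.mem_WJ_of_fix_one (mul_mem (inv_mem h6) w.2) ?_ fun i => ?_⟩, Finset.mem_univ _,
        Subtype.ext (mul_inv_cancel_left _ _)⟩
      · rw [Equiv.Perm.mul_apply, (Finset.mem_filter.1 hw).2, ← h7]; simp
      · rw [wt_θ]; split_ifs <;> simp
    · rw [ell_min h6 h8 v.2, h7, pow_add, mul_comm]
  rw [h5] at h3
  exact Nat.eq_of_mul_eq_mul_left (Finset.sum_pos (fun w _ => by positivity) ⟨1, by simp⟩) h3

end B

/-- `P_eq`; `H` normalises root groups; a root `r` that is positive or in `R4.sub J4` has `0 ≤ pair θ r`, `Long.noComb` -/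
theorem nz_P : Nz ((S4 F).P J4) ((S4 F).X (rF4 47)) := fun g hg x hx => by
  have : (S4 F).P J4 ≤ Subgroup.normalizer ((S4 F).XS {rF4 47} : Set (G4 F)) := by
    rw [StData.P_eq]
    refine sup_le ((S4 F).H_le_normalizer_XS _) ?_
    have hl : R4.Long (rF4 47) := fun k => by
      rw [len_eq, len_eq]
      revert k
      decide +kernel
    have : ∀ r, R4.IsPos r ∨ r ∈ R4.sub J4 → R4.NoComb r (rF4 47) := fun r hr =>
      (hl.noComb (hr.elim B.pair_nonneg fun hr => (B.mem_sub_iff.1 hr).ge)).symm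
    exact (S4 F).XS_le_normalizer (by rintro r hr _ rfl; exact (this r hr).1)
      (by rintro r hr _ rfl k hk; exact absurd hk ((this r hr).2 k))
  exact (Subgroup.mem_normalizer_iff.1 (this hg) _).1 hx

/-- Port of `MD.exists_min, ell_min, index_P` (CHEV/MinDeg5) to the untwisted group (`Good.card_P`, `Good.card_grp`, `exists_W`,
`pair θ s = rt s 3`): the index is `∑ q ^ nn α` over the 24 long roots `α`, `= (q⁴ + 1)(1 + q + ⋯ + q¹¹)`.
(Or any other way, e.g. the Poincaré polynomial of `W_J`, type `C₃`, and `card_G`.) -/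
theorem index_P [Finite F] : ((S4 F).P J4).index * (Nat.card F - 1) = (Nat.card F ^ 4 + 1) * (Nat.card F ^ 12 - 1) := by
  rw [B.index_sum, Finset.sum, show (fun α => Nat.card F ^ B.nn α) = (Nat.card F ^ ·) ∘ B.nn from rfl, ← Multiset.map_map, B.nn_val]
  have hq : 1 ≤ Nat.card F := Nat.card_pos
  have h12 : 1 ≤ Nat.card F ^ 12 := Nat.one_le_pow _ _ hq
  simp only [Multiset.map_coe, Multiset.sum_coe, List.map, List.sum_cons, List.sum_nil]
  zify [hq, h12]
  ring

end CL.T2.F4x
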