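/-
CLAS/T2 (S2193): F4, root elements fix no point
-/
import Cfsg.Agent.CLAS.T2.F4D

set_option autoImplicit false

namespace CL.T2.F4x

open CL.Chev Cfsg Cfsg.Lie MulAction

variable {F : Type*} [Field F] [Finite F] {Ω : Type*} [Finite Ω] [MulAction (G4 F) Ω]

namespace C

theorem exists_pow (F : Type*) [Field F] [Finite F] : ∃ p f : ℕ, p.Prime ∧ 0 < f ∧ Nat.card F = p ^ f := by
  obtain ⟨p, _⟩ := CharP.exists F
  have := Fintype.ofFinite F
  obtain ⟨f, hp, e⟩ := FiniteField.card F p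
  exact ⟨p, f, hp, f.2, Nat.card_eq_fintype_card.trans e⟩

omit [Finite F] in
theorem comm_XS {A : Set (Rt chevF4)} {s : Rt chevF4}
    (h : ∀ r ∈ A, ∀ t u : F, (S4 F).x r t * (S4 F).x s u = (S4 F).x s u * (S4 F).x r t) {g : G4 F} (hg : g ∈ (S4 F).XS A) (u : F) :
    g * (S4 F).x s u = (S4 F).x s u * g :=
  Subgroup.mem_centralizer_singleton_iff.1 ((S4 F).XS_le_iff.2
    (fun r hr t => Subgroup.mem_centralizer_singleton_iff.2 (h r hr t u)) hg)

omit [Finite F] in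
theorem nz_of {s : Rt chevF4}
    (h : ∀ r, R4.IsPos r → ∀ t u : F, (S4 F).x r t * (S4 F).x s u = (S4 F).x s u * (S4 F).x r t) : Nz (S4 F).B ((S4 F).X s) := by
  intro g hg z hz
  obtain ⟨u, hu, k, hk, rfl⟩ := (S4 F).mem_B_iff.1 hg
  obtain ⟨t, e⟩ := (S4 F).mem_X_iff.1 ((Subgroup.mem_normalizer_iff.1 ((S4 F).H_le_normalizer_XS {s} hk) z).1 hz)
  rw [show u * k * z * (u * k)⁻¹ = u * (k * z * k⁻¹) * u⁻¹ by group, e, comm_XS h hu, mul_inv_cancel_right]
  exact (S4 F).x_mem_X _ _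

theorem long {r : Rt chevF4} (h : certF4.len r = 2) : R4.Long r := fun k => by
  rw [len_eq, len_eq, h]
  exact (by decide +kernel : ∀ k : Fin 48, (certF4.len k : ℤ) ≤ (2 : ℕ)) k

theorem rt_add {r s k : Rt chevF4} (h : ∀ i : Fin 4, certF4.co k i = certF4.co r i + certF4.co s i) :
    R4.rt k = R4.rt r + R4.rt s := funext h

/-- the roots of the Heisenberg group -/
def L : List (Fin 48) := [47, 46, 45, 43, 42, 32, 31, 26, 24]

theorem tab : ∀ r ∈ L, certF4.len r = 2 ∧ 24 ≤ r.1 ∧ 0 ≤ certF4.pairF 4 r 47 ∧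
    (∀ s ∈ L, 0 ≤ certF4.pairF 4 r s ∨
      (certF4.pairF 4 r s = -1 ∧ ∀ i : Fin 4, certF4.co 47 i = certF4.co r i + certF4.co s i)) ∧
    (r = 47 ∨ ∃ s ∈ L, certF4.pairF 4 s r = -1 ∧ (∀ i : Fin 4, certF4.co 47 i = certF4.co s i + certF4.co r i) ∧
      ∀ k ∈ L, k = r ∨ 0 ≤ certF4.pairF 4 s k) := by decide +kernel

theorem comb {r s k : Rt chevF4} (hr : r ∈ L) (hs : s ∈ L) (h : R4.IsComb r s k) : k = rF4 47 := by
  rcases (tab r hr).2.2.2.1 s hs with e | e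
  · exact absurd h (((long (tab r hr).1).noComb ((pair_eq r s).symm ▸ e)).2 k)
  · exact ((long (tab r hr).1).a2P (long (tab s hs).1) ((pair_eq r s).trans e.1) (rt_add (k := rF4 47) e.2)).2.2 k h

theorem nc {r : Rt chevF4} (hr : r ∈ L) : R4.NoComb r (rF4 47) :=
  (long (tab r hr).1).noComb ((pair_eq r (rF4 47)).symm ▸ (tab r hr).2.2.1)

theorem pos {r : Rt chevF4} (hr : r ∈ L) : R4.IsPos r := (pos_iff r).2 (tab r hr).2.1

theorem closed : R4.Closed {r | r ∈ L} := fun _ hr _ hs _ h => comb hr hs h ▸ (by decide : (47 : Fin 48) ∈ L)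

theorem heis : Heis ((S4 F).XS {r | r ∈ L}) ((S4 F).X (rF4 47)) := by
  have nl : R4.Nilp {r | r ∈ L} := R4.nilp_pos fun _ => pos
  have cen : ∀ x ∈ (S4 F).XS {r | r ∈ L}, ∀ u, x * (S4 F).x (rF4 47) u = (S4 F).x (rF4 47) u * x := fun x hx =>
    comm_XS (fun r hr => (S4 F).comm_of_noComb (nc hr)) hx
  have nm : (S4 F).XS {r | r ∈ L} ≤ Subgroup.normalizer ((S4 F).XS {rF4 47} : Set (G4 F)) :=
    (S4 F).XS_le_normalizer (by rintro r hr _ rfl; exact (nc hr).1) (by rintro r hr _ rfl k hk; exact absurd hk ((nc hr).2 k))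
  refine ⟨(S4 F).XS_mono (Set.singleton_subset_iff.2 (by decide : (47 : Fin 48) ∈ L)), fun z hz x hx => ?_,
    fun x hx y hy => ?_, fun x hx hZ z hz => ?_⟩
  · obtain ⟨u, rfl⟩ := (S4 F).mem_X_iff.1 hz
    exact cen x hx u
  · have := (S4 F).comm_mem_of_le_normalizer (fun r hr s hs => nl.ne_neg hr hs) nm nm
      (fun r hr s hs k hk v => comb hr hs hk ▸ (S4 F).x_mem_X _ v) (inv_mem hy) (inv_mem hx)
    rwa [inv_inv, inv_inv] at this
  obtain ⟨w, rfl⟩ := (S4 F).mem_X_iff.1 hz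
  obtain ⟨t, -, e⟩ := (S4 F).exists_prodL nl closed (L := L) (fun _ => Iff.rfl) (by decide : L.Nodup) hx
  obtain ⟨r, hr, h0, h1⟩ : ∃ r ∈ L, t r ≠ 0 ∧ r ≠ 47 := by
    by_contra k
    push Not at k
    exact hZ (e ▸ (S4 F).prodL_mem' fun r hr h0 => k r hr h0)
  obtain ⟨s, hs, a1, a2, a3⟩ := (tab r hr).2.2.2.2.resolve_left h1
  obtain ⟨ε, hε, hc⟩ := (good (F := F)).A2_conj
    ((long (tab s hs).1).a2P (long (tab r hr).1) ((pair_eq s r).trans a1) (rt_add (k := rF4 47) a2))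
  have cm : ∀ M : List (Fin 48), (∀ k ∈ M, k ∈ L) → r ∉ M → ∀ v,
      (S4 F).prodL M t * (S4 F).x s v = (S4 F).x s v * (S4 F).prodL M t := fun M h1 h2 =>
    comm_XS (A := {k | k ∈ M}) (fun k hk => (S4 F).comm_of_noComb ((long (tab s hs).1).noComb
      ((pair_eq s k).symm ▸ (a3 k (h1 k hk)).resolve_left fun e => h2 (e ▸ hk))).symm) ((S4 F).prodL_mem (fun _ h => h) t)
  obtain ⟨L1, L2, eL⟩ := List.append_of_mem hr
  have nd : (L1 ++ r :: L2).Nodup := eL ▸ (by decide : L.Nodup)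
  rw [List.nodup_middle, List.nodup_cons, List.mem_append, not_or] at nd
  have m1 : ∀ k ∈ L1, k ∈ L := fun k hk => eL ▸ List.mem_append_left _ hk
  have m2 : ∀ k ∈ L2, k ∈ L := fun k hk => eL ▸ List.mem_append_right _ (List.mem_cons_of_mem _ hk)
  have ex : x = (S4 F).prodL L1 t * ((S4 F).x r (t r) * (S4 F).prodL L2 t) := by
    rw [e]
    exact (congrArg ((S4 F).prodL · t) eL).trans ((S4 F).prodL_append _ _ _)
  have key : ∀ v, (S4 F).x s v * x * ((S4 F).x s v)⁻¹ = x * (S4 F).x (rF4 47) (ε * v * t r) := fun v => by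
    have b1 := cm L1 m1 nd.1.1 v
    have b2 := cm L2 m2 nd.1.2 v
    have b3 := cen _ ((S4 F).prodL_mem (T := {r | r ∈ L}) m2 t) (ε * v * t r)
    calc _ = ((S4 F).x s v * (S4 F).prodL L1 t) * ((S4 F).x s v)⁻¹ * ((S4 F).x s v * (S4 F).x r (t r) * ((S4 F).x s v)⁻¹) *
          (((S4 F).x s v * (S4 F).prodL L2 t) * ((S4 F).x s v)⁻¹) := by rw [ex]; group
      _ = _ := by rw [← b1, ← b2, hc, mul_inv_cancel_right, mul_inv_cancel_right, ex, mul_assoc, mul_assoc, ← b3]; group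
  refine ⟨(S4 F).x s (-ε * w / t r), (S4 F).x_mem_XS hs _, ?_⟩
  have ee : ε * (-ε * w / t r) * t r = -w := by
    rcases hε with rfl | rfl <;> field_simp
  calc _ = x * ((S4 F).x s (-ε * w / t r) * x * ((S4 F).x s (-ε * w / t r))⁻¹)⁻¹ := by group
    _ = _ := by rw [key, ee, cen x hx, (S4 F).x_neg]; group

end C

/-- `semi_or_triv` with `P = B`, `Z = X s`, `E = XS {s, d}` (`exists_of_mem_XS_pair`, order `q²`), `ι = Option F`, `g u = x c u`,
`g none = n c 1` (`A2_conj`: `x_c(u) x_s(t) x_c(u)⁻¹ = x_s(t) x_d(ε u t)`; `refl c s = d`); `Triv` is impossible as the group is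
simple (`Tw.faithful`, `simple`, `good.x_inj`). -/
theorem semi_of {c s d : Rt chevF4} (h : R4.A2P c s d) (hs : R4.IsPos s) (hd : R4.IsPos d) (hn : Nz (S4 F).B ((S4 F).X s))
    (tw : Tw (G4 F) Ω) (hB : Tr (S4 F).B Ω) : Semi ((S4 F).X s) Ω := by
  obtain ⟨p, f, hp, -, hq⟩ := C.exists_pow F
  have := Fact.mk hp
  have nc := h.noComb_right
  have ne : s ≠ d := (h.isComb.ne_right h.ne_neg).symm
  have hE : Nat.card ((S4 F).XS {s, d}) = Nat.card F ^ 2 := by
    rw [card_XS (by rintro _ (rfl | rfl) <;> assumption), Set.ncard_pair ne]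
    rintro _ (rfl | rfl) _ (rfl | rfl) k hk
    exacts [absurd hk ((RootSys.noComb_self _).2 k), absurd hk (nc.2 k), absurd hk (nc.symm.2 k),
      absurd hk ((RootSys.noComb_self _).2 k)]
  obtain ⟨ε, hε, hc⟩ := (good (F := F)).A2_conj h
  obtain ⟨δ, hδ, -, -, hn'⟩ := (S4 F).exists_n_conj c
  have hw : ∀ u, (S4 F).n c 1 * (S4 F).x s u * ((S4 F).n c 1)⁻¹ = (S4 F).x d (δ s * u) := fun u => by
    rw [hn' s 1 u one_ne_zero, ← h.eq_refl, one_zpow, mul_one]
  refine (semi_or_triv (p := p) (E := (S4 F).XS {s, d}) hn hB (IsPGroup.of_card (n := f * 2) (by rw [hE, hq, pow_mul])) (card_X s) hE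
    (ι := Option F) Finite.card_option (fun o => o.elim ((S4 F).n c 1) ((S4 F).x c)) ?_ ?_).resolve_right fun ht => ?_
  · intro o z hz
    obtain ⟨u, rfl⟩ := (S4 F).mem_X_iff.1 hz
    cases o
    · exact hw u ▸ (S4 F).x_mem_XS (by simp) _
    · exact hc _ u ▸ mul_mem ((S4 F).x_mem_XS (by simp) _) ((S4 F).x_mem_XS (by simp) _)
  · intro e he
    obtain ⟨t, u, rfl⟩ := StData.exists_of_mem_XS_pair ((S4 F).comm_of_noComb nc) he
    by_cases ht : t = 0
    · refine ⟨none, _, (S4 F).x_mem_X s (δ s * u), ((hw _).trans ?_).symm⟩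
      rw [ht, (S4 F).x_zero, one_mul]
      rcases hδ s with e | e <;> simp [e]
    · refine ⟨some (ε * u / t), _, (S4 F).x_mem_X s t, ((hc _ _).trans ?_).symm⟩
      congr 2
      rcases hε with rfl | rfl <;> field_simp
  · have := simple (F := F)
    exact one_ne_zero (good.x_inj s (1 : F) (tw.faithful (ht _ ((S4 F).x_mem_X s 1))))

/-- `c = 23, s = 47, d = 46` (`Long.a2P`); `X 47` is central in `U` (`Long.noComb`) -/
theorem semi_long (tw : Tw (G4 F) Ω) (hB : Tr (S4 F).B Ω) : Semi ((S4 F).X (rF4 47)) Ω := by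
  have l := C.long (r := rF4 47) (by decide +kernel)
  refine semi_of (c := rF4 23) (d := rF4 46) ((C.long (by decide +kernel)).a2P l ((pair_eq _ _).trans (by decide +kernel))
    (C.rt_add (by decide +kernel))) ((pos_iff _).2 (by decide)) ((pos_iff _).2 (by decide))
    (C.nz_of fun r hr => (S4 F).comm_of_noComb (l.noComb ?_).symm) tw hB
  rw [pair_eq]
  exact (by decide +kernel : ∀ r : Fin 48, 24 ≤ r.1 → 0 ≤ certF4.pairF 4 47 r) r ((pos_iff r).1 hr)

/-- `c = 14, s = 44, d = 40` (`IsComb` by `len_of_lin` or coordinates); `X 44` is central in `U` (`comm2`) -/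
theorem semi_short [CharP F 2] (tw : Tw (G4 F) Ω) (hB : Tr (S4 F).B Ω) : Semi ((S4 F).X (rF4 44)) Ω := by
  have e1 : R4.pair (rF4 14) (rF4 44) = -1 := (pair_eq _ _).trans (by decide +kernel)
  have e2 : R4.rt (rF4 40) = R4.rt (rF4 14) + R4.rt (rF4 44) := C.rt_add (by decide +kernel)
  refine semi_of (c := rF4 14) (d := rF4 40) ⟨e1, e2, ?_⟩ ((pos_iff _).2 (by decide)) ((pos_iff _).2 (by decide))
    (C.nz_of fun r hr => comm2 ?_) tw hB
  · rintro k ⟨i, j, hi, hj, e⟩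
    have h1 := R4.len_of_lin e
    have h4 : R4.len k ≤ 2 := (by decide +kernel : ∀ k : Fin 48, (certF4.len k : ℤ) ≤ 2) k
    have l1 : R4.len (rF4 14) = 1 := (len_eq _).trans (by decide +kernel)
    have l2 : R4.len (rF4 44) = 1 := (len_eq _).trans (by decide +kernel)
    have hi' : (1 : ℤ) ≤ i := by exact_mod_cast hi
    have hj' : (1 : ℤ) ≤ j := by exact_mod_cast hj
    rw [e1, l1, l2] at h1
    have a : (i : ℤ) = 1 := by nlinarith [sq_nonneg ((i : ℤ) - 2 * j)]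
    have b : (j : ℤ) = 1 := by nlinarith [sq_nonneg ((j : ℤ) - 2 * i)]
    rw [a, b, one_smul, one_smul, ← e2] at e
    exact R4.rt_inj e
  · rw [pair_eq]
    exact (by decide +kernel : ∀ r : Fin 48, 24 ≤ r.1 → 0 ≤ certF4.pairF 4 r 44) r ((pos_iff r).1 hr)

/-- `Q = XS {47, 46, 45, 43, 42, 32, 31, 26, 24}` (`θ` and the long roots with `pair θ β = 1`) is Heisenberg over `Z = X 47`, of order
`q⁹`: pairs `46 + 24 = 45 + 26 = 43 + 31 = 42 + 32 = 47` (`Long.a2P`, `A2_conj`), all others commute (`Long.noComb`); for `nd`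
write `x = prodL L t` (`exists_prodL`).  `Heis.pow_dvd` with `q = p ^ f`, `c = f`, `d = 4 f`.  (Or `pairing` with `Q`,
`M = R₁ = XS {47, 46, 45, 43, 42}` abelian, `R₂ = Z`, and `pow_dvd_card`.) -/
theorem dvd5 (h : Semi ((S4 F).X (rF4 47)) Ω) : Nat.card F ^ 5 ∣ Nat.card Ω := by
  obtain ⟨p, f, hp, h0, hq⟩ := C.exists_pow F
  have := Fact.mk hp
  have hQ : Nat.card ((S4 F).XS {r | r ∈ C.L}) = Nat.card F ^ 9 := by
    refine (card_XS (fun _ => C.pos) C.closed).trans (congrArg _ ?_)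
    exact (congrArg Set.ncard (List.coe_toFinset C.L).symm).trans ((Set.ncard_coe_finset _).trans (by decide))
  have := ((C.heis (F := F)).pow_dvd (Ω := Ω) (p := p) (c := f) (d := 4 * f)
    (IsPGroup.of_card (n := f * 9) (by rw [hQ, hq, pow_mul])) (by rw [hQ, card_X, hq]; ring) h0 fun ω => by
      rw [show (S4 F).X (rF4 47) ⊓ stabilizer (G4 F) ω = ⊥ from eq_bot_iff.2 fun x hx => h x hx.1 ω hx.2,
        Subgroup.card_bot, mul_one, card_X, hq]).2
  rwa [hq, ← pow_mul, show f * 5 = 4 * f + f by ring]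

end CL.T2.F4x
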