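/-
CLAS/T2 (S2193): F4, subgroups of `U` normalised by `H`
-/
import Cfsg.Agent.CLAS.T2.F4D
import Cfsg.Agent.SOLV.Glauberman

set_option autoImplicit false

namespace CL.T2.F4x

open CL.Chev Cfsg Cfsg.Lie MulAction

variable {F : Type*} [Field F] [Finite F]

/-- the roots above `r` that the torus cannot separate from `r` -/
def up (r : Rt chevF4) : Set (Rt chevF4) := {s | r < s ∧ ∀ β, R4.pair β r = 0 → R4.pair β s ≠ 1}

namespace Tx

/-- the roots from `k` on -/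
def Uk (k : ℕ) : Set (Rt chevF4) := {s | k ≤ s.1}

theorem pos {k : ℕ} (hk : 24 ≤ k) : ∀ s ∈ Uk k, R4.IsPos s := fun s hs => (pos_iff s).2 (hk.trans hs)

theorem ideal {k : ℕ} (hk : 24 ≤ k) : R4.Ideal {r | R4.IsPos r} (Uk k) :=
  ⟨pos hk, fun _ hr s hs _ h => Nat.le_trans hs (lt_of_comb h.symm (pos hk s hs) hr).le⟩

theorem closed {k : ℕ} (hk : 24 ≤ k) : R4.Closed (Uk k) := fun r hr => (ideal hk).2 r (pos hk r hr)

theorem diff (r : Rt chevF4) : Uk r.1 \ {r} = Uk (r.1 + 1) := Set.ext fun s =>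
  ⟨fun h => lt_of_le_of_ne h.1 fun e => h.2 (Fin.ext e.symm), fun h => ⟨Nat.le_of_succ_le h, fun e => by
    rw [Set.mem_singleton_iff.1 e] at h
    exact Nat.lt_irrefl _ h⟩⟩

omit [Finite F] in
theorem dec {r : Rt chevF4} (hr : 24 ≤ r.1) {y : G4 F} (hy : y ∈ (S4 F).XS (Uk r.1)) :
    ∃ c, ∃ y' ∈ (S4 F).XS (Uk (r.1 + 1)), y = (S4 F).x r c * y' := by
  rw [← diff]
  refine (S4 F).exists_mul_of_mem_XS ?_ hy
  rw [diff]
  exact ((S4 F).XS_le_U (by rintro _ rfl; exact (pos_iff _).2 hr)).trans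
    ((S4 F).le_normalizer_of_ideal (R4.nilp_pos fun _ h => h) (ideal (by omega)))

theorem step {r : Rt chevF4} (hr : 24 ≤ r.1) (A : Subgroup (G4 F)) :
    Nat.card (A ⊓ (S4 F).XS (Uk r.1) : Subgroup _) ≤ Nat.card F * Nat.card (A ⊓ (S4 F).XS (Uk (r.1 + 1)) : Subgroup _) := by
  have l : (S4 F).XS (Uk (r.1 + 1)) ≤ (S4 F).XS (Uk r.1) := (S4 F).XS_mono fun _ h => Nat.le_of_succ_le h
  have h1 := Hs.ri l
  rw [card_XS (pos hr) (closed hr), card_XS (pos (by omega)) (closed (by omega)), ← diff,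
    ← Set.ncard_sdiff_singleton_add_one (s := Uk r.1) (a := r) (le_refl r.1), pow_succ', diff] at h1
  rw [← Hs.ri (inf_le_inf_left A l), ← Nat.eq_of_mul_eq_mul_right (pow_pos Nat.card_pos _) h1]
  refine Nat.mul_le_mul_right _ ?_
  rw [show A ⊓ (S4 F).XS (Uk (r.1 + 1)) = (S4 F).XS (Uk (r.1 + 1)) ⊓ (A ⊓ (S4 F).XS (Uk r.1)) from
    le_antisymm (le_inf inf_le_right (inf_le_inf_left A l)) (le_inf (inf_le_right.trans inf_le_left) inf_le_left),
    Subgroup.inf_relIndex_right]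
  exact Subgroup.relIndex_le_of_le_right inf_le_right Subgroup.index_ne_zero_of_finite

theorem key (h3 : 3 ≤ Nat.card F) {A : Subgroup (G4 F)} (hn : Nz (S4 F).H A) {r : Rt chevF4} (hr : 24 ≤ r.1) {t : F} {y : G4 F}
    (hy : y ∈ (S4 F).XS (Uk (r.1 + 1))) (ha : (S4 F).x r t * y ∈ A) : ∃ y ∈ (S4 F).XS (up r), (S4 F).x r t * y ∈ A := by
  obtain ⟨p, _⟩ := CharP.exists F
  have hp := CharP.char_is_prime F p
  have := Fact.mk hp
  have hp1 : 24 ≤ r.1 + 1 := by omega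
  have hN : IsPGroup p (A ⊓ (S4 F).XS (Uk (r.1 + 1)) : Subgroup _) :=
    good.isPGroup_U.to_le (inf_le_right.trans ((S4 F).XS_le_U (pos hp1)))
  have nU : ∀ c ∈ (S4 F).H, ∀ y ∈ (S4 F).XS (Uk (r.1 + 1)), c * y * c⁻¹ ∈ (S4 F).XS (Uk (r.1 + 1)) := fun c hc y =>
    (Subgroup.mem_normalizer_iff.1 ((S4 F).H_le_normalizer_XS _ hc) y).1
  obtain ⟨e, he⟩ := hN.exists_card_eq
  obtain ⟨s, hs, hc⟩ := coprime_coset_centralizer ((S4 F).H ⊓ Subgroup.centralizer {(S4 F).x r t})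
    (A ⊓ (S4 F).XS (Uk (r.1 + 1))) (fun c hc => Subgroup.mem_normalizer_fintype fun x hx => ⟨hn c hc.1 x hx.1, nU c hc.1 x hx.2⟩)
    (he ▸ ((Nat.Prime.coprime_iff_not_dvd hp).2 fun k => good.not_dvd_card_H stG_adjoint
      (k.trans (Subgroup.card_dvd_of_le inf_le_left))).symm.pow_right e)
    (.inr (by have := hN.isNilpotent; infer_instance)) ((S4 F).x r t * y) fun c hc => Subgroup.mem_inf.2 ⟨by
      simpa only [mul_assoc] using mul_mem (inv_mem ha) (hn c hc.1 _ ha), by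
      rw [show ((S4 F).x r t * y)⁻¹ * c * ((S4 F).x r t * y) * c⁻¹ =
        y⁻¹ * (((S4 F).x r t)⁻¹ * (c * (S4 F).x r t) * y * c⁻¹) by group, Subgroup.mem_centralizer_singleton_iff.1 hc.2,
        inv_mul_cancel_left]
      exact mul_mem (inv_mem hy) (nU c hc.1 y hy)⟩
  refine ⟨y * s, ?_, by rw [← mul_assoc]; exact mul_mem ha hs.1⟩
  obtain ⟨L, hL, hnd, -⟩ := StData.exists_list (Uk (r.1 + 1))
  obtain ⟨t', -, e'⟩ := (S4 F).exists_prodL (R4.nilp_pos (pos hp1)) (closed hp1) hL hnd (mul_mem hy hs.2)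
  rw [e']
  refine (S4 F).prodL_mem' fun s' hs' h0 => ⟨(hL s').1 hs', fun β h1 h2 => h0 ?_⟩
  obtain ⟨l, l0, l1⟩ : ∃ l : F, l ≠ 0 ∧ l ≠ 1 := by
    classical
    have := Fintype.ofFinite F
    obtain ⟨l, -, h⟩ := Finset.exists_mem_notMem_of_card_lt_card (s := {0, 1}) (t := (Finset.univ : Finset F))
      (Finset.card_le_two.trans_lt (h3.trans_eq Nat.card_eq_fintype_card))
    exact ⟨l, by simpa using h⟩
  have k1 : (S4 F).h β l * (S4 F).x r t = (S4 F).x r t * (S4 F).h β l := by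
    have := (S4 F).h_conj β r l0 t
    rwa [h1, zpow_zero, one_mul, mul_inv_eq_iff_eq_mul] at this
  have k2 := Subgroup.mem_centralizer_iff.1 hc _ ⟨(S4 F).h_mem_H β l0, Subgroup.mem_centralizer_singleton_iff.2 k1⟩
  rw [mul_assoc _ y, ← mul_assoc, k1, mul_assoc, mul_assoc, mul_right_inj, e', ← mul_inv_eq_iff_eq_mul,
    StData.conj_prodL fun s u => (S4 F).h_conj β s l0 u] at k2
  have k3 := good.prodL_inj_pos (pos hp1) (closed hp1) hL hnd k2 s' ((hL s').1 hs')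
  simp only [h2, zpow_one] at k3
  by_contra h0
  exact l1 (mul_right_cancel₀ h0 (k3.trans (one_mul _).symm))

end Tx

open Tx in
/-- `U_k = XS {s | k ≤ s}` (`24 ≤ k ≤ 48`) is normal in `U` (`lt_of_comb`), `U_k = X_k U_{k+1}` (`exists_mul_of_mem_XS`).
`T = {r | A ⊓ U_r ≰ U_{r+1}}`; `|A ⊓ U_r| ≤ q |A ⊓ U_{r+1}|` (`card_XS`, relative indices), induction gives the bound.
For `r ∈ T` take `a = x_r(t) y ∈ A`, `y ∈ U_{r+1}`, `t ≠ 0`, and `C = H ⊓ centralizer (X r)`, of order prime to `p`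
(`not_dvd_card_H stG_adjoint`); `coprime_coset_centralizer` for `C` and the `p`-group `A ⊓ U_{r+1}` makes `a` commute with `C`,
so also `y = prodL L t'` (`exists_prodL`).  For `pair β r = 0`, `pair β s = 1`, `λ ≠ 0, 1`: `h β λ ∈ C` (`h_conj`) multiplies `t' s` by
`λ` (conjugate of `prodL`), so `t' s = 0` (`prodL_inj_pos`); `prodL_mem'`. -/
theorem torus (h3 : 3 ≤ Nat.card F) {A : Subgroup (G4 F)} (hA : A ≤ (S4 F).U) (hn : Nz (S4 F).H A) :
    ∃ T : Finset (Rt chevF4), Nat.card A ≤ Nat.card F ^ T.card ∧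
      ∀ r ∈ T, R4.IsPos r ∧ ∃ t, t ≠ 0 ∧ ∃ y ∈ (S4 F).XS (up r), (S4 F).x r t * y ∈ A := by
  classical
  have k : ∀ j ≤ 24, ∃ T : Finset (Rt chevF4), Nat.card (A ⊓ (S4 F).XS (Uk (48 - j)) : Subgroup _) ≤ Nat.card F ^ T.card ∧
      ∀ r ∈ T, 48 - j ≤ r.1 ∧ ∃ t, t ≠ 0 ∧ ∃ y ∈ (S4 F).XS (up r), (S4 F).x r t * y ∈ A := by
    intro j hj
    induction j with
    | zero =>
      refine ⟨∅, ?_, by simp⟩
      rw [show Uk (48 - 0) = ∅ from Set.eq_empty_of_forall_notMem fun s hs => Nat.not_le.2 s.2 hs, StData.XS_empty, inf_bot_eq]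
      simp
    | succ j ih =>
      obtain ⟨T, h1, h2⟩ := ih (by omega)
      obtain ⟨r, hr⟩ : ∃ r : Rt chevF4, r.1 = 48 - (j + 1) := ⟨⟨_, show _ < 48 by omega⟩, rfl⟩
      rw [show 48 - j = r.1 + 1 by omega] at h1 h2
      rw [← hr]
      have h4 : 24 ≤ r.1 := by omega
      by_cases hle : A ⊓ (S4 F).XS (Uk r.1) ≤ (S4 F).XS (Uk (r.1 + 1))
      · exact ⟨T, (Subgroup.card_le_of_le (le_inf inf_le_left hle)).trans h1, fun s hs => ⟨by have := (h2 s hs).1; omega, (h2 s hs).2⟩⟩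
      · obtain ⟨a, ha, ha'⟩ := SetLike.not_le_iff_exists.1 hle
        obtain ⟨t, y, hy, rfl⟩ := dec h4 ha.2
        refine ⟨insert r T, ?_, fun s hs => ?_⟩
        · rw [Finset.card_insert_of_notMem fun h => Nat.lt_irrefl _ (h2 r h).1, pow_succ']
          exact (step h4 A).trans (Nat.mul_le_mul_left _ h1)
        · rcases Finset.mem_insert.1 hs with rfl | hs
          · exact ⟨le_rfl, t, fun e => ha' (by rwa [e, StData.x_zero, one_mul]), key h3 hn h4 hy ha.1⟩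
          · exact ⟨by have := (h2 s hs).1; omega, (h2 s hs).2⟩
  obtain ⟨T, h1, h2⟩ := k 24 le_rfl
  refine ⟨T, ?_, fun r hr => ⟨(pos_iff r).2 (h2 r hr).1, (h2 r hr).2⟩⟩
  have l : (S4 F).U ≤ (S4 F).XS (Uk (48 - 24)) := (S4 F).XS_mono fun s hs => show 24 ≤ s.1 from (pos_iff s).1 hs
  rwa [inf_eq_left.2 (hA.trans l)] at h1

end CL.T2.F4x
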