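/-
CLAS/T2 (S2193): F4, subgroups of `U` normalised by `H` without long root elements
-/
import Cfsg.Agent.CLAS.T2.F4T

set_option autoImplicit false
set_option maxRecDepth 100000

namespace CL.T2.F4x

open CL.Chev Cfsg Cfsg.Lie MulAction

variable {F : Type*} [Field F] [Finite F]

namespace F4E

theorem up_tab : ∀ r s : Fin 48, 24 ≤ r.1 → r < s → (∀ β : Fin 48, certF4.pairF 4 β r = 0 → certF4.pairF 4 β s ≠ 1) →
    certF4.len r = 2 ∧ r.1 < 45 ∧ (r = 42 → s = 46) ∧ (r = 30 → s = 41 ∨ s = 47) := by decide +kernel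

theorem up_sub {r s : Rt chevF4} (hr : R4.IsPos r) (h : s ∈ up r) :
    certF4.len r = 2 ∧ r.1 < 45 ∧ (r = rF4 42 → s = rF4 46) ∧ (r = rF4 30 → s = rF4 41 ∨ s = rF4 47) :=
  up_tab r s ((pos_iff r).1 hr) h.1 fun β e => pair_eq β s ▸ h.2 β ((pair_eq β r).trans e)

/-- the eleven classes -/
def fr (r : Fin 48) : Fin 11 := [10, 5, 7, 0, 0, 0, 3, 6, 9, 2, 1, 1, 1, 2, 2, 2, 1, 4, 3, 8, 0].getD (r.1 - 24) 0

theorem fr_tab : ∀ c m : Fin 48, 24 ≤ c.1 → c.1 < 45 → m.1 < 45 → c < m → fr c = fr m → (c = 30 ∧ m = 42) ∨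
    (certF4.len c ≠ 2 ∧ certF4.len m ≠ 2 ∧ ∃ d l : Fin 48, certF4.len l = 2 ∧ certF4.pairF 4 c d = -2 ∧ certF4.pairF 4 d c = -1 ∧
      (∀ i : Fin 4, certF4.co m i = certF4.co c i + certF4.co d i) ∧
      ∀ i : Fin 4, certF4.co l i = 2 * certF4.co c i + certF4.co d i) := by decide +kernel

theorem long {r : Rt chevF4} (h : certF4.len r = 2) : R4.Long r := fun k => by
  rw [len_eq, len_eq, h]
  exact (by decide +kernel : ∀ k : Fin 48, (certF4.len k : ℤ) ≤ 2) k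

omit [Finite F] in
theorem cm (a b : Fin 48) (h : certF4.len a = 2 ∧ 0 ≤ certF4.pairF 4 a b) (t u : F) :
    Commute ((S4 F).x (rF4 a) t) ((S4 F).x (rF4 b) u) :=
  (S4 F).commute_of_noComb ((long h.1).noComb (h.2.trans (pair_eq _ _).ge)) t u

end F4E
open F4E

theorem card_le (h3 : 3 ≤ Nat.card F) {A : Subgroup (G4 F)} (hA : A ≤ (S4 F).U) (hn : Nz (S4 F).H A)
    (hl : ∀ r : Rt chevF4, certF4.len r = 2 → ∀ t, (S4 F).x r t ∈ A → t = 0)
    (hs : (2 : F) = 0 → ∀ r : Rt chevF4, certF4.len r ≠ 2 → ∀ t, (S4 F).x r t ∈ A → t = 0) :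
    Nat.card A ≤ Nat.card F ^ 11 := by
  obtain ⟨T, hc, hT⟩ := torus h3 hA hn
  refine hc.trans (Nat.pow_le_pow_right Nat.card_pos ?_)
  have pure {r : Rt chevF4} (hr : r ∈ T) (k : ¬ (certF4.len r = 2 ∧ r.1 < 45)) : ∃ t, t ≠ 0 ∧ (S4 F).x r t ∈ A := by
    obtain ⟨p, t, t0, y, hy, m⟩ := hT r hr
    have : y = 1 := Subgroup.mem_bot.1 ((S4 F).XS_empty ▸ (S4 F).XS_mono (fun s hs => (k ⟨(up_sub p hs).1, (up_sub p hs).2.1⟩).elim) hy)
    exact ⟨t, t0, by rwa [this, mul_one] at m⟩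
  have lt {r : Rt chevF4} (hr : r ∈ T) : r.1 < 45 := by
    by_contra k
    obtain ⟨t, t0, m⟩ := pure hr fun q => k q.2
    exact t0 (hl r ((by decide +kernel : ∀ r : Fin 48, ¬ r.1 < 45 → certF4.len r = 2) r k) t m)
  have sg {e t u : F} (he : e = 1 ∨ e = -1) (ht : t ≠ 0) (hu : u ≠ 0) : e * t * u ≠ 0 := by
    rcases he with rfl | rfl <;> simp [ht, hu]
  have key {c m : Rt chevF4} (hc : c ∈ T) (hm : m ∈ T) (l : c < m) (e : fr c = fr m) : False := by
    rcases fr_tab c m ((pos_iff c).1 (hT c hc).1) (lt hc) (lt hm) l e with ⟨rfl, rfl⟩ | ⟨h1, h2, d, l, h4, h5, h6, h7, h8⟩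
    · obtain ⟨p, t, t0, y, hy, m⟩ := hT _ hc
      obtain ⟨p', u, u0, y', hy', m'⟩ := hT _ hm
      obtain ⟨a, b, rfl⟩ := StData.exists_of_mem_XS_pair (fun t u => (cm 41 47 (by decide +kernel) t u).eq)
        ((S4 F).XS_mono (fun s hs => (up_sub p hs).2.2.2 rfl) hy)
      obtain ⟨c, rfl⟩ := (S4 F).mem_X_iff.1 ((S4 F).XS_mono (fun s hs => (up_sub p' hs).2.2.1 rfl) hy')
      obtain ⟨ε, hε, k⟩ := (good (F := F)).A2_conj (c := rF4 30) (d := rF4 42) (s := rF4 45) ((long (by decide +kernel)).a2P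
        (long (by decide +kernel)) ((pair_eq _ _).trans (by decide +kernel)) (funext fun i => by
          rw [Pi.add_apply, rt_eq, rt_eq, rt_eq]; revert i; decide +kernel))
      have c1 : Commute ((S4 F).x (rF4 41) a * (S4 F).x (rF4 47) b) ((S4 F).x (rF4 42) u * (S4 F).x (rF4 46) c) :=
        ((cm 41 42 (by decide +kernel) _ _).mul_right (cm 41 46 (by decide +kernel) _ _)).mul_left
          ((cm 47 42 (by decide +kernel) _ _).mul_right (cm 47 46 (by decide +kernel) _ _))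
      have q := A.mul_mem (A.mul_mem m m') (A.inv_mem m)
      change (S4 F).x (rF4 30) t * _ * ((S4 F).x (rF4 42) u * _) * ((S4 F).x (rF4 30) t * _)⁻¹ ∈ A at q
      rw [mul_assoc ((S4 F).x (rF4 30) t), c1.eq, mul_inv_rev, mul_assoc, mul_assoc _ (_ * _) (_ * _), mul_inv_cancel_left,
        mul_assoc _ ((S4 F).x (rF4 46) c), ← (cm 30 46 (by decide +kernel) t c).inv_left.eq, ← mul_assoc, ← mul_assoc, k,
        mul_assoc, (cm 45 46 (by decide +kernel) _ c).eq, ← mul_assoc] at q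
      exact sg hε t0 u0 (hl _ (by decide +kernel) _ ((A.mul_mem_cancel_left m').1 q))
    · obtain ⟨t, t0, m1⟩ := pure hc fun q => h1 q.1
      obtain ⟨u, u0, m2⟩ := pure hm fun q => h2 q.1
      obtain ⟨ε, δ, hε, hδ, -, k⟩ := (good (F := F)).B2_conj (c := c) (d := rF4 d) (m := m) (l := rF4 l)
        ⟨(pair_eq _ _).trans h5, (pair_eq _ _).trans h6, funext h7, funext h8⟩
      have q := hl _ h4 _ ((A.mul_mem_cancel_left m2).1 (k t u ▸ A.mul_mem (A.mul_mem m1 m2) (A.inv_mem m1)))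
      refine t0 (hs ?_ c h1 t m1)
      by_contra n
      exact sg hδ (sg hε n t0) u0 (by rw [← q]; ring)
  exact (Finset.card_le_card_of_injOn (t := Finset.univ) (fun r : Rt chevF4 => fr r) (fun _ _ => Finset.mem_univ _)
    fun r hr s hs e => by
      by_contra n
      exact (lt_or_gt_of_ne n).elim (fun l => key hr hs l e) fun l => key hs hr l e.symm).trans (by simp)

end CL.T2.F4x
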