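/-
CLAS/T2 (S2193): F4(2) has no subgroup of index 4096
-/
import Cfsg.Agent.CLAS.T2.F4D
import Cfsg.Agent.S2372

set_option autoImplicit false

namespace CL.T2.F4x

open CL.Chev Cfsg Cfsg.Lie MulAction

/-- a self-centralising Sylow subgroup of order `17` -/
theorem syl17_self {G : Type*} [Group G] [Finite G] {H : Subgroup G} (hH : Nat.card H = 17)
    (hC : Subgroup.centralizer (H : Set G) = H) (hG : (Nat.card G).factorization 17 = 1) {R : Subgroup G}
    (hR : Nat.card R = 17) : Subgroup.centralizer (R : Set G) ≤ R := by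
  have : Fact (Nat.Prime 17) := ⟨by norm_num⟩
  let P : Sylow 17 G := Sylow.ofCard H (by rw [hG, hH, pow_one])
  let Q : Sylow 17 G := Sylow.ofCard R (by rw [hG, hR, pow_one])
  obtain ⟨g, hg⟩ := exists_smul_eq G P Q
  have e : ∀ x, x ∈ R ↔ g⁻¹ * x * g ∈ H := fun x => by
    change x ∈ (Q : Subgroup G) ↔ _ ∈ (P : Subgroup G)
    rw [← hg, Sylow.coe_subgroup_smul, Subgroup.mem_pointwise_smul_iff_inv_smul_mem]
    simp [MulAut.smul_def]
  intro x hx
  rw [e, ← hC, Subgroup.mem_centralizer_iff]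
  intro y hy
  have := hx (g * y * g⁻¹) ((e _).2 (by simpa [mul_assoc] using hy))
  calc y * (g⁻¹ * x * g) = g⁻¹ * (g * y * g⁻¹ * x) * g := by group
    _ = g⁻¹ * (x * (g * y * g⁻¹)) * g := by rw [this]
    _ = g⁻¹ * x * g * y := by group

/-- Sylow count -/
theorem syl17_count {K : Type*} [Group K] [Finite K] (R : Sylow 17 K) (hR : Nat.card R = 17)
    (hC : Subgroup.centralizer ((R : Subgroup K) : Set K) ≤ R) :
    ∃ d n, d ∣ 16 ∧ n ≡ 1 [MOD 17] ∧ Nat.card K = 17 * d * n := by
  have : Fact (Nat.Prime 17) := ⟨by norm_num⟩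
  have : IsCyclic (R : Subgroup K) := isCyclic_of_prime_card (p := 17) hR
  have hC' : Subgroup.centralizer ((R : Subgroup K) : Set K) = R :=
    le_antisymm hC (fun x hx y hy => congrArg Subtype.val (IsCyclic.isMulCommutative.is_comm.comm (⟨y, hy⟩ : (R : Subgroup K)) ⟨x, hx⟩))
  let f := (R : Subgroup K).normalizerMonoidHom
  have h1 : Nat.card f.ker = 17 := by
    rw [Subgroup.normalizerMonoidHom_ker, hC', Nat.card_congr (Subgroup.subgroupOfEquivOfLe Subgroup.le_normalizer).toEquiv, hR]
  have h2 : Nat.card f.range ∣ 16 := by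
    have := Subgroup.card_subgroup_dvd_card f.range
    rwa [IsCyclic.card_mulAut, hR, Nat.totient_prime (by norm_num)] at this
  refine ⟨Nat.card f.range, Nat.card (Sylow 17 K), h2, card_sylow_modEq_one 17 K, ?_⟩
  have h3 := f.ker.card_mul_index
  rw [h1] at h3
  rw [R.card_eq_index_normalizer, ← Subgroup.index_ker, h3]
  exact (Subgroup.card_mul_index _).symm

variable {F : Type*} [Field F] [Fintype F]

/-- `|K| = 2¹² 3⁶ 5² 7² 13 17` (`card_G`).  S2372: a self-centralising subgroup of order `17`; it is a Sylow subgroup, so every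
subgroup `R` of order `17` is self-centralising.  `R ∈ Syl₁₇(K)`: `|N_K(R)| = 17 d`, `d ∣ 16 = |Aut R|`, and
`|K| / (17 d) ≡ 1`, so `d ≡ |K| / 17 ≡ 9 mod 17`: impossible. -/
theorem two_fin (h2 : Nat.card F = 2) (K : Subgroup (G4 F)) : K.index ≠ 4096 := by
  intro hK
  have : Fact (Nat.Prime 17) := ⟨by norm_num⟩
  have hG : Nat.card (G4 F) = 17 * 194772153139200 := by rw [card_G, h2]; norm_num
  have : Finite (G4 F) := Nat.finite_of_card_ne_zero (by rw [hG]; norm_num)
  have hcK : Nat.card K = 17 * 47551795200 := by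
    have := K.card_mul_index
    rw [hK, hG] at this
    omega
  have fac : ∀ m : ℕ, ¬ 17 ∣ m → (17 * m).factorization 17 = 1 := fun m hm => by
    rw [Nat.factorization_mul (by norm_num) (by rintro rfl; exact hm (dvd_zero _)), Finsupp.add_apply,
      Nat.Prime.factorization_self (by norm_num), Nat.factorization_eq_zero_of_not_dvd hm]
  obtain ⟨H, -, hH, hC⟩ := Cfsg.Agent.S2372.result (F := F) 2 (Nat.card_eq_fintype_card.symm.trans h2)
  obtain ⟨R⟩ : Nonempty (Sylow 17 K) := inferInstance
  have hR : Nat.card R = 17 := by rw [R.card_eq_multiplicity, hcK, fac _ (by norm_num), pow_one]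
  have h1 := syl17_self hH hC (by rw [hG, fac _ (by norm_num)]) (R := (R : Subgroup K).map K.subtype)
    (by rw [Subgroup.card_map_of_injective K.subtype_injective, hR])
  obtain ⟨d, n, hd, hn, e⟩ := syl17_count R hR (fun x hx => by
    obtain ⟨y, hy, e⟩ := h1 (x := (x : G4 F)) (by
      rintro _ ⟨y, hy, rfl⟩
      exact congrArg Subtype.val (hx y hy))
    rwa [← Subtype.ext e])
  rw [hcK] at e
  have h3 : d ≤ 16 := Nat.le_of_dvd (by norm_num) hd
  unfold Nat.ModEq at hn
  interval_cases d <;> omega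

end CL.T2.F4x
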