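/-
CLAS/T2 (S2193): F4(2), a long orbit
-/
import Cfsg.Agent.CLAS.T2.F4D

set_option autoImplicit false

namespace CL.T2.F4x

open CL.Chev Cfsg Cfsg.Lie MulAction

variable {F : Type*} [Field F] [Finite F] {Ω : Type*} [Finite Ω] [MulAction (G4 F) Ω]

namespace Ux

theorem pairing' {G : Type*} [Group G] [Finite G] {Q M Z A : Subgroup G} (hM : M ≤ Q)
    (cen : ∀ z ∈ Z, ∀ x ∈ Q, x * z = z * x) (comm : ∀ x ∈ Q, ∀ m ∈ M, x * m * x⁻¹ * m⁻¹ ∈ Z)
    (hR : ∀ x ∈ M, ∀ m ∈ M, x * m = m * x) {l : G → ℂˣ} (hl : ∀ a ∈ Z, ∀ b ∈ Z, l (a * b) = l a * l b)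
    (hlA : ∀ a ∈ Z, a ∈ A → l a = 1) (nd : ∀ m ∈ M, (∀ x ∈ Q, l (x * m * x⁻¹ * m⁻¹) = 1) → m ∈ Z)
    (hA : A ≤ Q) : Nat.card A * Nat.card M ≤ Nat.card Q * Nat.card (A ⊓ Z : Subgroup G) := by
  obtain ⟨Φ, hΦ⟩ := Hs.exists_Phi (M := A ⊓ M) (inf_le_right.trans hM) cen (fun x hx m hm => comm x hx m hm.2) hl
  have hN : ∀ b, ∀ n ∈ (A ⊔ M).subgroupOf Q, Φ b n = 1 := by
    intro b n hn
    have : A ⊔ M ≤ (Φ b).ker.map Q.subtype := by
      refine sup_le (fun a ha => ⟨⟨a, hA ha⟩, ?_, rfl⟩) fun r hr => ⟨⟨r, hM hr⟩, ?_, rfl⟩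
      · rw [SetLike.mem_coe, MonoidHom.mem_ker, hΦ]
        exact hlA _ (comm _ (hA ha) _ b.2.2) (mul_mem (mul_mem (mul_mem ha b.2.1) (inv_mem ha)) (inv_mem b.2.1))
      · rw [SetLike.mem_coe, MonoidHom.mem_ker, hΦ]
        change l (r * b * r⁻¹ * (b : G)⁻¹) = 1
        rw [hR r hr b b.2.2]
        simpa using Hs.lam_one hl
    obtain ⟨y, hy, e⟩ := this hn
    rw [← show y = n from Subtype.ext e]
    exact hy
  have h2 := Hs.hom_count' _ Φ hN
  have h3 : Nat.card Φ.ker ≤ Nat.card (A ⊓ Z : Subgroup G) :=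
    Nat.card_le_card_of_injective (fun m => ⟨m.1.1, m.1.2.1, nd _ m.1.2.2 fun x hx => by
      rw [← hΦ m.1 ⟨x, hx⟩, MonoidHom.mem_ker.1 m.2]; rfl⟩)
      fun a b e => Subtype.ext (Subtype.ext (Subtype.mk.inj e))
  have h4 : (A ⊔ M).relIndex Q * Nat.card (A ⊔ M : Subgroup G) = Nat.card Q := Hs.ri (sup_le hA hM)
  have h5 := Hs.card_mul_le A M
  change _ ≤ _ * (A ⊔ M).relIndex Q at h2
  calc _ ≤ _ := h5
    _ ≤ Nat.card (A ⊔ M : Subgroup G) * (Nat.card (A ⊓ Z : Subgroup G) * (A ⊔ M).relIndex Q) :=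
      Nat.mul_le_mul_left _ (h2.trans (Nat.mul_le_mul_right _ h3))
    _ = _ := by rw [← h4]; ring

theorem a2P {c d s : Rt chevF4} (hl : R4.len c = R4.len d) (hp : R4.pair c d = -1)
    (hs : R4.rt s = R4.rt c + R4.rt d) : R4.A2P c d s := by
  refine ⟨hp, hs, ?_⟩
  rintro k ⟨i, j, hi, hj, e⟩
  have h1 := R4.len_of_lin e
  have h2 : R4.len k ≤ 2 := (by decide +kernel : ∀ k : Fin 48, (certF4.len k : ℤ) ≤ 2) k
  have h3 := R4.len_pos c
  have hi' : (1 : ℤ) ≤ i := by exact_mod_cast hi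
  have hj' : (1 : ℤ) ≤ j := by exact_mod_cast hj
  rw [hp, ← hl] at h1
  have h4 : (i : ℤ) ^ 2 + j ^ 2 - i * j ≤ 2 := by
    by_contra h5
    push Not at h5
    nlinarith
  have hi1 : (i : ℤ) = 1 := by nlinarith [sq_nonneg ((i : ℤ) - 2 * j)]
  have hj1 : (j : ℤ) = 1 := by nlinarith
  apply R4.rt_inj
  rw [e, hs, hi1, hj1, one_smul, one_smul]

/-- the roots of `M` -/
def TM : Set (Rt chevF4) := {k | 0 < R4.pair (rF4 47) k ∧ 0 < R4.pair (rF4 44) k}
/-- the roots of `Q` -/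
def TQ : Set (Rt chevF4) := {k | 24 ≤ k.1 ∧ 0 ≤ R4.pair (rF4 47) k ∧ 0 ≤ R4.pair (rF4 44) k ∧
  k.1 ≠ 25 ∧ k.1 ≠ 27 ∧ k.1 ≠ 28 ∧ k.1 ≠ 30 ∧ k.1 ≠ 29 ∧ k.1 ≠ 41}

instance : DecidablePred (· ∈ TM) := fun k =>
  decidable_of_iff (0 < certF4.pairF 4 47 k ∧ 0 < certF4.pairF 4 44 k) (by
    show _ ↔ (_ ∧ _); rw [pair_eq, pair_eq]; rfl)

instance : DecidablePred (· ∈ TQ) := fun k =>
  decidable_of_iff (24 ≤ k.1 ∧ 0 ≤ certF4.pairF 4 47 k ∧ 0 ≤ certF4.pairF 4 44 k ∧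
    k.1 ≠ 25 ∧ k.1 ≠ 27 ∧ k.1 ≠ 28 ∧ k.1 ≠ 30 ∧ k.1 ≠ 29 ∧ k.1 ≠ 41)
    (by show _ ↔ (_ ∧ _); rw [pair_eq, pair_eq]; rfl)

/-- `c + d = s` is `44` or `47` -/
def Pr (c d : Rt chevF4) : Prop := certF4.len c = certF4.len d ∧ certF4.pairF 4 c d = -1 ∧
  ((∀ i : Fin 4, certF4.co 44 i = certF4.co c i + certF4.co d i) ∨
    ∀ i : Fin 4, certF4.co 47 i = certF4.co c i + certF4.co d i)

instance (c d : Rt chevF4) : Decidable (Pr c d) := by unfold Pr; infer_instance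

theorem tab1 : ∀ k : Fin 48, rF4 k ∈ TM → rF4 k ∈ TQ := by decide +kernel
theorem tab2 : ∀ k : Fin 48, rF4 k ∈ TM → ∀ r : Fin 48, rF4 r ∈ TM → 0 ≤ certF4.pairF 4 r k := by decide +kernel
theorem tab3 : ∀ k : Fin 48, rF4 k ∈ TM → ∀ r : Fin 48, rF4 r ∈ TQ → 0 ≤ certF4.pairF 4 r k ∨ Pr (rF4 r) (rF4 k) := by
  decide +kernel
theorem tab4 : ∀ k : Fin 48, rF4 k ∈ TM → k = 44 ∨ k = 47 ∨ ∃ r : Fin 48, rF4 r ∈ TQ ∧ Pr (rF4 r) (rF4 k) ∧
    ∀ k' : Fin 48, rF4 k' ∈ TM → k' = k ∨ 0 ≤ certF4.pairF 4 r k' := by decide +kernel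
theorem tab5 : (Finset.univ.filter fun k : Fin 48 => rF4 k ∈ TM).card = 10 := by decide +kernel

theorem ncard_TM : TM.ncard = 10 := by
  rw [← tab5, ← Set.ncard_coe_finset, Finset.coe_filter]
  exact congrArg Set.ncard (Set.ext fun k : Fin 48 => ⟨fun h => ⟨Finset.mem_univ k, h⟩, fun h => h.2⟩)

omit [Finite F]

theorem Pr.conj {c d : Rt chevF4} (h : Pr c d) (e1 : (-1 : F) = 1) : ∃ s, (s = rF4 44 ∨ s = rF4 47) ∧
    ∀ t u, (S4 F).x c t * (S4 F).x d u * ((S4 F).x c t)⁻¹ = (S4 F).x d u * (S4 F).x s (t * u) := by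
  obtain ⟨h1, h2, h3⟩ := h
  have k : ∀ s, R4.rt s = R4.rt c + R4.rt d → ∀ t u,
      (S4 F).x c t * (S4 F).x d u * ((S4 F).x c t)⁻¹ = (S4 F).x d u * (S4 F).x s (t * u) := fun s hs t u => by
    obtain ⟨ε, hε, e⟩ := (good (F := F)).A2_conj (a2P (by rw [len_eq, len_eq, h1]) ((pair_eq _ _).trans h2) hs)
    rw [e, hε.elim id fun h => h.trans e1, one_mul]
  rcases h3 with h3 | h3
  exacts [⟨_, .inl rfl, k _ (funext h3)⟩, ⟨_, .inr rfl, k _ (funext h3)⟩]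

theorem two (h2 : Nat.card F = 2) : (∀ t : F, t = 0 ∨ t = 1) ∧ (1 + 1 : F) = 0 ∧ (-1 : F) = 1 ∧ CharP F 2 := by
  obtain ⟨y, -, hy⟩ := (Nat.card_eq_two_iff' (0 : F)).1 h2
  have h1 : ∀ t : F, t = 0 ∨ t = 1 := fun t => (em (t = 0)).imp id fun h => (hy t h).trans (hy 1 one_ne_zero).symm
  have h3 : (1 + 1 : F) = 0 := (h1 _).resolve_right (by simp)
  exact ⟨h1, h3, neg_eq_of_add_eq_zero_left h3,
    CharTwo.of_one_ne_zero_of_two_eq_zero one_ne_zero (one_add_one_eq_two.symm.trans h3)⟩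

end Ux

open Ux

/-- `z = x 47 1`, `s = x 44 1`.  Suppose every point is fixed by `z` or `s`; take `ω` moved by `z` (`Tw.faithful`, `simple`).  For `g`
commuting with `z`, `g⁻¹ ω` is moved by `z`, so `g s g⁻¹` fixes `ω`.  `g = n 41 1` commutes with `z` (`Long.noComb`) and
`g s g⁻¹ = x 29 1` (`acts_n`, `refl 41 44 = 29`, `c ≠ 0 → c = 1`); then `g' = (x 41 1)⁻¹ g`.  `B2_conj` for `B2P 29 41 44 47`:
`(x 41 1)⁻¹ (x 29 1) (x 41 1) = s z (x 29 1)`, so `z` fixes `ω`. -/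
theorem two_ex (h2 : Nat.card F = 2) (tw : Tw (G4 F) Ω) :
    ∃ ω : Ω, (S4 F).x (rF4 47) 1 • ω ≠ ω ∧ (S4 F).x (rF4 44) 1 • ω ≠ ω := by
  obtain ⟨hF, -, e1, _⟩ := two h2
  have := simple (F := F)
  by_contra hc
  push Not at hc
  obtain ⟨ω, hω⟩ : ∃ ω : Ω, (S4 F).x (rF4 47) 1 • ω ≠ ω := by
    by_contra h
    push Not at h
    exact one_ne_zero (good.x_inj _ _ (tw.faithful h))
  set z := (S4 F).x (rF4 47) 1
  set s := (S4 F).x (rF4 44) 1
  have key : ∀ g, g * z * g⁻¹ = z → (g * s * g⁻¹) • ω = ω := fun g e => by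
    rw [mul_smul, mul_smul, hc _ fun h => hω (by rw [← e, mul_smul, mul_smul, h, smul_inv_smul]), smul_inv_smul]
  have act : ∀ r k, R4.refl (rF4 41) r = k →
      (S4 F).n (rF4 41) 1 * (S4 F).x r 1 * ((S4 F).n (rF4 41) 1)⁻¹ = (S4 F).x k 1 := fun r k e => by
    obtain ⟨c, h0, h⟩ := ((S4 F).acts_n (rF4 41) one_ne_zero).exists_conj r
    rw [h, e, (hF c).resolve_left h0, one_mul]
  have a1 := act (rF4 47) (rF4 47) (by rw [rootSys_refl]; decide +kernel)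
  have a2 := act (rF4 44) (rF4 29) (by rw [rootSys_refl]; decide +kernel)
  obtain ⟨ε, δ, hε, hδ, hb, -⟩ := (good (F := F)).B2_conj (c := rF4 29) (d := rF4 41) (m := rF4 44) (l := rF4 47)
    ⟨(pair_eq _ _).trans (by decide +kernel), (pair_eq _ _).trans (by decide +kernel),
      funext (by decide +kernel : ∀ i : Fin 4, certF4.co 44 i = certF4.co 29 i + certF4.co 41 i),
      funext (by decide +kernel : ∀ i : Fin 4, certF4.co 47 i = 2 * certF4.co 29 i + certF4.co 41 i)⟩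
  have b1 := hb 1 1
  rw [hε.elim id fun h => h.trans e1, hδ.elim id fun h => h.trans e1, one_pow, mul_one, mul_one] at b1
  have c1 : (S4 F).x (rF4 41) 1 * z = z * (S4 F).x (rF4 41) 1 := comm2 ((pair_eq _ _).ge.trans' (by decide +kernel)) _ _
  set n := (S4 F).n (rF4 41) 1
  set b := (S4 F).x (rF4 41) 1
  set a := (S4 F).x (rF4 29) 1
  have k1 := key 1 (by simp)
  have k2 := key n a1
  have k3 := key (b⁻¹ * n) (by
    calc _ = b⁻¹ * (n * z * n⁻¹) * b := by group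
      _ = _ := by rw [a1, mul_assoc, ← c1, inv_mul_cancel_left])
  rw [show b⁻¹ * n * s * (b⁻¹ * n)⁻¹ = s * (z * a) by
    calc _ = b⁻¹ * (n * s * n⁻¹) * b := by group
      _ = b⁻¹ * (a * b * a⁻¹) * a := by rw [a2]; group
      _ = _ := by rw [b1, mul_assoc b, inv_mul_cancel_left, mul_assoc], mul_smul, mul_smul, ← a2, k2] at k3
  rw [one_mul, inv_one, mul_one] at k1
  exact hω (smul_left_cancel s (k3.trans k1.symm))

/-- As `pairing` (Heis), but with a given `l`: `Z = XS {44, 47} = {1, s, z, s z}`, `l g = if g = 1 ∨ g = s z then 1 else -1`.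
`M = XS {47, 46, 45, 44, 43, 42, 40, 39, 38, 36}` (order `2¹⁰`, abelian by `comm2`), `Q = XS {r | 24 ≤ r, r ≠ 25, 27, 28, 30}`
(or the closure of the root elements of `M` and of `24, 26, 31, 32, 33, 34, 35, 37`; its order is not needed), `A = Q ⊓ G_ω`,
`A ⊓ Z ≤ {1, s z}`.  `⁅Q, M⁆ ≤ Z`, `Z` central: root pairs have `0 ≤ pair` (`comm2`) except
`46 + 24 = 45 + 26 = 43 + 31 = 42 + 32 = 47`, `40 + 33 = 39 + 34 = 38 + 35 = 36 + 37 = 44` (`A2P`, `A2_conj`).  For `m = prodL L t ∈ M \\ Z`,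
`t β = 1`, the partner `γ` of `β` has `⁅x γ 1, m⁆ ∈ {z, s}`.  So `|A ⊓ M| |A| |M| ≤ |Q| |A ⊓ M| |A ⊓ Z|`, the `Q`-orbit of `ω` has
length `≥ 2¹⁰ / 2` (`Blk.oc`). -/
theorem two_big (h2 : Nat.card F = 2) {ω : Ω} (h1 : (S4 F).x (rF4 47) 1 • ω ≠ ω) (h3 : (S4 F).x (rF4 44) 1 • ω ≠ ω) :
    512 ≤ Nat.card Ω := by
  classical
  obtain ⟨hF, e2, e1, _⟩ := two h2
  have cm : ∀ {r k : Rt chevF4}, 0 ≤ certF4.pairF 4 r k → ∀ t u : F,
      (S4 F).x r t * (S4 F).x k u = (S4 F).x k u * (S4 F).x r t := fun h => comm2 ((pair_eq _ _).ge.trans' h)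
  have cX : ∀ {T : Set (Rt chevF4)} {g}, (∀ r ∈ T, ∀ t, (S4 F).x r t * g = g * (S4 F).x r t) →
      ∀ y ∈ (S4 F).XS T, y * g = g * y := fun {T g} h y hy =>
    Subgroup.mem_centralizer_singleton_iff.1 (((S4 F).XS_le_iff (K := Subgroup.centralizer {g})).2
      (fun r hr t => Subgroup.mem_centralizer_singleton_iff.2 (h r hr t)) hy)
  set z := (S4 F).x (rF4 47) 1 with hz
  set s := (S4 F).x (rF4 44) 1 with hs
  set Z := (S4 F).XS {rF4 44, rF4 47}
  have hM : (S4 F).XS TM ≤ (S4 F).XS TQ := (S4 F).XS_mono tab1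
  have cen : ∀ w ∈ Z, ∀ x ∈ (S4 F).XS TQ, x * w = w * x := fun w hw x hx =>
    (cX (fun r hr t => (cX (fun k hk u => by
      rcases hr with rfl | rfl
      exacts [(comm2 hk.2.2.1 _ _).symm, (comm2 hk.2.1 _ _).symm]) x hx).symm) w hw).symm
  have hR : ∀ x ∈ (S4 F).XS TM, ∀ m ∈ (S4 F).XS TM, x * m = m * x := fun x hx m hm =>
    cX (fun r hr t => (cX (fun k hk u => cm (tab2 r hr k hk) _ _) m hm).symm) x hx
  have c0 : ∀ r ∈ TQ, ∀ t, ∀ m ∈ (S4 F).XS TM, (S4 F).x r t * m * ((S4 F).x r t)⁻¹ * m⁻¹ ∈ Z := by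
    intro r hr t m hm
    induction hm using (S4 F).XS_induction with
    | h1 => simp
    | hs k hk u m hm ih =>
      have h4 : (S4 F).x r t * (S4 F).x k u * ((S4 F).x r t)⁻¹ * ((S4 F).x k u)⁻¹ ∈ Z := by
        rcases tab3 k hk r hr with h | h
        · rw [cm h]; simp
        · obtain ⟨c, hc, e⟩ := Pr.conj (c := r) (d := k) h e1
          have := (S4 F).x_mem_XS (T := {rF4 44, rF4 47}) hc (t * u)
          rwa [e, cen _ this _ (hM ((S4 F).x_mem_XS hk u)), mul_inv_cancel_right]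
      have := cen _ ih _ (hM ((S4 F).x_mem_XS hk u))
      convert mul_mem h4 ih using 1
      calc _ = (S4 F).x r t * (S4 F).x k u * ((S4 F).x r t)⁻¹ * ((S4 F).x k u)⁻¹ * ((S4 F).x k u *
          ((S4 F).x r t * m * ((S4 F).x r t)⁻¹ * m⁻¹)) * ((S4 F).x k u)⁻¹ := by group
        _ = _ := by rw [this]; group
  have comm : ∀ x ∈ (S4 F).XS TQ, ∀ m ∈ (S4 F).XS TM, x * m * x⁻¹ * m⁻¹ ∈ Z := by
    intro x hx m hm
    induction hx using (S4 F).XS_induction with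
    | h1 => simp
    | hs r hr t x hx ih =>
      have := cen _ ih _ ((S4 F).x_mem_XS hr t)
      convert mul_mem ih (c0 r hr t m hm) using 1
      calc _ = (S4 F).x r t * (x * m * x⁻¹ * m⁻¹) * m * ((S4 F).x r t)⁻¹ * m⁻¹ := by group
        _ = _ := by rw [this]; group
  have sq : ∀ r, (S4 F).x r 1 * (S4 F).x r 1 = 1 := fun r => by rw [← (S4 F).x_add, e2, (S4 F).x_zero]
  have ss : s * s = 1 := sq _
  have zz : z * z = 1 := sq _
  have zs : z * s = s * z := cm (by decide +kernel) _ _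
  have m1 : s * (s * z) = z := by rw [← mul_assoc, ss, one_mul]
  have m2 : z * (s * z) = s := by rw [← zs, ← mul_assoc, zz, one_mul]
  have m3 : s * z * s = z := by rw [mul_assoc, zs, m1]
  have m4 : s * z * z = s := by rw [mul_assoc, zz, mul_one]
  have m5 : s * z * (s * z) = 1 := by rw [← mul_assoc, m3, zz]
  have mZ : ∀ w ∈ Z, w = 1 ∨ w = s ∨ w = z ∨ w = s * z := by
    intro w hw
    induction hw using (S4 F).XS_induction with
    | h1 => exact .inl rfl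
    | hs r hr t w hw ih =>
      rcases hF t with rfl | rfl
      · rwa [(S4 F).x_zero, one_mul]
      · rcases hr with rfl | rfl <;> rcases ih with rfl | rfl | rfl | rfl <;>
          simp only [← hz, ← hs, mul_one, ss, zz, zs, m1, m2, true_or, or_true]
  have s1 : s ≠ 1 := fun e => h3 (by rw [e, one_smul])
  have z1 : z ≠ 1 := fun e => h1 (by rw [e, one_smul])
  let l : G4 F → ℂˣ := fun g => if g = 1 ∨ g = s * z then 1 else -1
  have l1 : l 1 = 1 := if_pos (.inl rfl)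
  have l2 : l (s * z) = 1 := if_pos (.inr rfl)
  have l3 : l s = -1 := if_neg (not_or.2 ⟨s1, fun e => z1 (left_eq_mul.1 e)⟩)
  have l4 : l z = -1 := if_neg (not_or.2 ⟨z1, fun e => s1 (right_eq_mul.1 e)⟩)
  have n1 : (-1 : ℂˣ) ≠ 1 := fun e => by
    have := congrArg Units.val e
    norm_num at this
  have hA : ∀ a ∈ Z, a • ω = ω → a = 1 ∨ a = s * z := fun a ha e => by
    rcases mZ a ha with rfl | rfl | rfl | rfl
    exacts [.inl rfl, absurd e h3, absurd e h1, .inr rfl]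
  have main := pairing' (A := (S4 F).XS TQ ⊓ stabilizer _ ω) hM cen comm hR (l := l) (fun a ha b hb => by
      rcases mZ a ha with rfl | rfl | rfl | rfl <;> rcases mZ b hb with rfl | rfl | rfl | rfl <;>
        simp only [mul_one, one_mul, ss, zz, zs, m1, m2, m3, m4, m5, l1, l2, l3, l4, neg_mul_neg])
    (fun a ha h => if_pos (hA a ha h.2)) (fun m hm h => by
      have : ∀ L : List (Fin 48), (∀ k ∈ L, k ≠ 44 ∧ k ≠ 47) → m ∈ (S4 F).XS (TM \ {k | k ∈ L}) := by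
        intro L hL
        induction L with
        | nil =>
          refine (S4 F).XS_mono (fun j hj => ?_) hm
          exact ⟨hj, List.not_mem_nil⟩
        | cons k L ih =>
          have ih := ih fun k h => hL k (List.mem_cons_of_mem _ h)
          have sub : (TM \ {k | k ∈ L}) \ {rF4 k} ⊆ TM \ {j | j ∈ k :: L} := fun j hj =>
            ⟨hj.1.1, fun h => (List.mem_cons.1 h).elim hj.2 hj.1.2⟩
          refine (S4 F).XS_mono sub ?_
          by_cases hk : rF4 k ∈ TM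
          swap
          · refine (S4 F).XS_mono (fun j hj => ?_) ih
            exact ⟨hj, fun e => hk (e ▸ hj.1)⟩
          obtain ⟨c, y, hy, rfl⟩ := (S4 F).exists_mul_of_mem_XS (r := rF4 k) (by
            refine fun g hg => Subgroup.centralizer_le_normalizer _ fun y hy => hR _ ?_ _ ?_
            · exact (S4 F).XS_mono (fun j hj => hj.1.1) hy
            · exact (S4 F).XS_mono (Set.singleton_subset_iff.2 hk) hg) ih
          rcases hF c with rfl | rfl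
          · rwa [(S4 F).x_zero, one_mul]
          obtain ⟨r, hr, hp, hc⟩ := ((tab4 k hk).resolve_left (hL k List.mem_cons_self).1).resolve_left
            (hL k List.mem_cons_self).2
          obtain ⟨c, hc', e⟩ := hp.conj e1
          have h5 := cX (fun j hj u => (cm (r := rF4 r) ((hc j hj.1.1).resolve_left hj.2) 1 u).symm) y hy
          have h6 := h _ ((S4 F).x_mem_XS hr 1)
          rw [show (S4 F).x (rF4 r) 1 * ((S4 F).x (rF4 k) 1 * y) * ((S4 F).x (rF4 r) 1)⁻¹ *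
              ((S4 F).x (rF4 k) 1 * y)⁻¹ = (S4 F).x c 1 by
            calc _ = (S4 F).x (rF4 r) 1 * (S4 F).x (rF4 k) 1 * ((S4 F).x (rF4 r) 1)⁻¹ *
                ((S4 F).x (rF4 r) 1 * y) * ((S4 F).x (rF4 r) 1)⁻¹ * y⁻¹ * ((S4 F).x (rF4 k) 1)⁻¹ := by group
              _ = _ := by
                rw [← h5, e, mul_one, cen _ ((S4 F).x_mem_XS (T := {rF4 44, rF4 47}) hc' 1) _
                  (hM ((S4 F).x_mem_XS hk 1))]
                group] at h6
          rcases hc' with rfl | rfl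
          · exact absurd (l3.symm.trans h6) n1
          · exact absurd (l4.symm.trans h6) n1
      refine (S4 F).XS_mono (fun j hj => ?_) (this [46, 45, 43, 42, 40, 39, 38, 36] (by decide))
      exact (by decide +kernel : ∀ j : Fin 48, rF4 j ∈ TM → j ∉ [46, 45, 43, 42, 40, 39, 38, 36] → j = 44 ∨ j = 47)
        j hj.1 hj.2) inf_le_left
  have cM : Nat.card ((S4 F).XS TM) = 2 ^ 10 := by
    rw [card_XS (fun k hk => (pos_iff k).2 (tab1 k hk).1) (by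
      rintro r hr k hk j ⟨a, b, ha, hb, e⟩
      have := hr.1; have := hr.2; have := hk.1; have := hk.2
      exact ⟨by rw [R4.pair_of_lin e]; positivity, by rw [R4.pair_of_lin e]; positivity⟩), h2, ncard_TM]
  have cZ : Nat.card ((S4 F).XS TQ ⊓ stabilizer _ ω ⊓ Z : Subgroup (G4 F)) ≤ 2 :=
    (Set.ncard_le_ncard (t := {1, s * z}) (fun a h => hA a h.2 h.1.2) (Set.toFinite _)).trans
      ((Set.ncard_insert_le _ _).trans (by simp))
  rw [cM, Blk.oc ((S4 F).XS TQ) ω] at main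
  have p := Nat.card_pos (α := ((S4 F).XS TQ ⊓ stabilizer _ ω : Subgroup (G4 F)))
  have q : (orbit ((S4 F).XS TQ) ω).ncard ≤ Nat.card Ω := Set.ncard_le_card _
  by_contra k
  have := (main.trans (Nat.mul_le_mul (Nat.mul_le_mul_right _ (q.trans (Nat.le_of_lt_succ (not_le.1 k)))) cZ))
  omega

end CL.T2.F4x
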