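/-
CLAS/T2 (S2193): abstract lemmas for the generation of U by the simple root groups
-/
import Cfsg.Agent.CHEV.MinDeg2

set_option autoImplicit false

namespace CL.T2.GenA

open CL.Chev

universe u

section Nilp

variable {G : Type*} [Group G]

theorem le_of_nilp [Finite G] {U L : Subgroup G} (hU : Group.IsNilpotent U)
    (h : ∀ M : Subgroup G, L ⊓ U ≤ M → (∀ x ∈ U, ∀ y ∈ U, x * y * x⁻¹ * y⁻¹ ∈ M) → U ≤ M) : U ≤ L := by
  by_contra hne
  have h1 : L.subgroupOf U ≠ ⊤ := fun e => hne (Subgroup.subgroupOf_eq_top.1 e)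
  obtain ⟨M, hM, hle⟩ := (eq_top_or_exists_le_coatom (L.subgroupOf U)).resolve_left h1
  have hn : M.Normal := Subgroup.NormalizerCondition.normal_of_coatom M Group.normalizerCondition_of_isNilpotent hM
  have : Nontrivial (U ⧸ M) := QuotientGroup.nontrivial_iff.2 hM.1
  have h2 : commutator U ≤ M := by
    by_contra h3
    have h4 : M ⊔ commutator U = ⊤ := hM.2 _ (left_lt_sup.2 h3)
    have h5 := congrArg (Subgroup.map (QuotientGroup.mk' M)) h4
    rw [Subgroup.map_sup, QuotientGroup.map_mk'_self, bot_sup_eq,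
      Subgroup.map_top_of_surjective _ (QuotientGroup.mk'_surjective M), commutator_def, Subgroup.map_commutator,
      Subgroup.map_top_of_surjective _ (QuotientGroup.mk'_surjective M)] at h5
    exact (Group.IsSolvable.commutator_lt_top_of_nontrivial (U ⧸ M)).ne h5
  have h6 := h (M.map U.subtype) (fun g hg => ⟨⟨g, hg.2⟩, hle hg.1, rfl⟩) fun x hx y hy =>
    ⟨_, h2 (Subgroup.commutator_mem_commutator (Subgroup.mem_top (⟨x, hx⟩ : U)) (Subgroup.mem_top ⟨y, hy⟩)), rfl⟩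
  refine hM.1 (top_unique fun g _ => ?_)
  obtain ⟨g', hg', e⟩ := h6 g.2
  exact Subtype.ext (p := (· ∈ U)) e ▸ hg'

end Nilp

section Quot

variable {Γ : Type u} [Group Γ]

theorem exists_quot (σ : Γ →* Γ) {U N : Subgroup Γ} (hU : ∀ g ∈ U, σ g ∈ U) (hN : ∀ g ∈ N, σ g ∈ N)
    (hn : U ≤ Subgroup.normalizer (N : Set Γ)) :
    ∃ (Q : Type u) (_ : Group Q) (θ : Γ → Q) (σ' : Q →* Q), (∀ a ∈ U, ∀ b ∈ U, θ (a * b) = θ a * θ b) ∧
      (∀ a ∈ U, θ (σ a) = σ' (θ a)) ∧ (∀ a ∈ U, θ a = 1 ↔ a ∈ N) ∧ ∀ z, ∃ a ∈ U, θ a = z := by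
  classical
  have : (N.subgroupOf U).Normal := Subgroup.normal_subgroupOf_of_le_normalizer hn
  let σU : U →* U := (σ.comp U.subtype).codRestrict U fun g => hU _ g.2
  refine ⟨U ⧸ N.subgroupOf U, inferInstance, fun g => if h : g ∈ U then QuotientGroup.mk ⟨g, h⟩ else 1,
    QuotientGroup.map _ _ σU fun g hg => hN _ hg, fun a ha b hb => ?_, fun a ha => ?_, fun a ha => ?_, fun z => ?_⟩
  · simp only [dif_pos ha, dif_pos hb, dif_pos (mul_mem ha hb)]; rfl
  · simp only [dif_pos ha, dif_pos (hU a ha)]; rfl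
  · simp only [dif_pos ha]; exact QuotientGroup.eq_one_iff _
  · obtain ⟨a, rfl⟩ := QuotientGroup.mk_surjective z
    exact ⟨a, a.2, by simp only [dif_pos a.2]⟩

variable {Q : Type*} [Group Q] {U : Subgroup Γ} {θ : Γ → Q} (h1 : ∀ a ∈ U, ∀ b ∈ U, θ (a * b) = θ a * θ b)
include h1

theorem θ_one : θ 1 = 1 := by
  have := h1 1 (one_mem _) 1 (one_mem _)
  rwa [mul_one, left_eq_mul] at this

theorem θ_inv {a : Γ} (ha : a ∈ U) : θ a⁻¹ = (θ a)⁻¹ := by
  rw [eq_inv_iff_mul_eq_one, ← h1 _ (inv_mem ha) _ ha, inv_mul_cancel, θ_one h1]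

theorem θ_comm {a b : Γ} (ha : a ∈ U) (hb : b ∈ U) : θ (a * b * a⁻¹ * b⁻¹) = θ a * θ b * (θ a)⁻¹ * (θ b)⁻¹ := by
  rw [h1 _ (mul_mem (mul_mem ha hb) (inv_mem ha)) _ (inv_mem hb), h1 _ (mul_mem ha hb) _ (inv_mem ha), h1 _ ha _ hb,
    θ_inv h1 ha, θ_inv h1 hb]

theorem θ_nrm {σ : Γ →* Γ} {σ' : Q →* Q} (hU : ∀ g ∈ U, σ g ∈ U) (h2 : ∀ a ∈ U, θ (σ a) = σ' (θ a)) {g : Γ}
    (hg : g ∈ U) (n : ℕ) : θ (nrm σ n g) = nrm σ' n (θ g) := by
  induction n with
  | zero => exact θ_one h1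
  | succ n ih => rw [nrm, nrm, h1 _ hg _ (hU _ (nrm_mem hU hg n)), h2 _ (nrm_mem hU hg n), ih]

/-- the image of a subgroup of `U` -/
def img (A : Subgroup Γ) : Subgroup Q where
  carrier := {z | ∃ a ∈ A, a ∈ U ∧ θ a = z}
  one_mem' := ⟨1, one_mem _, one_mem _, θ_one h1⟩
  mul_mem' := by
    rintro _ _ ⟨a, ha, ha', rfl⟩ ⟨b, hb, hb', rfl⟩
    exact ⟨a * b, mul_mem ha hb, mul_mem ha' hb', h1 _ ha' _ hb'⟩
  inv_mem' := by
    rintro _ ⟨a, ha, ha', rfl⟩
    exact ⟨a⁻¹, inv_mem ha, inv_mem ha', θ_inv h1 ha'⟩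

/-- the preimage in `U` -/
def pre (A : Subgroup Q) : Subgroup Γ where
  carrier := {a | a ∈ U ∧ θ a ∈ A}
  one_mem' := ⟨one_mem _, by rw [θ_one h1]; exact one_mem _⟩
  mul_mem' {a b} ha hb := ⟨mul_mem ha.1 hb.1, by rw [h1 _ ha.1 _ hb.1]; exact mul_mem ha.2 hb.2⟩
  inv_mem' {a} ha := ⟨inv_mem ha.1, by rw [θ_inv h1 ha.1]; exact inv_mem ha.2⟩

end Quot

section Cen

variable {Q : Type*} [Group Q] {σ : Q →* Q} {C : Subgroup Q}

theorem nrm_conj' {n : Q} (hn : σ n = n) (g : Q) (k : ℕ) : nrm σ k (n * g * n⁻¹) = n * nrm σ k g * n⁻¹ := by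
  induction k with
  | zero => simp [nrm]
  | succ k ih => rw [nrm, nrm, ih, map_mul, map_mul, map_inv, hn]; group

variable (hC : ∀ c ∈ C, σ c ∈ C) (hz : ∀ c ∈ C, ∀ g, Commute g c)
include hC hz

theorem nrm_mul {c : Q} (hc : c ∈ C) (d : Q) (n : ℕ) : nrm σ n (c * d) = nrm σ n c * nrm σ n d := by
  induction n with
  | zero => simp [nrm]
  | succ n ih =>
    rw [nrm, nrm, nrm, ih, map_mul, mul_assoc, mul_assoc, ← mul_assoc d, (hz _ (hC _ (nrm_mem hC hc n)) d).eq, mul_assoc]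

/-- the elements of `C` whose norm lies in `M` -/
def nw (M : Subgroup Q) (n : ℕ) : Subgroup Q where
  carrier := {c | c ∈ C ∧ nrm σ n c ∈ M}
  one_mem' := ⟨one_mem _, by
    have := nrm_mul hC hz (one_mem C) 1 n
    rw [mul_one, left_eq_mul] at this
    rw [this]; exact one_mem _⟩
  mul_mem' {a b} ha hb := ⟨mul_mem ha.1 hb.1, by rw [nrm_mul hC hz ha.1]; exact mul_mem ha.2 hb.2⟩
  inv_mem' {a} ha := ⟨inv_mem ha.1, by
    have h1 := nrm_mul hC hz (one_mem C) 1 n
    rw [mul_one, left_eq_mul] at h1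
    have h2 := nrm_mul hC hz ha.1 a⁻¹ n
    rw [mul_inv_cancel, h1, eq_comm, mul_eq_one_iff_inv_eq] at h2
    rw [← h2]; exact inv_mem ha.2⟩

theorem span_step {K J : Type*} [Field K] [Finite J] [DecidableEq J] {M : Subgroup Q} {n : ℕ} {g : K → Q}
    {e : (J → K) → Q} (he : ∀ s s', e (s + s') = e s * e s')
    (hb : ∀ k t u, g t * e (Pi.single k u) * (g t)⁻¹ * (e (Pi.single k u))⁻¹ ∈ C)
    (hl : ∀ k t l u, g t * e (Pi.single k (l * u)) * (g t)⁻¹ * (e (Pi.single k (l * u)))⁻¹ =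
      g (l * t) * e (Pi.single k u) * (g (l * t))⁻¹ * (e (Pi.single k u))⁻¹)
    {P : Set (J → K)} (hP : Submodule.span K P = ⊤) (h1 : ∀ s ∈ P, σ (e s) = e s)
    (h2 : ∀ t, ∀ s ∈ P, nrm σ n (g t) * e s * (nrm σ n (g t))⁻¹ * (e s)⁻¹ ∈ M) (t : K) (s : J → K) :
    g t * e s * (g t)⁻¹ * (e s)⁻¹ ∈ nw hC hz M n := by
  have e0 : e 0 = 1 := by
    have := he 0 0
    rwa [add_zero, left_eq_mul] at this
  let β : K → (J → K) → Q := fun t s => g t * e s * (g t)⁻¹ * (e s)⁻¹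
  have b0 : ∀ t, β t 0 = 1 := fun t => by simp [β, e0]
  have b1 : ∀ t s s', β t s' ∈ C → β t (s + s') = β t s * β t s' := fun t s s' h => by
    have := (hz _ h (e s)).eq
    calc β t (s + s') = β t s * (e s * β t s') * (e s)⁻¹ := by simp only [β, he]; group
      _ = _ := by rw [this]; group
  have b2 : ∀ t s, β t s ∈ C := fun t s => by
    induction s using Pi.single_induction with
    | zero => rw [b0]; exact one_mem _
    | add s s' h h' => rw [b1 _ _ _ h']; exact mul_mem h h'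
    | single k u => exact hb k t u
  have b3 : ∀ l t s, β t (l • s) = β (l * t) s := fun l t s => by
    induction s using Pi.single_induction with
    | zero => rw [smul_zero, b0, b0]
    | add s s' h h' => rw [smul_add, b1 _ _ _ (b2 _ _), b1 _ _ _ (b2 _ _), h, h']
    | single k u => rw [← Pi.single_smul', smul_eq_mul]; exact hl k t l u
  let Z : Submodule K (J → K) :=
    { carrier := {s | ∀ t, β t s ∈ nw hC hz M n}
      zero_mem' := fun t => by rw [b0]; exact one_mem _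
      add_mem' := fun {s s'} h h' t => by rw [b1 _ _ _ (b2 _ _)]; exact mul_mem (h t) (h' t)
      smul_mem' := fun l s h t => by rw [b3]; exact h _ }
  have hZ : Submodule.span K P ≤ Z := Submodule.span_le.2 fun s hs t => ⟨b2 t s, by
    have := nrm_conj hC (g := g t) (h1 s hs) (b2 t s) (fun c hc => hz c hc _) (fun c hc => hz c hc _)
      (by simp [β]) n
    rw [eq_comm, ← eq_mul_inv_iff_mul_eq] at this
    rw [this]; exact h2 t s hs⟩
  exact hZ (hP ▸ Submodule.mem_top) t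

end Cen

theorem span_top {K J : Type*} [Field K] [Finite K] [Fintype J] {φ : K →+* K} {τ : (J → K) → (J → K)}
    (h1 : ∀ s s', τ (s + s') = τ s + τ s') (h2 : ∀ t s, τ (t • s) = φ t • τ s)
    (hc : Nat.card (φ.eqLocusField (RingHom.id K)) ^ Fintype.card J ≤ Nat.card {s // τ s = s}) :
    Submodule.span K {s | τ s = s} = ⊤ := by
  classical
  obtain ⟨b, hb, hs, hli⟩ := exists_linearIndependent K {s | τ s = s}
  have := Fintype.ofFinite b
  let τ' : (J → K) →+ (J → K) := AddMonoidHom.mk' τ h1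
  have h3 : ∀ s : {s // τ s = s}, ∃ c : b → φ.eqLocusField (RingHom.id K), ∑ i, (c i : K) • (i : J → K) = s :=
    fun s => by
      have h4 : (s : J → K) ∈ Submodule.span K (Set.range ((↑) : b → J → K)) := by
        rw [Subtype.range_coe, hs]; exact Submodule.subset_span s.2
      obtain ⟨c, hc⟩ := (Submodule.mem_span_range_iff_exists_fun K).1 h4
      have h5 : ∑ i, φ (c i) • (i : J → K) = s := by
        rw [← s.2, ← hc]
        refine Eq.trans ?_ (map_sum τ' _ _).symm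
        exact Finset.sum_congr rfl fun i _ => by
          rw [show τ' (c i • (i : J → K)) = φ (c i) • τ i from h2 _ _, show τ i = i from hb i.2]
      have h6 := Fintype.linearIndependent_iff.1 hli (fun i => φ (c i) - c i) (by
        simp only [sub_smul, Finset.sum_sub_distrib, h5, hc, sub_self])
      exact ⟨fun i => ⟨c i, sub_eq_zero.1 (h6 i)⟩, hc⟩
  choose f hf using h3
  have h7 := Nat.card_le_card_of_injective f fun s s' e => Subtype.ext (by rw [← hf, ← hf, e])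
  rw [Nat.card_fun, Nat.card_eq_fintype_card (α := b)] at h7
  have h8 := (pow_le_pow_iff_right₀ Finite.one_lt_card).1 (hc.trans h7)
  have h9 := hli.fintype_card_le_finrank
  rw [Module.finrank_fintype_fun_eq_card] at h9
  have := hli.span_eq_top_of_card_eq_finrank' (by rw [Module.finrank_fintype_fun_eq_card]; convert le_antisymm h9 (by convert h8))
  rwa [Subtype.range_coe, hs] at this

end CL.T2.GenA
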