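/-
CLAS/T2 (S2193): generation of U by the simple root groups, untwisted groups
-/
import Cfsg.Agent.CLAS.T2.Def2
import Cfsg.Agent.CHEV.MinDeg7
import Cfsg.Agent.CHEV.TwG2

set_option autoImplicit false

namespace CL.T2.GT

open CL.Chev Cfsg.Lie

variable {ι κ : Type*} [Fintype κ] [DecidableEq κ] {R : RootSys ι κ} [Finite ι] {F G : Type*} [Field F]
  [Group G] {S : StData R F G}

theorem exists_ne [Finite F] (h3 : 3 ≤ Nat.card F) : ∃ a : F, a ≠ 0 ∧ a ≠ 1 := by
  by_contra h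
  push Not at h
  have := Fintype.ofFinite F
  classical
  have h1 : (Finset.univ : Finset F) ⊆ {0, 1} := fun a _ => by
    by_cases h0 : a = 0
    · simp [h0]
    · simp [h a h0]
  have h2 := (Finset.card_le_card h1).trans Finset.card_le_two
  rw [Finset.card_univ, ← Nat.card_eq_fintype_card] at h2
  omega

theorem exists_ne2 [Finite F] (h4 : 4 ≤ Nat.card F) : ∃ a b : F, a ≠ 0 ∧ a ≠ 1 ∧ b ≠ 0 ∧ b ≠ 1 ∧ a ≠ b := by
  obtain ⟨a, h0, h1⟩ := exists_ne (F := F) (by omega)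
  refine ⟨a, ?_⟩
  by_contra h
  push Not at h
  have := Fintype.ofFinite F
  classical
  have h1 : (Finset.univ : Finset F) ⊆ {0, 1, a} := fun b _ => by
    by_cases e0 : b = 0
    · simp [e0]
    · by_cases e1 : b = 1
      · simp [e1]
      · simp [← h b h0 h1 e0 e1]
  have h2 := (Finset.card_le_card h1).trans Finset.card_le_three
  rw [Finset.card_univ, ← Nat.card_eq_fintype_card] at h2
  omega

theorem of_A2 (hS : S.Good) {K : Subgroup G} {c d s : ι} (h : R.A2P c d s) (hc : ∀ t, S.x c t ∈ K)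
    (hd : ∀ t, S.x d t ∈ K) (v : F) : S.x s v ∈ K := by
  obtain ⟨ε, hε, hn, -⟩ := S.exists_signOK S c
  have e := hS.A2_conj' h hn 1 (ε d * v)
  have e2 : ε d * 1 * (ε d * v) = v := by rcases hε d with e | e <;> rw [e] <;> ring
  rw [e2] at e
  have : S.x s v = (S.x d (ε d * v))⁻¹ * (S.x c 1 * S.x d (ε d * v) * (S.x c 1)⁻¹) := by rw [e]; group
  rw [this]
  exact mul_mem (inv_mem (hd _)) (mul_mem (mul_mem (hc _) (hd _)) (inv_mem (hc _)))

theorem of_B2 (hS : S.Good) {a : F} (h0 : a ≠ 0) (h1 : a ≠ 1) {K : Subgroup G} {c d m l : ι} (h : R.B2P c d m l)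
    (hc : ∀ t, S.x c t ∈ K) (hd : ∀ t, S.x d t ∈ K) : (∀ v, S.x m v ∈ K) ∧ ∀ v, S.x l v ∈ K := by
  obtain ⟨ε, hε, hn, -⟩ := S.exists_signOK S c
  obtain ⟨ε', hε', hn', -⟩ := S.exists_signOK S d
  have e := (hS.B2_conj' h hn hn' hε').1
  have k : ∀ t u, S.x m (-ε' c * t * u) * S.x l (ε d * t ^ 2 * u) ∈ K := fun t u => by
    have : S.x m (-ε' c * t * u) * S.x l (ε d * t ^ 2 * u) =
        (S.x d u)⁻¹ * (S.x c t * S.x d u * (S.x c t)⁻¹) := by rw [e]; group
    rw [this]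
    exact mul_mem (inv_mem (hd _)) (mul_mem (mul_mem (hc _) (hd _)) (inv_mem (hc _)))
  have hd0 : ε d ≠ 0 := by rcases hε d with e | e <;> simp [e]
  have hc0 : ε' c ≠ 0 := by rcases hε' c with e | e <;> simp [e]
  have h1' : a - 1 ≠ 0 := sub_ne_zero.2 h1
  have hl : ∀ v, S.x l v ∈ K := fun v => by
    have k1 := k 1 (v / (ε d * (a - 1)))
    have k2 := k a (v / (ε d * (a - 1)) / a)
    have e1 : -ε' c * a * (v / (ε d * (a - 1)) / a) = -ε' c * 1 * (v / (ε d * (a - 1))) := by field_simp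
    have e2 : ε d * a ^ 2 * (v / (ε d * (a - 1)) / a) = ε d * 1 ^ 2 * (v / (ε d * (a - 1))) + v := by
      field_simp; ring
    rw [e1, e2, S.x_add, ← mul_assoc] at k2
    exact (K.mul_mem_cancel_left k1).1 k2
  refine ⟨fun v => ?_, hl⟩
  have k1 := k 1 (-v / ε' c)
  rw [show -ε' c * 1 * (-v / ε' c) = v by field_simp] at k1
  exact (K.mul_mem_cancel_right (hl _)).1 k1

theorem x_mem (hS : S.Good) (hR : R.NoG2) {a : F} (h0 : a ≠ 0) (h1 : a ≠ 1) {K : Subgroup G}
    (hK : ∀ i t, S.x (R.simple i) t ∈ K) {r : ι} (hr : R.IsPos r) : ∀ t, S.x r t ∈ K := by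
  refine R.pos_root_induction (P := fun r => ∀ t, S.x r t ∈ K) hK (fun i s hs hw ih => ?_) hr
  have hp : R.pair (R.simple i) s < 0 := by rwa [R.pair_simple]
  have n1 : s ≠ R.simple i := RootSys.ne_of_pair (R := R) (by omega)
  have n2 : s ≠ R.neg (R.simple i) := fun e => (R.isPos_neg _).1 (e ▸ hs) (R.isPos_simple i)
  have hc : R.IsComb (R.simple i) s (R.σ i s) := ⟨(-R.wt s i).toNat, 1, by omega, one_pos, by
    rw [R.rt_σ', Int.toNat_of_nonneg (by omega)]; simp [sub_eq_neg_add]⟩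
  rcases hR.pair_cases n1 n2 with h | ⟨k, h⟩ | ⟨m, l, h⟩ | ⟨m, l, h⟩ | ⟨d, l, h⟩
  · exact absurd hc (h.2 _)
  · rw [h.2.2 _ hc]; exact of_A2 hS h (hK i) ih
  · have := of_B2 hS h0 h1 h (hK i) ih
    rcases h.comb hc with e | e <;> rw [e]
    exacts [this.1, this.2]
  · have := of_B2 hS h0 h1 h ih (hK i)
    rcases h.comb hc.symm with e | e <;> rw [e]
    exacts [this.1, this.2]
  · have := R.pair_of_add h.2.2.1 (R.simple i)
    rw [R.pair_self, h.1] at this
    omega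

omit [Finite ι] in
theorem simple_mem (S : StData R F G) (i : κ) (t : F) :
    S.x (R.simple i) t ∈ ⨆ a, (S.XS (S.trivTw.pos a)).comap (MonoidHom.id G) :=
  Subgroup.mem_iSup_of_mem i (S.x_mem_XS (S.trivTw.simple_mem_pos rfl) t)

section G2

variable {K : Type*} [Field K]

/-- the root elements of `G₂` -/
abbrev y (k : Fin 12) (t : K) : chevG2.group K := (stG chevG2 K).x (rG2 k) t

theorem xN_y (k : Fin 12) (t : K) : xN (stG chevG2 K).x k t = y k t := xN_rG2 k t

theorem ba (t u : K) : y 6 u * y 7 t = y 7 t * y 6 u * y 8 (t * u) * y 9 (t ^ 2 * u) * y 10 (-(t ^ 3 * u)) *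
    y 11 (-(t ^ 3 * u ^ 2)) := by
  have key : ∀ {a b c d e f : Fin 12}, certG2.weqP 12 2 0 [(b, [(0, 1, 1)]), (a, [(1, 0, 1)])]
      [(a, [(1, 0, 1)]), (b, [(0, 1, 1)]), (c, [(1, 1, 1)]), (d, [(2, 1, 1)]), (e, [(3, 1, -1)]),
        (f, [(3, 2, -1)])] = true →
      y b u * y a t = y a t * y b u * y c (t * u) * y d (t ^ 2 * u) * y e (-(t ^ 3 * u)) * y f (-(t ^ 3 * u ^ 2)) :=
    fun h => by
      simpa [evG_cons, evG_nil, evP, xN_y, mul_assoc] using
        evG_eq_of_weqP (D := chevG2) (p := 0) Nat.cast_zero t u h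
  exact key (by decide +kernel)

theorem rel {a b f : Fin 12} {k : ℤ} (h : certG2.weqP 12 2 0 [(b, [(0, 1, 1)]), (a, [(1, 0, 1)])]
      [(a, [(1, 0, 1)]), (b, [(0, 1, 1)]), (f, [(1, 1, k)])] = true) (t u : K) :
    y b u * y a t = y a t * y b u * y f (k * (t * u)) := by
  simpa [evG_cons, evG_nil, evP, xN_y, mul_assoc] using
    evG_eq_of_weqP (D := chevG2) (p := 0) Nat.cast_zero t u h

theorem com {a b : Fin 12} (h : certG2.weqP 12 2 0 [(b, [(0, 1, 1)]), (a, [(1, 0, 1)])]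
      [(a, [(1, 0, 1)]), (b, [(0, 1, 1)])] = true) (t u : K) : y b u * y a t = y a t * y b u := by
  simpa [evG_cons, evG_nil, evP, xN_y, mul_assoc] using
    evG_eq_of_weqP (D := chevG2) (p := 0) Nat.cast_zero t u h

theorem y_add (k : Fin 12) (t u : K) : y k (t + u) = y k t * y k u := StData.x_add _ _ _ _

theorem y_zero (k : Fin 12) : y k (0 : K) = 1 := StData.x_zero _ _

/-- the image of `L` in `X₈ X₉ X₁₀ X₁₁ / X₁₁` -/
def P (L : Subgroup (chevG2.group K)) (a b c : K) : Prop := ∃ w, y 8 a * y 9 b * y 10 c * y 11 w ∈ L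

theorem P.add {L : Subgroup (chevG2.group K)} {a b c a' b' c' : K} (h : P L a b c) (h' : P L a' b' c') :
    P L (a + a') (b + b') (c + c') := by
  obtain ⟨w, h⟩ := h
  obtain ⟨w', h'⟩ := h'
  refine ⟨((-3 : ℤ) : K) * (a' * b) + w + w', ?_⟩
  have e : y 8 (a + a') * y 9 (b + b') * y 10 (c + c') * y 11 (((-3 : ℤ) : K) * (a' * b) + w + w') =
      y 8 a * y 9 b * y 10 c * y 11 w * (y 8 a' * y 9 b' * y 10 c' * y 11 w') := by
    have dc := rel (K := K) (a := 8) (b := 9) (f := 11) (k := -3) (by decide +kernel) a' b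
    have ec := com (K := K) (a := 8) (b := 10) (by decide +kernel)
    have ed := com (K := K) (a := 9) (b := 10) (by decide +kernel)
    have fc := com (K := K) (a := 8) (b := 11) (by decide +kernel)
    have fd := com (K := K) (a := 9) (b := 11) (by decide +kernel)
    have fe := com (K := K) (a := 10) (b := 11) (by decide +kernel)
    generalize ((-3 : ℤ) : K) * (a' * b) = v at dc
    have dc' : ∀ g, y 9 b * (y 8 a' * g) = y 8 a' * (y 9 b * (y 11 v * g)) := fun g => by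
      rw [← mul_assoc, dc]; simp only [mul_assoc]
    have ec' : ∀ t u g, y 10 u * (y 8 t * g) = y 8 t * (y 10 u * g) := fun (t u : K) g => by
      rw [← mul_assoc, ec, mul_assoc]
    have ed' : ∀ t u g, y 10 u * (y 9 t * g) = y 9 t * (y 10 u * g) := fun (t u : K) g => by
      rw [← mul_assoc, ed, mul_assoc]
    have fc' : ∀ t u g, y 11 u * (y 8 t * g) = y 8 t * (y 11 u * g) := fun (t u : K) g => by
      rw [← mul_assoc, fc, mul_assoc]
    have fd' : ∀ t u g, y 11 u * (y 9 t * g) = y 9 t * (y 11 u * g) := fun (t u : K) g => by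
      rw [← mul_assoc, fd, mul_assoc]
    have fe' : ∀ t u g, y 11 u * (y 10 t * g) = y 10 t * (y 11 u * g) := fun (t u : K) g => by
      rw [← mul_assoc, fe, mul_assoc]
    simp only [y_add, mul_assoc]
    rw [fc', fd', fe', ec', ed', dc', fd', fe', fe']
  rw [e]
  exact mul_mem h h'

theorem all_mem [Finite K] (h4 : 4 ≤ Nat.card K) {L : Subgroup (chevG2.group K)} (h6 : ∀ t, y 6 t ∈ L)
    (h7 : ∀ t, y 7 t ∈ L) : (∀ t, y 8 t ∈ L) ∧ (∀ t, y 9 t ∈ L) ∧ (∀ t, y 10 t ∈ L) ∧ ∀ t, y 11 t ∈ L := by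
  obtain ⟨a, b, a0, a1, b0, b1, ab⟩ := exists_ne2 h4
  have p0 : ∀ t u : K, P L (t * u) (t ^ 2 * u) (-(t ^ 3 * u)) := fun t u => ⟨-(t ^ 3 * u ^ 2), by
    have := mul_mem (inv_mem (mul_mem (h7 t) (h6 u))) (mul_mem (h6 u) (h7 t))
    rw [ba] at this
    convert this using 1
    group⟩
  have p1 : ∀ t : K, t ≠ 0 → ∀ u, P L u (t * u) (-(t ^ 2 * u)) := fun t ht u => by
    have := p0 t (u / t)
    convert this using 1 <;> field_simp
  have p2 : ∀ t : K, t ≠ 0 → t ≠ 1 → ∀ v, P L 0 v (-((t + 1) * v)) := fun t ht ht1 v => by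
    have h1 : t - 1 ≠ 0 := sub_ne_zero.2 ht1
    have := (p1 t ht (v / (t - 1))).add (p1 1 one_ne_zero (-(v / (t - 1))))
    convert this using 1 <;> field_simp <;> ring
  have p3 : ∀ z : K, P L 0 0 z := fun z => by
    have h1 : a - b ≠ 0 := sub_ne_zero.2 ab
    have := (p2 b b0 b1 (z / (a - b))).add (p2 a a0 a1 (-(z / (a - b))))
    convert this using 1 <;> field_simp <;> ring
  have p4 : ∀ v : K, P L 0 v 0 := fun v => by
    have := (p2 a a0 a1 v).add (p3 ((a + 1) * v))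
    convert this using 1 <;> ring
  have p5 : ∀ u : K, P L u 0 0 := fun u => by
    have := ((p1 1 one_ne_zero u).add (p4 (-u))).add (p3 u)
    convert this using 1 <;> ring
  have h11 : ∀ t, y 11 t ∈ L := fun t => by
    obtain ⟨w, hw⟩ := p3 1
    rw [y_zero, y_zero, one_mul, one_mul] at hw
    have eb := rel (K := K) (a := 6) (b := 10) (f := 11) (k := -1) (by decide +kernel) (-t) 1
    have fb := com (K := K) (a := 6) (b := 11) (by decide +kernel) (-t) w
    have := mul_mem (inv_mem (mul_mem (h6 (-t)) hw)) (mul_mem hw (h6 (-t)))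
    rw [mul_assoc (y 10 1), fb, ← mul_assoc (y 10 1), eb, show ((-1 : ℤ) : K) * (-t * 1) = t by simp, mul_assoc _ (y 11 t),
      ← y_add, add_comm, y_add] at this
    convert this using 1
    group
  refine ⟨fun t => ?_, fun t => ?_, fun t => ?_, h11⟩
  · obtain ⟨w, hw⟩ := p5 t
    rw [y_zero, y_zero, mul_one, mul_one] at hw
    exact (L.mul_mem_cancel_right (h11 w)).1 hw
  · obtain ⟨w, hw⟩ := p4 t
    rw [y_zero, y_zero, mul_one, one_mul] at hw
    exact (L.mul_mem_cancel_right (h11 w)).1 hw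
  · obtain ⟨w, hw⟩ := p3 t
    rw [y_zero, y_zero, one_mul, one_mul] at hw
    exact (L.mul_mem_cancel_right (h11 w)).1 hw

set_option backward.isDefEq.respectTransparency false in
theorem pos_cases : ∀ r : Rt chevG2, 0 < (rootSys chevG2).ht r →
    r = rG2 6 ∨ r = rG2 7 ∨ r = rG2 8 ∨ r = rG2 9 ∨ r = rG2 10 ∨ r = rG2 11 := by
  decide +kernel

end G2

end CL.T2.GT

namespace CL.T2

open CL.Chev Cfsg.Lie

variable {ι κ κ' : Type*} [Fintype κ] [DecidableEq κ] {R : RootSys ι κ} [Finite ι] {F Γ G : Type*} [Field F]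
  [Group Γ] [Group G] {S : StData R F Γ} {T : S.Twist κ'} {j : G →* Γ}

theorem gen_triv' [Finite F] [Finite G] {S : StData R F G} (hS : S.Good) (hR : R.NoG2) (h3 : 3 ≤ Nat.card F) :
    Gen S.trivTw (MonoidHom.id G) := by
  obtain ⟨a, h0, h1⟩ := GT.exists_ne h3
  unfold Gen
  rw [Subgroup.comap_id]
  exact S.XS_le_iff.2 fun r hr => GT.x_mem hS hR h0 h1 (GT.simple_mem S) hr

/-- explicit commutator relations of `G₂` -/
theorem gen_G2' [Finite F] (h4 : 4 ≤ Nat.card F) : Gen (stG chevG2 F).trivTw (MonoidHom.id _) := by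
  unfold Gen
  rw [Subgroup.comap_id]
  have h7 := GT.simple_mem (stG chevG2 F) (0 : Fin 2)
  have h6 := GT.simple_mem (stG chevG2 F) (1 : Fin 2)
  rw [(simple_G2' 0).1] at h7
  rw [(simple_G2' 1).1] at h6
  obtain ⟨h8, h9, h10, h11⟩ := GT.all_mem h4 h6 h7
  refine (stG chevG2 F).XS_le_iff.2 fun r hr => ?_
  rcases GT.pos_cases r hr with rfl | rfl | rfl | rfl | rfl | rfl
  exacts [h6, h7, h8, h9, h10, h11]

end CL.T2
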