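/-
CLAS/T2 (S2193): generation of U by the simple root groups
-/
import Cfsg.Agent.CLAS.T2.Def2
import Cfsg.Agent.CHEV.MinDeg7
import Cfsg.Agent.CLAS.T2.GenA
import Cfsg.Agent.CLAS.T2.GenT

set_option autoImplicit false

namespace CL.T2

open CL.Chev Cfsg.Lie

variable {ι κ κ' : Type*} [Fintype κ] [DecidableEq κ] {R : RootSys ι κ} [Finite ι] {F Γ G : Type*} [Field F]
  [Group Γ] [Group G] {S : StData R F Γ} {T : S.Twist κ'} {j : G →* Γ}

namespace GenM

open GenA StData StData.Twist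

variable {φ : F →+* F} {m q : ℕ} (h : T.MD j φ m q)
include h

theorem coord (a : κ') : ∃ (e : (T.J a → F) → Γ) (τ : (T.J a → F) → (T.J a → F)),
    (∀ s s', e (s + s') = e s * e s') ∧ (∀ k t, e (Pi.single k t) = S.x (R.simple k) t) ∧ Function.Injective e ∧
    (∀ g, g ∈ S.XS (T.pos a) ↔ ∃ s, e s = g) ∧ (∀ s, T.σ (e s) = e (τ s)) ∧ (∀ s s', τ (s + s') = τ s + τ s') ∧
    ∀ t s, τ (t • s) = φ t • τ s := by
  have := Fintype.ofFinite (T.J a)
  have hp := T.pos_eq_orth (h.orth a)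
  have hnc : ∀ r ∈ T.pos a, ∀ s ∈ T.pos a, R.NoComb r s := fun r hr s hs => by
    obtain ⟨i, hi⟩ := T.exists_mem_J a
    have e : T.pos a = T.cls (R.simple i) := by rw [T.cls_simple, T.mem_J.1 hi]
    exact h.noComb_cls (e ▸ hr) (e ▸ hs)
  let ϕ : ∀ _ : T.J a, Multiplicative F →* Γ := fun k =>
    MonoidHom.mk' (fun t => S.x (R.simple k) t.toAdd) fun t u => S.x_add _ _ _
  have hr : ∀ k, (ϕ k).range = S.X (R.simple k) := fun k => Subgroup.ext fun g =>
    ⟨fun ⟨t, e⟩ => e ▸ S.x_mem_X _ _, fun hg => let ⟨t, e⟩ := S.mem_X_iff.1 hg; ⟨.ofAdd t, e.symm⟩⟩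
  have hcomm : Pairwise fun k k' => ∀ x y, Commute (ϕ k x) (ϕ k' y) := fun k k' _ x y =>
    S.commute_of_noComb (hnc _ (T.simple_mem_pos k.2) _ (T.simple_mem_pos k'.2)) _ _
  have hind : iSupIndep fun k => (ϕ k).range := fun k => by
    have hcl : ∀ A ⊆ T.pos a, R.Closed A := fun A hA r hr s hs k hk => absurd hk ((hnc r (hA hr) s (hA hs)).2 k)
    have h1 : {R.simple k} ⊆ T.pos a := Set.singleton_subset_iff.2 (T.simple_mem_pos k.2)
    have := h.inf_eq_bot (A := {R.simple k}) (B := T.pos a \ {R.simple k})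
      (T.pw_pos fun r hr => (Set.union_subset h1 Set.sdiff_subset hr).1) (hcl _ h1) (hcl _ Set.sdiff_subset)
      Set.disjoint_sdiff_right
    refine Disjoint.mono (hr k).le (iSup₂_le fun k' hk => (hr k').le.trans (S.XS_mono ?_)) (disjoint_iff.2 this)
    exact Set.singleton_subset_iff.2 ⟨T.simple_mem_pos k'.2, fun e => hk (Subtype.ext (R.simple_injective e))⟩
  obtain ⟨E, E1, E2, E3⟩ : ∃ E : (T.J a → Multiplicative F) →* Γ, (∀ k t, E (Pi.mulSingle k t) = ϕ k t) ∧
      E.range = ⨆ k, (ϕ k).range ∧ Function.Injective E :=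
    ⟨MonoidHom.noncommPiCoprod ϕ hcomm, MonoidHom.noncommPiCoprod_mulSingle ϕ, MonoidHom.noncommPiCoprod_range ϕ,
      MonoidHom.injective_noncommPiCoprod_of_iSupIndep ϕ hind fun k t u e => h.good.x_injective _ e⟩
  let e : (T.J a → F) → Γ := fun s => E fun k => .ofAdd (s k)
  have e1 : ∀ s s', e (s + s') = e s * e s' := fun s s' =>
    (congrArg E (funext fun k => ofAdd_add _ _)).trans (map_mul E _ _)
  have e2 : ∀ k t, e (Pi.single k t) = S.x (R.simple k) t := fun k t => by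
    refine Eq.trans (congrArg E (funext fun k' => ?_)) (E1 k (.ofAdd t))
    by_cases e : k' = k
    · subst e; simp
    · simp [e]
  have e0 : e 0 = 1 := map_one E
  let πJ : Equiv.Perm (T.J a) := T.π.subtypePerm fun k => T.π_mem_J
  refine ⟨e, fun s k => φ (s (πJ⁻¹ k)), e1, e2, fun s s' hs => funext fun k => congrFun (E3 hs) k, fun g => ?_,
    fun s => ?_, fun s s' => funext fun k => map_add φ _ _, fun t s => funext fun k => map_mul φ _ _⟩
  · have : E.range = S.XS (T.pos a) := by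
      rw [E2]
      refine le_antisymm (iSup_le fun k => (hr k).le.trans
        (S.XS_mono (Set.singleton_subset_iff.2 (T.simple_mem_pos k.2)))) (S.XS_le_iff.2 fun r hr' t => ?_)
      rw [hp] at hr'
      obtain ⟨k, hk, rfl⟩ := hr'
      exact Subgroup.mem_iSup_of_mem ⟨k, hk⟩ ⟨.ofAdd t, rfl⟩
    rw [← this]
    exact ⟨fun ⟨s, hs⟩ => ⟨fun k => (s k).toAdd, hs⟩, fun ⟨s, hs⟩ => ⟨_, hs⟩⟩
  · induction s using Pi.single_induction with
    | zero => rw [e0, map_one, ← e0]; congr 1; funext k; simp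
    | add s s' h1 h2 => rw [e1, map_mul, h1, h2, ← e1]; congr 1; funext k; simp
    | single k t =>
      rw [e2, T.map_pos, h.f_eq]
      refine (e2 (πJ k) _).symm.trans (congrArg e (funext fun k' => ?_))
      obtain ⟨k', rfl⟩ := πJ.surjective k'
      by_cases e : k' = k
      · subst e; simp
      · simp [e]

theorem exists_nrm (r : ι) {y : G} (hy : y ∈ S.Yg j (T.cls r)) : ∃ z ∈ S.XS (T.cls r), nrm T.σ m z = j y := by
  obtain ⟨w, hw, i, rfl⟩ := h.exists_simple r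
  obtain ⟨n, hn⟩ := h.exists_n hw
  rw [RootSys.Sym.cls_W1 hw, T.cls_simple] at hy ⊢
  have hv : n⁻¹ * y * n ∈ S.Yg j (T.pos (T.c i)) := hn.inv_conj_Yg (fun r hr => by
    obtain ⟨s, hs, rfl⟩ := hr
    rwa [RootSys.perm_inv_apply]) hy
  obtain ⟨e, τ, e1, -, e3, e4, e5, -, e7⟩ := coord h (T.c i)
  obtain ⟨s, hs⟩ := (e4 _).1 hv
  have h1 : τ s = s := e3 (by rw [← e5, hs, h.σ_j])
  have h2 : ∀ t n, nrm T.σ n (e (t • s)) = e ((∑ i ∈ Finset.range n, φ^[i] t) • s) := fun t n => by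
    induction n with
    | zero =>
      have := e1 0 0
      rw [add_zero, left_eq_mul] at this
      simp [nrm, this]
    | succ n ih =>
      rw [nrm, ih, e5, e7, h1, ← e1, ← add_smul, Finset.sum_range_succ', map_sum, add_comm]
      simp only [Function.iterate_succ_apply', Function.iterate_zero_apply]
  obtain ⟨t, ht⟩ := h.tr 1 (map_one φ)
  refine ⟨_, hn.conj_mem_XS (fun r hr => Set.mem_image_of_mem w hr) ((e4 _).2 ⟨t • s, rfl⟩), ?_⟩
  rw [nrm_conj' (h.σ_j n), h2, ht, one_smul, hs, ← map_mul, ← map_inv, ← map_mul]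
  congr 1; group

theorem lift_nrm (c : ι) (t : F) : ∃ x ∈ S.Yg j (T.cls c), j x = nrm T.σ m (S.x c t) := by
  have hg : S.x c t ∈ S.XS (T.cls c) := S.x_mem_XS (T.mem_cls _) _
  have h8 := nrm_mem (σ := T.σ) (fun _ => T.map_mem_XS (MD.st_cls _)) hg m
  obtain ⟨x, hx⟩ := h.lift (MD.pw_cls _) h8 (nrm_fix (T.iterate_eq h.π_pow h.f_eq h.φ_pow (S.x_mem_grp _ _))
    (S.commute_XS (fun _ h1 _ h2 => h.noComb_cls h1 h2) hg h8))
  exact ⟨x, by rw [mem_Yg, hx]; exact h8, hx⟩

omit [Finite ι] in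
theorem st_ht (n : ℤ) : T.St {s | n < R.ht s} := fun s hs => by rwa [Set.mem_ofPred_eq, h.ht_ρ]

omit h [Finite ι] in
theorem ht_comb {r s k : ι} (hk : R.IsComb r s k) (hr : R.IsPos r) (hs : R.IsPos s) : R.ht r + R.ht s ≤ R.ht k :=
  hk.add_le RootSys.htL (le_of_lt hr) (le_of_lt hs)

omit h [Finite ι] in
theorem ideal_ht {n : ℤ} (hn : 0 ≤ n) : R.Ideal {r | R.IsPos r} {s | n < R.ht s} :=
  ⟨fun _ hs => hn.trans_lt hs, fun r hr s hs k hk => by
    have := ht_comb hk hr (hn.trans_lt hs)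
    have h1 : 0 < R.ht r := hr
    have h2 : n < R.ht s := hs
    show n < R.ht k
    omega⟩

theorem comm_x {c : ι} (hc : R.IsPos c) (k : κ) :
    (∀ t u, S.x c t * S.x (R.simple k) u * (S.x c t)⁻¹ * (S.x (R.simple k) u)⁻¹ = 1) ∨
    ∃ d, ∃ ε : F, ε ≠ 0 ∧ R.rt d = R.rt c + R.rt (R.simple k) ∧
      ∀ t u, S.x c t * S.x (R.simple k) u * (S.x c t)⁻¹ * (S.x (R.simple k) u)⁻¹ = S.x d (ε * t * u) := by
  by_cases hn : R.NoComb c (R.simple k)
  · exact .inl fun t u => by rw [S.comm_of_noComb hn]; group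
  have h0 : R.simple k ≠ R.neg c := fun e => (R.not_isPos_neg c).2 hc (e ▸ R.isPos_simple k)
  obtain ⟨d, hd⟩ : ∃ d, R.IsComb c (R.simple k) d := by
    by_contra hd
    exact hn ⟨h0, fun d hd' => hd ⟨d, hd'⟩⟩
  obtain ⟨h1, h2⟩ := RootSys.comb_add h.long hd h0
  have hp := (h.long _).a2P (h.long _) h2 h1
  obtain ⟨ε, hε, e⟩ := h.good.A2_conj hp
  refine .inr ⟨d, ε, by rcases hε with rfl | rfl <;> simp, h1, fun t u => ?_⟩
  rw [e, S.comm_of_noComb hp.noComb_right]; group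

theorem step [Finite F] {M : Subgroup G} (hc : ∀ x ∈ S.U.comap j, ∀ y ∈ S.U.comap j, x * y * x⁻¹ * y⁻¹ ∈ M) {r : ι}
    (hr : 1 < R.ht r) (hM : S.Yg j {s | R.ht r < R.ht s} ≤ M) : S.Yg j (T.cls r) ≤ M := by
  have hU : ∀ g ∈ S.U, T.σ g ∈ S.U := fun _ => T.map_mem_U
  have hn : ∀ n, 0 ≤ n → S.U ≤ Subgroup.normalizer (S.XS {s | n < R.ht s} : Set Γ) := fun n hn =>
    S.le_normalizer_of_ideal (R.nilp_pos fun _ => id) (ideal_ht hn)
  obtain ⟨Q, _, θ, σ', h1, h2, h3, h4⟩ := exists_quot T.σ hU (N := S.XS {s | R.ht r < R.ht s})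
    (fun _ => T.map_mem_XS (st_ht h _)) (hn _ (by omega))
  have hCU : S.XS {s | R.ht r - 1 < R.ht s} ≤ S.U := S.XS_le_U fun s hs => (ideal_ht (by omega)).1 hs
  let C := img h1 (S.XS {s | R.ht r - 1 < R.ht s})
  have hC : ∀ c ∈ C, σ' c ∈ C := by
    rintro _ ⟨c, hc, hc', rfl⟩
    exact ⟨_, T.map_mem_XS (st_ht h _) hc, hU _ hc', h2 _ hc'⟩
  have hz : ∀ c ∈ C, ∀ g, Commute g c := by
    rintro _ ⟨c, hc, hc', rfl⟩ g
    obtain ⟨g, hg, rfl⟩ := h4 g
    have h5 := S.comm_mem_of_le_normalizer (A := {s | R.IsPos s}) (B := {s | R.ht r - 1 < R.ht s})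
      (K := S.XS {s | R.ht r < R.ht s})
      (fun s hs s' hs' => (R.nilp_pos fun _ => id).ne_neg hs ((ideal_ht (by omega)).1 hs'))
      (hn _ (by omega)) (hCU.trans (hn _ (by omega))) (fun s hs s' hs' k hk v => S.x_mem_XS (by
        have := ht_comb hk hs ((ideal_ht (by omega)).1 hs')
        have h1 : 0 < R.ht s := hs
        have h2 : R.ht r - 1 < R.ht s' := hs'
        show R.ht r < R.ht k
        omega) v) (inv_mem hg) (inv_mem hc)
    rw [inv_inv, inv_inv, ← h3 _ (mul_mem (mul_mem (mul_mem hc' hg) (inv_mem hc')) (inv_mem hg)),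
      θ_comm h1 hc' hg] at h5
    exact (commutatorElement_eq_one_iff_commute.1 h5).symm
  let W := pre h1 (nw hC hz (img h1 (M.map j)) m)
  have hW : ∀ s, R.ht s = R.ht r → ∀ t, S.x s t ∈ W := fun s hs t => by
    have hs0 : R.IsPos s := by show 0 < R.ht s; omega
    obtain ⟨i, hi, -⟩ := R.exists_wt_pos hs0
    have hne : s ≠ R.simple i := fun e => by rw [e, R.ht_simple] at hs; omega
    have hi1 : R.wt s i = 1 := by
      have := RootSys.pair_le_one h.long hne
      rw [R.pair_simple] at this; omega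
    have hc0 := R.isPos_σ hs0 hne
    have hc1 := R.ht_σ i s
    have hc2 := R.rt_σ' i s
    rw [hi1] at hc1 hc2
    set c := R.σ i s
    obtain ⟨e, τ, e1, e2, e3, e4, e5, e6, e7⟩ := coord h (T.c i)
    have := Fintype.ofFinite (T.J (T.c i))
    have eU : ∀ s, e s ∈ S.U := fun s => S.XS_le_U (fun _ h => h.1) ((e4 _).2 ⟨s, rfl⟩)
    have xU : ∀ t, S.x c t ∈ S.U := S.x_mem_U hc0
    have hsp := span_top e6 e7 (by
      have e8 : Nat.card {s // τ s = s} = T.cJ (T.c i) := Nat.card_eq_of_bijective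
        (fun s => ⟨e s, (e4 _).2 ⟨_, rfl⟩, T.mem_Fix.2 (by rw [e5, s.2])⟩)
        ⟨fun s s' hs => Subtype.ext (e3 (congrArg Subtype.val hs)), fun g => by
          obtain ⟨s, hs⟩ := (e4 _).1 g.2.1
          exact ⟨⟨s, e3 (by rw [← e5, hs]; exact g.2.2)⟩, Subtype.ext hs⟩⟩
      rw [e8, h.cJ, h.card, T.pos_eq_orth (h.orth _), Set.ncard_image_of_injective _ R.simple_injective,
        ← Nat.card_coe_set_eq, Nat.card_eq_fintype_card])
    have key := span_step hC hz (M := img h1 (M.map j)) (n := m) (g := fun t => θ (S.x c t)) (e := fun s => θ (e s))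
      (fun s s' => by rw [e1, h1 _ (eU _) _ (eU _)]) (fun k t u => by
        rw [← θ_comm h1 (xU _) (eU _), e2]
        rcases comm_x h hc0 k with e | ⟨d, ε, -, hd, e⟩
        · rw [e, θ_one h1]; exact one_mem _
        · have h5 : R.ht r - 1 < R.ht d := by rw [RootSys.ht_of_add hd, R.ht_simple]; omega
          rw [e]; exact ⟨_, S.x_mem_XS h5 _, hCU (S.x_mem_XS h5 _), rfl⟩)
      (fun k t l u => by
        rw [← θ_comm h1 (xU _) (eU _), ← θ_comm h1 (xU _) (eU _), e2, e2]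
        rcases comm_x h hc0 k with e | ⟨d, ε, -, -, e⟩
        · rw [e, e]
        · rw [e, e]; congr 2; ring) hsp (fun s hs => by rw [← h2 _ (eU _), e5, show τ s = s from hs])
      (fun t s hs => by
        obtain ⟨x, hx, ex⟩ := lift_nrm h c t
        obtain ⟨y, ey⟩ := h.lift (T.pw_pos fun _ h => h.1) ((e4 _).2 ⟨s, rfl⟩)
          (T.mem_Fix.2 (by rw [e5, show τ s = s from hs]))
        have hx' : j x ∈ S.U := ex ▸ nrm_mem hU (xU t) m
        have hy' : j y ∈ S.U := ey ▸ eU s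
        rw [← θ_nrm h1 hU h2 (xU t), ← ex, ← ey, ← θ_comm h1 hx' hy']
        exact ⟨_, ⟨_, hc x hx' y hy', by simp⟩, mul_mem (mul_mem (mul_mem hx' hy') (inv_mem hx')) (inv_mem hy'), rfl⟩)
    rcases comm_x h hc0 i with e' | ⟨d, ε, hε, hd, e'⟩
    · exfalso
      have hp : R.pair c (R.simple i) = -1 := by
        rw [h.symm, R.pair_simple, R.wt_σ_self, hi1]
      obtain ⟨ε, hε, e''⟩ := h.good.A2_conj ((h.long _).a2P (h.long _) hp (s := s) (by rw [hc2]; simp))
      have h5 := e' 1 1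
      rw [e'', mul_inv_eq_one, mul_eq_left] at h5
      have := h.good.x_inj _ _ h5
      rcases hε with rfl | rfl <;> simp at this
    · obtain rfl : d = s := R.rt_inj (by rw [hd, hc2]; simp)
      have := key (t / ε) (Pi.single ⟨i, T.mem_J_c i⟩ 1)
      rw [← θ_comm h1 (xU _) (eU _), e2, e', mul_one, mul_div_cancel₀ _ hε] at this
      exact ⟨S.x_mem_U hs0 t, this⟩
  intro y hy
  obtain ⟨z, hz1, hz2⟩ := exists_nrm h r hy
  obtain ⟨hzU, -, _, ⟨x, hx, rfl⟩, hxU, e⟩ : z ∈ W := S.XS_le_iff.2 (fun s hs => hW s (h.ht_cls hs)) hz1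
  have hyU : j y ∈ S.U := hz2 ▸ nrm_mem hU hzU m
  rw [← θ_nrm h1 hU h2 hzU, hz2, ← inv_mul_eq_one, ← θ_inv h1 hxU, ← h1 _ (inv_mem hxU) _ hyU,
    h3 _ (mul_mem (inv_mem hxU) hyU), ← map_inv, ← map_mul] at e
  simpa using mul_mem hx (hM e)

theorem main [Finite F] {M : Subgroup G} (hL : ∀ a, S.Yg j (T.pos a) ≤ M)
    (hc : ∀ x ∈ S.U.comap j, ∀ y ∈ S.U.comap j, x * y * x⁻¹ * y⁻¹ ∈ M) : S.U.comap j ≤ M := by
  obtain ⟨b, hb⟩ := Finite.exists_le R.ht
  have H : ∀ n : ℕ, ∀ r, b - R.ht r ≤ n → 1 < R.ht r → S.Yg j (T.cls r) ≤ M := fun n => by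
    induction n using Nat.strong_induction_on with
    | _ n ih =>
      intro r h1 h2
      have hI := ideal_ht (R := R) (n := R.ht r) (by omega)
      refine step h hc h2 (h.Yg_le (T.pw_pos hI.1) (fun s hs s' hs' => hI.2 s (hI.1 hs) s' hs') (st_ht h _)
        fun s hs => ?_)
      have h3 : R.ht r < R.ht s := hs
      have := hb s
      exact ih (b - R.ht s).toNat (by omega) s (by omega) (by omega)
  refine h.Yg_le (A := {r | R.IsPos r}) (T.pw_pos fun _ => id) R.closed_pos (fun r hr => (T.isPos_ρ r).2 hr)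
    fun r hr => ?_
  by_cases h1 : 1 < R.ht r
  · exact H (b - R.ht r).toNat r (by omega) h1
  obtain ⟨i, hi, -⟩ := R.exists_wt_pos hr
  by_cases h2 : r = R.simple i
  · rw [h2, T.cls_simple]; exact hL _
  have h3 : 0 < R.ht _ := R.isPos_σ hr h2
  rw [R.ht_σ] at h3
  omega

end GenM

theorem card_sq [Finite F] {s : F →+* F} (h1 : ∀ t, s (s t) = t) (h2 : ∃ t, s t ≠ t) :
    Nat.card F = Nat.card (s.eqLocusField (RingHom.id F)) ^ 2 := by
  obtain ⟨a, ha⟩ := h2
  have h3 : s a - a ≠ 0 := sub_ne_zero.2 ha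
  rw [pow_two, ← Nat.card_prod]
  refine (Nat.card_eq_of_bijective (fun p : s.eqLocusField (RingHom.id F) × s.eqLocusField (RingHom.id F) =>
    (p.1 : F) + p.2 * a) ⟨fun p p' e => ?_, fun t => ?_⟩).symm
  · have e1 := congrArg s e
    simp only [map_add, map_mul, show s p.1 = p.1 from p.1.2, show s p.2 = p.2 from p.2.2,
      show s p'.1 = p'.1 from p'.1.2, show s p'.2 = p'.2 from p'.2.2] at e e1
    have e2 : (p.2 : F) = p'.2 := mul_right_cancel₀ h3 (by linear_combination e1 - e)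
    exact Prod.ext (Subtype.ext (by rw [e2] at e; exact add_right_cancel e)) (Subtype.ext e2)
  · have h4 : a - s a ≠ 0 := sub_ne_zero.2 ha.symm
    refine ⟨(⟨t - (s t - t) / (s a - a) * a, ?_⟩, ⟨(s t - t) / (s a - a), ?_⟩), by simp⟩
    · show s _ = _
      simp only [map_sub, map_mul, map_div₀, h1, RingHom.id_apply]; field_simp; ring
    · show s _ = _
      simp only [map_sub, map_div₀, h1, RingHom.id_apply]; field_simp; ring

theorem md_of_QS [Finite F] {s : F →+* F} (hS : S.Good) (hj : Function.Injective j) (hM : T.IsTw j.range)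
    (hQ : T.IsQS s) (hl : ∀ r, R.Long r) (ho : ∀ i, T.π i ≠ i → R.A i (T.π i) = 0) :
    T.MD j s 2 (Nat.card (s.eqLocusField (RingHom.id F))) := by
  have hA : ∀ i k, R.A (T.π i) (T.π k) = R.A i k := fun i k => by
    by_cases e : i = k
    · rw [e, R.A_self, R.A_self]
    have h1 : ∀ i k, R.A i k = 0 ↔ R.σ i (R.simple k) = R.simple k := fun i k =>
      ⟨fun e => R.rt_inj (by rw [R.rt_σ', R.wt_simple, e]; simp), fun e => by
        have := R.ht_σ i (R.simple k)
        rw [e, R.wt_simple] at this; omega⟩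
    have h2 : ∀ i k, i ≠ k → -1 ≤ R.A i k := fun i k _ => by
      have := RootSys.pair_le_one hl (r := R.simple i) (s := R.neg (R.simple k))
        fun e => (R.not_isPos_neg _).2 (R.isPos_simple k) (e ▸ R.isPos_simple i)
      rw [R.pair_neg_right, R.pair_simple, R.wt_simple] at this; omega
    have h3 : R.A (T.π i) (T.π k) = 0 ↔ R.A i k = 0 := by
      rw [h1, h1, ← T.ρ_simple, ← T.ρ_σ, T.ρ.injective.eq_iff]
    have e' : T.π i ≠ T.π k := fun e' => e (T.π.injective e')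
    have := h2 _ _ e
    have := h2 _ _ e'
    have := R.A_nonpos e
    have := R.A_nonpos e'
    omega
  refine ⟨hS, hj, hM, hl, hA, fun a i hi k hk hne => ?_, hQ.f_eq, Equiv.ext fun i => hQ.ππ i, hQ.ss,
    fun c hc => ?_, fun a => ?_, rfl, fun i hi => ?_⟩
  · obtain rfl : T.c i = a := hi
    rcases (T.mem_J_iff_of_invol hQ.ππ).1 hk with rfl | rfl
    exacts [absurd rfl hne, ho i hne.symm]
  · obtain ⟨v, hv⟩ := StData.Twist.exists_trace_eq hQ.ss hQ.s_ne hc
    exact ⟨v, by simpa [Finset.sum_range_succ] using hv⟩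
  · obtain ⟨i, rfl⟩ := T.c_surj a
    by_cases hi : T.π i = i
    · rw [T.cJ_one hS (hQ.J_fix hi), T.ncard_pos_one (hQ.J_fix hi), pow_one, hQ.f_eq]; rfl
    · rw [T.cJ_two hS (hQ.J_eq i) (Ne.symm hi) (ho i hi) rfl (hQ.ππ i) (by simp [hQ.f_eq, hQ.ss]),
        T.ncard_pos_two (hQ.J_eq i) (Ne.symm hi) (ho i hi), card_sq hQ.ss hQ.s_ne]
  · obtain ⟨t, h0, ht⟩ := exists_sq_ne hQ.s_ne
    have h1 : s t ≠ 0 := (map_ne_zero _).2 h0
    have h2 : s t / t ≠ 0 := div_ne_zero h1 h0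
    have h3 : T.f i (s t / t) = (s t / t)⁻¹ := by rw [hQ.f_eq, map_div₀, hQ.ss, inv_div]
    have h4 := (hM.h_mem_two hS (Ne.symm hi) (ho i hi) rfl (hQ.ππ i) (by simp [hQ.f_eq, hQ.ss]) (s t / t)).2
    rw [h3] at h4
    refine ⟨_, h4, mul_mem (S.h_mem_H _ h2) (S.h_mem_H _ (inv_ne_zero h2)), _,
      StData.h_mul_conj (fun r u => S.h_conj _ r h2 u) _ (inv_ne_zero h2), fun r hr => ?_, fun k hk => ?_⟩
    · rw [StData.Twist.wt_π hA hr, R.pair_simple, ← mul_zpow, mul_inv_cancel₀ h2, one_zpow]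
    · rw [R.pair_simple, R.wt_simple, R.wt_simple]
      rcases (T.mem_J_iff_of_invol hQ.ππ).1 hk with rfl | rfl
      · rw [(R.A_eq_zero_comm _ _).1 (ho k hi), R.A_self]; simpa using ht
      · rw [ho i hi, R.A_self, zpow_zero, one_mul, inv_zpow, Ne, inv_eq_one]; exact_mod_cast ht

/-- Height induction over the classes `T.cls r` (`MD.Yg_le`): a positive non-simple `r` has a simple `α` with
`⟨r, α⟩ = 1`, `r = w c` for `w = T.w a` (`a` the class of `α`) and `c` a positive root of smaller height.  Key trick: for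
`y ∈ X_c`, `n = x x' x''` (`x, x'' ∈ X_a`, `x' ∈ X_{-a}`), `n y n⁻¹` is a component of `x'' y x''⁻¹`; or use `MD.nd`
for fixed roots and explicit commutators for the other classes (modulo higher classes, downward/upward induction). -/
theorem gen_md [Finite F] [Finite G] {φ : F →+* F} {m q : ℕ} (h : T.MD j φ m q) : Gen T j := by
  have hU : Group.IsNilpotent (S.U.comap j) := by
    have := S.isNilpotent_U
    exact Subgroup.isNilpotent_of_ker_le_center (j.subgroupComap S.U) (by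
      rw [(MonoidHom.ker_eq_bot_iff _).2 fun a b e => Subtype.ext (h.inj (congrArg Subtype.val e))]; exact bot_le)
  refine GenA.le_of_nilp hU fun M h1 h2 => GenM.main h (fun a => le_trans (le_inf ?_ ?_) h1) h2
  exacts [le_iSup (fun a => (S.XS (T.pos a)).comap j) a, Subgroup.comap_mono (S.XS_le_U fun _ h => h.1)]

/-- the same for `²D_n` (and `²A_{2k+1}`, `²E_6`); prove `MD` as in `IsE6.md` or run the induction directly -/
theorem gen_QS [Finite F] [Finite G] {s : F →+* F} (h : T.IsLie j) (hs : T.IsQS s) (hl : ∀ r, R.Long r)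
    (ho : ∀ i, T.π i ≠ i → R.A i (T.π i) = 0) : Gen T j := gen_md (md_of_QS h.good h.inj h.isTw hs hl ho)

/-- Untwisted, no `G₂`, `q ≥ 3`.  Height induction: `r` positive non-simple, `a` simple with `r - a` a root, `c` the bottom
of the `a`-string through `r` (positive, lower).  Local lemma for roots `a, c` with `c - a` not a root, `a + c` a root:
`L = ⟨X_a, X_c⟩` contains all `X_{i a + k c}`.  String of length 2 under `±a`: for `y ∈ X_c`, `x_a y x_a⁻¹ = y e`,
and `n_a y n_a⁻¹` is the `X_{a+c}`-component of `e` (`X_{-a}` centralises `X_c`).  `B₂` (say `c` long, roots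
`a + c`, `2a + c`): `D = L ⊓ X_{a+c} X_{2a+c}` is `H`-invariant; `h_c(μ)`, `μ ≠ 1`, acts on `X_{a+c}` by `μ^{±1}` and
centralises `X_{2a+c}`, so `D = D₁ × D₂`; `D₁` is invariant under all scalars, `D₂` under squares (`h_a(λ)`; additive
span of the squares is `F`), so each is trivial or everything.  `D₂ = 1`: `X_c X_{a+c}` is normalised by `X_{±a}`, so by
`n_a`, but `n_a X_c n_a⁻¹ = X_{2a+c}`.  `D₁ = 1`: `X_a X_{2a+c}` is normalised by `X_{±c}`, but `n_c X_a n_c⁻¹ = X_{a+c}`. -/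
theorem gen_triv [Finite F] [Finite G] {S : StData R F G} (hS : S.Good) (hR : R.NoG2) (h3 : 3 ≤ Nat.card F) :
    Gen S.trivTw (MonoidHom.id G) := gen_triv' hS hR h3

/-- explicit commutator relations of `G₂`, or the torus argument (for `q ≥ 4` the torus separates enough) -/
theorem gen_G2 [Finite F] (h4 : 4 ≤ Nat.card F) : Gen (stG chevG2 F).trivTw (MonoidHom.id _) := gen_G2' h4

end CL.T2
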