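/-
CLAS/T2 (S2193): generation of U by the simple root groups for the large Ree groups
-/
import Cfsg.Agent.CLAS.T2.Def2
import Cfsg.Agent.INV.RF.Model
import Cfsg.Agent.INV.RF.Bru1

set_option autoImplicit false
set_option backward.isDefEq.respectTransparency false

namespace CL.T2

open CL.Chev Cfsg.Lie CL.RF CL.RF.U CL.RF.Md

variable {F G : Type*} [Field F] [Group G]

theorem GenF.gen [Finite F] {σ : F →+* F} [T : Tits σ] (hq : 2 < Nat.card F) {M : Subgroup (U σ)} (h1 : ∀ a, x1 a ∈ M)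
    (h8 : ∀ b c, y8 b c ∈ M) : M = ⊤ := by
  have := T.char
  refine frattini_nongenerating (eq_top_iff.2 fun g _ => ?_)
  rw [← inv_mul_cancel_right g (x1 g.a1 * y8 g.b8 0)]
  refine mul_mem (Subgroup.mem_sup_right (mem_frattini hq ?_ ?_)) (Subgroup.mem_sup_left (mul_mem (h1 _) (h8 _ _))) <;>
    usimp <;> exact CharTwo.add_self_eq_zero _

/-- `U = U₁ ⋯ U₈` is generated by `U₁`, `U₈` for `q > 2` (concrete model). -/
theorem gen_2F4 [Finite F] [Finite G] {m : ℕ} {T : (stG chevF4 F).Twist (Fin 2)} {θ : F →+* F} {c d : Rt chevF4}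
    {j : G →* chevF4.group F} (hT : StData.Twist.IsF4 (R := rootSys chevF4) T m θ c d) (hm : 1 ≤ m) (h : T.IsLie j) :
    Gen T j := by
  obtain rfl : c = rF4 28 := (rootSys chevF4).rt_inj (hT.rt_c.trans (by decide +kernel))
  obtain rfl : d = rF4 30 := (rootSys chevF4).rt_inj (hT.rt_d.trans (by decide +kernel))
  have := hT.charP
  obtain ⟨σ, hσ⟩ : ∃ σ : F →+* F, ∀ t, σ t = θ t ^ 2 := ⟨(frobenius F 2).comp θ, fun _ => rfl⟩
  have T' : Tits σ := ⟨this, fun t => by rw [hσ, hσ, map_pow, hT.θθ]⟩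
  have hq : 2 < Nat.card F := hT.card ▸ (Nat.pow_lt_pow_right one_lt_two (by omega) : 2 ^ 1 < _)
  set L := ⨆ a, ((stG chevF4 F).XS (T.pos a)).comap j
  have k : ∀ a g, g ∈ (stG chevF4 F).XS (T.pos a) ⊓ T.Fix → g ∈ L.map j := fun a g hg => by
    obtain ⟨x, rfl⟩ := h.isTw.pos_le a hg
    exact Subgroup.mem_map_of_mem j (Subgroup.mem_iSup_of_mem a hg.1)
  have t : (L.map j).comap (uu (σ := σ)) = ⊤ := GenF.gen hq (fun a => k 0 _ ((hT.mem_pos_zero stG_good).2 ⟨σ a, by
      rw [θσ hT hσ, ← (StData.commute_orth (i := (0 : Fin 4)) (j := (3 : Fin 4)) (by decide)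
        (by rw [rootSys_A_F4]; decide) ((stG chevF4 F).x_mem_XS (RootSys.simple_mem_sub_self _ _) _)
        ((stG chevF4 F).x_mem_XS (RootSys.simple_mem_sub_self _ _) _)).eq, uu_x1, (simple_F4 0).1, (simple_F4 3).1]
      simp only [evG_cons, evG_nil, mul_one, ← xN_rF4]
      rfl⟩)) fun b e => k 1 _ ((hT.mem_pos_one stG_good).2 ⟨σ b, e, by
      rw [uu_y8, θσ hT hσ, ← hσ, (simple_F4 1).1, (simple_F4 2).1]
      simp only [evG_cons, evG_nil, mul_one, mul_assoc, ← xN_rF4]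
      rfl⟩)
  have l : L.map j ≤ (stG chevF4 F).U ⊓ j.range := le_inf (Subgroup.map_le_iff_le_comap.2 (iSup_le fun a =>
    Subgroup.comap_mono ((stG chevF4 F).XS_mono fun _ hr => hr.1))) (Subgroup.map_le_range _ _)
  have c1 := hT.card_U stG_good h.isTw (by simp [chevF4])
  have : Finite ((stG chevF4 F).U ⊓ j.range : Subgroup _) := Nat.finite_of_card_ne_zero (c1 ▸ by positivity)
  have : Finite (L.map j) := Finite.Set.subset _ l
  have e := Subgroup.eq_of_le_of_card_ge l (c1 ▸ hT.card ▸ U.card_eq (σ := σ) ▸ Nat.card_le_card_of_injective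
    (fun g : U σ => (⟨uu g, t.ge trivial⟩ : L.map j)) fun a b e => uu_inj (congrArg Subtype.val e))
  exact fun g hg => (Subgroup.mem_map_iff_mem h.inj).1 (e.ge ⟨hg, g, rfl⟩)

end CL.T2
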