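/-
CLAS/T2 (S2193): Howlett's congruence, linear algebra
-/
import Cfsg.Agent.CLAS.T2.Fish
import Cfsg.Agent.SOLV.Frattini
import Mathlib.GroupTheory.FiniteAbelian.Duality
import Mathlib.RingTheory.RootsOfUnity.AlgebraicallyClosed
import Mathlib.Analysis.Complex.Polynomial.Basic
import Mathlib.LinearAlgebra.Trace

set_option autoImplicit false

namespace CL.T2.HowX

open MulAction Module LinearMap

theorem exists_char {U : Type*} [Group U] [Finite U] {p : ℕ} [Fact p.Prime] (hU : IsPGroup p U) {K : Subgroup U}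
    (hK : K ≠ ⊤) : ∃ ψ : U →* ℂˣ, ψ ≠ 1 ∧ ∀ k ∈ K, ψ k = 1 := by
  have := hU.isNilpotent
  have h1 : K ⊔ commutator U ≠ ⊤ := fun e => hK (frattini_nongenerating
    (top_unique (e ▸ sup_le_sup_left (commutator_le_frattini_of_isNilpotent U) K)))
  obtain ⟨x, hx⟩ : ∃ x, x ∉ K ⊔ commutator U := by
    by_contra! H
    exact h1 (top_unique fun x _ => H x)
  have : NeZero (Monoid.exponent (Abelianization U)) := ⟨Monoid.exponent_ne_zero_of_finite⟩
  have h := (CommGroup.forall_monoidHom_apply_eq_one_iff (G := Abelianization U) ℂ (K.map Abelianization.of)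
    (Abelianization.of x)).not.2 (by
      rwa [← Subgroup.mem_comap, Subgroup.comap_map_eq, Abelianization.ker_of])
  push Not at h
  obtain ⟨φ, h2, h3⟩ := h
  exact ⟨φ.comp Abelianization.of, fun e => h3 (DFunLike.congr_fun e x), fun k hk => h2 _ ⟨k, hk, rfl⟩⟩

theorem trace_of {H V W : Type*} [AddCommGroup H] [Module ℂ H] [AddCommGroup V] [Module ℂ V] [Fintype W]
    (c : Basis W ℂ H) (Φ : H →ₗ[ℂ] V) (f : H →ₗ[ℂ] H) (g : V →ₗ[ℂ] V) (hfg : ∀ x, g (Φ x) = Φ (f x))
    (A : W → Prop) [DecidablePred A] (h0 : ∀ w, ¬ A w → Φ (c w) = 0) (hs : Function.Surjective Φ)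
    (hc : Fintype.card {w // A w} = finrank ℂ V) : trace ℂ V g = ∑ w with A w, c.repr (f (c w)) w := by
  classical
  have e : ∀ x, Φ x = ∑ w : {w // A w}, c.repr x w • Φ (c w) := fun x => by
    conv_lhs => rw [← c.sum_repr x, map_sum]
    rw [← Finset.sum_subtype (Finset.univ.filter A) (by simp) fun w => c.repr x w • Φ (c w), Finset.sum_filter]
    exact Finset.sum_congr rfl fun w _ => by split_ifs with h <;> simp [h0, h]
  let b := basisOfTopLeSpanOfCardEqFinrank (fun w : {w // A w} => Φ (c w)) (fun v _ => by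
    obtain ⟨x, rfl⟩ := hs v
    rw [e]
    exact Submodule.sum_mem _ fun w _ => Submodule.smul_mem _ _ (Submodule.subset_span ⟨w, rfl⟩)) hc
  have hb : ∀ w, b w = Φ (c w) := fun w => congrFun (coe_basisOfTopLeSpanOfCardEqFinrank _ _ _) w
  rw [trace_eq_matrix_trace ℂ b, Matrix.trace,
    Finset.sum_subtype (Finset.univ.filter A) (p := A) (by simp) fun w => c.repr (f (c w)) w]
  refine Finset.sum_congr rfl fun w _ => ?_
  rw [Matrix.diag_apply, toMatrix_apply, hb, hfg, e]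
  simp only [← hb]
  rw [b.repr_sum_self]

variable {G A B : Type*} [Group G] [MulAction G A] [MulAction G B] {U : Subgroup G}

/-- eigenfunctions -/
def Zs (ψ : U →* ℂˣ) (A : Type*) [MulAction G A] : Submodule ℂ (A → ℂ) where
  carrier := {f | ∀ (u : U) a, (ψ u : ℂ) * f ((u : G) • a) = f a}
  zero_mem' u a := by simp
  add_mem' h h' u a := by simp [mul_add, h u a, h' u a]
  smul_mem' c f h u a := by simp [mul_left_comm _ c, h u a]

/-- equivariant maps -/
def Eqv (G : Type*) {A B : Type*} [Group G] [MulAction G A] [MulAction G B] (T : (A → ℂ) →ₗ[ℂ] (B → ℂ)) : Prop :=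
  ∀ (g : G) f, T (fun a => f (g • a)) = fun b => T f (g • b)

theorem Eqv.mem {T : (A → ℂ) →ₗ[ℂ] (B → ℂ)} (h : Eqv G T) (ψ : U →* ℂˣ) : ∀ f ∈ Zs ψ A, T f ∈ Zs ψ B :=
  fun f hf u b => by
    have e : (ψ u : ℂ) • (fun a => f ((u : G) • a)) = f := funext (hf u)
    have := congrFun (congrArg T e) b
    rwa [map_smul, h] at this

theorem eqv_of [Fintype A] {M : Matrix B A ℚ} (h : Fish.Inv G M) : Eqv G (M.map (algebraMap ℚ ℂ)).mulVecLin :=
  fun g f => funext fun b => by
    simp only [Matrix.mulVecLin_apply, Matrix.mulVec, dotProduct, Matrix.map_apply]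
    rw [← Equiv.sum_comp (MulAction.toPerm g) fun a => algebraMap ℚ ℂ (M (g • b) a) * f a]
    exact Finset.sum_congr rfl fun a _ => by rw [toPerm_apply, h]

open Matrix in
theorem exists_ir [Finite G] [Finite A] [Finite B] [IsPretransitive G B] (tw : Tw G A) {y : B}
    (hy : ¬ Tr (stabilizer G y) A) : ∃ (i : (A → ℂ) →ₗ[ℂ] (B → ℂ)) (r : (B → ℂ) →ₗ[ℂ] (A → ℂ)),
      Eqv G i ∧ Eqv G r ∧ (∀ f, r (i f) = f) ∧ i (r 1) = 1 := by
  classical
  cases nonempty_fintype A
  cases nonempty_fintype B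
  obtain ⟨M, α, l, hI, h1, h2, -, h3⟩ := Fish.exists_M tw hy
  have JJ : Fish.J A A * Fish.J A A = (Fintype.card A : ℚ) • Fish.J A A :=
    Fish.mul_J (fun u => by simp [Fish.J_apply]) A
  let R : Matrix A B ℚ := α⁻¹ • (M - (l / (α + l * Fintype.card A)) • (Fish.J A A * M))
  have hR : Fish.Inv G R := fun g a b => by
    have := Fish.Inv.mul (G := G) (M := Fish.J A A) (fun _ _ _ => rfl) hI g a b
    simp only [R, Matrix.smul_apply, Matrix.sub_apply, hI g, this]
  have hRM : R * Mᵀ = 1 := by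
    have : α + l * Fintype.card A ≠ 0 := by positivity
    simp only [R, Matrix.smul_mul, Matrix.sub_mul, Matrix.mul_assoc, h3, Matrix.mul_add, Matrix.mul_smul,
      Matrix.mul_one, JJ]
    match_scalars <;> field_simp <;> ring
  have hi := eqv_of hI.tr
  have hri : ∀ f, (R.map (algebraMap ℚ ℂ)).mulVecLin ((Mᵀ.map (algebraMap ℚ ℂ)).mulVecLin f) = f := fun f => by
    rw [mulVecLin_apply, mulVecLin_apply, mulVec_mulVec, ← Matrix.map_mul, hRM]
    simp
  refine ⟨_, _, hi, eqv_of hR, hri, ?_⟩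
  generalize (Mᵀ.map (algebraMap ℚ ℂ)).mulVecLin = i at *
  generalize (R.map (algebraMap ℚ ℂ)).mulVecLin = r at *
  have e : i 1 = i 1 y • 1 := funext fun b => by
    obtain ⟨g, rfl⟩ := exists_smul_eq G y b
    rw [Pi.smul_apply, Pi.one_apply, smul_eq_mul, mul_one]
    exact (congrFun (hi g 1) y).symm
  have h0 : i 1 y ≠ 0 := fun h0 => by
    obtain ⟨a, -⟩ := tw.nt
    have := congrFun (hri 1) a
    rw [e, h0] at this
    simp at this
  have e' : (1 : B → ℂ) = (i 1 y)⁻¹ • i 1 := by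
    conv_rhs => arg 2; rw [e]
    rw [smul_smul, inv_mul_cancel₀ h0, one_smul]
  conv_lhs => rw [e', map_smul, hri, map_smul, ← e']

variable [Fintype U]

/-- the projection to the eigenfunctions -/
noncomputable def E (ψ : U →* ℂˣ) (A : Type*) [MulAction G A] : (A → ℂ) →ₗ[ℂ] (A → ℂ) :=
  (Fintype.card U : ℂ)⁻¹ • ∑ u : U, (ψ u : ℂ) • funLeft ℂ ℂ fun a => (u : G) • a

theorem E_apply (ψ : U →* ℂˣ) (f : A → ℂ) (a : A) :
    E ψ A f a = (Fintype.card U : ℂ)⁻¹ * ∑ u : U, (ψ u : ℂ) * f ((u : G) • a) := by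
  simp [E, LinearMap.sum_apply, Finset.sum_apply, funLeft_apply]

theorem E_proj (ψ : U →* ℂˣ) : IsProj (Zs ψ A) (E ψ A) where
  map_mem f v a := by
    rw [E_apply, E_apply, mul_left_comm, Finset.mul_sum,
      ← Equiv.sum_comp (Equiv.mulRight v) fun u : U => (ψ u : ℂ) * f ((u : G) • a)]
    congr 1
    exact Finset.sum_congr rfl fun u _ => by simp [mul_smul]; ring
  map_id f hf := funext fun a => by
    rw [E_apply, Finset.sum_congr rfl fun u _ => hf u a]
    simp

theorem Eqv.E {T : (A → ℂ) →ₗ[ℂ] (B → ℂ)} (h : Eqv G T) (ψ : U →* ℂˣ) (f : A → ℂ) :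
    T (E ψ A f) = E ψ B (T f) := by
  simp only [HowX.E, LinearMap.smul_apply, LinearMap.sum_apply, map_smul, map_sum]
  congr 1
  exact Finset.sum_congr rfl fun u _ => congrArg _ (h u f)

theorem E_zero {ψ : U →* ℂˣ} {f : A → ℂ} {x : U} (hx : ψ x ≠ 1) (h : ∀ a, f ((x : G) • a) = f a) :
    E ψ A f = 0 := funext fun a => by
  have e : ∑ u : U, (ψ u : ℂ) * f ((u : G) • a) = ψ x * ∑ u : U, (ψ u : ℂ) * f ((u : G) • a) := by
    conv_lhs => rw [← Equiv.sum_comp (Equiv.mulLeft x)]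
    rw [Finset.mul_sum]
    exact Finset.sum_congr rfl fun u _ => by simp [mul_smul, h, mul_assoc]
  have h1 : (ψ x : ℂ) - 1 ≠ 0 := sub_ne_zero.2 fun e => hx (Units.ext e)
  rw [E_apply]
  generalize ∑ u : U, (ψ u : ℂ) * f ((u : G) • a) = s at e
  rw [(mul_eq_zero.1 (show ((ψ x : ℂ) - 1) * s = 0 by linear_combination -e)).resolve_left h1, mul_zero]
  rfl

theorem trace_E [Finite A] (ψ : U →* ℂˣ) : (finrank ℂ (Zs ψ A) : ℂ) =
    (Fintype.card U : ℂ)⁻¹ * ∑ u : U, (ψ u : ℂ) * Nat.card (fixedBy A (u : G)) := by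
  classical
  cases nonempty_fintype A
  rw [← (E_proj ψ).trace, E, map_smul, map_sum, smul_eq_mul]
  congr 1
  refine Finset.sum_congr rfl fun u _ => ?_
  rw [map_smul, smul_eq_mul, trace_eq_matrix_trace ℂ (Pi.basisFun ℂ A), Matrix.trace, Nat.card_eq_fintype_card,
    Fintype.card_subtype]
  simp [toMatrix_apply, funLeft_apply, Pi.single_apply, mem_fixedBy]

/-- the common kernel of the linear characters -/
def U0 (U : Subgroup G) : Subgroup G := (⨅ ψ : U →* ℂˣ, ψ.ker).map U.subtype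

omit [Fintype U] in
theorem mem_U0 {u : U} : (u : G) ∈ U0 U ↔ ∀ ψ : U →* ℂˣ, ψ u = 1 := by
  simp [U0, Subgroup.mem_iInf]

omit [Fintype U] in
theorem U0_le : U0 U ≤ U := Subgroup.map_subtype_le _

theorem sum_rank [Finite G] [Finite A] [Fintype (U →* ℂˣ)] :
    ∑ ψ : U →* ℂˣ, finrank ℂ (Zs ψ A) = Nat.card (orbitRel.Quotient (U0 U) A) := by
  classical
  cases nonempty_fintype A
  cases nonempty_fintype (U0 U)
  have h1 : ∀ u : U, ∑ ψ : U →* ℂˣ, (ψ u : ℂ) = if (u : G) ∈ U0 U then (Fintype.card (U →* ℂˣ) : ℂ) else 0 :=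
    fun u => by
      let ev : (U →* ℂˣ) →* ℂ := ⟨⟨fun ψ => ψ u, by simp⟩, by simp⟩
      have := sum_hom_units ev
      rw [if_congr (Q := (u : G) ∈ U0 U) (mem_U0.trans
        ⟨fun h => MonoidHom.ext fun ψ => congrArg Units.val (h ψ),
          fun h ψ => Units.ext (DFunLike.congr_fun h ψ)⟩).symm rfl rfl] at this
      exact_mod_cast this
  have h2 : ∀ f : G → ℂ, ∑ u : U, ∑ ψ : U →* ℂˣ, (ψ u : ℂ) * f u =
      Fintype.card (U →* ℂˣ) * ∑ u : U0 U, f u := fun f => by
    simp only [← Finset.sum_mul, h1, ite_mul, zero_mul]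
    rw [← Finset.sum_filter, ← Finset.mul_sum]
    congr 1
    exact Finset.sum_bij' (fun u hu => ⟨u, (Finset.mem_filter.1 hu).2⟩) (fun u _ => ⟨u, U0_le u.2⟩)
      (by simp) (by simp) (by simp) (by simp) (by simp)
  have h3 : (Fintype.card (U →* ℂˣ) : ℂ) * Fintype.card (U0 U) = Fintype.card U := by
    have := h2 fun _ => 1
    rw [Finset.sum_comm, Finset.sum_eq_single 1] at this
    · simpa using this.symm
    · intro ψ _ h
      simpa using sum_hom_units_eq_zero ((Units.coeHom ℂ).comp ψ) fun e =>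
        h (MonoidHom.ext fun u => Units.ext (DFunLike.congr_fun e u))
    · simp
  have h4 := sum_card_fixedBy_eq_card_orbits_mul_card_group (U0 U) A
  have h5 : ∑ u : U0 U, (Nat.card (fixedBy A (u : G)) : ℂ) =
      Nat.card (orbitRel.Quotient (U0 U) A) * Fintype.card (U0 U) := by
    simp only [← Nat.card_eq_fintype_card] at h4 ⊢
    exact_mod_cast h4
  have h6 : (Fintype.card U : ℂ) ≠ 0 := by simp
  apply Nat.cast_injective (R := ℂ)
  rw [Nat.cast_sum, Finset.sum_congr rfl fun ψ _ => trace_E ψ, ← Finset.mul_sum, Finset.sum_comm,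
    h2 fun g => Nat.card (fixedBy A g), h5, mul_left_comm (_ : ℂ) (Nat.card _ : ℂ), h3]
  field_simp

end CL.T2.HowX
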