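/-
CLAS/T2 (S2193): Howlett's congruence, abstract part
-/
import Cfsg.Agent.CLAS.T2.HowL
import Cfsg.Agent.CLAS.T2.Blk

set_option autoImplicit false

namespace CL.T2

open MulAction

/-- Bruhat data.  Model: `W = W¹`, `cell g = w` for `g ∈ U n_w B`, `S` the classes of simple roots, `X a = X_a`,
`Q J = U_J` (unipotent radical), `L J = ⟨X_r | r ∈ Φ_J⁺⟩`, `D w = {a | w⁻¹ (pos a) < 0}`, `len w = #{r > 0 | w⁻¹ r < 0}`,
`C w = W_{D w} w`, `n J` a representative of the longest element of `W_J`. -/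
structure How {G W S : Type*} [Group G] (B U : Subgroup G) (cell : G → W) (X : S → Subgroup G)
    (Q L : Set S → Subgroup G) (D : W → Set S) (len : W → ℕ) (C : W → Set W) (n : Set S → G) (w₀ : W) : Prop where
  surj : Function.Surjective cell
  cell_eq : ∀ g g', cell g = cell g' ↔ ∃ u ∈ U, ∃ b ∈ B, g' = u * g * b
  X_le : ∀ a, X a ≤ U
  X_ne : ∀ a, X a ≠ ⊥
  gen : U ≤ ⨆ a, X a
  Q_nz : ∀ J, Nz U (Q J)
  X_Q : ∀ J, ∀ a ∉ J, X a ≤ Q J
  X_L : ∀ J, ∀ a ∈ J, X a ≤ L J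
  Q_L : ∀ J, Q J ⊓ L J = ⊥
  self : ∀ w, w ∈ C w
  lt : ∀ w, ∀ v ∈ C w, v ≠ w → len v < len w
  top : D w₀ = Set.univ ∧ C w₀ = Set.univ ∧ ∀ w, D w = Set.univ → w = w₀
  /-- `(n J)⁻¹ X_{a'} (n J) = X_{-a} ≤ P_a` -/
  inv : ∀ J w, ∀ a ∈ J, a ∈ D w → ∃ a' ∈ J, ∀ x ∈ X a', ∀ g, cell g ∈ C w → cell ((n J)⁻¹ * x * n J * g) ∈ C w
  /-- `U n_d B = U_d n_d B` with `U_d ≤ Q J`; `n J` normalises `Q J`; `U ∩ w B w⁻¹ ≤ Q J` for `w = w_J d` -/
  sep : ∀ J g g', Disjoint (D (cell g)) J → Disjoint (D (cell g')) J → ∀ u ∈ U, ∀ b ∈ B,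
    u * (n J * g') * b = n J * g → cell g = cell g' ∧ u ∈ Q J
  /-- `cell (n J * g) = w_J * cell g` -/
  wd : ∀ J g g', Disjoint (D (cell g)) J → cell g = cell g' → cell (n J * g) = cell (n J * g')
  /-- either `J ⊆ D w`, `w = w_J d`, or some `X_a`, `a ∈ J`, lies in `n_w B n_w⁻¹` -/
  cov : ∀ J g, (∃ g', Disjoint (D (cell g')) J ∧ cell g = cell (n J * g')) ∨
    ∃ a ∈ J, ∃ g', cell g' = cell g ∧ ∀ x ∈ X a, g'⁻¹ * x * g' ∈ B

namespace How

open HowX Module LinearMap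

variable {G W S Ω : Type*} [Group G] [Finite G] [MulAction G Ω] [Finite Ω]
  {B U : Subgroup G} {cell : G → W} {X : S → Subgroup G} {Q L : Set S → Subgroup G} {D : W → Set S} {len : W → ℕ}
  {C : W → Set W} {n : Set S → G} {w₀ : W}

/-- the support of a linear character -/
def supp (X : S → Subgroup G) (ψ : U →* ℂˣ) : Set S := {a | ∃ x : U, (x : G) ∈ X a ∧ ψ x ≠ 1}

variable (H : How B U cell X Q L D len C n w₀)
include H

omit [Finite G] in
theorem ker_Q (ψ : U →* ℂˣ) {u : U} (hu : (u : G) ∈ Q (supp X ψ)) : ψ u = 1 := by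
  obtain ⟨m, h1, h2, l, h3, e⟩ : ∃ m : U, ψ m = 1 ∧ (m : G) ∈ Q (supp X ψ) ∧ ∃ l : U, (l : G) ∈ L (supp X ψ) ∧
      (u : G) = m * l := by
    refine Subgroup.iSup_induction X (C := fun g => ∃ m : U, ψ m = 1 ∧ (m : G) ∈ Q (supp X ψ) ∧ ∃ l : U,
      (l : G) ∈ L (supp X ψ) ∧ g = m * l) (H.gen u.2) (fun a x hx => ?_) ⟨1, map_one _, one_mem _, 1, one_mem _, by simp⟩ ?_
    · by_cases h : a ∈ supp X ψ
      · exact ⟨1, map_one _, one_mem _, ⟨x, H.X_le a hx⟩, H.X_L _ a h hx, by simp⟩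
      · exact ⟨⟨x, H.X_le a hx⟩, by_contra fun e => h ⟨_, hx, e⟩, H.X_Q _ a h hx, 1, one_mem _, by simp⟩
    · rintro _ _ ⟨m, h1, h2, l, h3, rfl⟩ ⟨m', h1', h2', l', h3', rfl⟩
      exact ⟨m * (l * m' * l⁻¹), by simp [h1, h1'], mul_mem h2 (H.Q_nz _ _ l.2 _ h2'), l * l', mul_mem h3 h3',
        by simp [mul_assoc]⟩
  have : (l : G) ∈ Q (supp X ψ) ⊓ L (supp X ψ) := ⟨by simpa [e] using mul_mem (inv_mem h2) hu, h3⟩
  rw [H.Q_L, Subgroup.mem_bot] at this
  rwa [Subtype.ext (show (u : G) = m by rw [e, this, mul_one])]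

theorem card_sub {p : ℕ} [Fact p.Prime] (hU : IsPGroup p U) (J : Set S) [Decidable (J = ∅)] :
    (Nat.card {ψ : U →* ℂˣ // supp X ψ ⊆ J} : ZMod p) = if J = ∅ then 1 else 0 := by
  let T : Subgroup (U →* ℂˣ) :=
    { carrier := {ψ | ∀ a ∉ J, ∀ x : U, (x : G) ∈ X a → ψ x = 1}
      one_mem' _ _ _ _ := rfl
      mul_mem' h h' a ha x hx := by rw [MonoidHom.mul_apply, h a ha x hx, h' a ha x hx, mul_one]
      inv_mem' h a ha x hx := by rw [MonoidHom.inv_apply, h a ha x hx, inv_one] }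
  have e : Nat.card {ψ : U →* ℂˣ // supp X ψ ⊆ J} = Nat.card T := Nat.card_congr (Equiv.subtypeEquivRight fun ψ =>
    ⟨fun h a ha x hx => by_contra fun e => ha (h ⟨x, hx, e⟩), fun h a ⟨x, hx, e⟩ => by_contra fun ha => e (h a ha x hx)⟩)
  rw [e]
  split_ifs with hJ
  · have : T = ⊥ := bot_unique fun ψ h => Subgroup.mem_bot.2 (MonoidHom.ext fun u => by
      have : U ≤ ψ.ker.map U.subtype := H.gen.trans (iSup_le fun a x hx =>
        ⟨⟨x, H.X_le a hx⟩, h a (by simp [hJ]) _ hx, rfl⟩)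
      obtain ⟨v, hv, e⟩ := this u.2
      rwa [← show v = u from Subtype.ext e])
    simp [this]
  · obtain ⟨a, ha⟩ := Set.nonempty_iff_ne_empty.2 hJ
    obtain ⟨ψ, h1, h2⟩ := exists_char hU (K := (Q J).subgroupOf U) fun e => H.X_ne a (bot_unique (H.Q_L J ▸
      le_inf ((H.X_le a).trans (Subgroup.subgroupOf_eq_top.1 e)) (H.X_L J a ha)))
    obtain ⟨k, hk⟩ := hU.exists_card_eq
    have hT : IsPGroup p T := fun φ => ⟨k, Subtype.ext (MonoidHom.ext fun u => by
      rw [← hk, Subgroup.coe_pow, MonoidHom.pow_apply, ← map_pow, pow_card_eq_one', map_one]; rfl)⟩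
    refine (ZMod.natCast_eq_zero_iff _ _).2 (hT.card_eq_or_dvd.resolve_left fun e => h1 ?_)
    have := Subgroup.eq_bot_of_card_eq _ e
    exact Subgroup.mem_bot.1 (this ▸ show ψ ∈ T from fun b hb x hx => h2 x (H.X_Q J b hb hx))

open Classical in
theorem card_eq [Fintype S] [Fintype (U →* ℂˣ)] {p : ℕ} [Fact p.Prime] (hU : IsPGroup p U) (J : Finset S) :
    ((Finset.univ.filter fun ψ : U →* ℂˣ => (supp X ψ).toFinset = J).card : ZMod p) = (-1) ^ J.card := by
  induction J using Finset.strongInduction with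
  | H J ih =>
    have h1 := H.card_sub hU (J : Set S)
    have h2 := congrArg (Int.cast : ℤ → ZMod p) (Finset.sum_powerset_neg_one_pow_card (x := J))
    rw [Nat.card_eq_fintype_card, Fintype.card_subtype, Finset.card_eq_sum_card_fiberwise
      (f := fun ψ => (supp X ψ).toFinset) (t := J.powerset) (fun ψ h => by simpa using h)] at h1
    push_cast at h1 h2
    simp only [Finset.coe_eq_empty] at h1
    rw [← h2, ← Finset.add_sum_erase _ _ (Finset.mem_powerset_self J),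
      ← Finset.add_sum_erase _ _ (Finset.mem_powerset_self J)] at h1
    have h3 : ∀ I ∈ J.powerset, ((Finset.univ.filter fun ψ : U →* ℂˣ => supp X ψ ⊆ J).filter
        fun ψ => (supp X ψ).toFinset = I) = Finset.univ.filter fun ψ : U →* ℂˣ => (supp X ψ).toFinset = I :=
      fun I hI => by
        rw [Finset.filter_filter]
        refine Finset.filter_congr fun ψ _ => and_iff_right_of_imp ?_
        rintro rfl
        simpa using hI
    rw [h3 J (Finset.mem_powerset_self J), Finset.sum_congr rfl fun I hI => by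
      rw [h3 I (Finset.mem_of_mem_erase hI), ih I (Finset.ssubset_iff_subset_ne.2
        ⟨Finset.mem_powerset.1 (Finset.mem_of_mem_erase hI), Finset.ne_of_mem_erase hI⟩)]] at h1
    exact add_right_cancel h1

omit [Finite G] in
open Classical in
theorem exists_basis [Fintype W] : ∃ c : Basis W ℂ (W → ℂ), ∀ w v, c w v = if v ∈ C w then 1 else 0 := by
  refine ⟨basisOfLinearIndependentOfCardEqFinrank' (fun w v => if v ∈ C w then 1 else 0)
    (Fintype.linearIndependent_iff.2 fun g hg => ?_) (by simp), fun w v => by simp⟩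
  by_contra! h
  obtain ⟨w, h1, h2⟩ := Finset.exists_max_image (Finset.univ.filter fun w => g w ≠ 0) len
    (h.imp fun w hw => by simpa using hw)
  have := congrFun hg w
  rw [Finset.sum_apply, Finset.sum_eq_single w] at this
  · simp [H.self] at this h1
    exact h1 this
  · intro v _ hv
    by_cases e : w ∈ C v
    · have : g v = 0 := by_contra fun h => (H.lt v w e hv.symm).not_ge (h2 v (by simpa using h))
      simp [this]
    · simp [e]
  · simp

open Classical in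
theorem exists_diag [Fintype W] (tw : Tw G Ω) (hB : ¬ Tr B Ω) : ∃ d : W → ℂ, d w₀ = 1 ∧
    ∀ ψ : U →* ℂˣ, (finrank ℂ (Zs ψ Ω) : ℂ) = ∑ w with Disjoint (D w) (supp X ψ), d w := by
  cases nonempty_fintype U
  obtain ⟨i, r, hi, hr, hri, h1⟩ := exists_ir (B := G ⧸ B) tw (y := ((1 : G) : G ⧸ B))
    (by rwa [stabilizer_quotient])
  obtain ⟨c, hc⟩ := H.exists_basis
  choose rep hrep using H.surj
  let cy : G ⧸ B → W := fun y => cell y.out
  have hcy : ∀ g : G, cy g = cell g := fun g => by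
    obtain ⟨b, e⟩ := QuotientGroup.mk_out_eq_mul B g
    exact ((H.cell_eq _ _).2 ⟨1, one_mem _, b, b.2, by rw [e, one_mul]⟩).symm
  have orb : ∀ g g' : G, cell g = cell g' → ∃ u : U, (g' : G ⧸ B) = (u : G) • (g : G ⧸ B) := fun g g' h => by
    obtain ⟨u, hu, b, hb, rfl⟩ := (H.cell_eq _ _).1 h
    exact ⟨⟨u, hu⟩, QuotientGroup.mk_mul_of_mem _ hb⟩
  let κ : (W → ℂ) →ₗ[ℂ] (G ⧸ B → ℂ) := funLeft ℂ ℂ cy
  have hκ : ∀ x (g : G), κ x g = x (cell g) := fun x g => congrArg x (hcy g)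
  let f : (W → ℂ) →ₗ[ℂ] (W → ℂ) := funLeft ℂ ℂ (fun w => (rep w : G ⧸ B)) ∘ₗ i ∘ₗ r ∘ₗ κ
  have hf : ∀ x, κ (f x) = i (r (κ x)) := fun x => funext fun y => by
    obtain ⟨g, rfl⟩ := QuotientGroup.mk_surjective y
    have : κ x ∈ Zs (1 : U →* ℂˣ) (G ⧸ B) := fun u y => by
      obtain ⟨g, rfl⟩ := QuotientGroup.mk_surjective y
      rw [MulAction.Quotient.smul_mk, hκ, hκ, (H.cell_eq g _).2 ⟨u, u.2, 1, one_mem _, (mul_one _).symm⟩]
      simp
    obtain ⟨u, e⟩ := orb _ _ (hrep (cell g))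
    have := hi.mem 1 _ (hr.mem 1 _ this) u (rep (cell g))
    rw [hκ, e]
    rw [MonoidHom.one_apply, Units.val_one, one_mul] at this
    exact this.symm
  refine ⟨fun w => c.repr (f (c w)) w, ?_, fun ψ => ?_⟩
  · have e : c w₀ = 1 := funext fun v => by simp [hc, H.top.2.1]
    have : f (c w₀) = c w₀ := by
      rw [e]
      exact congrArg (funLeft ℂ ℂ fun w => (rep w : G ⧸ B)) h1
    simp [this]
  set J := supp X ψ with hJ
  let Φ₀ : (W → ℂ) →ₗ[ℂ] (G ⧸ B → ℂ) := E ψ _ ∘ₗ funLeft ℂ ℂ (fun y => (n J)⁻¹ • y) ∘ₗ κ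
  have hΦ₀ : ∀ x, Φ₀ x = E ψ _ fun y => κ x ((n J)⁻¹ • y) := fun _ => rfl
  let Φ : (W → ℂ) →ₗ[ℂ] Zs ψ (G ⧸ B) := Φ₀.codRestrict _ fun x => (E_proj ψ).map_mem _
  let ev : Zs ψ (G ⧸ B) →ₗ[ℂ] ({w // Disjoint (D w) J} → ℂ) :=
    funLeft ℂ ℂ (fun d => ((n J * rep d.1 : G) : G ⧸ B)) ∘ₗ Submodule.subtype _
  have hev : ∀ z d, ev z d = z.1 ((n J * rep d.1 : G) : G ⧸ B) := fun _ _ => rfl
  have inj : Function.Injective ev := (injective_iff_map_eq_zero _).2 fun z hz => Subtype.ext (funext fun y => by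
    obtain ⟨g, rfl⟩ := QuotientGroup.mk_surjective y
    have key : ∀ g', cell g' = cell g → z.1 (g' : G ⧸ B) = 0 → z.1 (g : G ⧸ B) = 0 := fun g' e h0 => by
      obtain ⟨u, e⟩ := orb _ _ e
      have := z.2 u g'
      rwa [h0, ← e, mul_eq_zero, or_iff_right (ψ u).ne_zero] at this
    rcases H.cov J g with ⟨g', h2, e⟩ | ⟨a, ⟨x, hx, hψ⟩, g', e, h2⟩
    · exact key _ ((H.wd J g' _ h2 (hrep _).symm).symm.trans e.symm) (congrFun hz ⟨_, h2⟩)
    · refine key g' e ?_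
      have := z.2 x g'
      rw [MulAction.Quotient.smul_mk, smul_eq_mul, ← QuotientGroup.eq.2 (show g'⁻¹ * (x * g') ∈ B from
        mul_assoc g'⁻¹ _ _ ▸ h2 x hx)] at this
      exact (mul_eq_zero.1 (show ((ψ x : ℂ) - 1) * _ = 0 by rw [sub_mul, this, one_mul, sub_self])).resolve_left
        (sub_ne_zero.2 fun e => hψ (Units.ext e)))
  have sg : ∀ d : {w // Disjoint (D w) J}, ∃ k : ℂ, k ≠ 0 ∧ ev (Φ (Pi.single d.1 1)) = k • Pi.single d 1 := fun d => by
    have h3 : ∀ (d' : {w // Disjoint (D w) J}) (u : U), cell ((n J)⁻¹ * (u * (n J * rep d'.1))) = d.1 →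
        d = d' ∧ ψ u = 1 := fun d' u e => by
      have h4 := H.sep J _ (rep d'.1) (e.symm ▸ d.2) ((hrep d'.1).symm ▸ d'.2) u u.2 1 (one_mem _)
        (by rw [mul_one, mul_inv_cancel_left])
      exact ⟨Subtype.ext (by rw [← e, h4.1, hrep]), H.ker_Q ψ h4.2⟩
    have h4 : ∀ d', ev (Φ (Pi.single d.1 1)) d' = (Fintype.card U : ℂ)⁻¹ *
        ∑ u : U, if cell ((n J)⁻¹ * (u * (n J * rep d'.1))) = d.1 then 1 else 0 := fun d' => by
      rw [hev, codRestrict_apply, hΦ₀, E_apply]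
      congr 1
      refine Finset.sum_congr rfl fun u _ => ?_
      rw [MulAction.Quotient.smul_mk, MulAction.Quotient.smul_mk, hκ, Pi.single_apply, smul_eq_mul, smul_eq_mul]
      split_ifs with e
      · simp [(h3 d' u e).2]
      · simp
    refine ⟨ev (Φ (Pi.single d.1 1)) d, ?_, funext fun d' => ?_⟩
    · rw [h4, Finset.sum_boole]
      refine mul_ne_zero (by simp) (Nat.cast_ne_zero.2 (Finset.card_ne_zero.2 ⟨1, ?_⟩))
      simp [hrep]
    · by_cases e : d' = d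
      · simp [e]
      · rw [h4, Finset.sum_eq_zero fun u _ => if_neg fun e' => e (h3 d' u e').1.symm]
        simp [e]
  have sur : Function.Surjective (ev ∘ₗ Φ) := by
    rw [← range_eq_top, eq_top_iff, ← (Pi.basisFun ℂ _).span_eq, Submodule.span_le]
    rintro _ ⟨d, rfl⟩
    obtain ⟨k, hk, e⟩ := sg d
    exact ⟨k⁻¹ • Pi.single d.1 1, by rw [map_smul, comp_apply, e, smul_smul, inv_mul_cancel₀ hk]; simp⟩
  have := trace_of c Φ f (i.restrict (hi.mem ψ) ∘ₗ r.restrict (hr.mem ψ)) (fun x => Subtype.ext (by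
      change i (r (Φ₀ x)) = Φ₀ (f x)
      rw [hΦ₀, hΦ₀, hr.E, hi.E, hr, hi, hf])) (fun w => Disjoint (D w) J) (fun w hw => Subtype.ext (by
      obtain ⟨a, h2, h3⟩ := Set.not_disjoint_iff.1 hw
      obtain ⟨a', ⟨x, hx, hψ⟩, h4⟩ := H.inv J w a h3 h2
      refine E_zero hψ fun y => ?_
      obtain ⟨g, rfl⟩ := QuotientGroup.mk_surjective y
      change κ (c w) ((n J)⁻¹ • (x : G) • (g : G ⧸ B)) = κ (c w) ((n J)⁻¹ • (g : G ⧸ B))
      simp only [MulAction.Quotient.smul_mk, hκ, hc, smul_eq_mul]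
      exact if_congr ⟨fun h => by simpa [mul_assoc] using h4 _ (inv_mem hx) _ h,
        fun h => by simpa [mul_assoc] using h4 _ hx _ h⟩ rfl rfl))
    (fun z => let ⟨x, e⟩ := sur (ev z); ⟨x, inj e⟩)
    (by rw [(LinearEquiv.ofBijective ev ⟨inj, fun z => let ⟨x, e⟩ := sur z; ⟨Φ x, e⟩⟩).finrank_eq]; simp)
  rw [← this, ← trace_comp_comm', ← trace_id]
  congr 1
  exact LinearMap.ext fun z => Subtype.ext (hri z).symm

end How

theorem How.exists_fix {G W S Ω : Type*} [Group G] [Finite G] [Finite S] [MulAction G Ω] [Finite Ω]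
    {B U : Subgroup G} {cell : G → W} {X : S → Subgroup G} {Q L : Set S → Subgroup G} {D : W → Set S} {len : W → ℕ}
    {C : W → Set W} {n : Set S → G} {w₀ : W} (H : How B U cell X Q L D len C n w₀) {p : ℕ} [Fact p.Prime]
    (hU : IsPGroup p U) (tw : Tw G Ω) (hB : ¬ Tr B Ω) : ∃ ω : Ω, ∀ u ∈ U, u • ω = ω := by
  classical
  have : Finite W := Finite.of_surjective _ H.surj
  cases nonempty_fintype W
  cases nonempty_fintype S
  cases nonempty_fintype U
  cases nonempty_fintype (U →* ℂˣ)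
  obtain ⟨d, h0, hd⟩ := H.exists_diag tw hB
  have h1 : ∀ J : Finset S, ∃ ψ : U →* ℂˣ, (How.supp X ψ).toFinset = J := fun J => by
    by_contra! h
    have := H.card_eq hU J
    rw [Finset.filter_false_of_mem fun ψ _ => h ψ, Finset.card_empty, Nat.cast_zero] at this
    exact pow_ne_zero _ (neg_ne_zero.2 one_ne_zero) this.symm
  choose ψ hψ using h1
  let m : Finset S → ℕ := fun J => Module.finrank ℂ (HowX.Zs (ψ J) Ω)
  have hm : ∀ J, (m J : ℂ) = ∑ w with Disjoint (D w) J, d w := fun J => by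
    rw [hd]
    conv_rhs => rw [← hψ J, Set.coe_toFinset]
  have h2 : ∑ J : Finset S, (-1 : ℤ) ^ J.card * m J = 1 := by
    apply Int.cast_injective (α := ℂ)
    push_cast
    simp only [hm, Finset.mul_sum, Finset.sum_filter, mul_ite, mul_zero]
    rw [Finset.sum_comm, Finset.sum_eq_single w₀]
    · rw [Finset.sum_eq_single ∅] <;> simp +contextual [h0, H.top.1]
    · intro w _ hw
      have := congrArg (Int.cast : ℤ → ℂ) (Finset.sum_powerset_neg_one_pow_card_of_nonempty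
        (x := (D w)ᶜ.toFinset) (Set.toFinset_nonempty.2 (Set.nonempty_compl.2 fun e => hw (H.top.2.2 w e))))
      push_cast at this
      rw [← Finset.sum_filter, ← Finset.sum_mul, Finset.sum_congr (s₂ := (D w)ᶜ.toFinset.powerset) _ fun _ _ => rfl,
        this, zero_mul]
      ext J
      rw [Finset.mem_filter, Finset.mem_powerset, Set.subset_toFinset, Set.subset_compl_iff_disjoint_left]
      simp
    · simp
  have h3 : (Nat.card (orbitRel.Quotient (HowX.U0 U) Ω) : ZMod p) = 1 := by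
    have := congrArg (Int.cast : ℤ → ZMod p) h2
    push_cast at this
    rw [← HowX.sum_rank, ← Finset.sum_fiberwise Finset.univ fun φ => (How.supp X φ).toFinset, Nat.cast_sum, ← this]
    refine Finset.sum_congr rfl fun J _ => ?_
    rw [← H.card_eq hU J, ← Nat.cast_mul, ← smul_eq_mul, ← Finset.sum_const]
    refine congrArg _ (Finset.sum_congr (by congr) fun φ hφ => Nat.cast_injective (R := ℂ) ?_)
    rw [hd, hm, ← (Finset.mem_filter.1 hφ).2, Set.coe_toFinset]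
  obtain ⟨ω, hω⟩ := exists_fix_orbit (Ω := Ω) hU (Q := HowX.U0 U) (fun g hg x hx => by
    have := HowX.mem_U0.1 (show ((⟨x, HowX.U0_le hx⟩ : U) : G) ∈ _ from hx)
    exact HowX.mem_U0 (u := ⟨g, hg⟩ * ⟨x, HowX.U0_le hx⟩ * ⟨g, hg⟩⁻¹).2 fun φ => by
      rw [map_mul, map_mul, this, mul_one, map_inv, mul_inv_cancel])
    fun h => zero_ne_one (((ZMod.natCast_eq_zero_iff _ _).2 h).symm.trans h3)
  refine ⟨ω, Subgroup.subgroupOf_eq_top.1 (by_contra fun h : (stabilizer G ω).subgroupOf U ≠ ⊤ => ?_)⟩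
  obtain ⟨φ, h4, h5⟩ := HowX.exists_char hU h
  refine h4 (MonoidHom.ext fun u => ?_)
  obtain ⟨x, hx, e⟩ := hω u u.2
  have h6 := h5 ((⟨x, HowX.U0_le hx⟩ : U)⁻¹ * u) (by
    simp [Subgroup.mem_subgroupOf, mul_smul, e])
  simpa [HowX.mem_U0.1 (show ((⟨x, HowX.U0_le hx⟩ : U) : G) ∈ _ from hx) φ] using h6

end CL.T2
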