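/-
CLAS/T2 (S2193): Howlett's congruence
-/
import Cfsg.Agent.CLAS.T2.Def2
import Cfsg.Agent.CLAS.T2.Fish
import Cfsg.Agent.CHEV.BNSteinberg
import Cfsg.Agent.CLAS.T2.HowA
import Cfsg.Agent.CHEV.StChev

set_option autoImplicit false

namespace CL.T2

open CL.Chev

variable {ι κ κ' : Type*} [Fintype κ] [DecidableEq κ] {R : RootSys ι κ} [Finite ι] {F Γ G : Type*} [Field F]
  [Group Γ] [Group G] {S : StData R F Γ} {T : S.Twist κ'} {j : G →* Γ}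
  {Ω : Type*} [MulAction G Ω] [Finite Ω] [Finite G] [Finite F] {p : ℕ} [Fact p.Prime] [CharP F p]

namespace HowT

omit [Finite F] [Fact p.Prime] [CharP F p] [Finite Ω] [Finite G]

/-- the simple roots in the classes of `J` -/
def KJ (T : S.Twist κ') (J : Set κ') : Set κ := {i | T.c i ∈ J}

omit [Finite ι] in
theorem pos_sub {J : Set κ'} {a : κ'} (ha : a ∈ J) {r : ι} (hr : r ∈ T.pos a) : r ∈ R.sub (KJ T J) :=
  R.sub_mono (fun i (hi : T.c i = a) => show T.c i ∈ J from hi ▸ ha) hr.2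

theorem w0_mem (J : Set κ') : R.w0 (KJ T J) ∈ T.W1 :=
  T.w0_mem_W1 fun i (hi : T.c i ∈ J) => show T.c (T.π i) ∈ J by rwa [T.c_π]

omit [Finite ι] in
theorem flip {t : Equiv.Perm ι} (ht : t ∈ T.W1) {J : Set κ'} (h : ∀ a ∈ J, ¬ T.Asc t a) {r : ι}
    (hr : r ∈ R.sub (KJ T J)) : R.IsPos (t r) ↔ ¬ R.IsPos r := by
  have key : ∀ r ∈ R.sub (KJ T J), R.IsPos r → ¬ R.IsPos (t r) := fun r hr h1 =>
    RootSys.not_isPos_W_of_simple ht.1 (fun i hi => by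
      rw [← RootSys.Sym.asc_iff ht (T.mem_J_c i)]; exact h _ hi) h1 hr
  refine ⟨fun h1 h2 => key r hr h2 h1, fun h1 => ?_⟩
  have := key _ (R.neg_mem_sub.2 hr) ((R.isPos_neg r).2 h1)
  rwa [RootSys.W_neg ht.1, R.not_isPos_neg] at this

omit [Finite ι] in
theorem keep {t : Equiv.Perm ι} (ht : t ∈ T.W1) {J : Set κ'} (h : ∀ a ∈ J, T.Asc t a) {r : ι}
    (hr : r ∈ R.sub (KJ T J)) : R.IsPos (t r) ↔ R.IsPos r := by
  have key : ∀ r ∈ R.sub (KJ T J), R.IsPos r → R.IsPos (t r) := fun r hr h1 =>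
    RootSys.isPos_W_of_simple ht.1 (fun i hi => by
      rw [← RootSys.Sym.asc_iff ht (T.mem_J_c i)]; exact h _ hi) h1 hr
  refine ⟨fun h1 => by_contra fun h2 => ?_, key r hr⟩
  have := key _ (R.neg_mem_sub.2 hr) ((R.isPos_neg r).2 h2)
  rw [RootSys.W_neg ht.1, R.isPos_neg] at this
  exact this h1

theorem ell_lt {K : Set κ} {t y : Equiv.Perm ι} (hy : y ∈ R.WJ K)
    (h : ∀ r ∈ R.sub K, R.IsPos (t r) ↔ ¬ R.IsPos r) (h1 : y ≠ 1) : R.ell (t * y) < R.ell t := by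
  obtain ⟨i, hi, h2⟩ := RootSys.exists_not_isPos_of_ne_one (inv_mem hy) (inv_ne_one.2 h1)
  rw [RootSys.ell, RootSys.ell, ← Set.ncard_image_of_injective _ y.injective]
  refine Set.ncard_lt_ncard ⟨?_, fun h3 => ?_⟩ (Set.toFinite _)
  · rintro _ ⟨r, hr, rfl⟩
    refine ⟨?_, hr.2⟩
    by_cases h3 : r ∈ R.sub K
    · by_contra h4
      exact hr.2 ((h _ ((RootSys.WJ_mem_sub hy).2 h3)).2 h4)
    · exact (RootSys.WJ_isPos_iff hy h3).2 hr.1
  · obtain ⟨r, hr, e⟩ := h3 (show R.simple i ∈ R.invs t from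
      ⟨R.isPos_simple i, fun h4 => (h _ (R.simple_mem_sub.2 hi)).1 h4 (R.isPos_simple i)⟩)
    rw [← e, RootSys.perm_inv_apply] at h2
    exact h2 hr.1

theorem exists_opp {J : Set κ'} {a : κ'} (ha : a ∈ J) :
    ∃ a' ∈ J, ∀ r ∈ T.pos a', (R.w0 (KJ T J))⁻¹ r ∈ R.sub (T.J a) := by
  have h1 := mul_mem (T.w_mem_W1 a) (w0_mem (T := T) J)
  obtain ⟨a', ha', h2⟩ : ∃ a' ∈ J, T.Asc (T.w a * R.w0 (KJ T J)) a' := by
    by_contra h2
    push Not at h2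
    have h3 : T.w a ∈ R.WJ (KJ T J) :=
      R.WJ_mono (fun i (hi : T.c i = a) => show T.c i ∈ J from hi ▸ ha) (T.w_mem_WJ a)
    have := R.eq_w0 (mul_mem h3 (R.w0_mem _)) fun i hi => by
      rw [← RootSys.Sym.asc_iff h1 (T.mem_J_c i)]; exact h2 _ hi
    exact T.w_ne_one a (by simpa using this)
  refine ⟨a', ha', fun r hr => by_contra fun h3 => ?_⟩
  rw [R.w0_inv] at h3
  exact (R.isPos_w0_iff (pos_sub ha' hr)).1 ((RootSys.WJ_isPos_iff (T.w_mem_WJ a) h3).1 (h2 r hr)) hr.1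

variable (h : T.IsLie j)
include h

theorem exists_nf (g : G) : ∃ w : T.W1, ∃ u m v : G, j u ∈ S.XS (R.invs (w : Equiv.Perm ι)⁻¹) ∧ j m ∈ S.N ∧
    S.Acts (j m) w ∧ j v ∈ S.U ∧ g = u * m * v := by
  obtain ⟨_, ⟨hv, v, rfl⟩, _, ⟨hm, m, rfl⟩, w, hw, ha, _, ⟨hu, u, rfl⟩, e⟩ :=
    h.isTw.exists_normal h.good (g := j g⁻¹) ⟨_, rfl⟩
  refine ⟨⟨w⁻¹, inv_mem hw⟩, u⁻¹, m⁻¹, v⁻¹, by simpa using hu, by simpa using hm, by simpa using ha.inv,
    by simpa using hv, h.inj ?_⟩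
  rw [← inv_inj, ← map_inv, e]
  simp [mul_assoc]

/-- the Bruhat cell of an element -/
noncomputable def cell (g : G) : T.W1 := (exists_nf h g).choose

theorem nf (g : G) : ∃ u m v : G, j u ∈ S.XS (R.invs (cell h g : Equiv.Perm ι)⁻¹) ∧ j m ∈ S.N ∧
    S.Acts (j m) (cell h g) ∧ j v ∈ S.U ∧ g = u * m * v := (exists_nf h g).choose_spec

theorem cell_of {g : G} {b m b' : Γ} {w : Equiv.Perm ι} (hb : b ∈ S.B) (ha : S.Acts m w) (hb' : b' ∈ S.B)
    (e : j g = b * m * b') : (cell h g : Equiv.Perm ι) = w := by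
  obtain ⟨u, m', v, hu, -, ha', hv, e'⟩ := nf h g
  exact h.good.eq_of_bruhat' ha' ha (S.U_le_B (S.XS_le_U (fun _ h => h.1) hu)) (S.U_le_B hv) hb hb'
    (by rw [← e, ← map_mul, ← map_mul, ← e'])

theorem cell_acts {g : G} {w : Equiv.Perm ι} (ha : S.Acts (j g) w) : (cell h g : Equiv.Perm ι) = w :=
  cell_of h (one_mem _) ha (one_mem _) (by simp)

theorem exists_rep {w : Equiv.Perm ι} (hw : w ∈ T.W1) : ∃ m : G, j m ∈ S.N ∧ S.Acts (j m) w := by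
  obtain ⟨_, ⟨hm, m, rfl⟩, ha⟩ := h.isTw.exists_acts h.good hw
  exact ⟨m, hm, ha⟩

/-- a representative of the longest element of `W_J` -/
noncomputable def nJ (J : Set κ') : G := (exists_rep h (w0_mem J)).choose

theorem nJ_N (J : Set κ') : j (nJ h J) ∈ S.N := (exists_rep h (w0_mem J)).choose_spec.1

theorem nJ_acts (J : Set κ') : S.Acts (j (nJ h J)) (R.w0 (KJ T J)) := (exists_rep h (w0_mem J)).choose_spec.2

theorem nJ_P (J : Set κ') : j (nJ h J) ∈ S.P (KJ T J) :=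
  S.NJ_le_P _ (h.good.mem_NJ_of_acts (nJ_N h J) (nJ_acts h J) (R.w0_mem _))

theorem cell_mul {K : Set κ} {x : G} (hx : j x ∈ S.P K) (g : G) :
    (cell h (x * g) : Equiv.Perm ι) * (cell h g : Equiv.Perm ι)⁻¹ ∈ R.WJ K := by
  obtain ⟨u, m, v, hu, -, ha, hv, e⟩ := nf h g
  obtain ⟨b1, h1, m', y, hy, ha', b2, h2, e'⟩ := ha.inv.exists_mul_P (J := K) (p := (j x * j u)⁻¹)
    (inv_mem (mul_mem hx (S.B_le_P _ (S.U_le_B (S.XS_le_U (fun _ h => h.1) hu)))))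
  have := cell_of h (g := x * g) (inv_mem h2) ha'.inv (mul_mem (inv_mem h1) (S.U_le_B hv)) (by
    rw [e, map_mul, map_mul, map_mul, show j x * (j u * j m * j v) = ((j m)⁻¹ * (j x * j u)⁻¹)⁻¹ * j v by group, e']
    group)
  rw [this]
  simpa using inv_mem hy

theorem nf_sep {J : Set κ'} {g : G} (hd : ∀ a ∈ J, T.Asc (cell h g : Equiv.Perm ι)⁻¹ a) :
    ∃ q ∈ S.UJ (KJ T J), ∃ m ∈ S.N, S.Acts m (R.w0 (KJ T J) * cell h g) ∧ ∃ v ∈ S.B, j (nJ h J * g) = q * m * v := by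
  obtain ⟨u, m, v, hu, hm, ha, hv, e⟩ := nf h g
  have h1 : j u ∈ S.UJ (KJ T J) := S.XS_mono (T' := {r | R.IsPos r ∧ r ∉ R.sub (KJ T J)}) (fun r hr =>
    ⟨hr.1, fun h1 => hr.2 ((keep (inv_mem (cell h g).2) hd h1).2 hr.1)⟩) hu
  refine ⟨j (nJ h J) * j u * (j (nJ h J))⁻¹, ((S.P_le_normalizer_UJ _ (nJ_P h J)) _).1 h1, j (nJ h J) * j m,
    mul_mem (nJ_N h J) hm, (nJ_acts h J).mul ha, j v, S.U_le_B hv, ?_⟩
  conv_lhs => rw [e]
  simp [mul_assoc]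

theorem how (hg : Gen T j) : How (S.B.comap j) (S.U.comap j) (cell h) (fun a => (S.XS (T.pos a)).comap j)
    (fun J => (S.UJ (KJ T J)).comap j) (fun J => (S.LJ (KJ T J)).comap j)
    (fun w => {a | ¬ T.Asc (w : Equiv.Perm ι)⁻¹ a}) (fun w => R.ell (w : Equiv.Perm ι)⁻¹)
    (fun w => {v | (v : Equiv.Perm ι) * (w : Equiv.Perm ι)⁻¹ ∈ R.WJ (KJ T {a | ¬ T.Asc (w : Equiv.Perm ι)⁻¹ a})})
    (nJ h) ⟨_, T.w0_univ_mem_W1⟩ where
  surj w := by
    obtain ⟨m, -, ha⟩ := exists_rep h w.2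
    exact ⟨m, Subtype.ext (cell_acts h ha)⟩
  cell_eq g g' := by
    obtain ⟨u, m, v, hu, hm, ha, hv, e⟩ := nf h g
    have hu' : j u ∈ S.U := S.XS_le_U (fun _ h => h.1) hu
    constructor
    · intro e1
      obtain ⟨u', m', v', hu1, hm', ha', hv', e'⟩ := nf h g'
      rw [← e1] at ha'
      refine ⟨u' * u⁻¹, ?_, v⁻¹ * (m⁻¹ * m') * v', ?_, by rw [e', e]; group⟩
      · simpa using mul_mem (S.XS_le_U (fun _ h => h.1) hu1) (inv_mem hu')
      · simpa using mul_mem (mul_mem (inv_mem (S.U_le_B hv)) (S.H_le_B (h.good.inv_mul_mem_H hm hm' ha ha')))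
          (S.U_le_B hv')
    · rintro ⟨x, hx, b, hb, rfl⟩
      refine Subtype.ext (cell_of h (S.U_le_B (mul_mem hx hu')) ha (mul_mem (S.U_le_B hv) hb) ?_).symm
      conv_lhs => rw [e]
      simp [mul_assoc]
  X_le a := Subgroup.comap_mono (StData.Twist.pos_le_U a)
  X_ne a e := by
    obtain ⟨_, ⟨u, rfl⟩, hu, hne⟩ := h.isTw.exists_pos_ne_one h.good a
    have : u ∈ (⊥ : Subgroup G) := e ▸ hu
    exact hne (by rw [Subgroup.mem_bot.1 this, map_one])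
  gen := hg
  Q_nz J g hg x hx := by
    simpa using (S.P_le_normalizer_UJ _ (S.B_le_P _ (S.U_le_B hg)) _).1 hx
  X_Q J a ha := Subgroup.comap_mono (StData.Twist.pos_le_UJ fun i (hi : T.c i = a) (hi' : T.c i ∈ J) => ha (hi ▸ hi'))
  X_L J a ha := Subgroup.comap_mono (le_sup_of_le_right (S.XS_mono fun r hr => pos_sub ha hr))
  Q_L J := by
    rw [← Subgroup.comap_inf, h.good.UJ_inf_LJ, MonoidHom.comap_bot, (MonoidHom.ker_eq_bot_iff j).2 h.inj]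
  self w := by simp
  lt w v hv hne := by
    have := ell_lt (t := (w : Equiv.Perm ι)⁻¹) (inv_mem hv) (fun r hr => flip (inv_mem w.2) (fun a ha => ha) hr)
      (fun e => hne (Subtype.ext (by simpa [mul_inv_eq_one] using congrArg (·⁻¹) e)))
    simpa using this
  top := by
    have h1 : {a | ¬ T.Asc (R.w0 Set.univ)⁻¹ a} = Set.univ := Set.eq_univ_of_forall fun a h1 => by
      obtain ⟨i, hi⟩ := T.exists_mem_J a
      have := h1 _ (T.simple_mem_pos hi)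
      rw [R.w0_inv, R.isPos_w0_univ] at this
      exact this (R.isPos_simple i)
    refine ⟨h1, Set.eq_univ_of_forall fun v => ?_, fun w hw => Subtype.ext ?_⟩
    · change _ ∈ R.WJ (KJ T {a | ¬ T.Asc (R.w0 Set.univ)⁻¹ a})
      rw [h1, show KJ T Set.univ = Set.univ from rfl, R.WJ_univ]
      exact R.W.mul_mem v.2.1 (R.W.inv_mem (R.w0_mem_W Set.univ))
    · have := R.eq_w0 (J := Set.univ) (w := (w : Equiv.Perm ι)⁻¹) (R.WJ_univ ▸ R.W.inv_mem w.2.1) fun i _ => by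
        rw [← RootSys.Sym.asc_iff (inv_mem w.2) (T.mem_J_c i)]
        exact Set.eq_univ_iff_forall.1 hw _
      rw [← inv_inj, this, R.w0_inv]
  inv J w a ha hw := by
    obtain ⟨a', ha', h1⟩ := exists_opp (T := T) ha
    refine ⟨a', ha', fun x hx g hg => ?_⟩
    have h2 := cell_mul h (K := KJ T {a | ¬ T.Asc (w : Equiv.Perm ι)⁻¹ a}) (x := (nJ h J)⁻¹ * x * nJ h J) (by
      rw [map_mul, map_mul, map_inv]
      refine S.LJ_le_P _ ((le_sup_right : _ ≤ S.LJ _) ((nJ_acts h J).inv_conj_mem_XS (fun r hr => ?_) hx))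
      exact R.sub_mono (fun i (hi : T.c i = a) => show ¬ T.Asc _ (T.c i) from hi ▸ hw) (h1 r hr)) g
    simpa [mul_assoc] using mul_mem h2 hg
  sep J g g' hd hd' u hu b hb e := by
    have h1 : ∀ a ∈ J, T.Asc (cell h g : Equiv.Perm ι)⁻¹ a := fun a ha =>
      not_not.1 fun h1 => Set.disjoint_left.1 hd h1 ha
    obtain ⟨q, hq, m, hm, ha, v, hv, e1⟩ := nf_sep h h1
    obtain ⟨q', hq', m', hm', ha', v', hv', e2⟩ := nf_sep h (g := g') fun a ha =>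
      not_not.1 fun h1 => Set.disjoint_left.1 hd' h1 ha
    have e3 : q * m * v = j u * q' * m' * (v' * j b) := by
      rw [← e1, ← e, map_mul, map_mul, e2]; group
    have h2 : cell h g = cell h g' := Subtype.ext (mul_left_cancel (h.good.eq_of_bruhat' ha ha'
      (S.U_le_B (S.UJ_le_U _ hq)) hv (S.U_le_B (mul_mem hu (S.UJ_le_U _ hq'))) (mul_mem hv' hb) e3))
    refine ⟨h2, ?_⟩
    rw [← h2] at ha'
    have h3 : q⁻¹ * j u * q' ∈ S.UJ (KJ T J) := by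
      refine S.XS_mono (T' := {r | R.IsPos r ∧ r ∉ R.sub (KJ T J)}) (fun r hr => ⟨hr.1, fun h3 => ?_⟩)
        ((h.good.conj_mem_B_iff ha.inv
        (mul_mem (mul_mem (inv_mem (S.UJ_le_U _ hq)) hu) (S.UJ_le_U _ hq'))).1 ?_)
      · have h4 := hr.2
        rw [mul_inv_rev, Equiv.Perm.mul_apply, R.w0_inv,
          keep (inv_mem (cell h g).2) h1 ((RootSys.WJ_mem_sub (R.w0_mem _)).2 h3), R.isPos_w0_iff h3] at h4
        exact h4 hr.1
      · rw [show m⁻¹ * (q⁻¹ * j u * q') * m⁻¹⁻¹ = m⁻¹ * q⁻¹ * (j u * q' * m' * (v' * j b)) * (v' * j b)⁻¹ *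
          (m⁻¹ * m')⁻¹ by group, ← e3, show m⁻¹ * q⁻¹ * (q * m * v) = v by group]
        exact mul_mem (mul_mem hv (inv_mem (mul_mem hv' hb)))
          (inv_mem (S.H_le_B (h.good.inv_mul_mem_H hm hm' ha ha')))
    simpa [mul_assoc] using mul_mem (mul_mem hq h3) (inv_mem hq')
  wd J g g' hd e := by
    have h1 : ∀ a ∈ J, T.Asc (cell h g : Equiv.Perm ι)⁻¹ a := fun a ha =>
      not_not.1 fun h1 => Set.disjoint_left.1 hd h1 ha
    obtain ⟨q, hq, m, -, ha, v, hv, e1⟩ := nf_sep h h1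
    obtain ⟨q', hq', m', -, ha', v', hv', e2⟩ := nf_sep h (g := g') (e ▸ h1)
    exact Subtype.ext (by rw [cell_of h (S.U_le_B (S.UJ_le_U _ hq)) ha hv e1,
      cell_of h (S.U_le_B (S.UJ_le_U _ hq')) ha' hv' e2, e])
  cov J g := by
    obtain ⟨m, hm, ha⟩ := exists_rep h (cell h g).2
    by_cases h1 : ∃ a ∈ J, T.Asc (cell h g : Equiv.Perm ι)⁻¹ a
    · obtain ⟨a, ha', h1⟩ := h1
      refine .inr ⟨a, ha', m, Subtype.ext (cell_acts h ha), fun x hx => ?_⟩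
      simpa using S.U_le_B (ha.inv_conj_mem_XS (T' := {r | R.IsPos r}) (fun r hr => h1 r hr) hx)
    · push Not at h1
      refine .inl ⟨(nJ h J)⁻¹ * m, Set.disjoint_left.2 fun a h2 ha' => h2 fun r hr => ?_,
        Subtype.ext (by rw [mul_inv_cancel_left, cell_acts h ha])⟩
      rw [cell_acts h (w := (R.w0 (KJ T J))⁻¹ * cell h g) (by simpa using (nJ_acts h J).inv.mul ha), mul_inv_rev,
        inv_inv, Equiv.Perm.mul_apply, flip (inv_mem (cell h g).2) h1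
          ((RootSys.WJ_mem_sub (R.w0_mem _)).2 (pos_sub ha' hr)), R.isPos_w0_iff (pos_sub ha' hr), not_not]
      exact hr.1

end HowT

/-- HOWLETT.  Write `U, B, X_a, P_J, Q_J = U_J` for the subgroups of `G` (`J ⊆ κ'` a set of classes), `θ` for the
permutation character of `Ω`.  Suppose `B` is intransitive; we show `θ(1) ≡ 1 mod p`.
(1) `ℂΩ` embeds in `ℂ[G/B]` (`θ = 1 + χ`, `χ` irreducible, `⟨θ, 1_B^G⟩ ≥ 2`; or the injective incidence matrix of Fish).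
(2) `θ(1) ≡ ∑_ψ ⟨θ_U, ψ⟩` over the linear characters `ψ : U →* ℂˣ` (nonlinear irreducibles of a `p`-group have degree
divisible by `p`; elementary: `n ≡ #`orbits of `U' = ⁅U, U⁆` on which... = `dim (ℂΩ)^{U'} = ∑_ψ dim (ℂΩ)_ψ`, and
`n ≡ #Fix(U) ≡ #(U'-orbits)`, since a `U'`-orbit fixed by `U` is a point: `U = U' U_ω` gives `U = U_ω` (Frattini)).
(3) `supp ψ = {a | ψ ≠ 1 on X_a}`.  By `Gen`, `Q_J` is the normal closure in `U` of the `X_a`, `a ∉ J` (`U = N ⟨X_a, a ∈ J⟩`,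
the second factor lies in the Levi group and meets `Q_J` trivially), so `supp ψ ⊆ J ↔ ψ(Q_J) = 1`; the number `t_J` of such
`ψ` is `|Hom(U / Q_J, ℂˣ)|`, `≡ 0 mod p` for `J ≠ ∅`, `t_∅ = 1`.  Moebius: `c_J = #{supp ψ = J} ≡ (-1)^|J|`.
(4) for `supp ψ = J`: `⟨θ_U, ψ⟩ = m_J := ∑_{I ⊆ J} (-1)^|I| #(P_I-orbits on Ω)`.  Indeed let `ξ = θ^{Q_J}` (character of
`P_J` on `(ℂΩ)^{Q_J}` = permutation character on the `Q_J`-orbits).  `ℂ[G/B]^{Q_J}` is a sum of copies of `ℂ[P_J/B]`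
(for `w` minimal in `W_J w`, `Q_J (P_J ∩ w B w⁻¹) = B`), so every irreducible constituent of `ξ` occurs in `1_B^{P_J}`.
Mackey/Bruhat: `⟨1_B^{P_J}|_U, ψ⟩ = #{w ∈ W_J | ψ = 1 on U ∩ w B w⁻¹} = 1` (only the longest `w_J`: otherwise some
`X_a ≤ w B w⁻¹`, `a ∈ J`).  `St_J = ∑_{I ⊆ J} (-1)^|I| 1_{P_I}^{P_J}` (`CL.BN.stRel`; `isIrr_st`, `inner_par_st` for the
BN-pair `(B, N ∩ P_J)` of `P_J`) is an irreducible constituent of `1_B^{P_J}` with `St_J|_U` = regular character of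
`U / Q_J` (`stRel_of_mem_B`), so `⟨St_J|_U, ψ⟩ = 1` and all other constituents of `1_B^{P_J}` have `⟨·|_U, ψ⟩ = 0`.
Hence `⟨θ_U, ψ⟩ = ⟨ξ_U, ψ⟩ = ⟨ξ, St_J⟩ = ∑ (-1)^|I| ⟨ξ, 1_{P_I}^{P_J}⟩ = m_J`.
(5) `θ(1) ≡ ∑_J (-1)^|J| ∑_{I ⊆ J} (-1)^|I| o_I = o_univ = 1` (`sum_neg_one_pow_ind_subset`).
Suggested split: an abstract theorem for a `Cfsg.BNPair` with a normal `p`-subgroup `U` of `B` and subgroups `X_s`, `Q_J`
with the listed properties, and the translation through `IsTw.bnPair`. -/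
theorem howlett (h : T.IsLie j) (hg : Gen T j) (tw : Tw G Ω) (hp : p ∣ Nat.card Ω) : Tr (S.B.comap j) Ω := by
  by_contra hB
  have : Finite κ' := Finite.of_surjective _ T.c_surj
  obtain ⟨ω, hω⟩ := (HowT.how h hg).exists_fix (h.sylIn (p := p)).pgroup tw hB
  exact (h.sylIn (p := p)).toSylowTop.not_dvd_index
    ((tw.index ω ▸ hp).trans (Subgroup.index_dvd_of_le (H := S.U.comap j) hω))

end CL.T2
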