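/-
CLAS/T2 (S2193): the Borel subgroup is transitive
-/
import Cfsg.Agent.CLAS.T2.How
import Cfsg.Agent.CLAS.T2.Gen
import Cfsg.Agent.CLAS.T2.GenF
import Cfsg.Agent.CLAS.T2.Alpha
import Cfsg.Agent.CLAS.T2.Blk
import Cfsg.Agent.CHEV.TwLiftJ
import Cfsg.Agent.S1059

set_option autoImplicit false

namespace CL.T2

open CL.Chev Cfsg Cfsg.Lie

/-! All by `dvd_of_full` (two roots of full support: explicit for the bases `B`, `D`; `decide +kernel` on the
certificates for the exceptional data; `²F₄`: `alpha`, class `0` is orthogonal, for class `1` the highest root has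
coefficients `3, 4` and the roots of `pos 1` have coefficients `≤ 2`), `gen_*`, `howlett`; for the classical groups
`B ≤ N(U)`, `U` Sylow (`IsLie.sylIn`), all Sylow subgroups are conjugate. -/

variable {F : Type*} [Field F] [Fintype F] {p : ℕ} [Fact p.Prime] [CharP F p] {Ω : Type*} [Finite Ω]

namespace TrB

section root

variable {ι κ : Type*} [Fintype κ] [DecidableEq κ] {R : RootSys ι κ}

/-- a positive root can be enlarged to a root of full support without changing its nonzero coefficients -/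
theorem grow (hR : R.Irred) (r : ι) (h0 : ∀ i, 0 ≤ R.rt r i) {j : κ} (hj : 0 < R.rt r j) :
    ∃ s, Full R s ∧ R.rt s j = R.rt r j := by
  classical
  induction e : (Finset.univ.filter fun i => R.rt r i = 0).card using Nat.strong_induction_on generalizing r with
  | _ n ih =>
  by_cases hf : Full R r
  · exact ⟨r, hf, rfl⟩
  obtain ⟨k, hk⟩ := not_forall.1 hf
  obtain ⟨a, ha, b, hb, hA⟩ := hR {i | 0 < R.rt r i} ⟨j, hj⟩ ⟨k, hk⟩
  have ha' : 0 < R.rt r a := ha
  have hb' : R.rt r b = 0 := le_antisymm (not_lt.1 hb) (h0 b)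
  have hab : b ≠ a := fun e => hb (e ▸ ha)
  have hw : ∑ i, R.A b i * R.rt r i < 0 := by
    have h1 : ∀ i ∈ Finset.univ, R.A b i * R.rt r i ≤ 0 := fun i _ => by
      by_cases e : b = i
      · rw [← e, hb', mul_zero]
      · exact mul_nonpos_of_nonpos_of_nonneg (R.A_nonpos e) (h0 i)
    have h2 : R.A b a * R.rt r a < 0 :=
      mul_neg_of_neg_of_pos (lt_of_le_of_ne (R.A_nonpos hab) fun e => hA ((R.A_eq_zero_comm _ _).1 e)) ha'
    simpa using Finset.sum_lt_sum h1 ⟨a, Finset.mem_univ _, h2⟩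
  have k1 : ∀ i, i ≠ b → R.rt (R.σ b r) i = R.rt r i := fun i hi => by rw [R.rt_σ]; simp [hi]
  have k2 : 0 < R.rt (R.σ b r) b := by rw [R.rt_σ]; simpa [hb'] using hw
  have hjb : j ≠ b := fun e => hb (e ▸ hj)
  have k3 : ∀ i, 0 ≤ R.rt (R.σ b r) i := fun i => by
    by_cases e : i = b
    · exact e ▸ k2.le
    · exact (k1 i e).symm ▸ h0 i
  have k4 : (Finset.univ.filter fun i => R.rt (R.σ b r) i = 0).card < n := by
    refine e ▸ Finset.card_lt_card ⟨fun i hi => ?_, fun hi => ?_⟩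
    · simp only [Finset.mem_filter, Finset.mem_univ, true_and] at hi ⊢
      by_cases e : i = b
      · exact e ▸ hb'
      · exact k1 i e ▸ hi
    · have := hi (Finset.mem_filter.2 ⟨Finset.mem_univ b, hb'⟩)
      exact k2.ne' (Finset.mem_filter.1 this).2
  obtain ⟨s, hs, e'⟩ := ih _ k4 (R.σ b r) k3 ((k1 j hjb).symm ▸ hj) rfl
  exact ⟨s, hs, e'.trans (k1 j hjb)⟩

theorem grow1 (hR : R.Irred) (j : κ) : ∃ s, Full R s ∧ R.rt s j = 1 := by
  obtain ⟨s, hs, e⟩ := grow hR (R.simple j) (fun i => by rw [R.rt_simple, Pi.single_apply]; split_ifs <;> omega) (j := j)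
    (by simp [R.rt_simple])
  exact ⟨s, hs, by simpa [R.rt_simple] using e⟩

/-- a multiple bond -/
theorem two_bond (hR : R.Irred) {i j : κ} (h : R.A j i ≤ -2) : ∃ r s, r ≠ s ∧ Full R r ∧ Full R s := by
  have hij : i ≠ j := fun e => by rw [e, R.A_self] at h; omega
  have k : ∀ l, R.rt (R.σ j (R.simple i)) l = (if l = i then 1 else 0) - if l = j then R.A j i else 0 := fun l => by
    rw [R.rt_σ, R.rt_simple]; simp [Pi.single_apply]
  obtain ⟨r, hr, e⟩ := grow1 hR j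
  obtain ⟨s, hs, e'⟩ := grow hR (R.σ j (R.simple i)) (fun l => by rw [k]; split_ifs <;> omega) (j := j)
    (by rw [k]; simp [hij.symm]; omega)
  refine ⟨r, s, fun e1 => ?_, hr, hs⟩
  rw [← e1, e, k] at e'
  simp [hij.symm] at e'
  omega

/-- a branch node -/
theorem two_branch (hR : R.Irred) {b a c d : κ} (h1 : R.A b a < 0) (h2 : R.A b c < 0) (h3 : R.A b d < 0) (hac : a ≠ c)
    (had : a ≠ d) (hcd : c ≠ d) : ∃ r s, r ≠ s ∧ Full R r ∧ Full R s := by
  obtain ⟨r, hr, e⟩ := grow1 hR b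
  have n : ∀ {x}, R.A b x < 0 → b ≠ x := fun {x} h e => by rw [← e, R.A_self] at h; omega
  have m : ∀ {x}, R.A b x < 0 → R.A b x * R.rt r x ≤ -1 := fun {x} h => by
    have := mul_neg_of_neg_of_pos h (hr x); omega
  have hw : ∑ i, R.A b i * R.rt r i < 0 := by
    rw [← Finset.sum_sdiff (Finset.subset_univ {b, a, c, d})]
    have k1 : ∑ i ∈ Finset.univ \ {b, a, c, d}, R.A b i * R.rt r i ≤ 0 := Finset.sum_nonpos fun i hi =>
      mul_nonpos_of_nonpos_of_nonneg (R.A_nonpos fun e => by simp [e] at hi) (hr i).le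
    rw [Finset.sum_insert (by simp [n h1, n h2, n h3]), Finset.sum_insert (by simp [hac, had]), Finset.sum_pair hcd, R.A_self, e]
    have := m h1
    have := m h2
    have := m h3
    omega
  refine ⟨r, R.σ b r, fun e1 => ?_, hr, fun i => ?_⟩
  · have := congrFun (congrArg R.rt e1) b
    rw [R.rt_σ] at this
    simp at this
    omega
  · rw [R.rt_σ]
    have := hr i
    by_cases e : i = b
    · subst e; simp; omega
    · simpa [e] using this

end root

section glue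

variable {ι κ κ' : Type*} [Fintype κ] [DecidableEq κ] {R : RootSys ι κ} [Finite ι] {K Γ G : Type*} [Field K]
  [Group Γ] [Group G] {S : StData R K Γ} {T : S.Twist κ'} {j : G →* Γ} [MulAction G Ω] [Finite G] [Finite K] [CharP K p]

theorem trN (h : T.IsLie j) (ht : Tr (S.B.comap j) Ω) (U : Sylow p G) : Tr (Subgroup.normalizer (U : Set G)) Ω := by
  obtain ⟨R, hR⟩ := MSS.sylIn_top_iff.1 (h.sylIn (p := p))
  obtain ⟨g, rfl⟩ := MulAction.exists_smul_eq G R U
  intro a b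
  obtain ⟨x, hx, e⟩ := ht (g⁻¹ • a) (g⁻¹ • b)
  refine ⟨g * x * g⁻¹, ?_, by rw [mul_smul, mul_smul, e, smul_inv_smul]⟩
  have hx' : x ∈ Subgroup.normalizer (R : Set G) := by
    refine Subgroup.mem_normalizer_iff.2 fun y => ?_
    change y ∈ (R : Subgroup G) ↔ _ ∈ (R : Subgroup G)
    rw [hR, Subgroup.mem_comap, Subgroup.mem_comap, map_mul, map_mul, map_inv]
    exact Subgroup.mem_normalizer_iff.1 (S.B_le_normalizer_U hx) _
  rw [← Sylow.smul_eq_iff_mem_normalizer] at hx' ⊢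
  rw [mul_smul, mul_smul, inv_smul_smul, hx']

theorem dvd_triv [Nonempty κ] {S : StData R K G} (h : S.trivTw.IsLie (MonoidHom.id G)) (tw : Tw G Ω)
    (hf : ∃ r s, r ≠ s ∧ Full R r ∧ Full R s) : p ∣ Nat.card Ω :=
  dvd_of_full h tw hf fun _ _ hi _ hk hne => absurd (hi.trans hk.symm) hne

theorem gen_long {S : StData R K G} (h : S.trivTw.IsLie (MonoidHom.id G)) (hl : ∀ r, R.Long r) :
    Gen S.trivTw (MonoidHom.id G) := gen_md (h.good.md_triv h.top hl)

end glue

open Cl in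
theorem long_A' {m : ℕ} {κ : Type*} [Fintype κ] [DecidableEq κ] (Δ : Base .A m κ) (r : Root .A m) : Δ.R.Long r := fun k => by
  induction r using Root.ind with | H a b h ha =>
  induction k using Root.ind with | H c d h' hc =>
  rw [Δ.R_len, Δ.R_len, Root.len_mk, Root.len_mk, lenP, lenP, if_neg (mt h.2.1 (by decide)), if_neg (mt h'.2.1 (by decide)),
    if_neg (not_or.2 ⟨ha, mt h.2.2.2.1 (by decide)⟩), if_neg (not_or.2 ⟨hc, mt h'.2.2.2.1 (by decide)⟩)]

open Cl in
theorem long_D' {m : ℕ} {κ : Type*} [Fintype κ] [DecidableEq κ] (Δ : Base .D m κ) (r : Root .D m) : Δ.R.Long r := fun k => by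
  induction r using Root.ind with | H a b h ha =>
  induction k using Root.ind with | H c d h' hc =>
  rw [Δ.R_len, Δ.R_len, Root.len_mk, Root.len_mk, lenP, lenP, if_neg (mt h.2.1 (by decide)), if_neg (mt h'.2.1 (by decide)),
    if_neg (not_or.2 ⟨ha, mt h.2.2.2.1 (by decide)⟩), if_neg (not_or.2 ⟨hc, mt h'.2.2.2.1 (by decide)⟩)]

open Cl in
theorem full_B {n : ℕ} (hn : 1 ≤ n) : ∃ r s, r ≠ s ∧ Full (baseB n).R r ∧ Full (baseB n).R s :=
  two_bond irred_B (i := ⟨n - 1, by omega⟩) (j := ⟨n, by omega⟩) (by rw [baseB_A, if_pos ⟨rfl, by simp only []; omega⟩])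

open Cl in
theorem full_D {n : ℕ} (hn : 2 ≤ n) : ∃ r s, r ≠ s ∧ Full (baseD n).R r ∧ Full (baseD n).R s :=
  two_branch (irred_D (by omega)) (b := ⟨n - 1, by omega⟩) (a := ⟨n - 2, by omega⟩) (c := ⟨n, by omega⟩) (d := ⟨n + 1, by omega⟩)
    (by simp only [baseD_A, chainA]; split_ifs <;> omega) (by simp only [baseD_A, chainA]; split_ifs <;> omega)
    (by rw [baseD_A, if_neg (by simp only []; omega), if_pos ⟨rfl, by simp only []; omega⟩, if_pos (by simp only []; omega)]; omega)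
    (by simp only [Ne, Fin.mk.injEq]; omega)
    (by simp only [Ne, Fin.mk.injEq]; omega) (by simp only [Ne, Fin.mk.injEq]; omega)

theorem long_E6 : ∀ r, (rootSys chevE6).Long r := by unfold RootSys.Long; decide +kernel
theorem long_E7' : ∀ r, (rootSys chevE7).Long r := by unfold RootSys.Long; decide +kernel
theorem long_E8' : ∀ r, (rootSys chevE8).Long r := by unfold RootSys.Long; decide +kernel
theorem long_D4 : ∀ r, (rootSys chevD4).Long r := by unfold RootSys.Long; decide +kernel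
theorem noG2_F4' : (rootSys chevF4).NoG2 := by unfold RootSys.NoG2; decide +kernel

theorem full_E6 : ∃ r s, r ≠ s ∧ Full (rootSys chevE6) r ∧ Full (rootSys chevE6) s :=
  ⟨⟨70, by decide⟩, ⟨71, by decide⟩, by unfold Full; decide +kernel⟩
theorem full_E7 : ∃ r s, r ≠ s ∧ Full (rootSys chevE7) r ∧ Full (rootSys chevE7) s :=
  ⟨⟨124, by decide⟩, ⟨125, by decide⟩, by unfold Full; decide +kernel⟩
theorem full_E8 : ∃ r s, r ≠ s ∧ Full (rootSys chevE8) r ∧ Full (rootSys chevE8) s :=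
  ⟨⟨238, by decide⟩, ⟨239, by decide⟩, by unfold Full; decide +kernel⟩
theorem full_F4 : ∃ r s, r ≠ s ∧ Full (rootSys chevF4) r ∧ Full (rootSys chevF4) s :=
  ⟨⟨46, by decide⟩, ⟨47, by decide⟩, by unfold Full; decide +kernel⟩
theorem full_G2 : ∃ r s, r ≠ s ∧ Full (rootSys chevG2) r ∧ Full (rootSys chevG2) s :=
  ⟨⟨10, by decide⟩, ⟨11, by decide⟩, by unfold Full; decide +kernel⟩
theorem full_D4 : ∃ r s, r ≠ s ∧ Full (rootSys chevD4) r ∧ Full (rootSys chevD4) s :=
  ⟨⟨22, by decide⟩, ⟨23, by decide⟩, by unfold Full; decide +kernel⟩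

theorem f4_high : ∃ r, Full (rootSys chevF4) r ∧ 2 < (rootSys chevF4).rt r (1 : Fin 4) :=
  ⟨⟨47, by decide⟩, by unfold Full; decide +kernel⟩
theorem f4_a : ∀ s, (rootSys chevF4).rt s (1 : Fin 4) = 0 → (rootSys chevF4).rt s (2 : Fin 4) = 0 →
    (rootSys chevF4).rt s (0 : Fin 4) ≤ 0 ∨ (rootSys chevF4).rt s (3 : Fin 4) ≤ 0 := by decide +kernel
theorem f4_b : ∀ s, (rootSys chevF4).rt s (0 : Fin 4) = 0 → (rootSys chevF4).rt s (3 : Fin 4) = 0 →
    (rootSys chevF4).rt s (1 : Fin 4) ≤ 2 := by decide +kernel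

theorem g23 : ∀ n ≤ 2061, 3 ∣ n → n * (n - 1) ∣ 4245696 → n = 3 ^ 1 ∨ n = 3 ^ 2 ∨ n = 3 ^ 3 ∨ n = 3 ^ 6 := by
  decide +kernel

end TrB
open TrB

theorem trB_psl {l : ℕ} (hl : 2 ≤ l) [MulAction (Matrix.ProjectiveSpecialLinearGroup (Fin l) F) Ω]
    (tw : Tw (Matrix.ProjectiveSpecialLinearGroup (Fin l) F) Ω) (hp : p ∣ Nat.card Ω)
    (U : Sylow p (Matrix.ProjectiveSpecialLinearGroup (Fin l) F)) :
    Tr (Subgroup.normalizer (U : Set (Matrix.ProjectiveSpecialLinearGroup (Fin l) F))) Ω := by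
  obtain ⟨n, rfl⟩ : ∃ n, l = n + 1 := ⟨l - 1, by omega⟩
  exact trN (isLie_PSL F n) (howlett (isLie_PSL F n) (gen_long (isLie_PSL F n) (long_A' _)) tw hp) U

theorem trB_odd {m : ℕ} (hm : 3 ≤ m) (hF : Odd (Fintype.card F)) [MulAction (POmega F (quadFormOdd m F)) Ω]
    (tw : Tw (POmega F (quadFormOdd m F)) Ω) : p ∣ Nat.card Ω ∧ ∀ U : Sylow p (POmega F (quadFormOdd m F)),
      Tr (Subgroup.normalizer (U : Set (POmega F (quadFormOdd m F)))) Ω := by
  obtain ⟨n, rfl⟩ : ∃ n, m = n + 1 := ⟨m - 1, by omega⟩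
  have h := isLie_odd (F := F) (n := n) (by omega) ⟨-1, by simp, fun h => FGL.two_ne_zero_of_odd hF (by linear_combination -h)⟩
  have hp : p ∣ Nat.card Ω := dvd_triv h tw (full_B (by omega))
  have h3 : 3 ≤ Nat.card F := by
    have := Fintype.one_lt_card (α := F)
    obtain ⟨k, hk⟩ := hF
    rw [Nat.card_eq_fintype_card]; omega
  exact ⟨hp, trN h (howlett h (gen_triv h.good (Cl.Base.noG2 _) h3) tw hp)⟩

theorem trB_plus {m : ℕ} (hm : 4 ≤ m) [MulAction (POmega F (quadFormPlus m F)) Ω]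
    (tw : Tw (POmega F (quadFormPlus m F)) Ω) : p ∣ Nat.card Ω ∧ ∀ U : Sylow p (POmega F (quadFormPlus m F)),
      Tr (Subgroup.normalizer (U : Set (POmega F (quadFormPlus m F)))) Ω := by
  obtain ⟨n, rfl⟩ : ∃ n, m = n + 2 := ⟨m - 2, by omega⟩
  have h := isLie_plus F (n := n) (by omega)
  have hp : p ∣ Nat.card Ω := dvd_triv h tw (full_D (by omega))
  exact ⟨hp, trN h (howlett h (gen_long h (long_D' _)) tw hp)⟩

theorem trB_minus {m : ℕ} (hm : 4 ≤ m) {a b : F}
    (hab : ∀ z₁ z₂ : F, z₁ ^ 2 + a * z₁ * z₂ + b * z₂ ^ 2 = 0 → z₁ = 0 ∧ z₂ = 0)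
    [MulAction (POmega F (quadFormMinus (m - 1) F a b)) Ω] (tw : Tw (POmega F (quadFormMinus (m - 1) F a b)) Ω) :
    p ∣ Nat.card Ω ∧ ∀ U : Sylow p (POmega F (quadFormMinus (m - 1) F a b)),
      Tr (Subgroup.normalizer (U : Set (POmega F (quadFormMinus (m - 1) F a b)))) Ω := by
  obtain ⟨n, rfl⟩ : ∃ n, m = n + 2 := ⟨m - 2, by omega⟩
  letI : MulAction (POmega F (quadFormMinus (n + 1) F a b)) Ω := ‹_›
  obtain ⟨K, _, _, f, hK, ω, h⟩ := Cl.exists_qSplit' hab
  have := charP_of_injective_ringHom f.injective p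
  obtain ⟨j, hj⟩ := isLie_minus h hab (n := n) (by omega) (by omega)
  have hQ := h.ptw_QS (n := n) (by omega)
  have ho : ∀ i, (h.ptw (n := n) (by omega)).π i ≠ i → (Cl.baseD n).R.A i ((h.ptw (n := n) (by omega)).π i) = 0 := fun i hi => by
    rw [Ne, Fin.ext_iff] at hi
    simp only [h.ptw_π, Cl.baseD_A, Cl.chainA, Cl.dSwap_val] at hi ⊢
    split_ifs at hi ⊢ <;> omega
  have hp : p ∣ Nat.card Ω := dvd_of_full hj tw (full_D (by omega)) fun c i hi k hk hne => by
    obtain rfl : (h.ptw (n := n) (by omega)).c i = c := hi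
    rcases (RootSys.Sym.mem_J_iff_of_invol _ hQ.ππ).1 hk with rfl | rfl
    exacts [absurd rfl hne, ho i hne.symm]
  exact ⟨hp, trN hj (howlett hj (gen_QS hj hQ (long_D' _) ho) tw hp)⟩

theorem trB_E6 [MulAction (chevE6.group F) Ω] (tw : Tw (chevE6.group F) Ω) : Tr (stG chevE6 F).B Ω := by
  have : Nonempty (Fin chevE6.rank) := ⟨(0 : Fin 6)⟩
  obtain ⟨p, _, -, hpp, -⟩ := FiniteField.card' F
  have := Fact.mk hpp
  have h := isLie_chev F chevE6
  exact howlett h (gen_long h long_E6) tw (dvd_triv (p := p) h tw full_E6)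

theorem trB_E7 [MulAction (chevE7.group F) Ω] (tw : Tw (chevE7.group F) Ω) : Tr (stG chevE7 F).B Ω := by
  have : Nonempty (Fin chevE7.rank) := ⟨(0 : Fin 7)⟩
  obtain ⟨p, _, -, hpp, -⟩ := FiniteField.card' F
  have := Fact.mk hpp
  have h := isLie_chev F chevE7
  exact howlett h (gen_long h long_E7') tw (dvd_triv (p := p) h tw full_E7)

theorem trB_E8 [MulAction (chevE8.group F) Ω] (tw : Tw (chevE8.group F) Ω) : Tr (stG chevE8 F).B Ω := by
  have : Nonempty (Fin chevE8.rank) := ⟨(0 : Fin 8)⟩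
  obtain ⟨p, _, -, hpp, -⟩ := FiniteField.card' F
  have := Fact.mk hpp
  have h := isLie_chev F chevE8
  exact howlett h (gen_long h long_E8') tw (dvd_triv (p := p) h tw full_E8)

theorem dvd_F4 [MulAction (chevF4.group F) Ω] (tw : Tw (chevF4.group F) Ω) : p ∣ Nat.card Ω := by
  have : Nonempty (Fin chevF4.rank) := ⟨(0 : Fin 4)⟩
  exact dvd_triv (isLie_chev F chevF4) tw full_F4

theorem trB_F4 (h3 : 3 ≤ Fintype.card F) [MulAction (chevF4.group F) Ω] (tw : Tw (chevF4.group F) Ω) :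
    Tr (stG chevF4 F).B Ω := by
  have : Nonempty (Fin chevF4.rank) := ⟨(0 : Fin 4)⟩
  obtain ⟨p, _, -, hpp, -⟩ := FiniteField.card' F
  have := Fact.mk hpp
  have h := isLie_chev F chevF4
  exact howlett h (gen_triv h.good noG2_F4' (Nat.card_eq_fintype_card (α := F) ▸ h3)) tw (dvd_triv (p := p) h tw full_F4)

/-- `q = 3`: `3 ∣ n` and `n (n - 1) ∣ |G₂(3)| = 2⁶ 3⁶ 7 13` give `n ∈ {3, 9, 27, 729}`, so `U` is transitive
(`Tr.of_sylow`). -/
theorem trB_G2 (h3 : 3 ≤ Fintype.card F) [MulAction (chevG2.group F) Ω] (tw : Tw (chevG2.group F) Ω) :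
    Tr (stG chevG2 F).B Ω := by
  have : Nonempty (Fin chevG2.rank) := ⟨(0 : Fin 2)⟩
  obtain ⟨p, _, -, hpp, -⟩ := FiniteField.card' F
  have := Fact.mk hpp
  have h := isLie_chev F chevG2
  have hp := dvd_triv (p := p) h tw full_G2
  rcases h3.eq_or_lt with e | e
  swap
  · exact howlett h (gen_G2 (Nat.card_eq_fintype_card (α := F) ▸ e)) tw hp
  obtain rfl : p = 3 := by
    obtain ⟨k, -, hk⟩ := FiniteField.card F p
    exact (Nat.prime_dvd_prime_iff_eq Fact.out Nat.prime_three).1 (e ▸ hk ▸ dvd_pow_self p k.ne_zero)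
  have hd := tw.mul_pred_dvd
  rw [(Agent.S1059.result (q := 3) e.symm).trans (show _ = 4245696 by norm_num)] at hd
  have hle : Nat.card Ω ≤ 2061 := by
    have := Nat.le_of_dvd (by norm_num) hd
    by_contra k
    have := Nat.mul_le_mul (show 2062 ≤ Nat.card Ω by omega) (show 2061 ≤ Nat.card Ω - 1 by omega)
    omega
  obtain ⟨a, ha⟩ : ∃ a, Nat.card Ω = 3 ^ a := by
    rcases g23 _ hle hp hd with k | k | k | k <;> exact ⟨_, k⟩
  have hs := h.sylIn (p := 3)
  exact (tw.tr_top.of_sylow le_top hs.pgroup (by rw [Subgroup.relIndex_top_right]; exact hs.toSylowTop.not_dvd_index) ha).mono (stG chevG2 F).U_le_B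

variable {G : Type*} [Group G] [Finite G] [MulAction G Ω]

theorem trB_2E6 {q : ℕ} {T : (stG chevE6 F).Twist (Fin 4)} {j : G →* chevE6.group F}
    (hT : StData.Twist.IsE6 (R := rootSys chevE6) T q) (h : T.IsLie j) (tw : Tw G Ω) :
    Tr ((stG chevE6 F).B.comap j) Ω := by
  have : Nonempty (Fin chevE6.rank) := ⟨(0 : Fin 6)⟩
  obtain ⟨p, _, -, hpp, -⟩ := FiniteField.card' F
  have := Fact.mk hpp
  have m := hT.md h.good h.inj h.isTw long_E6
  exact howlett h (gen_md m) tw (dvd_of_full (p := p) h tw full_E6 m.orth)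

theorem trB_3D4 {q : ℕ} {T : (stG chevD4 F).Twist (Fin 2)} {j : G →* chevD4.group F}
    (hT : StData.Twist.IsD4 (R := rootSys chevD4) T q) (h : T.IsLie j) (tw : Tw G Ω) :
    Tr ((stG chevD4 F).B.comap j) Ω := by
  have : Nonempty (Fin chevD4.rank) := ⟨(0 : Fin 4)⟩
  obtain ⟨p, _, -, hpp, -⟩ := FiniteField.card' F
  have := Fact.mk hpp
  have m := hT.md h.good h.inj h.isTw long_D4
  exact howlett h (gen_md m) tw (dvd_of_full (p := p) h tw full_D4 m.orth)

theorem trB_2F4 {m : ℕ} (hm : 1 ≤ m) {T : (stG chevF4 F).Twist (Fin 2)} {θ : F →+* F} {c d : Rt chevF4}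
    {j : G →* chevF4.group F} (hT : StData.Twist.IsF4 (R := rootSys chevF4) T m θ c d) (h : T.IsLie j)
    (tw : Tw G Ω) : Tr ((stG chevF4 F).B.comap j) Ω := by
  have : Nonempty (Fin chevF4.rank) := ⟨(0 : Fin 4)⟩
  obtain ⟨p, _, -, hpp, -⟩ := FiniteField.card' F
  have := Fact.mk hpp
  refine howlett (p := p) h (gen_2F4 hT hm h) tw (by_contra fun hp => ?_)
  obtain ⟨J, a, hJ, v, hv, k⟩ := alpha h tw hp
  obtain ⟨r, hr, h2⟩ := f4_high
  have k1 := (k r hr).2
  have k2 : ∀ i ∈ T.J a, (rootSys chevF4).rt (v r) i = (rootSys chevF4).rt r i := fun i hi =>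
    RootSys.WJ_rt_of_not_mem hv r (hJ i hi)
  revert k1 k2
  refine Fin.forall_fin_two (p := fun a => v r ∈ (rootSys chevF4).sub (T.J a) →
    (∀ i ∈ T.J a, (rootSys chevF4).rt (v r) i = (rootSys chevF4).rt r i) → False) |>.2 ⟨?_, ?_⟩ a
  · intro k1 k2
    have J0 := Set.ext_iff.1 hT.J0
    have := f4_a (v r) (k1 _ (mt (J0 _).1 (by decide))) (k1 _ (mt (J0 _).1 (by decide)))
    rw [k2 _ ((J0 _).2 (by decide)), k2 _ ((J0 _).2 (by decide))] at this
    exact this.elim (hr _).not_ge (hr _).not_ge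
  · intro k1 k2
    have J1 := Set.ext_iff.1 hT.J1
    have := f4_b (v r) (k1 _ (mt (J1 _).1 (by decide))) (k1 _ (mt (J1 _).1 (by decide)))
    rw [k2 _ ((J1 _).2 (by decide))] at this
    exact h2.not_ge this

end CL.T2
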