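/-
CLAS/T2 (S2193): F4
-/
import Cfsg.Agent.CLAS.T2.TrB
import Cfsg.Agent.CLAS.T2.F4A
import Cfsg.Agent.CLAS.T2.F4B
import Cfsg.Agent.CLAS.T2.F4C
import Cfsg.Agent.CLAS.T2.F4E
import Cfsg.Agent.CLAS.T2.F4U
import Cfsg.Agent.CLAS.T2.F4S

set_option autoImplicit false

namespace CL.T2

open Cfsg Cfsg.Lie CL.Chev F4x MulAction

/-- `q = 2`: `n` is even, `n ≥ 512` (`two_big`), `n (n - 1) ∣ |G|`, so `n = 4096`, against `two_fin`.  `q ≥ 3`: `B` is transitive, long root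
elements (for `q` even all root elements) fix no point, `q⁵ ∣ n`, `blk` gives `n ∈ {q⁶, q⁸, q¹²}`.  So `U` is transitive, `H` fixes a point
`ω` (Glauberman), `|U_ω| ≥ q¹²`, against `card_le`. -/
theorem F4_false {F : Type} [Field F] [Fintype F] {Ω : Type*} [Finite Ω]
    [MulAction (chevF4.group F) Ω] (tw : Tw (chevF4.group F) Ω) : False := by
  obtain ⟨p, _⟩ := CharP.exists F
  obtain ⟨f, hp, hf⟩ := FiniteField.card F p
  have := Fact.mk hp
  rw [← Nat.card_eq_fintype_card] at hf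
  have q2 : 2 ≤ Nat.card F := Finite.one_lt_card
  have n2 := tw.two_le
  rcases q2.eq_or_lt with h2 | h3
  · obtain rfl : p = 2 := (Nat.prime_dvd_prime_iff_eq hp Nat.prime_two).1 (by
      rw [h2, hf]; exact dvd_pow_self _ f.ne_zero)
    obtain ⟨ω, h1, h3⟩ := two_ex h2.symm tw
    have h4 := tw.mul_pred_dvd
    rw [card_G, ← h2] at h4
    exact two_fin h2.symm (stabilizer _ ω) ((tw.index ω).trans (ar2 (dvd_F4 tw) (two_big h2.symm h1 h3) h4))
  have hB := trB_F4 (Nat.card_eq_fintype_card (α := F) ▸ h3) tw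
  have hl := semi_long tw hB
  obtain ⟨κ, b, k1, -, k2, -⟩ := tw.blk nz_P (hB.mono ((S4 F).B_le_P J4))
  obtain ⟨ω₀, -⟩ := tw.nt
  have k3 : κ = Nat.card F := by
    have := k1 ω₀
    rw [(Subgroup.eq_bot_iff_forall (_ ⊓ stabilizer _ ω₀)).2 fun x hx => hl x hx.1 ω₀ hx.2, Subgroup.card_bot, mul_one, card_X] at this
    exact this.symm
  rw [k3, index_P] at k2
  obtain ⟨a, ha, hn⟩ : ∃ a ≤ 12, Nat.card Ω = Nat.card F ^ a := by
    rcases ar q2 (by omega) (Dvd.intro_left _ k2) (dvd5 hl) with e | e | e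
    exacts [⟨6, by omega, e⟩, ⟨8, by omega, e⟩, ⟨12, le_rfl, e⟩]
  have hH : ¬ p ∣ Nat.card (S4 F).H := good.not_dvd_card_H stG_adjoint
  have hU : IsPGroup p (S4 F).U := good.isPGroup_U
  have hT : Tr (S4 F).U Ω := hB.of_sylow (S4 F).U_le_B hU (a := f * a) (fun k => hH (by
    have h1 := Hs.ri (S4 F).U_le_B
    rw [good.card_B, mul_comm] at h1
    rwa [← Nat.eq_of_mul_eq_mul_left Nat.card_pos h1])) (by rw [hn, hf, pow_mul])
  obtain ⟨e, he⟩ := hU.exists_card_eq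
  obtain ⟨k, -, hk⟩ := coprime_fixed_point (S4 F).H (S4 F).U ((S4 F).H_le_normalizer_XS _)
    (he ▸ ((Nat.Prime.coprime_iff_not_dvd hp).2 hH).symm.pow_right e) (.inr (by have := hU.isNilpotent; infer_instance)) ω₀
    fun h _ => let ⟨u, hu, e⟩ := hT ω₀ (h • ω₀); ⟨u, hu, e.symm⟩
  have h1 := card_le h3 (A := (S4 F).U ⊓ stabilizer _ (k • ω₀)) inf_le_left (fun h hh x hx =>
    ⟨(Subgroup.mem_normalizer_iff.1 ((S4 F).H_le_normalizer_XS _ hh) x).1 hx.1, by
      have : x • k • ω₀ = k • ω₀ := hx.2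
      change _ • _ = _
      rw [mul_smul, mul_smul, hk _ (inv_mem hh), this, hk _ hh]⟩)
    (fun r hr t ht => by_contra fun h0 => Semi.x_ne (by rwa [if_pos hr]) h0 _ ht.2) fun h2 r hr t ht => by_contra fun h0 => by
      have := CharTwo.of_one_ne_zero_of_two_eq_zero (R := F) one_ne_zero h2
      exact Semi.x_ne (by rw [if_neg hr]; exact semi_short tw hB) h0 _ ht.2
  have h2 := hT.card_eq (k • ω₀)
  rw [card_U, hn] at h2
  have h4 : Nat.card F ^ 24 ≤ Nat.card F ^ (12 + 11) := by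
    rw [h2, pow_add]
    exact Nat.mul_le_mul (Nat.pow_le_pow_right (by omega) ha) h1
  exact absurd ((Nat.pow_le_pow_iff_right (by omega)).1 h4) (by omega)

end CL.T2
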