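/-
CLAS/T2 (S2193): Heisenberg groups
-/
import Cfsg.Agent.CLAS.T2.Blk
import Mathlib.GroupTheory.FiniteAbelian.Duality
import Mathlib.RingTheory.RootsOfUnity.AlgebraicallyClosed
import Mathlib.Analysis.Complex.Polynomial.Basic
import Mathlib.GroupTheory.Nilpotent
import Mathlib.LinearAlgebra.Dimension.Constructions

set_option autoImplicit false

namespace CL.T2

open MulAction

variable {G Ω : Type*} [Group G] [Finite G] [MulAction G Ω] [Finite Ω]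

namespace Hs

/-- characters trivial on `N` number at most `[H : N]` -/
theorem hom_count {H : Type*} [Group H] [Finite H] (N : Subgroup H) {ι : Type*} [Finite ι]
    (φ : ι → (H →* ℂˣ)) (hinj : Function.Injective φ) (hN : ∀ i, ∀ n ∈ N, φ i n = 1) : Nat.card ι ≤ N.index := by
  classical
  have := Fintype.ofFinite ι
  have := Fintype.ofFinite (H ⧸ N)
  let ψ : ι → (H →* ℂ) := fun i => (Units.coeHom ℂ).comp (φ i)
  have hψ : Function.Injective ψ := fun i j e => hinj (MonoidHom.ext fun x => Units.ext (DFunLike.congr_fun e x))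
  have h1 : LinearIndependent ℂ (fun i => (ψ i : H → ℂ)) := (linearIndependent_monoidHom H ℂ).comp ψ hψ
  let v : ι → (H ⧸ N → ℂ) := fun i c => ψ i c.out
  have h2 : (fun i => (ψ i : H → ℂ)) = (LinearMap.funLeft ℂ ℂ (QuotientGroup.mk : H → H ⧸ N)) ∘ v := by
    funext i x
    obtain ⟨n, e⟩ := QuotientGroup.mk_out_eq_mul N x
    simp only [Function.comp, LinearMap.funLeft_apply, v, e, map_mul, ψ, MonoidHom.comp_apply, hN i n n.2,
      mul_one]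
  rw [h2] at h1
  have h3 := (LinearIndependent.of_comp _ h1).fintype_card_le_finrank
  rwa [Module.finrank_fintype_fun_eq_card, ← Nat.card_eq_fintype_card, ← Nat.card_eq_fintype_card] at h3

theorem hom_count' {B H : Type*} [Group B] [Finite B] [Group H] [Finite H] (N : Subgroup H)
    (Φ : B →* (H →* ℂˣ)) (hN : ∀ b, ∀ n ∈ N, Φ b n = 1) : Nat.card B ≤ Nat.card Φ.ker * N.index := by
  have : Finite Φ.range := Finite.of_surjective _ Φ.rangeRestrict_surjective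
  have h1 := hom_count N (fun i : Φ.range => (i : H →* ℂˣ)) Subtype.val_injective (by
    rintro ⟨_, b, rfl⟩ n hn
    exact hN b n hn)
  rw [← Φ.ker.card_mul_index, Subgroup.index_ker]
  exact Nat.mul_le_mul_left _ h1

omit [MulAction G Ω] [Finite Ω] in
theorem exists_lam {Z A : Subgroup G} (cen : ∀ z ∈ Z, ∀ x ∈ Z, x * z = z * x) (hZA : ¬ Z ≤ A) :
    ∃ l : G → ℂˣ, (∀ a ∈ Z, ∀ b ∈ Z, l (a * b) = l a * l b) ∧ (∀ a ∈ Z, a ∈ A → l a = 1) ∧ ∃ z ∈ Z, l z ≠ 1 := by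
  classical
  let : CommGroup Z := { (inferInstance : Group Z) with mul_comm := fun a b => Subtype.ext (cen _ b.2 _ a.2) }
  obtain ⟨z, hz, hzA⟩ := SetLike.not_le_iff_exists.1 hZA
  have : NeZero (Monoid.exponent Z) := ⟨Monoid.exponent_ne_zero_of_finite⟩
  have h := (CommGroup.forall_monoidHom_apply_eq_one_iff (G := Z) ℂ (A.subgroupOf Z) ⟨z, hz⟩).not.2 hzA
  push Not at h
  obtain ⟨φ, h1, h2⟩ := h
  refine ⟨fun g => if hg : g ∈ Z then φ ⟨g, hg⟩ else 1, fun a ha b hb => ?_, fun a ha hA => ?_, z, hz, ?_⟩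
  · simp only [dif_pos ha, dif_pos hb, dif_pos (mul_mem ha hb)]
    exact φ.map_mul ⟨a, ha⟩ ⟨b, hb⟩
  · simp only [dif_pos ha]
    exact h1 _ hA
  · simpa only [dif_pos hz] using h2

omit [Finite G] [MulAction G Ω] [Finite Ω] in
/-- the pairing `(x, m) ↦ λ ⁅x, m⁆` -/
theorem exists_Phi {Q M Z : Subgroup G} (hM : M ≤ Q) (cen : ∀ z ∈ Z, ∀ x ∈ Q, x * z = z * x)
    (comm : ∀ x ∈ Q, ∀ m ∈ M, x * m * x⁻¹ * m⁻¹ ∈ Z) {l : G → ℂˣ}
    (hl : ∀ a ∈ Z, ∀ b ∈ Z, l (a * b) = l a * l b) :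
    ∃ Φ : M →* (Q →* ℂˣ), ∀ m x, Φ m x = l (x * m * (x : G)⁻¹ * (m : G)⁻¹) := by
  refine ⟨MonoidHom.mk' (fun m => MonoidHom.mk' (fun x => l (x * m * (x : G)⁻¹ * (m : G)⁻¹)) fun x y => ?_)
    fun m m' => MonoidHom.ext fun x => ?_, fun _ _ => rfl⟩
  · rw [mul_comm, ← hl _ (comm _ y.2 _ m.2) _ (comm _ x.2 _ m.2)]
    congr 1
    have := cen _ (comm _ y.2 _ m.2) _ x.2
    calc ((x * y : Q) : G) * m * ((x * y : Q) : G)⁻¹ * (m : G)⁻¹
        = ((x : G) * (y * m * (y : G)⁻¹ * (m : G)⁻¹)) * m * (x : G)⁻¹ * (m : G)⁻¹ := by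
          simp only [Subgroup.coe_mul]; group
      _ = _ := by rw [this]; group
  · change l _ = l _ * l _
    rw [← hl _ (comm _ x.2 _ m.2) _ (comm _ x.2 _ m'.2)]
    congr 1
    have := cen _ (comm _ x.2 _ m'.2) _ (hM m.2)
    calc (x : G) * ((m * m' : M) : G) * (x : G)⁻¹ * ((m * m' : M) : G)⁻¹
        = (x : G) * m * (x : G)⁻¹ * (m : G)⁻¹ * ((m : G) * (x * m' * (x : G)⁻¹ * (m' : G)⁻¹)) * (m : G)⁻¹ := by
          simp only [Subgroup.coe_mul]; group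
      _ = _ := by rw [this]; group

omit [Finite G] [MulAction G Ω] [Finite Ω] in
theorem lam_one {Z : Subgroup G} {l : G → ℂˣ} (hl : ∀ a ∈ Z, ∀ b ∈ Z, l (a * b) = l a * l b) : l 1 = 1 := by
  have := hl 1 (one_mem _) 1 (one_mem _)
  rw [mul_one] at this
  exact (mul_eq_left.1 this.symm)

omit [Finite G] [MulAction G Ω] [Finite Ω] in
theorem ri {A B : Subgroup G} (h : A ≤ B) : A.relIndex B * Nat.card A = Nat.card B := by
  rw [← (A.subgroupOf B).index_mul_card, Nat.card_congr (Subgroup.subgroupOfEquivOfLe h).toEquiv]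
  rfl

omit [MulAction G Ω] [Finite Ω] in
theorem card_mul_le (A R : Subgroup G) :
    Nat.card A * Nat.card R ≤ Nat.card (A ⊔ R : Subgroup G) * Nat.card (A ⊓ R : Subgroup G) := by
  have h1 : (A ⊓ R).relIndex R * Nat.card (A ⊓ R : Subgroup G) = Nat.card R :=
    Hs.ri inf_le_right
  have h2 : A.relIndex (A ⊔ R) * Nat.card A = Nat.card (A ⊔ R : Subgroup G) :=
    Hs.ri le_sup_left
  have h3 : A.relIndex R ≤ A.relIndex (A ⊔ R) :=
    Subgroup.relIndex_le_of_le_right le_sup_right Subgroup.index_ne_zero_of_finite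
  rw [Subgroup.inf_relIndex_right] at h1
  rw [← h1, ← h2]
  calc _ = A.relIndex R * Nat.card A * Nat.card (A ⊓ R : Subgroup G) := by ring
    _ ≤ _ := by gcongr

omit [MulAction G Ω] [Finite Ω] in
theorem exists_cen {p : ℕ} [Fact p.Prime] {U : Subgroup G} (hU : IsPGroup p U) (D Z : G → Prop) (h1 : Z 1)
    (hD : ∀ d ∈ U, D d → ∀ u ∈ U, D (d * u * d⁻¹ * u⁻¹)) {d : G} (hdU : d ∈ U) (hd : D d) (hdZ : ¬ Z d) :
    ∃ d ∈ U, D d ∧ ¬ Z d ∧ ∀ u ∈ U, Z (d * u * d⁻¹ * u⁻¹) := by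
  by_contra hc
  have := hU.isNilpotent
  obtain ⟨n, hn⟩ := Group.IsNilpotent.nilpotent U
  have key : ∀ k, ∀ x : U, x ∈ Subgroup.upperCentralSeries U k → D x → Z x := by
    intro k
    induction k with
    | zero =>
      intro x hx _
      rw [Subgroup.upperCentralSeries_zero, Subgroup.mem_bot] at hx
      rw [hx]; exact h1
    | succ k ih =>
      intro x hx hxD
      by_contra hxZ
      exact hc ⟨x, x.2, hxD, hxZ, fun u hu =>
        ih _ (Subgroup.mem_upperCentralSeries_succ_iff.1 hx ⟨u, hu⟩) (hD _ x.2 hxD u hu)⟩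
  exact hdZ (key n ⟨d, hdU⟩ (by rw [hn]; trivial) hd)

end Hs

/-- (P4)  `Z` is abelian; take `λ : Z →* ℂˣ` trivial on `A ⊓ Z`, `λ ≠ 1`.  For `m ∈ M`, `x ↦ λ ⁅x, m⁆` is a homomorphism
`φ m : Q →* ℂˣ` (`Z` central), multiplicative in `m`; for `m ∈ A ⊓ M` it is trivial on `N = A ⊔ R₁`, and `φ m = 1` forces
`m ∈ R₂`.  The homomorphisms `Q →* ℂˣ` trivial on `N` number at most `[Q : N]` (they factor through the abelian
group `Q / N Q'`), and `|N| ≥ |A| |R₁| / |A ⊓ R₁|`. -/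
theorem pairing {Q M Z R₁ R₂ A : Subgroup G} (hM : M ≤ Q) (hZ : Z ≤ Q) (cen : ∀ z ∈ Z, ∀ x ∈ Q, x * z = z * x)
    (comm : ∀ x ∈ Q, ∀ m ∈ M, x * m * x⁻¹ * m⁻¹ ∈ Z) (h1 : R₁ ≤ Q) (hR : ∀ x ∈ R₁, ∀ m ∈ M, x * m = m * x)
    (nd : ∀ m ∈ M, m ∉ R₂ → ∀ z ∈ Z, ∃ x ∈ Q, x * m * x⁻¹ * m⁻¹ = z) (hA : A ≤ Q) (hZA : ¬ Z ≤ A) :
    Nat.card (A ⊓ M : Subgroup G) * Nat.card A * Nat.card R₁ ≤
      Nat.card Q * Nat.card (A ⊓ R₁ : Subgroup G) * Nat.card (A ⊓ R₂ : Subgroup G) := by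
  obtain ⟨l, hl, hlA, z, hz, hlz⟩ := Hs.exists_lam (Z := Z) (A := A) (fun z hz x hx => cen z hz x (hZ hx)) hZA
  obtain ⟨Φ, hΦ⟩ := Hs.exists_Phi (M := A ⊓ M) (inf_le_right.trans hM) cen (fun x hx m hm => comm x hx m hm.2) hl
  have hN : ∀ b, ∀ n ∈ (A ⊔ R₁).subgroupOf Q, Φ b n = 1 := by
    intro b n hn
    have : A ⊔ R₁ ≤ (Φ b).ker.map Q.subtype := by
      refine sup_le (fun a ha => ⟨⟨a, hA ha⟩, ?_, rfl⟩) fun r hr => ⟨⟨r, h1 hr⟩, ?_, rfl⟩
      · rw [SetLike.mem_coe, MonoidHom.mem_ker, hΦ]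
        exact hlA _ (comm _ (hA ha) _ b.2.2) (mul_mem (mul_mem (mul_mem ha b.2.1) (inv_mem ha)) (inv_mem b.2.1))
      · rw [SetLike.mem_coe, MonoidHom.mem_ker, hΦ]
        change l (r * b * r⁻¹ * (b : G)⁻¹) = 1
        rw [hR r hr b b.2.2]
        simpa using Hs.lam_one hl
    obtain ⟨y, hy, e⟩ := this hn
    rw [← show y = n from Subtype.ext e]
    exact hy
  have h2 := Hs.hom_count' _ Φ hN
  have h3 : Nat.card Φ.ker ≤ Nat.card (A ⊓ R₂ : Subgroup G) := by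
    refine Nat.card_le_card_of_injective (fun m => ⟨m.1.1, m.1.2.1, ?_⟩) fun a b e => ?_
    · by_contra hm
      obtain ⟨x, hx, e⟩ := nd _ m.1.2.2 hm z hz
      apply hlz
      rw [← e, ← hΦ m.1 ⟨x, hx⟩, MonoidHom.mem_ker.1 m.2]
      rfl
    · exact Subtype.ext (Subtype.ext (Subtype.mk.inj e))
  have h4 : (A ⊔ R₁).relIndex Q * Nat.card (A ⊔ R₁ : Subgroup G) = Nat.card Q :=
    Hs.ri (sup_le hA h1)
  have h5 := Hs.card_mul_le A R₁
  change _ ≤ _ * (A ⊔ R₁).relIndex Q at h2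
  calc _ = Nat.card (A ⊓ M : Subgroup G) * (Nat.card A * Nat.card R₁) := by ring
    _ ≤ (Nat.card (A ⊓ R₂ : Subgroup G) * (A ⊔ R₁).relIndex Q) *
        (Nat.card (A ⊔ R₁ : Subgroup G) * Nat.card (A ⊓ R₁ : Subgroup G)) :=
      Nat.mul_le_mul (h2.trans (Nat.mul_le_mul_right _ h3)) h5
    _ = _ := by rw [← h4]; ring

theorem Heis.card_sq {Q Z A : Subgroup G} (h : Heis Q Z) (hA : A ≤ Q) (hZA : ¬ Z ≤ A) :
    Nat.card A ^ 2 * Nat.card Z ≤ Nat.card Q * Nat.card (A ⊓ Z : Subgroup G) ^ 2 := by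
  have := pairing le_rfl h.le h.cen h.comm h.le (fun x hx m hm => (h.cen x hx m hm).symm)
    (R₂ := Z) (fun m hm hm' z hz => by
      obtain ⟨y, hy, e⟩ := h.nd m hm hm' z⁻¹ (inv_mem hz)
      exact ⟨y, hy, by rw [← inv_inj, ← e]; group⟩) hA hZA
  rw [inf_eq_left.2 hA] at this
  calc _ = Nat.card A * Nat.card A * Nat.card Z := by ring
    _ ≤ _ := this
    _ = _ := by ring

/-- all `Z`-orbits of length `p ^ c`, `c > 0`, `[Q : Z] = p ^ (2 d)`: all `Q`-orbits have length `≥ p ^ (d + c)` -/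
theorem Heis.pow_dvd {p c d : ℕ} [Fact p.Prime] {Q Z : Subgroup G} (h : Heis Q Z) (hQ : IsPGroup p Q)
    (hd : Nat.card Q = p ^ (2 * d) * Nat.card Z) (hc : 0 < c)
    (hκ : ∀ ω : Ω, Nat.card Z = p ^ c * Nat.card (Z ⊓ stabilizer G ω : Subgroup G)) :
    (∀ ω : Ω, p ^ (d + c) * Nat.card (Q ⊓ stabilizer G ω : Subgroup G) ≤ Nat.card Q) ∧ p ^ (d + c) ∣ Nat.card Ω := by
  have hp : 1 < p := (Fact.out : p.Prime).one_lt
  have key : ∀ ω : Ω, p ^ (d + c) * Nat.card (Q ⊓ stabilizer G ω : Subgroup G) ≤ Nat.card Q := by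
    intro ω
    have hs : 0 < Nat.card (Z ⊓ stabilizer G ω : Subgroup G) := Nat.card_pos
    have hZA : ¬ Z ≤ Q ⊓ stabilizer G ω := fun hle => by
      have h1 := hκ ω
      rw [inf_eq_left.2 (hle.trans inf_le_right)] at h1 hs
      have := Nat.one_lt_pow hc.ne' hp
      nlinarith
    have h1 := h.card_sq inf_le_left hZA
    have h2 : Q ⊓ stabilizer G ω ⊓ Z = Z ⊓ stabilizer G ω := by
      rw [inf_right_comm, inf_eq_right.2 h.le]
    rw [h2, hd] at h1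
    have hZ : 0 < Nat.card Z := Nat.card_pos
    have h3 : Nat.card (Q ⊓ stabilizer G ω : Subgroup G) ^ 2 ≤
        (p ^ d * Nat.card (Z ⊓ stabilizer G ω : Subgroup G)) ^ 2 := by
      refine Nat.le_of_mul_le_mul_right (h1.trans (le_of_eq ?_)) hZ
      ring
    have h4 := (Nat.pow_le_pow_iff_left two_ne_zero).1 h3
    rw [hd, hκ ω]
    calc _ ≤ p ^ (d + c) * (p ^ d * Nat.card (Z ⊓ stabilizer G ω : Subgroup G)) := Nat.mul_le_mul_left _ h4
      _ = _ := by ring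
  exact ⟨key, pow_dvd_card hQ key⟩

/-- (P5)  `H` acts on the `Q`-orbits; if the stabiliser `A` of an orbit does not contain `Z`, then
`[H : A] ≥ e [Z : A ⊓ Z] ≥ 2 e`, and in fact `≥ p e` for a `p`-group. -/
theorem Heis.le_okr {p e : ℕ} [Fact p.Prime] {Q H Z : Subgroup G} (h : Heis H Z) (hp : IsPGroup p H) (hn : Nz H Q)
    (he : Nat.card H = e ^ 2 * Nat.card Z) (hlt : Nat.card (orbitRel.Quotient Q Ω) < p * e) : Z ≤ okr Q Ω := by
  intro z hz ω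
  by_contra hc
  let A : Subgroup G :=
    { carrier := {g | g ∈ H ∧ ∃ x ∈ Q, g • ω = x • ω}
      one_mem' := ⟨one_mem _, 1, one_mem _, rfl⟩
      mul_mem' := by
        rintro a b ⟨ha, x, hx, e⟩ ⟨hb, y, hy, e'⟩
        refine ⟨mul_mem ha hb, a * y * a⁻¹ * x, mul_mem (hn a ha y hy) hx, ?_⟩
        simp only [mul_smul, e', ← e, inv_smul_smul]
      inv_mem' := by
        rintro a ⟨ha, x, hx, e⟩
        refine ⟨inv_mem ha, a⁻¹ * x⁻¹ * a⁻¹⁻¹, hn _ (inv_mem ha) _ (inv_mem hx), ?_⟩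
        simp only [mul_smul, inv_inv, e, inv_smul_smul] }
  have hA : A ≤ H := fun g hg => hg.1
  have hZA : ¬ Z ≤ A := fun hle => hc (hle hz).2
  have h1 := h.card_sq hA hZA
  have hZ : 0 < Nat.card Z := Nat.card_pos
  have hs : 0 < Nat.card (A ⊓ Z : Subgroup G) := Nat.card_pos
  have h3 : Nat.card A ^ 2 ≤ (e * Nat.card (A ⊓ Z : Subgroup G)) ^ 2 := by
    refine Nat.le_of_mul_le_mul_right (h1.trans (le_of_eq ?_)) hZ
    rw [he]; ring
  have h4 := (Nat.pow_le_pow_iff_left two_ne_zero).1 h3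
  have h5 : A.relIndex H ≤ Nat.card (orbitRel.Quotient Q Ω) := by
    refine Nat.card_le_card_of_injective
      (fun c : H ⧸ A.subgroupOf H => (Quotient.mk _ ((c.out : G) • ω) : orbitRel.Quotient Q Ω)) fun a b e => ?_
    obtain ⟨⟨x, hx⟩, e⟩ := (orbitRel_apply.1 (Quotient.exact e) : _ ∈ orbit Q _)
    rw [← a.out_eq, ← b.out_eq]
    refine (QuotientGroup.eq.2 ?_).symm
    refine ⟨((b.out)⁻¹ * a.out).2, (b.out : G)⁻¹ * x * (b.out : G)⁻¹⁻¹, hn _ (inv_mem b.out.2) _ hx, ?_⟩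
    change x • (b.out : G) • ω = (a.out : G) • ω at e
    simp only [Subgroup.coe_subtype, Subgroup.coe_mul, Subgroup.coe_inv, mul_smul, inv_inv, e]
  have h6 : A.relIndex H * Nat.card A = Nat.card H := Hs.ri hA
  have h7 : (A ⊓ Z).relIndex Z * Nat.card (A ⊓ Z : Subgroup G) = Nat.card Z :=
    Hs.ri inf_le_right
  have h8 : p ≤ (A ⊓ Z).relIndex Z := by
    obtain ⟨k, hk⟩ := (hp.to_le h.le).index ((A ⊓ Z).subgroupOf Z)
    change (A ⊓ Z).relIndex Z = _ at hk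
    rcases k with _ | k
    · exact (hZA ((Subgroup.relIndex_eq_one.1 hk).trans inf_le_left)).elim
    · rw [hk]
      exact Nat.le_self_pow (Nat.succ_ne_zero k) p
  have he0 : 0 < e := by
    rcases e with _ | e
    · have : 0 < Nat.card H := Nat.card_pos
      simp [he] at this
    · exact Nat.succ_pos e
  have h9 : (p * e) * (e * Nat.card (A ⊓ Z : Subgroup G)) ≤
      Nat.card (orbitRel.Quotient Q Ω) * (e * Nat.card (A ⊓ Z : Subgroup G)) :=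
    calc _ = e ^ 2 * (p * Nat.card (A ⊓ Z : Subgroup G)) := by ring
      _ ≤ e ^ 2 * Nat.card Z := by rw [← h7]; gcongr
      _ = A.relIndex H * Nat.card A := by rw [h6, he]
      _ ≤ _ := Nat.mul_le_mul h5 h4
  exact absurd (Nat.le_of_mul_le_mul_right h9 (Nat.mul_pos he0 hs)) hlt.not_ge

/-- (KILL)  `A = Q_ω ≠ 1`, `D = A Z` is normalised by `U` (`u ω = x ω`, `x⁻¹ u` normalises `A`, `⁅Q, Q⁆ ≤ Z`), `D > Z`.
The `p`-group `U` fixes a nontrivial element of `D / Z`: `d ∈ C = {x ∈ Q | ⁅x, U⁆ ≤ Z}`, `d ∉ Z`.  Duality: fix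
`λ : Z →* ℂˣ`, `λ ≠ 1`; for `x ∈ C` the homomorphism `y ↦ λ ⁅x, y⁆` on `Q` is `U`-invariant, so kills `⁅Q, U⁆`, so is
determined by its restriction to `X₀`, and is trivial only for `x ∈ Z`: `[C : Z] ≤ |X₀|`, so `C = E`.  `d = a z` gives
`1 ≠ a ∈ E ⊓ G_ω`, conjugate into the semiregular `Z`. -/
theorem Heis.kill {p : ℕ} [Fact p.Prime] {U Q Z X₀ E : Subgroup G} (h : Heis Q Z) (h0 : Z ≠ ⊥) (hU : IsPGroup p U)
    (hQ : Q ≤ U) (hn : Nz U Q) (hc : ∀ z ∈ Z, ∀ u ∈ U, u * z = z * u) (hX : X₀ ≤ Q) (hg : Q ≤ X₀ ⊔ ⁅Q, U⁆)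
    (hZE : Z ≤ E) (hEQ : E ≤ Q) (hE : ∀ e ∈ E, ∀ u ∈ U, e * u * e⁻¹ * u⁻¹ ∈ Z)
    (hcard : Nat.card X₀ * Nat.card Z ≤ Nat.card E) (hcj : ∀ e ∈ E, ∃ g : G, g * e * g⁻¹ ∈ Z)
    (hS : Semi Z Ω) (hT : Tr Q Ω) [Nonempty Ω] (hlt : Nat.card Ω < Nat.card Q) : False := by
  obtain ⟨ω⟩ := ‹Nonempty Ω›
  obtain ⟨a, haQ, haω, ha1⟩ : ∃ a ∈ Q, a • ω = ω ∧ a ≠ 1 := by
    by_contra hc'
    push Not at hc'
    have h1 := hT.card_eq ω
    have : Q ⊓ stabilizer G ω = ⊥ := eq_bot_iff.2 fun a ha => hc' a ha.1 ha.2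
    rw [this, Subgroup.card_bot, mul_one] at h1
    exact hlt.ne' h1
  obtain ⟨d, -, ⟨hdQ, z₀, hz₀, hdω⟩, hdZ, hdC⟩ := Hs.exists_cen hU (fun d => d ∈ Q ∧ ∃ z ∈ Z, d • ω = z • ω)
    (· ∈ Z) (one_mem _) (by
      rintro d - ⟨hd, z, hz, e⟩ u hu
      obtain ⟨x, hx, ex⟩ := hT ω (u⁻¹ • ω)
      have hz₁ := h.comm _ (inv_mem hd) _ hx
      refine ⟨?_, _, hz₁, ?_⟩
      · have := mul_mem hd (hn u hu _ (inv_mem hd))
        simpa only [mul_assoc] using this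
      · generalize hw : d⁻¹ * x * d⁻¹⁻¹ * x⁻¹ = w at hz₁
        have e1 : d⁻¹ * x = w * x * d⁻¹ := by rw [← hw]; group
        have e2 : d⁻¹ • ω = z⁻¹ • ω := by
          rw [inv_smul_eq_iff, ← mul_smul, h.cen _ (inv_mem hz) _ hd, mul_smul, e, inv_smul_smul]
        have e3 : (w * z⁻¹) ∈ Z := mul_mem hz₁ (inv_mem hz)
        calc (d * u * d⁻¹ * u⁻¹) • ω = (d * u) • (d⁻¹ * x) • ω := by simp only [mul_smul, ex]
          _ = (d * u) • (w * (x * z⁻¹)) • ω := by rw [e1]; simp only [mul_smul, e2]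
          _ = (d * (u * (w * z⁻¹))) • u⁻¹ • ω := by rw [h.cen _ (inv_mem hz) _ hx]; simp only [mul_smul, ex]
          _ = (d * (w * z⁻¹)) • ω := by rw [hc _ e3 u hu]; simp only [mul_smul, smul_inv_smul]
          _ = w • ω := by rw [h.cen _ e3 _ hd]; simp only [mul_smul, e, inv_smul_smul])
    (hQ haQ) ⟨haQ, 1, one_mem _, by rw [haω, one_smul]⟩ fun haZ => ha1 (hS a haZ ω haω)
  let C : Subgroup G :=
    { carrier := {x | x ∈ Q ∧ ∀ u ∈ U, x * u * x⁻¹ * u⁻¹ ∈ Z}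
      one_mem' := ⟨one_mem _, fun u _ => by simp⟩
      mul_mem' := by
        rintro x y ⟨hx, hx'⟩ ⟨hy, hy'⟩
        refine ⟨mul_mem hx hy, fun u hu => ?_⟩
        have e : x * y * u * (x * y)⁻¹ * u⁻¹ = (x * (y * u * y⁻¹ * u⁻¹)) * u * x⁻¹ * u⁻¹ := by group
        rw [e, h.cen _ (hy' u hu) _ hx]
        simpa only [mul_assoc] using mul_mem (hy' u hu) (hx' u hu)
      inv_mem' := by
        rintro x ⟨hx, hx'⟩
        refine ⟨inv_mem hx, fun u hu => ?_⟩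
        have e : x⁻¹ * u * x⁻¹⁻¹ * u⁻¹ = x⁻¹ * (x * u * x⁻¹ * u⁻¹)⁻¹ * x := by group
        rw [e, h.cen _ (inv_mem (hx' u hu)) _ (inv_mem hx), inv_mul_cancel_right]
        exact inv_mem (hx' u hu) }
  have hCQ : C ≤ Q := fun x hx => hx.1
  obtain ⟨l, hl, -, z, hz, hlz⟩ := Hs.exists_lam (Z := Z) (A := ⊥) (fun z hz x hx => h.cen z hz x (h.le hx))
    fun hle => h0 (le_bot_iff.1 hle)
  obtain ⟨Φ, hΦ⟩ := Hs.exists_Phi hCQ h.cen (fun x hx m hm => h.comm x hx m hm.1) hl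
  let Ψ : C →* (X₀ →* ℂˣ) := (MonoidHom.compHom' (Subgroup.inclusion hX)).comp Φ
  have hΨ : ∀ m x, Ψ m x = Φ m (Subgroup.inclusion hX x) := fun _ _ => rfl
  have h2 := Hs.hom_count' ⊥ Ψ fun b n hn => by rw [Subgroup.mem_bot.1 hn, map_one]
  have h3 : Nat.card Ψ.ker ≤ Nat.card Z := by
    refine Nat.card_le_card_of_injective (fun m => ⟨m.1.1, ?_⟩) fun a b e => ?_
    · by_contra hm
      obtain ⟨x, hx, e⟩ := h.nd _ m.1.2.1 hm z⁻¹ (inv_mem hz)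
      have hK : X₀ ⊔ ⁅Q, U⁆ ≤ (Φ m.1).ker.map Q.subtype := by
        refine sup_le (fun y hy => ⟨⟨y, hX hy⟩, ?_, rfl⟩) (Subgroup.commutator_le.2 fun q hq u hu => ?_)
        · have := hΨ m.1 ⟨y, hy⟩
          rw [MonoidHom.mem_ker.1 m.2] at this
          exact this.symm
        · refine ⟨⟨q, hq⟩ * ⟨u * q⁻¹ * u⁻¹, hn u hu _ (inv_mem hq)⟩, ?_, by
            simp [commutatorElement_def, mul_assoc]⟩
          have e1 : Φ m.1 ⟨u * q⁻¹ * u⁻¹, hn u hu _ (inv_mem hq)⟩ = Φ m.1 (⟨q, hq⟩ : Q)⁻¹ := by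
            rw [hΦ, hΦ]
            congr 1
            generalize hy : (m.1 : G) = y
            have hyC : y ∈ C := hy ▸ m.1.2
            have h1 := hyC.2 _ (inv_mem hu)
            generalize hw : y * u⁻¹ * y⁻¹ * u⁻¹⁻¹ = w at h1
            have e2 : u⁻¹ * y⁻¹ * u = y⁻¹ * w := by rw [← hw]; group
            have e3 : u⁻¹ * y * u = w⁻¹ * y := by
              rw [← inv_inj, mul_inv_rev (w⁻¹), inv_inv, ← e2]; group
            have h4 := h.comm _ (inv_mem hq) _ hyC.1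
            simp only [Subgroup.coe_inv, inv_inv] at h4 ⊢
            calc u * q⁻¹ * u⁻¹ * y * (u * q⁻¹ * u⁻¹)⁻¹ * y⁻¹
                = u * (q⁻¹ * (u⁻¹ * y * u) * q * (u⁻¹ * y⁻¹ * u)) * u⁻¹ := by group
              _ = u * ((q⁻¹ * w⁻¹) * y * q * y⁻¹ * w) * u⁻¹ := by rw [e2, e3]; group
              _ = u * (w⁻¹ * ((q⁻¹ * y * q * y⁻¹) * w)) * u⁻¹ := by
                rw [h.cen _ (inv_mem h1) _ (inv_mem hq)]; group
              _ = u * (q⁻¹ * y * q * y⁻¹) * u⁻¹ := by rw [h.cen _ h1 _ (h.le h4)]; group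
              _ = _ := by rw [hc _ h4 u hu]; group
          rw [SetLike.mem_coe, MonoidHom.mem_ker, map_mul, e1, ← map_mul, mul_inv_cancel, map_one]
      obtain ⟨y, hy, ey⟩ := hK (hg hx)
      apply hlz
      have e' : z = x * m.1 * x⁻¹ * (m.1 : G)⁻¹ := by rw [← inv_inj, ← e]; group
      rw [e', ← show (y : G) = x from ey, ← hΦ]
      exact hy
    · exact Subtype.ext (Subtype.ext (Subtype.mk.inj e))
  have hEC : E ≤ C := fun x hx => ⟨hEQ hx, hE x hx⟩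
  have h4 : Nat.card C ≤ Nat.card E := by
    rw [Subgroup.index_bot] at h2
    exact h2.trans ((Nat.mul_le_mul_right _ h3).trans (by rwa [mul_comm]))
  have h5 : E = C := Subgroup.eq_of_le_of_card_ge hEC h4
  have hdE : d ∈ E := by rw [h5]; exact ⟨hdQ, hdC⟩
  obtain ⟨g, hg'⟩ := hcj _ (mul_mem (inv_mem (hZE hz₀)) hdE)
  have := hS.conj hg' (ω := ω) (by rw [mul_smul, hdω, inv_smul_smul])
  exact hdZ (by rw [← inv_mul_eq_one.1 this]; exact hz₀)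

end CL.T2
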