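/-
CLAS/T2 (S2193): G2, notation and the stabiliser of the highest root group.  Roots by index:
`6 = b` (long), `7 = a` (short), `8 = a+b, 9 = 2a+b, 10 = 3a+b, 11 = 3a+2b = θ`, and `-r = 11 - r`.
-/
import Cfsg.Agent.CLAS.T2.Heis
import Cfsg.Agent.CLAS.T2.GenT
import Cfsg.Agent.CHEV.Rank2
import Cfsg.Agent.CHEV.StGlue
import Cfsg.Agent.CHEV.OrderGlue

set_option autoImplicit false

namespace CL.T2.G2x

open CL.Chev Cfsg Cfsg.Lie MulAction

/-- the root system -/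
abbrev R2 : RootSys (Rt chevG2) (Fin chevG2.rank) := rootSys chevG2

/-- the group -/
abbrev G6 (F : Type*) [Field F] := chevG2.group F

/-- the root elements -/
abbrev S2 (F : Type*) [Field F] : StData R2 F (G6 F) := stG chevG2 F

/-- the stabiliser of the highest root group -/
abbrev J2 : Set (Fin chevG2.rank) := {i | R2.wt (rG2 11) i = 0}

theorem pair_eq (r s : Rt chevG2) : R2.pair r s = certG2.pairF 2 r s := (rootSys_pair r s).trans (A_eq_pairF r s)

theorem pos_iff (r : Rt chevG2) : R2.IsPos r ↔ 6 ≤ r.1 := (rootSys_isPos r).trans (pos_iff_le r)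

theorem rt_eq (r : Rt chevG2) (i : Fin chevG2.rank) : R2.rt r i = certG2.co r i := rfl

theorem len_eq (r : Rt chevG2) : R2.len r = certG2.len r := rfl

theorem long {r : Rt chevG2} (h : certG2.len r = 3) : R2.Long r := fun k => by
  rw [len_eq, len_eq, h]
  exact (by decide +kernel : ∀ k : Fin 12, (certG2.len k : ℤ) ≤ (3 : ℕ)) k

theorem rt_add {r s k : Rt chevG2} (h : ∀ i : Fin 2, certG2.co k i = certG2.co r i + certG2.co s i) :
    R2.rt k = R2.rt r + R2.rt s := funext h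

/-- decidable form of `IsComb` for positive roots -/
def Cb (r s k : Fin 12) : Prop :=
  ∃ i j : Fin 3, ∀ l : Fin 2, certG2.co k l = ((i.1 : ℤ) + 1) * certG2.co r l + ((j.1 : ℤ) + 1) * certG2.co s l

instance (r s k : Fin 12) : Decidable (Cb r s k) := by unfold Cb; infer_instance

theorem cb {r s k : Rt chevG2} (h : R2.IsComb r s k) (hr : 6 ≤ r.1) (hs : 6 ≤ s.1) : Cb r s k := by
  obtain ⟨i, j, hi, hj, e⟩ := h
  have e0 : certG2.co k 0 = i * certG2.co r 0 + j * certG2.co s 0 := congrFun e (0 : Fin 2)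
  have e1 : certG2.co k 1 = i * certG2.co r 1 + j * certG2.co s 1 := congrFun e (1 : Fin 2)
  have t : ∀ r : Fin 12, certG2.co r 0 ≤ 3 ∧ certG2.co r 1 ≤ 3 ∧
      (6 ≤ r.1 → 0 ≤ certG2.co r 0 ∧ 0 ≤ certG2.co r 1 ∧ (1 ≤ certG2.co r 0 ∨ 1 ≤ certG2.co r 1)) := by decide +kernel
  obtain ⟨k0, k1, -⟩ := t k
  obtain ⟨r0, r1, r2⟩ := (t r).2.2 hr
  obtain ⟨s0, s1, s2⟩ := (t s).2.2 hs
  have i3 : (i : ℤ) ≤ 3 := by rcases r2 with h | h <;> nlinarith
  have j3 : (j : ℤ) ≤ 3 := by rcases s2 with h | h <;> nlinarith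
  refine ⟨⟨i - 1, by omega⟩, ⟨j - 1, by omega⟩, fun l => ?_⟩
  rw [show (((i - 1 : ℕ) : ℤ) + 1) = i by omega, show (((j - 1 : ℕ) : ℤ) + 1) = j by omega]
  exact congrFun e l

theorem ne_neg {r s : Rt chevG2} (hr : 6 ≤ r.1) (hs : 6 ≤ s.1) : s ≠ R2.neg r := fun e =>
  (R2.isPos_neg r).1 (e ▸ (pos_iff s).2 hs) ((pos_iff r).2 hr)

set_option maxRecDepth 100000 in
theorem conj_tab : ∀ r : Fin 12, ∃ a b : Fin 12, rf (D := chevG2) (rG2 a) (rf (D := chevG2) (rG2 b) (rG2 r)) =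
    rG2 (if certG2.len r = 3 then 11 else 9) := by decide +kernel

theorem exists_W (r : Rt chevG2) : ∃ w ∈ R2.W, w r = rG2 (if certG2.len r = 3 then 11 else 9) := by
  obtain ⟨a, b, e⟩ := conj_tab r
  exact ⟨R2.refl (rG2 a) * R2.refl (rG2 b), mul_mem (R2.refl_mem_W _) (R2.refl_mem_W _), by
    rw [rootSys_refl, rootSys_refl]; exact e⟩

variable {F : Type*} [Field F]

theorem good : (S2 F).Good := stG_good

/-- subgroups given by lists of positive roots -/
def XL (F : Type*) [Field F] (L : List (Fin 12)) : Subgroup (G6 F) := (S2 F).XS {r | r ∈ L}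

/-- closed lists of positive roots -/
def Ok (L : List (Fin 12)) : Prop := (∀ r ∈ L, 6 ≤ r.1) ∧ ∀ r ∈ L, ∀ s ∈ L, ∀ k, Cb r s k → k ∈ L

set_option synthInstance.maxSize 1024 in
instance (L : List (Fin 12)) : Decidable (Ok L) := by unfold Ok; infer_instance

theorem closed {L : List (Fin 12)} (h : Ok L) : R2.Closed {r | r ∈ L} :=
  fun r hr s hs k hk => h.2 r hr s hs k (cb hk (h.1 r hr) (h.1 s hs))

theorem card_XL {L : List (Fin 12)} (h : Ok L) (hn : L.Nodup) :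
    Nat.card (XL F L) = Nat.card F ^ L.length := by
  refine (good.card_XS (one_mem _) (fun s hs => (pos_iff s).2 (h.1 s hs)) (closed h)).trans (congrArg _ ?_)
  exact (congrArg Set.ncard (List.coe_toFinset L).symm).trans ((Set.ncard_coe_finset _).trans (List.toFinset_card_of_nodup hn))

theorem nf {L : List (Fin 12)} (h : Ok L) (hn : L.Nodup) {g : G6 F}
    (hg : g ∈ XL F L) : ∃ t : Rt chevG2 → F, g = (S2 F).prodL L t :=
  let ⟨t, _, e⟩ := (S2 F).exists_prodL (R2.nilp_pos fun s hs => (pos_iff s).2 (h.1 s hs)) (closed h) (L := L) (fun _ => Iff.rfl) hn hg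
  ⟨t, e⟩

theorem y_mem {L : List (Fin 12)} {k : Fin 12} (h : k ∈ L) (t : F) : GT.y k t ∈ XL F L := (S2 F).x_mem_XS h t

theorem XL_le_U {L : List (Fin 12)} (h : ∀ r ∈ L, 6 ≤ r.1) : XL F L ≤ (S2 F).U := (S2 F).XS_le_U fun s hs => (pos_iff s).2 (h s hs)

theorem card_X (r : Rt chevG2) (hr : 6 ≤ r.1) : Nat.card ((S2 F).X r) = Nat.card F := by
  rw [StData.X, good.card_XS (one_mem _) (T := {r}) (by rintro _ rfl; exact (pos_iff _).2 hr) (R2.closed_singleton r),
    Set.ncard_singleton, pow_one]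

theorem comm_XS {A : Set (Rt chevG2)} {z : G6 F} (h : ∀ r ∈ A, ∀ t : F, (S2 F).x r t * z = z * (S2 F).x r t) {g : G6 F}
    (hg : g ∈ (S2 F).XS A) : g * z = z * g :=
  Subgroup.mem_centralizer_singleton_iff.1 ((S2 F).XS_le_iff.2
    (fun r hr t => Subgroup.mem_centralizer_singleton_iff.2 (h r hr t)) hg)

namespace B

theorem wt_θ (i : Fin chevG2.rank) : R2.wt (rG2 11) i = if i.1 = 1 then 1 else 0 := by
  rw [← R2.pair_simple, pair_eq]
  revert i
  decide +kernel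

theorem pair_θ (s : Rt chevG2) : R2.pair (rG2 11) s = R2.rt s (⟨1, by decide⟩ : Fin chevG2.rank) := by
  rw [pair_eq, rt_eq]
  revert s
  decide +kernel

theorem mem_sub_iff {β : Rt chevG2} : β ∈ R2.sub J2 ↔ R2.pair (rG2 11) β = 0 := by
  rw [pair_θ]
  refine ⟨fun h1 => h1 _ (by simp [wt_θ]), fun h1 i hi => ?_⟩
  obtain rfl : i = ⟨1, by decide⟩ := Fin.ext (by simpa [wt_θ] using hi)
  exact h1

theorem pair_nonneg {β : Rt chevG2} (h : R2.IsPos β) : 0 ≤ R2.pair (rG2 11) β := by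
  rw [pair_θ]; exact (R2.isPos_iff β).1 h _

theorem pos_of_pair {β : Rt chevG2} (h : 0 < R2.pair (rG2 11) β) : R2.IsPos β := by_contra fun h1 => by
  have := pair_nonneg ((R2.isPos_neg β).2 h1)
  rw [R2.pair_neg_right] at this
  omega

theorem fix_θ {w : Equiv.Perm (Rt chevG2)} (hw : w ∈ R2.WJ J2) : w (rG2 11) = rG2 11 := by
  refine R2.WJ_induction_left (P := fun w _ => w (rG2 11) = rG2 11) rfl (fun i hi w _ ih => ?_) hw
  rw [Equiv.Perm.mul_apply, ih]
  exact R2.rt_inj (by rw [show R2.sp i (rG2 11) = R2.σ i (rG2 11) from rfl, R2.rt_σ', show R2.wt (rG2 11) i = 0 from hi]; simp)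

theorem exists_min {α : Rt chevG2} (hα : certG2.len α = 3) :
    ∃ d ∈ R2.W, d (rG2 11) = α ∧ ∀ i ∈ J2, R2.IsPos (d (R2.simple i)) := by
  obtain ⟨d, ⟨h1, h2⟩, h3⟩ := Set.exists_min_image {w | w ∈ R2.W ∧ w (rG2 11) = α} R2.ell (Set.toFinite _) (by
    obtain ⟨w, hw, e⟩ := exists_W α
    exact ⟨w⁻¹, inv_mem hw, by rw [if_pos hα] at e; rw [← e]; simp⟩)
  refine ⟨d, h1, h2, fun i hi => by_contra fun h4 => ?_⟩
  have h6 := RootSys.ell_mul_sp_of_not_isPos h1 h4
  have h7 := h3 (d * R2.sp i) ⟨mul_mem h1 (R2.sp_mem_W _), by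
    rw [Equiv.Perm.mul_apply, fix_θ (Subgroup.subset_closure ⟨i, hi, rfl⟩), h2]⟩
  omega

/-- the number of positive roots at an obtuse angle -/
def nn (α : Rt chevG2) : ℕ := (Finset.univ.filter fun β : Rt chevG2 => 6 ≤ β.1 ∧ certG2.pairF 2 α β < 0).card

theorem nn_eq (α : Rt chevG2) : nn α = {β | R2.IsPos β ∧ R2.pair α β < 0}.ncard := by
  rw [nn, ← Set.ncard_coe_finset]
  congr 1
  ext β
  simp [pos_iff, pair_eq]

theorem ell_min {d v : Equiv.Perm (Rt chevG2)} (hd : d ∈ R2.W) (h1 : ∀ i ∈ J2, R2.IsPos (d (R2.simple i)))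
    (hv : v ∈ R2.WJ J2) : R2.ell (d * v) = nn (d (rG2 11)) + R2.ell v := by
  have hw := mul_mem hd (R2.WJ_le_W _ hv)
  have h2 : R2.invs (d * v) = {β | 0 < R2.pair (rG2 11) β ∧ ¬ R2.IsPos ((d * v) β)} ∪ R2.invs v := by
    ext β
    constructor
    · rintro ⟨h3, h4⟩
      rcases (pair_nonneg h3).lt_or_eq with h5 | h5
      · exact Or.inl ⟨h5, h4⟩
      · exact Or.inr ⟨h3, fun h6 => h4 (RootSys.isPos_W_of_simple hd h1 h6
          ((RootSys.WJ_mem_sub hv).2 (mem_sub_iff.2 h5.symm)))⟩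
    · rintro (⟨h3, h4⟩ | h3)
      · exact ⟨pos_of_pair h3, h4⟩
      · refine ⟨h3.1, ?_⟩
        have := RootSys.isPos_W_of_simple hd h1 ((R2.isPos_neg _).2 h3.2)
          (R2.neg_mem_sub.2 ((RootSys.WJ_mem_sub hv).2 (RootSys.invs_sub hv h3)))
        rwa [RootSys.W_neg hd, R2.isPos_neg] at this
  rw [RootSys.ell, h2, Set.ncard_union_eq (Set.disjoint_left.2 fun β h3 h4 =>
    h3.1.ne' (mem_sub_iff.1 (RootSys.invs_sub hv h4))), nn_eq, RootSys.ell,
    ← Set.ncard_image_of_injective _ (R2.neg_injective.comp (d * v).injective)]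
  congr 2
  have h3 : d (rG2 11) = (d * v) (rG2 11) := by rw [Equiv.Perm.mul_apply, fix_θ hv]
  ext β
  constructor
  · rintro ⟨γ, ⟨h4, h5⟩, rfl⟩
    exact ⟨(R2.isPos_neg _).2 h5, by
      rw [Function.comp_apply, R2.pair_neg_right, h3, RootSys.W_pair hw]; omega⟩
  · rintro ⟨h4, h5⟩
    refine ⟨(d * v)⁻¹ (R2.neg β), ⟨?_, by rwa [RootSys.perm_apply_inv, R2.not_isPos_neg]⟩, by
      rw [Function.comp_apply, RootSys.perm_apply_inv, R2.neg_neg]⟩
    rw [← RootSys.W_pair hw, RootSys.perm_apply_inv, R2.pair_neg_right, ← h3]; omega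

/-- the long roots -/
def L : Finset (Rt chevG2) := Finset.univ.filter fun α => certG2.len α = 3

set_option maxRecDepth 100000 in
theorem nn_val : L.val.map nn = ([0, 1, 2, 3, 4, 5] : List ℕ) := by
  decide +kernel

theorem index_sum [Finite F] : ((S2 F).P J2).index = ∑ α ∈ L, Nat.card F ^ nn α := by
  classical
  have := Fintype.ofFinite R2.W
  have := Fintype.ofFinite (R2.WJ J2)
  have hq : 0 < Nat.card F := Nat.card_pos
  have hG : Finite (G6 F) := inferInstance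
  have h3 := ((S2 F).P J2).card_mul_index
  rw [good.card_P, ← Subgroup.card_top (G := G6 F), ← stG_top, good.card_grp, mul_assoc] at h3
  replace h3 := Nat.eq_of_mul_eq_mul_left Nat.card_pos h3
  have h5 : ∑ w : R2.W, Nat.card F ^ R2.ell w = (∑ w : R2.WJ J2, Nat.card F ^ R2.ell w) * ∑ α ∈ L, Nat.card F ^ nn α := by
    rw [← Finset.sum_fiberwise_of_maps_to (g := fun w : R2.W => w.1 (rG2 11)) (t := L) (fun w _ => by
      have := RootSys.W_len w.2 (rG2 11)
      rw [len_eq, len_eq] at this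
      exact Finset.mem_filter.2 ⟨Finset.mem_univ _, by exact_mod_cast this⟩), Finset.mul_sum]
    refine Finset.sum_congr rfl fun α hα => ?_
    obtain ⟨d, h6, h7, h8⟩ := exists_min (Finset.mem_filter.1 hα).2
    rw [Finset.sum_mul]
    refine (Finset.sum_bij (fun v _ => ⟨d * v.1, mul_mem h6 (R2.WJ_le_W _ v.2)⟩) (fun v _ => ?_) (fun v _ v' _ e => ?_)
      (fun w hw => ?_) fun v _ => ?_).symm
    · simp [fix_θ v.2, h7]
    · exact Subtype.ext (mul_left_cancel (Subtype.mk.inj e))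
    · refine ⟨⟨d⁻¹ * w.1, RootSys.mem_WJ_of_fix_one (mul_mem (inv_mem h6) w.2) ?_ fun i => ?_⟩, Finset.mem_univ _,
        Subtype.ext (mul_inv_cancel_left _ _)⟩
      · rw [Equiv.Perm.mul_apply, (Finset.mem_filter.1 hw).2, ← h7]; simp
      · rw [wt_θ]; split_ifs <;> simp
    · rw [ell_min h6 h8 v.2, h7, pow_add, mul_comm]
  rw [h5] at h3
  exact Nat.eq_of_mul_eq_mul_left (Finset.sum_pos (fun w _ => by positivity) ⟨1, by simp⟩) h3

end B

theorem nz_P : Nz ((S2 F).P J2) ((S2 F).X (rG2 11)) := fun g hg x hx => by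
  have : (S2 F).P J2 ≤ Subgroup.normalizer ((S2 F).XS {rG2 11} : Set (G6 F)) := by
    rw [StData.P_eq]
    refine sup_le ((S2 F).H_le_normalizer_XS _) ?_
    have hl : R2.Long (rG2 11) := long (by decide +kernel)
    have : ∀ r, R2.IsPos r ∨ r ∈ R2.sub J2 → R2.NoComb r (rG2 11) := fun r hr =>
      (hl.noComb (hr.elim B.pair_nonneg fun hr => (B.mem_sub_iff.1 hr).ge)).symm
    exact (S2 F).XS_le_normalizer (by rintro r hr _ rfl; exact (this r hr).1)
      (by rintro r hr _ rfl k hk; exact absurd hk ((this r hr).2 k))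
  exact (Subgroup.mem_normalizer_iff.1 (this hg) _).1 hx

theorem index_P [Finite F] : ((S2 F).P J2).index * (Nat.card F - 1) = Nat.card F ^ 6 - 1 := by
  rw [B.index_sum, Finset.sum, show (fun α => Nat.card F ^ B.nn α) = (Nat.card F ^ ·) ∘ B.nn from rfl, ← Multiset.map_map, B.nn_val]
  have hq : 1 ≤ Nat.card F := Nat.card_pos
  have h12 : 1 ≤ Nat.card F ^ 6 := Nat.one_le_pow _ _ hq
  simp only [Multiset.map_coe, Multiset.sum_coe, List.map, List.sum_cons, List.sum_nil]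
  zify [hq, h12]
  ring

/-- `n = k q²`, `b = 1 + c q²`, `c k q² + k = q⁴ + c` -/
theorem ar {q n b : ℕ} (hq : 2 ≤ q) (hn : 2 ≤ n) (h : b * (n - 1) = q ^ 6 - 1) (hd : q ^ 2 ∣ n) :
    n = q ^ 2 ∨ n = q ^ 3 ∨ (n = q ^ 6 ∧ b = 1) := by
  obtain ⟨k, rfl⟩ := hd
  have q6 : 1 ≤ q ^ 6 := Nat.one_le_pow _ _ (by omega)
  have h' : (b : ℤ) * (q ^ 2 * k - 1) = q ^ 6 - 1 := by
    have : 1 ≤ q ^ 2 * k := by omega
    zify [this, q6] at h
    exact h
  have hq' : (2 : ℤ) ≤ q := by exact_mod_cast hq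
  have k0 : (1 : ℤ) ≤ k := by
    rcases k with _ | k
    · simp at hn
    · omega
  have b0 : (0 : ℤ) ≤ b := by positivity
  have q4 : (4 : ℤ) ≤ q ^ 2 := by nlinarith
  obtain ⟨c, hc⟩ : ∃ c : ℤ, (b : ℤ) = 1 + c * q ^ 2 := ⟨b * k - q ^ 4, by linear_combination -h'⟩
  have c0 : 0 ≤ c := by nlinarith
  have e : c * k * q ^ 2 + k = q ^ 4 + c := by
    have : (q : ℤ) ^ 2 * (c * k * q ^ 2 + k - (q ^ 4 + c)) = 0 := by rw [hc] at h'; linear_combination h'
    rcases mul_eq_zero.1 this with h | h <;> linarith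
  obtain ⟨m, hm⟩ : ∃ m : ℤ, c * k + m = q ^ 2 := ⟨q ^ 2 - c * k, by ring⟩
  have e' : (k : ℤ) = c + m * q ^ 2 := by linear_combination e - q ^ 2 * hm
  rcases c0.eq_or_lt with c1 | c1
  · refine .inr (.inr ⟨?_, ?_⟩)
    · have : (k : ℤ) = q ^ 4 := by rw [← c1] at e; linarith
      zify; rw [this]; ring
    · zify; rw [hc, ← c1]; ring
  rcases lt_trichotomy m 0 with m0 | m0 | m0
  · left
    have : (k : ℤ) = 1 := by
      by_contra k1
      have k2 : (2 : ℤ) ≤ k := by omega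
      have c2 : q ^ 2 * (-m) ≤ c := by nlinarith
      nlinarith
    zify; rw [this, mul_one]
  · refine .inr (.inl ?_)
    have : (k : ℤ) = q := by
      rw [m0] at e' hm
      have : (k : ℤ) ^ 2 = q ^ 2 := by rw [← hm, e']; ring
      exact (pow_left_inj₀ (by omega) (by omega) two_ne_zero).1 this
    zify; rw [this]; ring
  · exfalso
    nlinarith

end CL.T2.G2x
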