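/-
CLAS/T2 (S2193): G2, long root elements fix no point; the degrees `q²`, `q³`
-/
import Cfsg.Agent.CLAS.T2.G2h1

set_option autoImplicit false

namespace CL.T2.G2x

open CL.Chev Cfsg Cfsg.Lie MulAction CL.T2.GT

variable {F : Type*} [Field F]

theorem simple [Finite F] (h3 : 3 ≤ Nat.card F) : IsSimpleGroup (G6 F) := isSimpleGroup_group (by simp) fun _ => exists_ne h3

theorem cenθ {u : G6 F} (hu : u ∈ (S2 F).U) (t : F) : u * y 11 t = y 11 t * u :=
  comm_XS (fun _ hr s => (S2 F).comm_of_noComb ((long (r := rG2 11) (by decide +kernel)).noComb (B.pair_nonneg hr)).symm s t) hu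

theorem a2p : R2.A2P (rG2 5) (rG2 11) (rG2 10) :=
  (long (by decide +kernel)).a2P (long (by decide +kernel)) ((pair_eq _ _).trans (by decide +kernel)) (rt_add (by decide +kernel))

/-- the conjugates of `X_θ` under `X_{-b}`, `n_b` cover `E = X_{3a+b} X_θ` -/
theorem cover : ∃ g : Option F → G6 F, (∀ i, ∀ z ∈ (S2 F).X (rG2 11), g i * z * (g i)⁻¹ ∈ XL F [11, 10]) ∧
    ∀ e ∈ XL F [11, 10], ∃ i, ∃ z ∈ (S2 F).X (rG2 11), e = g i * z * (g i)⁻¹ := by
  obtain ⟨ε, hε, hc⟩ := (good (F := F)).A2_conj a2p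
  obtain ⟨δ, hδ, -, -, hn'⟩ := (S2 F).exists_n_conj (rG2 5)
  have hw : ∀ u, (S2 F).n (rG2 5) 1 * (S2 F).x (rG2 11) u * ((S2 F).n (rG2 5) 1)⁻¹ = (S2 F).x (rG2 10) (δ (rG2 11) * u) := fun u => by
    rw [hn' _ 1 u one_ne_zero, ← a2p.eq_refl, one_zpow, mul_one]
  refine ⟨fun o => o.elim ((S2 F).n (rG2 5) 1) ((S2 F).x (rG2 5)), fun o z hz => ?_, fun e he => ?_⟩
  · obtain ⟨u, rfl⟩ := (S2 F).mem_X_iff.1 hz
    cases o
    · exact hw u ▸ y_mem (by decide) _
    · exact hc _ u ▸ mul_mem (y_mem (by decide) _) (y_mem (by decide) _)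
  · obtain ⟨c, e⟩ := nf (by decide +kernel) (by decide) he
    obtain ⟨t, u, rfl⟩ : ∃ t u, _ = y 11 t * y 10 u := ⟨_, _, e.trans (congrArg _ (mul_one _))⟩
    by_cases ht : t = 0
    · refine ⟨none, _, (S2 F).x_mem_X _ (δ (rG2 11) * u), ((hw _).trans ?_).symm⟩
      rw [ht, y_zero, one_mul]
      rcases hδ (rG2 11) with e | e <;> simp [e]
    · refine ⟨some (ε * u / t), _, (S2 F).x_mem_X _ t, ((hc _ _).trans ?_).symm⟩
      congr 2
      rcases hε with rfl | rfl <;> field_simp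

theorem cjE : ∀ e ∈ XL F [11, 10], ∃ g : G6 F, g * e * g⁻¹ ∈ (S2 F).X (rG2 11) := fun e he => by
  obtain ⟨g, -, h⟩ := cover (F := F)
  obtain ⟨i, z, hz, rfl⟩ := h e he
  exact ⟨(g i)⁻¹, by simpa [mul_assoc] using hz⟩

theorem mid {G : Type*} [Group G] {a b c s z : G} (h1 : a * s = s * a) (h3 : c * s = s * c) (h2 : b * s = s * b * z)
    (h4 : z * c = c * z) (h5 : ∀ g, g = a * b * c ∨ g = s → g * z = z * g) :
    a * b * c * s * (a * b * c)⁻¹ * s⁻¹ = z := by
  have e : a * b * c * s = z * (s * (a * b * c)) := by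
    rw [mul_assoc _ c, h3, ← mul_assoc, mul_assoc a, h2, ← mul_assoc, ← mul_assoc, h1, mul_assoc _ z, h4, ← mul_assoc z,
      ← h5 s (.inr rfl), mul_assoc s z, ← h5 _ (.inl rfl)]
    group
  rw [e]; group

/-- `Q = O_p(P)` is a Heisenberg group for `p ≠ 3` -/
theorem heis (h3 : (3 : F) ≠ 0) : Heis (XL F [6, 8, 9, 10, 11]) ((S2 F).X (rG2 11)) := by
  have hU : XL F [6, 8, 9, 10, 11] ≤ (S2 F).U := XL_le_U (by decide)
  have nm : XL F [6, 8, 9, 10, 11] ≤ Subgroup.normalizer ((S2 F).XS {rG2 11} : Set (G6 F)) := fun g hg =>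
    Subgroup.centralizer_le_normalizer _ fun z hz => by
      obtain ⟨u, rfl⟩ := (S2 F).mem_X_iff.1 hz
      exact (cenθ (hU hg) u).symm
  have tab : ∀ r ∈ ([6, 8, 9, 10, 11] : List (Fin 12)), 6 ≤ r.1 ∧ ∀ s ∈ ([6, 8, 9, 10, 11] : List (Fin 12)), ∀ k, Cb r s k → k = 11 := by
    decide +kernel
  refine ⟨(S2 F).XS_mono (Set.singleton_subset_iff.2 (by decide : (11 : Fin 12) ∈ [6, 8, 9, 10, 11])), fun z hz x hx => ?_,
    fun x hx w hw => ?_, fun x hx hZ z hz => ?_⟩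
  · obtain ⟨u, rfl⟩ := (S2 F).mem_X_iff.1 hz
    exact cenθ (hU hx) u
  · have := (S2 F).comm_mem_of_le_normalizer (fun r hr s hs => ne_neg (tab r hr).1 (tab s hs).1) nm nm
      (fun r hr s hs k hk v => (tab r hr).2 s hs k (cb hk (tab r hr).1 (tab s hs).1) ▸ (S2 F).x_mem_X _ v) (inv_mem hw) (inv_mem hx)
    rwa [inv_inv, inv_inv] at this
  obtain ⟨w, rfl⟩ := (S2 F).mem_X_iff.1 hz
  obtain ⟨t, e⟩ := nf (by decide +kernel) (by decide) hx
  obtain ⟨a, b, c, d, f, rfl⟩ : ∃ a b c d f, x = y 6 a * (y 8 b * (y 9 c * (y 10 d * y 11 f))) :=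
    ⟨_, _, _, _, _, e.trans (congrArg _ (congrArg _ (congrArg _ (congrArg _ (mul_one _)))))⟩
  have cz : ∀ {g}, g ∈ XL F [6, 8, 9, 10, 11] → g * y 11 w = y 11 w * g := fun hg => cenθ (hU hg) w
  have cm : ∀ {L : List (Fin 12)} {s : Fin 12}, (∀ r ∈ L, certG2.weqP 12 2 0 [(r, [(0, 1, 1)]), (s, [(1, 0, 1)])]
      [(s, [(1, 0, 1)]), (r, [(0, 1, 1)])] = true) → ∀ {g}, g ∈ XL F L → ∀ v, g * y s v = y s v * g :=
    fun h g hg v => comm_XS (fun r hr u => com (h r hr) v u) hg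
  have fin : ∀ {s : Fin 12} {v : F} {a b c : G6 F}, s ∈ ([6, 8, 9, 10, 11] : List (Fin 12)) → a * b * c ∈ XL F [6, 8, 9, 10, 11] →
      c ∈ XL F [6, 8, 9, 10, 11] → a * y s v = y s v * a → c * y s v = y s v * c → b * y s v = y s v * b * y 11 w →
      ∃ g ∈ XL F [6, 8, 9, 10, 11], a * b * c * g * (a * b * c)⁻¹ * g⁻¹ = y 11 w := fun hs h0 hc h1 h2 h3 =>
    ⟨_, y_mem hs _, mid h1 h2 h3 (cz hc).symm (by rintro _ (rfl | rfl); exacts [cz h0, cz (y_mem hs _)])⟩
  by_cases ha : a = 0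
  swap
  · have := fin (s := 10) (v := w / a) (a := 1) (b := y 6 a) (c := y 8 b * (y 9 c * (y 10 d * y 11 f))) (by decide) (by rwa [one_mul])
      (mul_mem (y_mem (by decide) _) (mul_mem (y_mem (by decide) _) (mul_mem (y_mem (by decide) _) (y_mem (by decide) _)))) (by simp)
      (cm (L := [8, 9, 10, 11]) (by decide +kernel) (mul_mem (y_mem (by decide) _) (mul_mem (y_mem (by decide) _)
        (mul_mem (y_mem (by decide) _) (y_mem (by decide) _)))) _)
      ((rel (f := 11) (k := 1) (by decide +kernel) _ _).trans (by congr 2; push_cast; field_simp))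
    rwa [one_mul] at this
  by_cases hb : b = 0
  swap
  · have := fin (s := 9) (v := w / (3 * b)) (a := y 6 a) (b := y 8 b) (c := y 9 c * (y 10 d * y 11 f)) (by decide) (by rwa [mul_assoc])
      (mul_mem (y_mem (by decide) _) (mul_mem (y_mem (by decide) _) (y_mem (by decide) _))) (com (by decide +kernel) _ _)
      (cm (L := [9, 10, 11]) (by decide +kernel) (mul_mem (y_mem (by decide) _) (mul_mem (y_mem (by decide) _) (y_mem (by decide) _))) _)
      ((rel (f := 11) (k := 3) (by decide +kernel) _ _).trans (by congr 2; push_cast; field_simp))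
    rwa [mul_assoc (y 6 a)] at this
  rw [ha, hb, y_zero, y_zero, one_mul, one_mul] at hx hZ ⊢
  by_cases hc : c = 0
  swap
  · have := fin (s := 8) (v := -w / (3 * c)) (a := 1) (b := y 9 c) (c := y 10 d * y 11 f) (by decide) (by rwa [one_mul])
      (mul_mem (y_mem (by decide) _) (y_mem (by decide) _)) (by simp)
      (cm (L := [10, 11]) (by decide +kernel) (mul_mem (y_mem (by decide) _) (y_mem (by decide) _)) _)
      ((rel (f := 11) (k := -3) (by decide +kernel) _ _).trans (by congr 2; push_cast; field_simp))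
    rwa [one_mul] at this
  rw [hc, y_zero, one_mul] at hx hZ ⊢
  have hd : d ≠ 0 := fun hd => hZ (by rw [hd, y_zero, one_mul]; exact (S2 F).x_mem_X _ _)
  have := fin (s := 6) (v := -w / d) (a := 1) (b := y 10 d) (c := y 11 f) (by decide) (by rwa [one_mul])
    (y_mem (by decide) _) (by simp) (com (by decide +kernel) _ _)
    ((rel (f := 11) (k := -1) (by decide +kernel) _ _).trans (by congr 2; push_cast; field_simp))
  rwa [one_mul] at this

/-- `Q ≤ X_b ⁅Q, U⁆` for `q ≥ 4` -/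
theorem gen [Finite F] (h4 : 4 ≤ Nat.card F) :
    XL F [6, 8, 9, 10, 11] ≤ (S2 F).X (rG2 6) ⊔ ⁅XL F [6, 8, 9, 10, 11], (S2 F).U⁆ := by
  set L := (S2 F).X (rG2 6) ⊔ ⁅XL F [6, 8, 9, 10, 11], (S2 F).U⁆
  have cm : ∀ (k : Fin 12), 6 ≤ k.1 → ∀ t u : F, (y k t * y 6 u)⁻¹ * (y 6 u * y k t) ∈ L := fun k hk t u => by
    have := Subgroup.commutator_mem_commutator (inv_mem (y_mem (L := [6, 8, 9, 10, 11]) (k := 6) (by decide) u))
      (inv_mem ((S2 F).x_mem_XS (T := {r | R2.IsPos r}) ((pos_iff (rG2 k)).2 hk) t))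
    rw [commutatorElement_def, inv_inv, inv_inv, mul_assoc, ← mul_inv_rev] at this
    exact Subgroup.mem_sup_right this
  obtain ⟨a, b, a0, a1, b0, b1, ab⟩ := exists_ne2 h4
  have p0 : ∀ t u : F, P L (t * u) (t ^ 2 * u) (-(t ^ 3 * u)) := fun t u => ⟨-(t ^ 3 * u ^ 2), by
    have := cm 7 (by decide) t u
    rw [ba] at this
    convert this using 1
    group⟩
  have p1 : ∀ t : F, t ≠ 0 → ∀ u, P L u (t * u) (-(t ^ 2 * u)) := fun t ht u => by
    have := p0 t (u / t)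
    convert this using 1 <;> field_simp
  have p2 : ∀ t : F, t ≠ 0 → t ≠ 1 → ∀ v, P L 0 v (-((t + 1) * v)) := fun t ht ht1 v => by
    have h1 : t - 1 ≠ 0 := sub_ne_zero.2 ht1
    have := (p1 t ht (v / (t - 1))).add (p1 1 one_ne_zero (-(v / (t - 1))))
    convert this using 1 <;> field_simp <;> ring
  have p3 : ∀ z : F, P L 0 0 z := fun z => by
    have h1 : a - b ≠ 0 := sub_ne_zero.2 ab
    have := (p2 b b0 b1 (z / (a - b))).add (p2 a a0 a1 (-(z / (a - b))))
    convert this using 1 <;> field_simp <;> ring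
  have p4 : ∀ v : F, P L 0 v 0 := fun v => by
    have := (p2 a a0 a1 v).add (p3 ((a + 1) * v))
    convert this using 1 <;> ring
  have p5 : ∀ u : F, P L u 0 0 := fun u => by
    have := ((p1 1 one_ne_zero u).add (p4 (-u))).add (p3 u)
    convert this using 1 <;> ring
  have h11 : ∀ t, y 11 t ∈ L := fun t => by
    have := cm 10 (by decide) t 1
    rwa [rel (a := 10) (b := 6) (f := 11) (k := 1) (by decide +kernel), inv_mul_cancel_left, Int.cast_one, one_mul, mul_one] at this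
  refine (S2 F).XS_le_iff.2 fun r hr t => ?_
  rcases (by decide : ∀ r ∈ ([6, 8, 9, 10, 11] : List (Fin 12)), r = 6 ∨ r = 8 ∨ r = 9 ∨ r = 10 ∨ r = 11) r hr with
    rfl | rfl | rfl | rfl | rfl
  · exact Subgroup.mem_sup_left ((S2 F).x_mem_X _ _)
  · obtain ⟨w, hw⟩ := p5 t
    rw [y_zero, y_zero, mul_one, mul_one] at hw
    exact (L.mul_mem_cancel_right (h11 w)).1 hw
  · obtain ⟨w, hw⟩ := p4 t
    rw [y_zero, y_zero, mul_one, one_mul] at hw
    exact (L.mul_mem_cancel_right (h11 w)).1 hw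
  · obtain ⟨w, hw⟩ := p3 t
    rw [y_zero, y_zero, one_mul, one_mul] at hw
    exact (L.mul_mem_cancel_right (h11 w)).1 hw
  · exact h11 t

end CL.T2.G2x
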