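/-
CLAS/T2 (S2193): G2
-/
import Cfsg.Agent.CLAS.T2.Fish
import Cfsg.Agent.CLAS.T2.TrB
import Cfsg.Agent.CLAS.T2.G2h2

set_option autoImplicit false

namespace CL.T2

open Cfsg Cfsg.Lie CL.Chev MulAction CL.T2.GT

namespace G2x

variable {F : Type*} [Field F]

theorem cen3 [CharP F 3] {u : G6 F} (hu : u ∈ (S2 F).U) (t : F) : u * y 9 t = y 9 t * u := by
  have key : ∀ {a b : Fin 12}, certG2.weqP 12 2 3 [(b, [(0, 1, 1)]), (a, [(1, 0, 1)])]
      [(a, [(1, 0, 1)]), (b, [(0, 1, 1)])] = true → ∀ t u : F, y b u * y a t = y a t * y b u := fun h t u => by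
    simpa [evG_cons, evG_nil, evP, xN_y, mul_assoc] using evG_eq_of_weqP (D := chevG2) (p := 3) (CharP.cast_eq_zero F 3) t u h
  exact comm_XS (fun r hr s => key ((by decide +kernel : ∀ b : Fin 12, 6 ≤ b.1 → certG2.weqP 12 2 3 [(b, [(0, 1, 1)]), (9, [(1, 0, 1)])]
    [(9, [(1, 0, 1)]), (b, [(0, 1, 1)])] = true) r ((pos_iff r).1 hr)) t s) hu

/-- for `p = 3` the elements of `V = X_{a+b} X_{2a+b} X_θ` are conjugate into the centre of `U` -/
theorem cj3 [CharP F 3] {v : G6 F} (hv : v ∈ XL F [8, 9, 11]) : ∃ g : G6 F, ∀ u ∈ (S2 F).U, u * (g * v * g⁻¹) = g * v * g⁻¹ * u := by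
  have cz : ∀ s t : F, ∀ u ∈ (S2 F).U, u * (y 9 s * y 11 t) = y 9 s * y 11 t * u := fun s t u hu => by
    rw [← mul_assoc, cen3 hu, mul_assoc, cenθ hu, mul_assoc]
  obtain ⟨c, e⟩ := nf (by decide +kernel) (by decide) hv
  obtain ⟨a, b, d, rfl⟩ : ∃ a b d, v = y 8 a * (y 9 b * y 11 d) := ⟨_, _, _, e.trans (congrArg _ (congrArg _ (mul_one _)))⟩
  by_cases ha : a = 0
  · exact ⟨1, by simpa [ha, y_zero] using cz b d⟩
  have key : ∀ {a b f : Fin 12}, certG2.weqP 12 2 3 [(b, [(0, 1, 1)]), (a, [(1, 0, 1)])]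
      [(a, [(1, 0, 1)]), (b, [(0, 1, 1)]), (f, [(1, 1, 2)])] = true → ∀ t u : F, y b u * y a t = y a t * y b u * y f (2 * (t * u)) :=
    fun h t u => by
      simpa [evG_cons, evG_nil, evP, xN_y, mul_assoc] using evG_eq_of_weqP (D := chevG2) (p := 3) (CharP.cast_eq_zero F 3) t u h
  have r := key (a := 7) (b := 8) (f := 9) (by decide +kernel)
  obtain ⟨δ, -, -, -, hn⟩ := (S2 F).exists_n_conj (rG2 7)
  have e1 : (y 7 (b / a))⁻¹ * (y 8 a * (y 9 b * y 11 d)) * y 7 (b / a) = y 8 a * y 11 d := by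
    rw [mul_assoc, mul_assoc, ← cz b d _ ((S2 F).x_mem_XS ((pos_iff (rG2 7)).2 (by decide)) _), ← mul_assoc (y 8 a), r, mul_assoc,
      mul_assoc, inv_mul_cancel_left, ← mul_assoc (y 9 _), ← y_add, show 2 * (b / a * a) + b = 0 by
        rw [div_mul_cancel₀ _ ha]; linear_combination b * (CharP.cast_eq_zero F 3 : ((3 : ℕ) : F) = 0), y_zero, one_mul]
  refine ⟨(S2 F).n (rG2 7) 1 * (y 7 (b / a))⁻¹, ?_⟩
  rw [show ∀ n x v : G6 F, n * x⁻¹ * v * (n * x⁻¹)⁻¹ = n * (x⁻¹ * v * x) * n⁻¹ from fun _ _ _ => by group, e1,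
    show ∀ n x v : G6 F, n * (x * v) * n⁻¹ = n * x * n⁻¹ * (n * v * n⁻¹) from fun _ _ _ => by group, hn _ _ _ one_ne_zero,
    hn _ _ _ one_ne_zero, show R2.refl (rG2 7) (rG2 8) = rG2 9 by rw [rootSys_refl]; decide +kernel,
    show R2.refl (rG2 7) (rG2 11) = rG2 11 by rw [rootSys_refl]; decide +kernel]
  exact cz _ _

variable {Ω : Type*} [MulAction (G6 F) Ω]

omit [MulAction (G6 F) Ω] in
/-- an element of `X_θ X_{-θ}` of order dividing `3` or `4` -/
theorem exists_el {p : ℕ} [Fact p.Prime] [CharP F p] : ∃ s t : F, s ≠ 0 ∧ ∃ r a : ℕ, r.Prime ∧ r ≠ p ∧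
    ((y 11 s)⁻¹ * ((S2 F).n (rG2 11) 1 * y 11 t * ((S2 F).n (rG2 11) 1)⁻¹)) ^ r ^ a = 1 := by
  have hn := (S2 F).n_conj_self (rG2 11) (one_ne_zero (α := F)) 1
  have e : (S2 F).n (rG2 11) 1 = y 11 1 * (S2 F).x (R2.neg (rG2 11)) (-1⁻¹) * y 11 1 := rfl
  rw [inv_one] at e
  rw [inv_one, one_pow, one_mul] at hn
  by_cases h2 : (2 : F) = 0
  · have := CharTwo.of_one_ne_zero_of_two_eq_zero (R := F) one_ne_zero h2
    refine ⟨1, 1, one_ne_zero, 3, 1, Nat.prime_three, fun e => ?_, ?_⟩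
    · subst e
      exact absurd (CharP.eq F ‹CharP F 3› this) (by decide)
    have a : ∀ r, (S2 F).x r (1 : F) * (S2 F).x r 1 = 1 := fun r => by rw [← StData.x_add, CharTwo.add_self_eq_zero, StData.x_zero]
    rw [hn]
    rw [e, CharTwo.neg_eq] at hn
    rw [CharTwo.neg_eq]
    have a1 := a (rG2 11)
    have a2 := a (R2.neg (rG2 11))
    change y 11 1 * y 11 1 = 1 at a1
    change _ * y 11 1 * _ = _ at hn
    generalize y 11 (1 : F) = x at *
    generalize (S2 F).x (R2.neg (rG2 11)) (1 : F) = z at *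
    have i1 := inv_eq_of_mul_eq_one_right a1
    have i2 := inv_eq_of_mul_eq_one_right a2
    simp only [mul_inv_rev, i1, i2] at hn ⊢
    rw [mul_assoc _ x x, a1, mul_one] at hn
    calc _ = x * z * (x * (z * x)) * z := by simp only [pow_succ, pow_zero, one_mul, mul_assoc]
      _ = 1 := by rw [hn, a2]
  · refine ⟨-2, 1, by simpa using h2, 2, 2, Nat.prime_two, fun e => h2 (by subst e; exact CharP.cast_eq_zero F 2), ?_⟩
    have h4 : (S2 F).n (rG2 11) 1 ^ 4 = 1 := by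
      rw [show ∀ n : G6 F, n ^ 4 = n * n * (n * n) from fun n => by simp only [pow_succ, pow_zero, one_mul, mul_assoc],
        StData.n_one_mul_self, ← mul_inv_rev,
        stG_R3 _ _ _ (by simp) (by simp), neg_mul_neg, one_mul, StData.h_one, inv_one]
    rw [hn, show (y 11 (-2 : F))⁻¹ = y 11 (1 + 1) by rw [one_add_one_eq_two, y, StData.x_neg, inv_inv], y_add,
      show y 11 1 * y 11 1 * (S2 F).x (R2.neg (rG2 11)) (-1) = y 11 1 * (S2 F).n (rG2 11) 1 * (y 11 1)⁻¹ by rw [e]; group,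
      conj_pow, show 2 ^ 2 = 4 from rfl, h4, mul_one, mul_inv_cancel]

omit [MulAction (G6 F) Ω] in
theorem n_not_mem : (S2 F).n (rG2 11) 1 ∉ (S2 F).P J2 := fun h => by
  have h1 := nz_P _ h _ ((S2 F).x_mem_X (rG2 11) 1)
  rw [(S2 F).n_conj_self (rG2 11) (one_ne_zero (α := F))] at h1
  have h2 : _ ∈ (S2 F).B ⊓ (S2 F).V := ⟨(S2 F).U_le_B ((S2 F).XS_le_U (by rintro _ rfl; exact (pos_iff _).2 (by decide)) h1),
    (S2 F).x_mem_V (by rw [R2.isPos_neg, not_not]; exact (pos_iff _).2 (by decide)) _⟩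
  rw [good.B_inf_V] at h2
  simpa using good.x_inj _ _ h2

end G2x

open G2x in
/-- `B` is transitive (`trB_G2`), `Z = X_θ` and `E = X_{3a+b} X_θ` are semiregular (`semi_or_triv`), `blk` for `P = N(Z)` gives
`b (n - 1) = q⁶ - 1`, so `n = q², q³` or `n = q⁶, b = 1`.  In the last case an element of `X_θ X_{-θ}` of order `3` or `4` fixes a point,
so `b ≥ 2`.  Else `U` is transitive.  `p ≠ 3`: `Q` is Heisenberg, `q³ ∣ n`, `Heis.kill`.  `p = 3`: the centre of `U` is semiregular, so is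
`V = X_{a+b} X_{2a+b} X_θ`, which is then transitive; but it is centralised by the abelian group `X_b V` of order `q⁴`. -/
theorem G2_false {F : Type} [Field F] [Fintype F] (h3 : 3 ≤ Fintype.card F) {Ω : Type*} [Finite Ω]
    [MulAction (chevG2.group F) Ω] (tw : Tw (chevG2.group F) Ω) : False := by
  obtain ⟨p, _⟩ := CharP.exists F
  obtain ⟨f, hp, hf⟩ := FiniteField.card F p
  have := Fact.mk hp
  have hB := trB_G2 h3 tw
  rw [← Nat.card_eq_fintype_card] at hf h3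
  have := simple h3
  have n2 := tw.two_le
  obtain ⟨ω₀, -⟩ := tw.nt
  have hU : IsPGroup p (S2 F).U := good.isPGroup_U
  have hE : Nat.card (XL F [11, 10]) = Nat.card F ^ 2 := card_XL (by decide +kernel) (by decide)
  have hZ := card_X (F := F) (rG2 11) (by decide)
  have bot : ∀ {A : Subgroup (G6 F)}, Semi A Ω → ∀ ω : Ω, Nat.card (A ⊓ stabilizer _ ω : Subgroup _) = 1 := fun h ω => by
    rw [(Subgroup.eq_bot_iff_forall (_ ⊓ stabilizer _ ω)).2 fun x hx => h x hx.1 ω hx.2, Subgroup.card_bot]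
  have hl : Semi ((S2 F).X (rG2 11)) Ω := by
    obtain ⟨g, h1, h2⟩ := cover (F := F)
    exact (semi_or_triv (fun g hg => nz_P g ((S2 F).B_le_P J2 hg)) hB (hU.to_le (XL_le_U (by decide))) hZ hE Finite.card_option
      g h1 h2).resolve_right fun ht => one_ne_zero (good.x_inj _ (1 : F) (tw.faithful (ht _ ((S2 F).x_mem_X _ 1))))
  have dv : ∀ {L : List (Fin 12)}, Ok L → L.Nodup → Semi (XL F L) Ω → Nat.card F ^ L.length ∣ Nat.card Ω := fun h1 h2 h => by
    rw [hf, ← pow_mul]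
    exact pow_dvd_card (hU.to_le (XL_le_U h1.1)) fun ω => by rw [bot h, mul_one, card_XL h1 h2, hf, pow_mul]
  obtain ⟨κ, b, k1, -, k2, -, k4⟩ := tw.blk nz_P (hB.mono ((S2 F).B_le_P J2))
  have k3 := k1 ω₀
  rw [bot hl, mul_one, hZ] at k3
  rw [← k3, index_P] at k2
  have hn := ar (by omega) n2 k2 (dv (L := [11, 10]) (by decide +kernel) (by decide) fun e he ω h =>
    let ⟨_, hg⟩ := cjE e he; hl.conj hg h)
  rw [← or_assoc] at hn
  rcases hn with hn | ⟨hn, hb⟩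
  swap
  · obtain ⟨s, t, hs, r, a, hr, hrp, e⟩ := exists_el (F := F) (p := p)
    have := Fact.mk hr
    obtain ⟨ω, h⟩ := exists_fix (Ω := Ω) e fun k => hrp ((Nat.prime_dvd_prime_iff_eq hr hp).1
      (hr.dvd_of_dvd_pow (by rwa [hn, hf, ← pow_mul] at k)))
    have := k4 _ n_not_mem _ ((S2 F).x_mem_X _ s) _ ((S2 F).x_mem_X _ t) ω
      (fun k => hs (good.x_inj _ _ (hl _ ((S2 F).x_mem_X _ s) ω k))) (by rwa [mul_smul, inv_smul_eq_iff] at h)
    omega
  have le3 : Nat.card Ω ≤ Nat.card F ^ 3 := by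
    rcases hn with e | e <;> rw [e]
    exact Nat.pow_le_pow_right (by omega) (by omega)
  by_cases c3 : (3 : F) = 0
  · obtain rfl : p = 3 := (Nat.prime_dvd_prime_iff_eq hp Nat.prime_three).1 ((CharP.cast_eq_zero_iff F p 3).1 c3)
    obtain ⟨a, ha⟩ : ∃ a, Nat.card Ω = Nat.card F ^ a := hn.elim (⟨_, ·⟩) (⟨_, ·⟩)
    have hH : ¬ 3 ∣ Nat.card (S2 F).H := good.not_dvd_card_H stG_adjoint
    have hT : Tr (S2 F).U Ω := hB.of_sylow (S2 F).U_le_B hU (a := f * a) (fun k => hH (by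
      have h1 := Hs.ri (S2 F).U_le_B
      rw [good.card_B, mul_comm] at h1
      rwa [← Nat.eq_of_mul_eq_mul_left Nat.card_pos h1])) (by rw [ha, hf, pow_mul])
    have cen : ∀ {T : Subgroup (G6 F)} {z : G6 F} {ω : Ω}, Tr T Ω → (∀ u ∈ T, u * z = z * u) → z • ω = ω → z = 1 :=
      fun {_ _ ω} hT h e => tw.faithful fun ω' => by
        obtain ⟨u, hu, rfl⟩ := hT ω ω'
        rw [← mul_smul, ← h u hu, mul_smul, e]
    have hV : Semi (XL F [8, 9, 11]) Ω := fun v hv ω h => by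
      obtain ⟨g, hg⟩ := cj3 hv
      simpa using cen (ω := g • ω) hT hg (by simp only [mul_smul, inv_smul_smul, h])
    have e3 : Nat.card Ω = Nat.card F ^ 3 := le3.antisymm (Nat.le_of_dvd (by omega) (dv (by decide +kernel) (by decide) hV))
    have tV : Tr (XL F [8, 9, 11]) Ω := tr_of_card (ω := ω₀) (by
      rw [bot hV, mul_one, e3]; exact card_XL (by decide +kernel) (by decide))
    have hW : Semi (XL F [6, 8, 9, 11]) Ω := fun w hw ω h => by
      refine cen tV (fun u hu => comm_XS (fun r hr t => (comm_XS (fun s hs t' => ?_) hw).symm) hu) h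
      have sU := XL_le_U (F := F) (L := [6, 8, 9, 11]) (by decide) (y_mem hs t')
      rcases (by decide : ∀ r ∈ ([8, 9, 11] : List (Fin 12)), r = 8 ∨ r = 9 ∨ r = 11) r hr with rfl | rfl | rfl
      · rcases (by decide +kernel : ∀ r ∈ ([6, 8, 9, 11] : List (Fin 12)), r = 9 ∨ certG2.weqP 12 2 0 [(r, [(0, 1, 1)]), (8, [(1, 0, 1)])]
          [(8, [(1, 0, 1)]), (r, [(0, 1, 1)])] = true) s hs with rfl | k
        · exact (cen3 (XL_le_U (L := [8]) (by decide) (y_mem (k := 8) (by decide) t)) t').symm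
        · exact com (a := 8) k t t'
      · exact cen3 sU t
      · exact cenθ sU t
    have := Nat.le_of_dvd (by omega) (dv (by decide +kernel) (by decide) hW)
    rw [e3] at this
    exact absurd ((Nat.pow_le_pow_iff_right (by omega)).1 this) (by decide)
  have h4 : 4 ≤ Nat.card F := by
    refine h3.lt_of_ne fun e => c3 ?_
    have := FiniteField.cast_card_eq_zero F
    rwa [← Nat.card_eq_fintype_card, ← e] at this
  have hQ : Nat.card (XL F [6, 8, 9, 10, 11]) = Nat.card F ^ 5 := card_XL (by decide +kernel) (by decide)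
  have QU : XL F [6, 8, 9, 10, 11] ≤ (S2 F).U := XL_le_U (by decide)
  obtain ⟨d1, d2⟩ := (heis c3).pow_dvd (Ω := Ω) (p := p) (c := f) (d := 2 * f) (hU.to_le QU) (by rw [hQ, hZ, hf]; ring) f.2
    fun ω => by rw [bot hl, mul_one, hZ, hf]
  rw [show p ^ (2 * (f : ℕ) + (f : ℕ)) = Nat.card F ^ 3 by rw [hf]; ring] at d1 d2
  have e3 : Nat.card Ω = Nat.card F ^ 3 := le3.antisymm (Nat.le_of_dvd (by omega) d2)
  have tQ : Tr (XL F [6, 8, 9, 10, 11]) Ω := tr_of_card (ω := ω₀) (le_antisymm (by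
    rw [Blk.oc _ ω₀]
    exact Nat.mul_le_mul_right _ (Set.ncard_le_card _)) (e3 ▸ d1 ω₀))
  have id : ∀ {L : List (Fin 12)}, ((∀ r ∈ L, 6 ≤ r.1) ∧ ∀ r : Fin 12, 6 ≤ r.1 → ∀ s ∈ L, ∀ k, Cb r s k → k ∈ L) →
      (S2 F).U ≤ Subgroup.normalizer (XL F L : Set (G6 F)) := fun h => (S2 F).XS_le_normalizer
    (fun r hr s hs => ne_neg ((pos_iff r).1 hr) (h.1 s hs)) fun r hr s hs k hk =>
      h.2 r ((pos_iff r).1 hr) s hs k (cb hk ((pos_iff r).1 hr) (h.1 s hs))
  have : Nonempty Ω := ⟨ω₀⟩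
  have nZ : (S2 F).U ≤ Subgroup.normalizer ((S2 F).XS {rG2 11} : Set (G6 F)) := fun g hg =>
    Subgroup.centralizer_le_normalizer _ fun z hz => by
      obtain ⟨u, rfl⟩ := (S2 F).mem_X_iff.1 hz
      exact (cenθ hg u).symm
  refine (heis c3).kill (X₀ := (S2 F).X (rG2 6)) (E := XL F [11, 10]) (fun e => ?_) hU QU
    (fun g hg x => (Subgroup.mem_normalizer_iff.1 (id ⟨by decide, by decide +kernel⟩ hg) x).1) (fun z hz u hu => ?_)
    ((S2 F).XS_mono (Set.singleton_subset_iff.2 (by decide : (6 : Fin 12) ∈ [6, 8, 9, 10, 11]))) (gen h4)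
    ((S2 F).XS_mono (Set.singleton_subset_iff.2 (by decide : (11 : Fin 12) ∈ [11, 10])))
    ((S2 F).XS_mono (by decide : ∀ r ∈ ([11, 10] : List (Fin 12)), r ∈ [6, 8, 9, 10, 11])) (fun e he u hu => ?_)
    (by rw [card_X _ (by decide), hZ, hE, pow_two]) cjE hl tQ (by
      rw [e3, hQ]; exact Nat.pow_lt_pow_right (by omega) (by omega))
  · rw [e, Subgroup.card_bot] at hZ
    omega
  · obtain ⟨t, rfl⟩ := (S2 F).mem_X_iff.1 hz
    exact cenθ hu t
  · have tab : ∀ s ∈ ([11, 10] : List (Fin 12)), 6 ≤ s.1 ∧ ∀ r : Fin 12, 6 ≤ r.1 → ∀ k, Cb r s k → k = 11 := by decide +kernel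
    have := (S2 F).comm_mem_of_le_normalizer (A := {r | R2.IsPos r}) (fun r hr s hs => ne_neg ((pos_iff r).1 hr) (tab s hs).1) nZ
      ((XL_le_U (L := [11, 10]) (by decide)).trans nZ) (fun r hr s hs k hk v => (tab s hs).2 r ((pos_iff r).1 hr) k
        (cb hk ((pos_iff r).1 hr) (tab s hs).1) ▸ (S2 F).x_mem_X _ v) (inv_mem hu) (inv_mem he)
    rwa [inv_inv, inv_inv] at this

end CL.T2
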