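/-
CLAS/T2 (S2193): PSL(2, q)
-/
import Cfsg.Agent.CLAS.T2.Fish
import Cfsg.Agent.CLAS.T2.Heis
import Cfsg.Agent.S0255
import Cfsg.Agent.S0267
import Cfsg.Agent.S0494
import Cfsg.Agent.S0806

set_option autoImplicit false

namespace CL.T2

open Cfsg Cfsg.Lie

namespace L2

open Matrix MulAction CL.PGL2
open scoped MatrixGroups

variable {F : Type*} [Field F]

/-- the upper unitriangular matrices -/
def up : Multiplicative F →* SL(2, F) where
  toFun t := ⟨!![1, t.toAdd; 0, 1], by simp [det_fin_two]⟩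
  map_one' := by ext i j; fin_cases i <;> fin_cases j <;> simp
  map_mul' s t := Subtype.ext (show _ = !![1, s.toAdd; 0, 1] * !![1, t.toAdd; 0, 1] by simp [add_comm])

theorem up_coe (t : Multiplicative F) : (up t).1 = !![1, t.toAdd; 0, 1] := rfl

theorem up_inj : Function.Injective (up (F := F)) := fun _ _ h => congrArg (fun g : SL(2, F) => g.1 0 1) h

theorem nz : Nz (stabilizer SL(2, F) (inf : P1 F)) up.range := by
  rintro g hg _ ⟨t, rfl⟩
  rw [mem_stabilizer_iff, Cfsg.Agent.S0267.sl_smul, ofMat_smul_inf_eq_inf] at hg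
  have hd := g.2
  rw [det_fin_two, hg] at hd
  refine ⟨Multiplicative.ofAdd (g.1 0 0 ^ 2 * t.toAdd), ?_⟩
  rw [eq_mul_inv_iff_mul_eq]
  ext i j
  fin_cases i <;> fin_cases j <;> simp [up_coe, mul_apply, Fin.sum_univ_two, hg]
  linear_combination (g.1 0 0 * t.toAdd) * hd

theorem tw_P1 : Tw SL(2, F) (P1 F) :=
  ⟨⟨_, _, inf_ne_pt 0⟩, fun _ _ _ _ h h' => is_two_pretransitive_iff.1 inferInstance h h'⟩

theorem core [Finite F] {Ω : Type*} [Finite Ω] [MulAction SL(2, F) Ω] (tw : Tw SL(2, F) Ω)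
    (nt : ¬ Triv (up (F := F)).range Ω) {q n : ℕ} (hq : Nat.card F = q) (hn : Nat.card Ω = n) :
    n = q + 1 ∨ ∃ κ b, 1 < κ ∧ κ ∣ q ∧ κ ∣ n ∧ n ∣ q * (q - 1) ∧ b * (n - 1) = (q + 1) * (κ - 1) ∧
      n * (n - 1) ∣ q * (q ^ 2 - 1) := by
  have hY : Nat.card (P1 F) = q + 1 := by rw [← hq]; exact Projectivization.card_of_finrank_two F _ (by simp)
  have := (tw_P1 (F := F)).pre
  by_cases h : Tr (stabilizer SL(2, F) (inf : P1 F)) Ω
  · obtain ⟨κ, b, h1, h2, h3, h4, -⟩ := tw.blk nz h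
    obtain ⟨ω, -⟩ := tw.nt
    have h5 := h1 ω
    rw [← Nat.card_congr (MonoidHom.ofInjective up_inj).toEquiv, Nat.card_congr Multiplicative.toAdd, hq] at h5
    have h6 := tw.mul_pred_dvd
    have h7 := (stabilizer SL(2, F) (inf : P1 F)).card_mul_index
    have h0 : 0 < q := hq ▸ Nat.card_pos
    rw [tw_P1.index, hY] at h3 h7
    rw [CL.SL.card_SL_two, hq] at h6 h7
    rw [hn] at h2 h3 h6
    refine .inr ⟨κ, b, ?_, Dvd.intro _ h5.symm, h2, ?_, h3, h6⟩
    · rcases κ with _ | _ | κ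
      · omega
      · exact (nt (h4 rfl)).elim
      · omega
    · rw [show q ^ 2 - 1 = (q - 1) * (q + 1) by rw [mul_comm, ← Nat.sq_sub_sq], ← mul_assoc] at h7
      rw [← Nat.eq_of_mul_eq_mul_right q.succ_pos h7, h.card_eq ω, hn]
      exact dvd_mul_right _ _
  · exact .inl (hn ▸ hY ▸ tw.card_eq tw_P1 h)

theorem num {p a κ b n : ℕ} (hp : p.Prime) (h1 : 1 < κ) (h2 : κ ∣ p ^ a) (h3 : κ ∣ n) (h4 : n ∣ p ^ a * (p ^ a - 1))
    (h5 : b * (n - 1) = (p ^ a + 1) * (κ - 1)) (h6 : n * (n - 1) ∣ p ^ a * ((p ^ a) ^ 2 - 1))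
    (h7 : p ^ a + 1 ≤ n) : p ^ a = 4 ∧ n = 6 := by
  have hq : 0 < p ^ a := pow_pos hp.pos a
  obtain ⟨r, hr⟩ := h2
  obtain ⟨m, rfl⟩ := h3
  obtain ⟨k, rfl⟩ : ∃ k, κ = k + 2 := ⟨κ - 2, by omega⟩
  have hr0 : 0 < r := by rcases r with _ | r <;> omega
  have hb : b = 1 := by
    have e : ((k + 2 : ℕ) : ℤ) ∣ b - 1 := ⟨b * m - r * (k + 1) - 1, by
      rw [hr] at h5
      zify [show 1 ≤ (k + 2) * m by omega, show 1 ≤ k + 2 by omega] at h5
      push_cast
      linear_combination -h5⟩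
    have hlt : b < k + 2 := by
      by_contra hc
      have : (k + 2) * p ^ a ≤ b * ((k + 2) * m - 1) := Nat.mul_le_mul (by omega) (by omega)
      have h8 : k + 2 ≤ p ^ a := hr ▸ Nat.le_mul_of_pos_right _ hr0
      rw [h5, show k + 2 - 1 = k + 1 from rfl] at this
      nlinarith
    have hb0 : b ≠ 0 := by rintro rfl; simp at h5
    have := Int.eq_zero_of_dvd_of_nonneg_of_lt (by omega) (by omega) e
    omega
  subst hb
  have hm : m + r = p ^ a + 1 := by
    refine Nat.eq_of_mul_eq_mul_left (show 0 < k + 2 by omega) ?_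
    zify [show 1 ≤ (k + 2) * m by omega, show 1 ≤ k + 2 by omega] at h5 hr ⊢
    linear_combination h5 - hr
  have hr1 : r ≠ 1 := by
    rintro rfl
    have := Nat.le_of_dvd (Nat.mul_pos hq (by omega)) h4
    rw [show m = p ^ a by omega, show k + 2 = p ^ a by omega] at this
    exact absurd (Nat.le_of_mul_le_mul_left this hq) (by omega)
  have hpr : p ∣ r := by
    obtain ⟨i, -, rfl⟩ := (Nat.dvd_prime_pow hp).1 (Dvd.intro_left _ hr.symm)
    exact dvd_pow_self p (by rintro rfl; exact hr1 rfl)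
  have hc : m.Coprime (p ^ a) := by
    refine Nat.Coprime.pow_right _ ((Nat.Prime.coprime_iff_not_dvd hp).2 fun h => ?_).symm
    have : p ∣ p ^ a + 1 := hm ▸ dvd_add h hpr
    exact hp.one_lt.ne' (Nat.dvd_one.1 ((Nat.dvd_add_right (hr ▸ hpr.mul_left _)).1 this))
  obtain ⟨c, hc'⟩ := hc.dvd_of_dvd_mul_left ((Dvd.intro_left _ rfl).trans h4)
  have h2r : 2 * r ≤ p ^ a := by rw [hr]; nlinarith
  have hc1 : c = 1 := by
    rcases c with _ | _ | c
    · omega
    · rfl
    · have : m * 2 ≤ m * (c + 1 + 1) := Nat.mul_le_mul_left _ (by omega)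
      omega
  subst hc1
  obtain rfl : r = 2 := by omega
  obtain rfl : m = 2 * k + 3 := by omega
  have hk : k + 1 ∣ 2 := by
    rw [← one_mul (_ - 1), h5, hr] at h6
    refine Nat.dvd_of_mul_dvd_mul_left (k := (k + 2) * (2 * k + 3) * (2 * k + 5)) (by positivity) ?_
    convert h6 using 1
    · rw [show k + 2 - 1 = k + 1 from rfl]; ring
    · rw [show ((k + 2) * 2) ^ 2 - 1 = (2 * k + 3) * (2 * k + 5) from Nat.sub_eq_of_eq_add (by ring)]; ring
  have := Nat.le_of_dvd two_pos hk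
  rcases k with _ | _ | k
  · omega
  · obtain rfl := (Nat.prime_dvd_prime_iff_eq hp Nat.prime_two).1 hpr
    exact absurd ((Nat.prime_three).dvd_of_dvd_pow (Dvd.intro _ hr.symm)) (by decide)
  · omega

theorem simple [Finite F] (hF : 4 ≤ Nat.card F) : IsSimpleGroup (ProjectiveSpecialLinearGroup (Fin 2) F) := by
  obtain ⟨a, ha, ha'⟩ := CL.SL.exists_sq_ne_one_of_four_le_card (F := F) hF
  exact CL.SL.psl_isSimpleGroup_of_perfect (CL.SL.commutator_eq_top_of_sq_ne_one ha ha')

theorem iso_A5 [Finite F] (h : Nat.card F = 4 ∨ Nat.card F = 5) :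
    Nonempty (ProjectiveSpecialLinearGroup (Fin 2) F ≃* alternatingGroup (Fin 5)) := by
  have := simple (F := F) (by omega)
  refine Cfsg.Agent.S0494.result ?_
  have h1 := CL.SL.gcd_mul_card_PSL_two (F := F)
  rcases h with h | h <;> rw [h] at h1 <;> norm_num at h1 <;> omega

theorem iso60 {K : Type*} [Field K] [Finite F] [Finite K] (h : Nat.card F = 4 ∨ Nat.card F = 5)
    (h' : Nat.card K = 4 ∨ Nat.card K = 5) :
    Nonempty (ProjectiveSpecialLinearGroup (Fin 2) F ≃* ProjectiveSpecialLinearGroup (Fin 2) K) :=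
  ⟨(iso_A5 h).some.trans (iso_A5 h').some.symm⟩

theorem not_nine {G Ω : Type*} [Group G] [Finite G] [IsSimpleGroup G] [MulAction G Ω] [Finite Ω] (tw : Tw G Ω)
    (hG : Nat.card G = 360) (hn : Nat.card Ω = 3 ∨ Nat.card Ω = 9) : False := by
  obtain ⟨ω, -⟩ := tw.nt
  have h1 := (stabilizer G ω).card_mul_index
  rw [tw.index, hG] at h1
  rcases hn with hn | hn
  · classical
    have := Fintype.ofFinite Ω
    have h2 := Subgroup.card_dvd_of_injective (toPermHom G Ω)
      ((injective_iff_map_eq_one _).2 fun g hg => tw.faithful fun x => Equiv.congr_fun hg x)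
    rw [hG, Nat.card_eq_fintype_card, Fintype.card_perm, ← Nat.card_eq_fintype_card, hn] at h2
    exact absurd h2 (by decide)
  have : Fact (Nat.Prime 5) := ⟨Nat.prime_five⟩
  rw [hn] at h1
  have hK : Nat.card (stabilizer G ω) = 40 := by omega
  obtain ⟨P⟩ : Nonempty (Sylow 5 (stabilizer G ω)) := inferInstance
  have hP : Nat.card P = 5 := by
    rw [P.card_eq_multiplicity, hK, show (40 : ℕ) = 5 * 8 from rfl, Nat.factorization_mul (by norm_num) (by norm_num)]
    simp [Nat.prime_five.factorization_self, Nat.factorization_eq_zero_of_not_dvd (show ¬ 5 ∣ 8 by norm_num)]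
  have hN : (P : Subgroup (stabilizer G ω)).Normal := by
    have h2 := P.card_dvd_index
    have h3 := card_sylow_modEq_one 5 (stabilizer G ω)
    have h4 := (P : Subgroup (stabilizer G ω)).card_mul_index
    rw [hP, hK] at h4
    rw [show (P : Subgroup (stabilizer G ω)).index = 8 by omega] at h2
    have h5 : Nat.card (Sylow 5 (stabilizer G ω)) = 1 := by
      have := Nat.le_of_dvd (by norm_num) h2
      unfold Nat.ModEq at h3
      generalize Nat.card (Sylow 5 (stabilizer G ω)) = k at *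
      interval_cases k <;> omega
    have := (Nat.card_eq_one_iff_unique.1 h5).1
    exact P.normal_of_subsingleton
  have hc : Nat.card ((P : Subgroup (stabilizer G ω)).map (stabilizer G ω).subtype) = 5 := by
    rw [Subgroup.card_map_of_injective Subtype.val_injective, hP]
  let P' : Sylow 5 G := Sylow.ofCard ((P : Subgroup (stabilizer G ω)).map (stabilizer G ω).subtype) (by
    rw [hc, hG, show (360 : ℕ) = 5 * 72 from rfl, Nat.factorization_mul (by norm_num) (by norm_num)]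
    simp [Nat.prime_five.factorization_self, Nat.factorization_eq_zero_of_not_dvd (show ¬ 5 ∣ 72 by norm_num)])
  have h6 : stabilizer G ω ≤ Subgroup.normalizer (P' : Set G) := by
    have := Subgroup.le_normalizer_map (H := (P : Subgroup (stabilizer G ω))) (stabilizer G ω).subtype
    rwa [Subgroup.normalizer_eq_top, ← MonoidHom.range_eq_map, Subgroup.range_subtype] at this
  have h7 := Subgroup.index_dvd_of_le h6
  have h8 := card_sylow_modEq_one 5 G
  rw [tw.index, hn, ← P'.card_eq_index_normalizer] at h7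
  have h9 : Nat.card (Sylow 5 G) = 1 := by
    have := Nat.le_of_dvd (by norm_num) h7
    unfold Nat.ModEq at h8
    generalize Nat.card (Sylow 5 G) = k at *
    interval_cases k <;> omega
  have := (Nat.card_eq_one_iff_unique.1 h9).1
  rcases P'.normal_of_subsingleton.eq_bot_or_eq_top with e | e <;>
    have := congrArg (fun H : Subgroup G => Nat.card H) e
  · exact absurd (hc.symm.trans this) (by simp)
  · exact absurd (hc.symm.trans this) (by simp [hG])

end L2

/-- `B` = stabiliser of a point of the projective line `Y` (`G` is 2-transitive on `Y`), `U ⊴ B` of order `q`,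
`|B| = q (q - 1) / gcd(2, q - 1)`.  CASE I, `B` intransitive on `Ω`: `Tw.card_eq`, `n = q + 1`.  CASE II: `blk` with `X = U`:
`b (n - 1) = (q + 1) (q₁ - 1)`, `1 < q₁ ∣ q`, `q₁ ∣ n ∣ |B|`, `b ≡ 1 mod q₁`.  `q ∉ {5, 7, 9, 11}`: `n ≥ q + 1` (S0806) gives
`b = 1`, `n = q q₁ - q + q₁`; `q₁ = q` gives `n = q² > |B|`; else `q = q₀ q₁`, `n = q₁ m`, `m = q - q₀ + 1` is prime to `p`,
divides `q - 1` and is `> (q - 1) / 2`, so `q₀ = 2`, `n = q (q - 1) / 2`; `n (n - 1) ∣ |G| = q (q² - 1)` forces `q = 4`, `n = 6`: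
`G ≅ PSL₂(5)` (both simple of order 60: S0494), second case with `ZMod 5`.  `q = 5`: `n = 5` (`G ≅ PSL₂(4)`, `GaloisField 2 2`);
`q = 7`: `n = 7` (first case, S0255, `ZMod 2`, `l = 3`); `q = 11`: `n = 11`; `q = 9`: `n ∈ {3, 6, 9}`; `n = 3`: `360 ∤ 3!`
(`Tw.faithful`); `n = 9`: `|G_ω| = 40` has a normal Sylow 5-subgroup, so `G` has `1, 3` or `9` Sylow 5-subgroups, so one. -/
theorem psl2 {F : Type} [Field F] [Fintype F] (hF : 4 ≤ Fintype.card F) {Ω : Type*} [Finite Ω]
    [MulAction (Matrix.ProjectiveSpecialLinearGroup (Fin 2) F) Ω]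
    (tw : Tw (Matrix.ProjectiveSpecialLinearGroup (Fin 2) F) Ω) :
    Concl (Matrix.ProjectiveSpecialLinearGroup (Fin 2) F) (Nat.card Ω) := by
  have hq := Nat.card_eq_fintype_card (α := F)
  have := L2.simple (F := F) (hq ▸ hF)
  have hmin := fun h => tw.le_card (Cfsg.Agent.S0806.result (F := F) rfl h).1
  have hnn := fun h => L2.not_nine tw h
  have hG := CL.SL.gcd_mul_card_PSL_two (F := F)
  have hc := letI := MulAction.compHom Ω (QuotientGroup.mk' (Subgroup.center (Matrix.SpecialLinearGroup (Fin 2) F)))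
    L2.core (tw.comp _ (QuotientGroup.mk'_surjective _)) (fun h => by
      have h1 := tw.faithful (h _ ⟨Multiplicative.ofAdd 1, rfl⟩)
      have h2 := congrArg (· • CL.PGL2.pt (0 : F)) h1
      simp only [one_smul] at h2
      replace h2 : L2.up (Multiplicative.ofAdd (1 : F)) • CL.PGL2.pt (0 : F) = CL.PGL2.pt 0 := h2
      rw [Cfsg.Agent.S0267.sl_smul, CL.PGL2.ofMat_smul_pt_eq_pt] at h2
      simp [L2.up_coe] at h2) hq rfl
  rcases hc with h | ⟨κ, b, h1, h2, h3, h4, h5, h6⟩
  · exact .inr (.inl ⟨F, _, _, hF, ⟨MulEquiv.refl _⟩, h⟩)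
  have : Fact (Nat.Prime 5) := ⟨Nat.prime_five⟩
  have h2' := Nat.le_of_dvd (by omega) h2
  have h4' := Nat.le_of_dvd (Nat.mul_pos (by omega) (by omega)) h4
  have h0 := tw.two_le
  generalize Nat.card Ω = n at *
  by_cases e5 : Fintype.card F = 5
  · rw [e5] at h2 h2' h4 h4' h5
    obtain rfl : n = 5 := by interval_cases κ <;> interval_cases n <;> omega
    have := Fintype.ofFinite (GaloisField 2 2)
    have e : Nat.card (GaloisField 2 2) = 4 := GaloisField.card 2 2 two_ne_zero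
    exact .inr (.inl ⟨GaloisField 2 2, _, _, (Nat.card_eq_fintype_card.symm.trans e).ge,
      L2.iso60 (.inr (hq.trans e5)) (.inl e), by rw [← Nat.card_eq_fintype_card, e]⟩)
  by_cases e7 : Fintype.card F = 7
  · rw [e7] at h2 h2' h4 h4' h5
    obtain rfl : n = 7 := by interval_cases κ <;> interval_cases n <;> omega
    exact .inl ⟨ZMod 2, inferInstance, inferInstance, 3, le_rfl, Cfsg.Agent.S0255.result e7 (ZMod.card 2), by simp⟩
  by_cases e11 : Fintype.card F = 11
  · rw [e11] at h2 h2' h4 h4' h5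
    obtain rfl : κ = 11 := ((Nat.dvd_prime (by norm_num)).1 h2).resolve_left h1.ne'
    obtain rfl : n = 11 := by interval_cases n <;> omega
    exact .inr (.inr (.inr (.inr (.inr (.inr (.inl ⟨F, _, _, e11, ⟨MulEquiv.refl _⟩, rfl⟩))))))
  by_cases e9 : Fintype.card F = 9
  · rw [e9] at h2 h2' h4 h4' h5
    rw [hq, e9] at hG
    have h7 : κ = 3 ∨ κ = 9 := by interval_cases κ <;> omega
    have h8 : n = 6 ∨ n = 3 ∨ n = 9 := by rcases h7 with rfl | rfl <;> interval_cases n <;> omega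
    obtain rfl := h8.resolve_right (hnn (by norm_num at hG; omega))
    exact .inr (.inr (.inr (.inr (.inr (.inl ⟨F, _, _, e9, ⟨MulEquiv.refl _⟩, rfl⟩)))))
  obtain ⟨p, hp⟩ := CharP.exists F
  obtain ⟨a, hp', ha⟩ := FiniteField.card F p
  have h7 := hmin (by simp; omega)
  rw [ha] at h2 h4 h5 h6 h7
  obtain ⟨e, rfl⟩ := L2.num hp' h1 h2 h3 h4 h5 h6 h7
  exact .inr (.inl ⟨ZMod 5, inferInstance, inferInstance, by simp,
    L2.iso60 (.inl (hq.trans (ha.trans e))) (.inr (Nat.card_zmod 5)), by simp⟩)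

end CL.T2
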