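/-
CLAS/T2 (S2193): Heisenberg groups and lines in the simply laced groups and their twisted forms
-/
import Cfsg.Agent.CLAS.T2.Heis
import Cfsg.Agent.CHEV.MinDeg7
import Cfsg.Agent.SOLV.Frattini

set_option autoImplicit false

namespace CL.T2

open CL.Chev CL.Chev.StData CL.Chev.StData.Twist MulAction
open scoped commutatorElement

section Grp

variable {G : Type*} [Group G]

theorem Nz.sup {P X Y : Subgroup G} (h : Nz P X) (h' : Nz P Y) : Nz P (X ⊔ Y) := fun g hg _ hx =>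
  (sup_le (fun y hy => Subgroup.mem_sup_left (h g hg y hy)) fun y hy => Subgroup.mem_sup_right (h' g hg y hy) :
    X ⊔ Y ≤ (X ⊔ Y).comap (MulAut.conj g).toMonoidHom) hx

theorem Nz.comm {P X Y : Subgroup G} (h : Nz P X) (h' : Nz P Y) : Nz P ⁅X, Y⁆ := fun g hg x hx =>
  (Subgroup.commutator_le.2 fun a ha b hb => by
      rw [Subgroup.mem_comap, map_commutatorElement]
      exact Subgroup.commutator_mem_commutator (h g hg a ha) (h' g hg b hb) :
    ⁅X, Y⁆ ≤ ⁅X, Y⁆.comap (MulAut.conj g).toMonoidHom) hx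

theorem Nz.mono {P P' X : Subgroup G} (h : Nz P X) (h' : P' ≤ P) : Nz P' X := fun g hg => h g (h' hg)

theorem Nz.self (P : Subgroup G) : Nz P P := fun _ hg _ hx => mul_mem (mul_mem hg hx) (inv_mem hg)

theorem Nz.le_normalizer {P X : Subgroup G} (h : Nz P X) : P ≤ Subgroup.normalizer (X : Set G) := fun g hg =>
  Subgroup.mem_normalizer_iff.2 fun x => ⟨h g hg x, fun hx => by simpa [mul_assoc] using h _ (inv_mem hg) _ hx⟩

theorem Nz.exists_mul {P X : Subgroup G} (h : Nz P X) {g : G} (hg : g ∈ X ⊔ P) : ∃ x ∈ X, ∃ y ∈ P, g = x * y := by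
  rw [← SetLike.mem_coe, Subgroup.coe_mul_of_right_le_normalizer_left X P h.le_normalizer] at hg
  obtain ⟨x, hx, y, hy, e⟩ := hg
  exact ⟨x, hx, y, hy, e.symm⟩

theorem nz_comap {Γ : Type*} [Group Γ] (j : G →* Γ) {P X : Subgroup Γ} (h : P ≤ Subgroup.normalizer (X : Set Γ)) :
    Nz (P.comap j) (X.comap j) := fun g hg x hx => by
  simpa [Subgroup.mem_comap] using (Subgroup.mem_normalizer_iff.1 (h hg) _).1 hx

theorem le_of_le_sup_comm {p : ℕ} [Fact p.Prime] [Finite G] {P S : Subgroup G} (hS : IsPGroup p S) (hP : P ≤ S)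
    (h : S ≤ P ⊔ ⁅S, S⁆) : S ≤ P := by
  have := hS.isNilpotent
  have h1 : commutator S ⊔ P.subgroupOf S = ⊤ := by
    apply Subgroup.map_injective S.subtype_injective
    rw [Subgroup.map_sup, Subgroup.map_subtype_commutator, Subgroup.subgroupOf_map_subtype,
      inf_of_le_left hP, ← MonoidHom.range_eq_map, Subgroup.range_subtype, sup_comm]
    exact le_antisymm (sup_le hP (Subgroup.commutator_le_self S)) h
  exact Subgroup.subgroupOf_eq_top.1
    (CL.eq_top_of_sup_eq_top_of_le_frattini (CL.commutator_le_frattini_of_isNilpotent S) h1)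

variable {Ω : Type*} [MulAction G Ω] [Finite G] [Finite Ω]

/-- `Q ⁅U, U⁆` transitive implies `Q` transitive -/
theorem tr_of_comm {p : ℕ} [Fact p.Prime] {U Q : Subgroup G} (hU : IsPGroup p U) (hQ : Q ≤ U) (hn : Nz U Q)
    (h : Tr (Q ⊔ ⁅U, U⁆) Ω) : Tr Q Ω := fun a b => by
  have h0 : Q ⊔ ⁅U, U⁆ ≤ U := sup_le hQ (Subgroup.commutator_le_self U)
  have h1 : U ≤ Q ⊔ (U ⊓ stabilizer G a) := le_of_le_sup_comm hU (sup_le hQ inf_le_left) fun u hu => by
    obtain ⟨g, hg, e⟩ := h a (u • a)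
    have h2 : g⁻¹ * u ∈ U ⊓ stabilizer G a :=
      Subgroup.mem_inf.2 ⟨mul_mem (inv_mem (h0 hg)) hu, by rw [mem_stabilizer_iff, mul_smul, ← e, inv_smul_smul]⟩
    have h3 : Q ⊔ ⁅U, U⁆ ≤ Q ⊔ (U ⊓ stabilizer G a) ⊔ ⁅U, U⁆ := sup_le_sup_right le_sup_left _
    simpa using mul_mem (h3 hg) (Subgroup.mem_sup_left (Subgroup.mem_sup_right h2))
  obtain ⟨u, hu, rfl⟩ := h.mono h0 a b
  obtain ⟨x, hx, e⟩ := ((((h.mono h0).relIndex hQ hn a).2 u).1 (h1 hu)).2
  exact ⟨x, hx, e.symm⟩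

/-- a subgroup of `U` larger than the number of `Q`-orbits meets the kernel on the `Q ⁅U, U⁆`-orbits -/
theorem exists_mem_okr {U Q X : Subgroup G} (hn : Nz U Q) (hT : Tr U Ω) (hX : X ≤ U) [Nonempty Ω]
    (hlt : Nat.card (orbitRel.Quotient Q Ω) < Nat.card X) : ∃ x ∈ X, x ≠ 1 ∧ x ∈ okr (Q ⊔ ⁅U, U⁆) Ω := by
  obtain ⟨ω⟩ := ‹Nonempty Ω›
  obtain ⟨x, y, e, hne⟩ := Function.not_injective_iff.1 fun hi : Function.Injective
      fun x : X => (Quotient.mk _ ((x : G) • ω) : orbitRel.Quotient Q Ω) =>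
    (Nat.card_le_card_of_injective _ hi).not_gt hlt
  obtain ⟨⟨a, ha⟩, e⟩ := (orbitRel_apply.1 (Quotient.exact e) : _ ∈ orbit Q _)
  change a • (y : G) • ω = (x : G) • ω at e
  refine ⟨(y⁻¹ * x : X), (y⁻¹ * x).2, fun h => hne (inv_mul_eq_one.1 (Subtype.ext h)).symm, fun ω' => ?_⟩
  obtain ⟨v, hv, rfl⟩ := hT ω ω'
  refine ⟨⁅((y⁻¹ * x : X) : G), v⁆ * (v * ((y : G)⁻¹ * a * (y : G)⁻¹⁻¹) * v⁻¹), mul_mem
    (Subgroup.mem_sup_right (Subgroup.commutator_mem_commutator (hX (y⁻¹ * x).2) hv))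
    (Subgroup.mem_sup_left (hn v hv _ (hn _ (inv_mem (hX y.2)) a ha))), ?_⟩
  simp only [commutatorElement_def, Subgroup.coe_mul, Subgroup.coe_inv, mul_smul, inv_smul_smul, inv_inv, e,
    mul_inv_rev, smul_inv_smul]

end Grp

theorem arith_md {q M R b k : ℕ} (hq : 2 ≤ q) (hk : 0 < k) (hR : 0 < R) (h1 : R * (q - 1) < M - 1)
    (h : b * (k * M - 1) = R * (q * M - 1)) : k = q := by
  have hM : 1 ≤ M := by omega
  have h2 : 1 ≤ k * M := Nat.mul_pos hk hM
  have h3 : 1 ≤ q * M := Nat.mul_pos (by omega) hM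
  zify [h2, h3, hM, show 1 ≤ q by omega] at h h1 hq hk hR hM
  have h4 : ((b : ℤ) * k - R * q) * (k * M - 1) = R * (q - k) := by linear_combination (k : ℤ) * h
  have h5 : (b : ℤ) = R + (b * k - R * q) * M := by linear_combination -h
  generalize (b : ℤ) * k - R * q = c at h4 h5
  have hb : (0 : ℤ) ≤ b := by positivity
  rcases lt_trichotomy c 0 with hc | rfl | hc
  · nlinarith
  · have : (R : ℤ) * (q - k) = 0 := by linarith
    have := (mul_eq_zero.1 this).resolve_left hR.ne'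
    omega
  · have : (M : ℤ) - 1 ≤ c * (k * M - 1) := by
      have h6 : (M : ℤ) ≤ k * M := by nlinarith
      nlinarith
    nlinarith

namespace Md

variable {ι κ κ' : Type*} [Fintype κ] [DecidableEq κ] {R : RootSys ι κ} [Finite ι] {K Γ G : Type*} [Field K]
  [Group Γ] [Group G] {S : StData R K Γ} {j : G →* Γ} {T : S.Twist κ'} {φ : K →+* K} {m q : ℕ}
  (h : T.MD j φ m q)
include h

theorem heis {α : ι} (hα : T.ρ α = α) {A : Set ι} (h1 : ∀ δ ∈ A, R.pair α δ = 1) (hs : T.St A)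
    (hst : ∀ δ ∈ A, R.star α δ ∈ A) (hp : T.Pw (insert α A)) :
    Heis (S.Yg j (insert α A)) (S.Yg j {α}) ∧ Nat.card (S.Yg j (insert α A)) = q ^ (A.ncard + 1) := by
  have hB : ∀ r ∈ insert α A, 1 ≤ R.pair α r := by
    rintro r (rfl | hr)
    · rw [R.pair_self]; omega
    · exact (h1 r hr).ge
  have hc : R.Closed (insert α A) := fun r hr s hs k hk => .inl ((h.comb_θ (hB r hr) (hB s hs)).2 k hk)
  have hS : T.St (insert α A) := by
    rintro r (rfl | hr)
    exacts [.inl hα, .inr (hs r hr)]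
  have hZ : ∀ r ∈ insert α A, ∀ s ∈ ({α} : Set ι), R.NoComb r s := by
    rintro r hr _ rfl
    exact (h.long r).noComb (by rw [h.symm]; exact zero_le_one.trans (hB r hr))
  have hZ' : ∀ r ∈ insert α A, ∀ s ∈ ({α} : Set ι), s ≠ R.neg r ∧ ∀ k, R.IsComb r s k → k ∈ ({α} : Set ι) :=
    fun r hr s hs => ⟨(hZ r hr s hs).1, fun k hk => absurd hk ((hZ r hr s hs).2 k)⟩
  have cen : ∀ z ∈ S.Yg j {α}, ∀ x ∈ S.Yg j (insert α A), x * z = z * x := fun z hz x hx => h.commute hZ hx hz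
  refine ⟨⟨Yg_mono (by simp), cen, fun x hx y hy => ?_, fun x hx => ?_⟩, ?_⟩
  · simpa [mul_assoc] using comm_Yg hZ' hZ' (fun r hr s hs => h.comb_θ (hB r hr) (hB s hs)) (inv_mem hy) (inv_mem hx)
  · refine h.induct (P := fun C => C ⊆ insert α A → ∀ x ∈ S.Yg j C, x ∉ S.Yg j {α} → ∀ z ∈ S.Yg j {α},
      ∃ y ∈ S.Yg j (insert α A), x * y * x⁻¹ * y⁻¹ = z) (fun _ x hx hx' => ?_) ?_ hp hc hS subset_rfl x hx
    · exact (hx' (Yg_mono (Set.empty_subset _) hx)).elim
    intro C r _ hr hrC ih _ hf hC x hx hx' z hz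
    obtain ⟨a, ha, b, hb, rfl⟩ := hf x hx
    by_cases haZ : a ∈ S.Yg j {α}
    · obtain ⟨y, hy, e⟩ := ih (Set.sdiff_subset.trans hC) b hb (fun hb' => hx' (mul_mem haZ hb')) z hz
      refine ⟨y, hy, ?_⟩
      have h2 := cen a haZ _ (mul_mem (mul_mem (Yg_mono (Set.sdiff_subset.trans hC) hb) hy)
        (inv_mem (Yg_mono (Set.sdiff_subset.trans hC) hb)))
      calc _ = a * (b * y * b⁻¹) * a⁻¹ * y⁻¹ := by group
        _ = _ := by rw [← h2, ← e]; group
    have hrA : r ∈ A := (hC hr).resolve_left fun e => haZ (by rwa [e, h.cls_fix hα] at ha)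
    have h2 : ∀ δ ∈ T.cls r, R.pair α δ = 1 := fun δ hδ => (h.pair_cls hα hδ).trans (h1 r hrA)
    obtain ⟨δ, hδ, y, hy, e⟩ := h.nd hα h2 (h.iso_cls hα (h1 r hrA)) ha (fun e => haZ (e ▸ one_mem _)) (inv_mem hz)
    have h3 : T.cls (R.star α δ) ⊆ R.star α '' T.cls r :=
      h.cls_subset (h.st_star hα (MD.st_cls r) h2) ⟨δ, hδ, rfl⟩
    have h4 : Commute y b := by
      refine h.commute (fun γ hγ ε hε => ?_) hy hb
      obtain ⟨δ', hδ', rfl⟩ := h3 hγ
      have h5 := RootSys.pair_star_self (h2 _ hδ')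
      rcases hC hε.1 with rfl | h6
      · exact (h.long _).noComb (by rw [h.symm, h5]; omega)
      · exact (RootSys.q1_cases h.long h5 (h1 _ h6)).resolve_right fun e =>
          hε.2 (by rwa [e, RootSys.star_star])
    refine ⟨y, Yg_mono (h3.trans ?_) hy, ?_⟩
    · rintro _ ⟨δ', hδ', rfl⟩
      exact .inr (hst _ (h.cls_subset hs hrA hδ'))
    · calc _ = a * (b * y) * b⁻¹ * a⁻¹ * y⁻¹ := by group
        _ = a * (y * a * y⁻¹)⁻¹ := by rw [← h4.eq]; group
        _ = _ := by rw [e]; group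
  · rw [h.card_Yg hp hc hS, Set.ncard_insert_of_notMem fun e => by
      have := h1 α e
      rw [R.pair_self] at this
      omega]

theorem card_fix {α : ι} (hα : T.ρ α = α) : Nat.card (S.Yg j {α}) = q := by
  rw [h.card_Yg (h.pw_fix hα) (R.closed_singleton α) (St.single hα), Set.ncard_singleton, pow_one]

/-- the long root groups on a line -/
theorem line {θ β : ι} (hθ : T.ρ θ = θ) (hβ : T.ρ β = β) (h1 : R.pair β θ = 1) (hp : T.Pw {β, θ})
    {w : Equiv.Perm ι} (hw : w ∈ T.W1) (e : w θ = β) :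
    Nat.card (S.Yg j {β, θ}) = q ^ 2 ∧ ∃ g : Option (S.Yg j {R.star β θ}) → G,
      (∀ i, ∀ z ∈ S.Yg j {θ}, g i * z * (g i)⁻¹ ∈ S.Yg j {β, θ}) ∧
      ∀ x ∈ S.Yg j {β, θ}, ∃ i, ∃ z ∈ S.Yg j {θ}, x = g i * z * (g i)⁻¹ := by
  have hne : β ≠ θ := by
    rintro rfl
    rw [R.pair_self] at h1
    omega
  have hB : ∀ r ∈ ({β, θ} : Set ι), 1 ≤ R.pair β r := by
    rintro r (rfl | rfl)
    · rw [R.pair_self]; omega
    · exact h1.ge
  have hc : R.Closed {β, θ} := fun r hr s hs k hk => .inl ((h.comb_θ (hB r hr) (hB s hs)).2 k hk)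
  have hγ : T.ρ (R.star β θ) = R.star β θ := by rw [h.ρ_star hβ h1, hθ]
  obtain ⟨n, hn⟩ := h.exists_n hw
  refine ⟨by rw [h.card_Yg hp hc ((St.single hβ).union (St.single hθ)), Set.ncard_pair hne],
    fun i => i.elim n (↑), ?_, fun x hx => ?_⟩
  · rintro (_ | y) z hz
    · exact hn.conj_Yg (by rintro _ rfl; exact .inl e) hz
    · have h2 : θ ≠ R.neg (R.star β θ) := RootSys.ne_neg_of_pair (by
        rw [h.symm, RootSys.pair_star h1, h.symm θ β, h1, R.pair_self]; omega)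
      simpa using single_conj (B := {θ}) (C := {β, θ}) (by
        rintro _ rfl
        exact ⟨.inr rfl, h2, fun k hk => .inl (R.rt_inj
          ((RootSys.comb_add h.long hk h2).1.trans (RootSys.rt_add_star h1).symm))⟩) (inv_mem y.2) hz
  · obtain ⟨b, hb, z, hz, rfl⟩ := h.factor (A := {β}) (B := {θ}) hp hc (R.closed_singleton _) (R.closed_singleton _)
      (St.single hβ) (St.single hθ) (by simpa using hne) hx
    by_cases hz1 : z = 1
    · refine ⟨none, n⁻¹ * b * n, hn.inv_conj_Yg (by rintro _ rfl; simp [← e]) hb, by simp [hz1, mul_assoc]⟩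
    · obtain ⟨_, rfl, y, hy, e'⟩ := h.nd hβ (A := {θ}) (by rintro _ rfl; exact h1) (by
        rintro δ rfl e'
        have := RootSys.pair_star h1 δ
        rw [show R.star β δ = δ from e', h.symm δ β, h1, R.pair_self] at this
        omega) hz hz1 hb
      rw [h.cls_fix hγ] at hy
      exact ⟨some ⟨y, hy⟩, z, hz, e'.symm⟩

omit [Field K] [Group Γ] [Group G] h in
theorem ncard_level {i : κ} {w : Equiv.Perm ι} (hw : w ∈ R.W) :
    {δ | R.pair (w (R.simple i)) δ = 1}.ncard = 2 * (R.Lam (R.simple i)).ncard := by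
  have h1 : {δ | R.pair (w (R.simple i)) δ = 1} = w '' (R.Lam (R.simple i) ∪ R.star (R.simple i) '' R.Lam (R.simple i)) := by
    ext δ
    obtain ⟨δ, rfl⟩ := w.surjective δ
    rw [w.injective.mem_set_image, Set.mem_ofPred_eq, RootSys.W_pair hw]
    refine ⟨fun e => ?_, ?_⟩
    · by_cases hp : R.IsPos δ
      · exact .inl ⟨hp, e⟩
      · refine .inr ⟨_, ⟨?_, RootSys.pair_star_self e⟩, RootSys.star_star _ _⟩
        rw [R.not_isPos_iff_ht] at hp
        have := R.isPos_simple i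
        rw [RootSys.IsPos] at this ⊢
        rw [RootSys.ht_star e]; omega
    · rintro (e | ⟨δ, e, rfl⟩)
      exacts [e.2, RootSys.pair_star_self e.2]
  rw [h1, Set.ncard_image_of_injective _ w.injective, Set.ncard_union_eq ?_, Set.ncard_image_of_injective _
    (RootSys.star_injective _), two_mul]
  rw [Set.disjoint_left]
  rintro _ h2 ⟨δ, h3, rfl⟩
  have h4 := h2.1
  have h5 := h3.1
  rw [RootSys.IsPos] at h4 h5
  rw [RootSys.ht_star h3.2, R.ht_simple] at h4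
  omega

end Md

end CL.T2
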