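/-
CLAS/T2 (S2193): the long root parabolic in the simply laced groups and their twisted forms
-/
import Cfsg.Agent.CLAS.T2.MD1
import Cfsg.Agent.CLAS.T2.Gen
import Cfsg.Agent.CHEV.LieGen

set_option autoImplicit false

namespace CL.T2.Md

open CL.Chev CL.Chev.StData CL.Chev.StData.Twist MulAction
open scoped commutatorElement

variable {ι κ κ' : Type*} [Fintype κ] [DecidableEq κ] {R : RootSys ι κ} [Finite ι] {K Γ G : Type*} [Field K]
  [Group Γ] [Group G] {S : StData R K Γ} {j : G →* Γ} {T : S.Twist κ'} {φ : K →+* K} {m q : ℕ}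
  (h : T.MD j φ m q) {θ : ι} {i₀ : κ} (t : T.Top θ i₀)
include h

omit [Finite ι] in
theorem exists_pow [Finite K] (p : ℕ) [Fact p.Prime] [CharP K p] : ∃ f, 0 < f ∧ q = p ^ f := by
  have := Fintype.ofFinite (φ.eqLocusField (RingHom.id K))
  obtain ⟨f, -, e⟩ := FiniteField.card (φ.eqLocusField (RingHom.id K)) p
  exact ⟨f, f.2, by rw [← h.card, Nat.card_eq_fintype_card, e]⟩

theorem pos_fix {i : κ} (hi : T.π i = i) : T.pos (T.c i) = {R.simple i} := by
  rw [← T.cls_simple, h.cls_fix (MD.fix_simple.2 hi)]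

include t

theorem set_eq : insert θ {δ | R.pair θ δ = 1} = {r | R.IsPos r ∧ r ∉ R.sub {i | R.wt θ i = 0}} := by
  ext r
  simp only [Set.mem_insert_iff, Set.mem_ofPred_eq, h.mem_sub_iff t]
  refine ⟨?_, fun ⟨h1, h2⟩ => or_iff_not_imp_left.2 fun hne => ?_⟩
  · rintro (rfl | e)
    · exact ⟨h.pos_of_pair t (by rw [R.pair_self]; omega), by rw [R.pair_self]; omega⟩
    · exact ⟨h.pos_of_pair t (by omega), by omega⟩
  · have := h.pair_nonneg t h1
    have := RootSys.pair_le_one h.long hne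
    omega

omit [Finite ι] in
theorem noComb {r : ι} (hr : R.IsPos r ∨ r ∈ R.sub {i | R.wt θ i = 0}) : R.NoComb r θ :=
  (h.long r).noComb (by
    rw [h.symm]
    exact hr.elim (h.pair_nonneg t) fun e => ((h.mem_sub_iff t).1 e).ge)

omit [Finite ι] in
theorem nz_Z : Nz ((S.P {i | R.wt θ i = 0}).comap j) (S.Yg j {θ}) := nz_comap j (by
  rw [S.P_eq]
  exact sup_le (S.H_le_normalizer_XS _) (S.XS_le_normalizer (by rintro r hr _ rfl; exact (noComb h t hr).1)
    (by rintro r hr _ rfl k hk; exact absurd hk ((noComb h t hr).2 k))))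

theorem comm_E {e u : G} (he : e ∈ S.Yg j {R.star θ (R.simple i₀), θ}) (hu : u ∈ S.U.comap j) :
    e * u * e⁻¹ * u⁻¹ ∈ S.Yg j {θ} := by
  have h1 := h.pair_θ_a t
  have h2 : ∀ r ∈ ({R.star θ (R.simple i₀), θ} : Set ι), R.IsPos r := by
    rintro r (rfl | rfl) <;> refine h.pos_of_pair t ?_
    · rw [RootSys.pair_star_self h1]; omega
    · rw [R.pair_self]; omega
  have h3 : ∀ r, R.IsPos r → ∀ s ∈ ({θ} : Set ι), s ≠ R.neg r ∧ ∀ k, R.IsComb r s k → k ∈ ({θ} : Set ι) := by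
    rintro r hr _ rfl
    exact ⟨(noComb h t (.inl hr)).1, fun k hk => absurd hk ((noComb h t (.inl hr)).2 k)⟩
  simpa [mul_assoc] using comm_Yg (A := {r | R.IsPos r}) h3 (fun r hr => h3 r (h2 r hr)) (fun r hr s hs => by
    have hne : s ≠ R.neg r := fun e => (R.isPos_neg r).1 (e ▸ h2 s hs) hr
    refine ⟨hne, fun k hk => ?_⟩
    rcases hs with rfl | rfl
    · obtain ⟨h4, h5⟩ := RootSys.comb_add h.long hk hne
      by_cases e : r = R.simple i₀
      · exact R.rt_inj (by rw [h4, e, RootSys.rt_star h1]; simp)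
      · have h6 := (R.isPos_iff _).1 (R.isPos_σ hr e) i₀
        rw [RootSys.pair_star h1, h.symm r θ, h.symm r, h.pair_θ t, R.pair_simple] at h5
        rw [R.rt_σ', R.rt_simple] at h6
        simp at h6
        omega
    · exact absurd hk ((noComb h t (.inl hr)).2 k)) (inv_mem hu) (inv_mem he)

variable [Finite K] [Finite G]

theorem Q_le : S.Yg j (insert θ {δ | R.pair θ δ = 1}) ≤
    S.Yg j {R.simple i₀} ⊔ ⁅S.Yg j (insert θ {δ | R.pair θ δ = 1}), S.U.comap j⁆ := by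
  have hX : S.Yg j {R.simple i₀} ≤ S.Yg j (insert θ {δ | R.pair θ δ = 1}) :=
    Yg_mono (by rintro _ rfl; exact .inr (h.pair_θ_a t))
  rw [set_eq h t] at hX ⊢
  generalize hQ : S.Yg j {r | R.IsPos r ∧ r ∉ R.sub {i | R.wt θ i = 0}} = Q at hX
  have hn : Nz (S.U.comap j) Q := hQ ▸ nz_comap j (S.U_le_B.trans ((S.B_le_P _).trans (S.P_le_normalizer_UJ _)))
  have h1 : Nz (S.U.comap j) (S.Yg j {R.simple i₀} ⊔ ⁅Q, S.U.comap j⁆) := fun u hu x hx =>
    (sup_le (fun y hy => by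
        simpa [commutatorElement_def, mul_assoc] using mul_mem
          (Subgroup.mem_sup_left (T := ⁅Q, S.U.comap j⁆) hy) (Subgroup.mem_sup_right
            (Subgroup.commutator_mem_commutator (inv_mem (hX hy)) hu)))
      fun y hy => Subgroup.mem_sup_right (hn.comm (Nz.self _) u hu y hy) :
      S.Yg j {R.simple i₀} ⊔ ⁅Q, S.U.comap j⁆ ≤
        (S.Yg j {R.simple i₀} ⊔ ⁅Q, S.U.comap j⁆).comap (MulAut.conj u).toMonoidHom) hx
  have hL : S.Yg j ({r | R.IsPos r} ∩ R.sub {i | R.wt θ i = 0}) ≤ S.U.comap j := Yg_mono Set.inter_subset_left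
  have hQU : Q ≤ S.U.comap j := hQ ▸ Yg_mono fun _ hr => hr.1
  have h2 : S.U.comap j ≤ (S.Yg j {R.simple i₀} ⊔ ⁅Q, S.U.comap j⁆) ⊔
      S.Yg j ({r | R.IsPos r} ∩ R.sub {i | R.wt θ i = 0}) := by
    refine (gen_md h).trans (iSup_le fun a => ?_)
    obtain ⟨i, rfl⟩ := T.c_surj a
    by_cases e : i = i₀
    · rw [e, pos_fix h t.fix₀]
      exact le_sup_left.trans le_sup_left
    · refine le_trans (Yg_mono fun r hr => (⟨hr.1, (h.mem_sub_iff t).2 ?_⟩ : _ ∧ _)) le_sup_right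
      rw [h.pair_cls t.fix (T.cls_simple i ▸ hr), h.pair_θ t, R.rt_simple]
      simp [Ne.symm e]
  intro x hx
  obtain ⟨w, hw, l, hl, rfl⟩ := (h1.mono hL).exists_mul (h2 (hQU hx))
  have h3 : l ∈ Q := by
    simpa using mul_mem (inv_mem (sup_le hX ((Subgroup.commutator_le).2 fun a ha b hb => by
      simpa [commutatorElement_def, mul_assoc] using mul_mem ha (hn b hb _ (inv_mem ha))) hw)) hx
  have h4 := h.inf_eq_bot (A := {r | R.IsPos r ∧ r ∉ R.sub {i | R.wt θ i = 0}})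
    (B := {r | R.IsPos r} ∩ R.sub {i | R.wt θ i = 0}) (T.pw_pos fun r hr => hr.elim (·.1) (·.1)) (by
      rw [← set_eq h t]
      have hB : ∀ r ∈ insert θ {δ | R.pair θ δ = 1}, 1 ≤ R.pair θ r := by
        rintro r (rfl | hr)
        · rw [R.pair_self]; omega
        · exact Eq.ge hr
      exact fun r hr s hs k hk => .inl ((h.comb_θ (hB r hr) (hB s hs)).2 k hk))
    (R.closed_pos.inter (R.closed_sub _)) (Set.disjoint_left.2 fun r h1 h2 => h1.2 h2.2)
  have h5 : j l ∈ (⊥ : Subgroup Γ) := h4 ▸ ⟨by rw [← hQ] at h3; exact h3, hl⟩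
  rwa [(map_eq_one_iff _ h.inj).1 (Subgroup.mem_bot.1 h5), mul_one]

variable {p : ℕ} [Fact p.Prime] [CharP K p] {Ω : Type*} [MulAction G Ω] [Finite Ω]

include p in
theorem fix_le_okr {Q : Subgroup G} (hn : Nz ((S.P {i | R.wt θ i = 0}).comap j) Q)
    (hQ : Nat.card (orbitRel.Quotient Q Ω) ≤ q) {i k : κ} (hi : T.π i = i) (hi₀ : i ≠ i₀) (hk : k ≠ i₀)
    (hA : R.A i k = -1) : S.Yg j {R.simple i} ≤ okr Q Ω := by
  obtain ⟨f, hf, hq⟩ := exists_pow h p
  have hα : T.ρ (R.simple i) = R.simple i := MD.fix_simple.2 hi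
  have h0 : R.pair (R.simple i) (R.neg (R.simple k)) = 1 := by
    rw [R.pair_neg_right, R.pair_simple, R.wt_simple, hA]; rfl
  have h1 : ∀ δ ∈ T.cls (R.neg (R.simple k)), R.pair (R.simple i) δ = 1 := fun δ hδ => (h.pair_cls hα hδ).trans h0
  have h2 : T.cls (R.neg (R.simple k)) ⊆ T.ngt (T.c k) :=
    h.cls_subset (fun r hr => T.ρ_mem_ngt.2 hr) (T.neg_mem_ngt.2 (T.simple_mem_pos (T.mem_J_c k)))
  have h3 : i ∉ T.J (T.c k) := fun e => by
    obtain ⟨n, hn⟩ := T.trans i k e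
    rw [← hn, perm_pow_of_imp T.π (P := (· = i)) (by rintro _ rfl; exact hi) n rfl, R.A_self] at hA
    omega
  have h4 : ∀ r, R.rt r i = 1 → R.IsPos (T.w (T.c k) r) := fun r hr =>
    (RootSys.WJ_isPos_iff (T.w_mem_WJ _) fun e => by have := e i h3; omega).2 (R.isPos_of_pos (i := i) (by omega))
  obtain ⟨hH, hc⟩ := heis h hα (A := T.cls (R.neg (R.simple k)) ∪ R.star (R.simple i) '' T.cls (R.neg (R.simple k)))
    (by
      rintro δ (hδ | ⟨δ, hδ, rfl⟩)
      exacts [h1 δ hδ, RootSys.pair_star_self (h1 δ hδ)])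
    ((MD.st_cls _).union (h.st_star hα (MD.st_cls _) h1))
    (by
      rintro δ (hδ | ⟨δ, hδ, rfl⟩)
      exacts [.inr ⟨δ, hδ, rfl⟩, .inl (by rwa [RootSys.star_star])])
    ⟨_, T.w_mem_W1 (T.c k), by
      rintro r (rfl | hr | ⟨δ, hδ, rfl⟩)
      · exact h4 _ (by simp [R.rt_simple])
      · exact (T.w_mem_pos.2 (h2 hr)).1
      · exact h4 _ (by simp [RootSys.rt_star (h1 δ hδ), R.rt_simple, (h2 hδ).2 i h3])⟩
  rw [Set.ncard_union_eq (Set.disjoint_left.2 (by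
    rintro _ h5 ⟨δ, hδ, rfl⟩
    exact h.iso_cls hα h0 δ hδ h5)), Set.ncard_image_of_injective _ (RootSys.star_injective _)] at hc
  have h5 : 0 < (T.cls (R.neg (R.simple k))).ncard := (Set.ncard_pos).2 ⟨_, T.mem_cls _⟩
  have h6 := h.two_le
  refine hH.le_okr (p := p) (e := q ^ (T.cls (R.neg (R.simple k))).ncard) (IsPGroup.of_card (by rw [hc, hq, ← pow_mul]))
    (hn.mono fun y hy => ?_) (by rw [hc, card_fix h hα]; ring) (hQ.trans_lt ?_)
  · have e0 : R.pair θ (R.simple i) = 0 := by simp [h.pair_θ t, R.rt_simple, hi₀.symm]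
    have e1 : ∀ δ ∈ T.cls (R.neg (R.simple k)), R.pair θ δ = 0 := fun δ hδ => by
      simp [h.pair_cls t.fix hδ, R.pair_neg_right, h.pair_θ t, R.rt_simple, hk.symm]
    rw [Subgroup.mem_comap, S.P_eq]
    refine Subgroup.mem_sup_right (S.XS_mono (fun r hr => .inr ((h.mem_sub_iff t).2 ?_)) hy)
    rcases hr with rfl | hr | ⟨δ, hδ, rfl⟩
    exacts [e0, e1 r hr, by rw [RootSys.pair_star (h1 δ hδ), e0, e1 δ hδ]; rfl]
  · have := Nat.le_self_pow h5.ne' q
    have := (Fact.out : p.Prime).two_le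
    nlinarith

include p in
theorem main [IsSimpleGroup G] (hL : T.IsLie j) {d c : ℕ} (hd : (R.Lam (R.simple i₀)).ncard = d) (h2 : 2 ≤ d)
    (hI : ((S.P {i | R.wt θ i = 0}).comap j).index * (q - 1) = c * (q ^ (d + 2) - 1)) (hc0 : 0 < c)
    (hc : c * (q - 1) < q ^ (d + 1) - 1) (hnb : ∀ i, T.π i = i → i ≠ i₀ → ∃ k ≠ i₀, R.A i k = -1)
    (hT : ∀ i, T.π i ≠ i → ∃ x : K → G, (∀ s t, x (s + t) = x s * x t) ∧
      (∀ y, y ∈ S.Yg j (T.pos (T.c i)) ↔ ∃ t, y = x t) ∧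
      ∀ l : K, l ≠ 0 → ∃ g, j g ∈ S.B ∧ ∀ t, g * x t * g⁻¹ = x (l ^ 2 * t))
    (tw : Tw G Ω) (hB : Tr (S.B.comap j) Ω) : False := by
  obtain ⟨f, hf, hq⟩ := exists_pow h p
  have hq2 := h.two_le
  have := tw.nt
  have hBP : S.B.comap j ≤ (S.P {i | R.wt θ i = 0}).comap j := Subgroup.comap_mono (S.B_le_P _)
  have hUB : S.U.comap j ≤ S.B.comap j := Subgroup.comap_mono S.U_le_B
  have hP := hB.mono hBP
  have hU : IsPGroup p (S.U.comap j) := (hL.sylIn (p := p)).pgroup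
  have hZ := card_fix h t.fix
  have h1 := h.pair_θ_a t
  have hβ : T.ρ (R.star θ (R.simple i₀)) = R.star θ (R.simple i₀) := by
    rw [h.ρ_star t.fix h1, MD.fix_simple.2 t.fix₀]
  have hβ1 : R.pair θ (R.star θ (R.simple i₀)) = 1 := RootSys.pair_star_self h1
  have hEQ : ({R.star θ (R.simple i₀), θ} : Set ι) ⊆ insert θ {δ | R.pair θ δ = 1} := by
    rintro _ (rfl | rfl)
    exacts [.inr hβ1, .inl rfl]
  have hQpos : ∀ r ∈ insert θ {δ | R.pair θ δ = 1}, R.IsPos r := by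
    rw [set_eq h t]; exact fun r hr => hr.1
  have hQU : S.Yg j (insert θ {δ | R.pair θ δ = 1}) ≤ S.U.comap j := Yg_mono hQpos
  obtain ⟨w, hw, e⟩ := h.trans' t t.fix hβ
  obtain ⟨hE, g, hg1, hg2⟩ := line h t.fix hβ ((h.symm _ _).trans hβ1) (T.pw_pos fun r hr => hQpos r (hEQ hr)) hw e
  have hS : Semi (S.Yg j {θ}) Ω := by
    refine (semi_or_triv (p := p) (nz_Z h t) hP (hU.to_le ((Yg_mono hEQ).trans hQU)) hZ hE ?_ g hg1 hg2).resolve_right
      fun ht => ?_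
    · rw [Finite.card_option, card_fix h (by rw [h.ρ_star hβ ((h.symm _ _).trans hβ1), t.fix])]
    · rw [(Subgroup.eq_bot_iff_forall _).2 fun z hz => tw.faithful (ht z hz), Subgroup.card_bot] at hZ
      omega
  have hZω : ∀ ω : Ω, Nat.card (S.Yg j {θ} ⊓ stabilizer G ω : Subgroup G) = 1 := fun ω => by
    rw [(Subgroup.eq_bot_iff_forall (S.Yg j {θ} ⊓ stabilizer G ω)).2 fun z hz => hS z hz.1 ω hz.2, Subgroup.card_bot]
  obtain ⟨w₀, hw₀, e₀⟩ := h.trans t t.fix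
  obtain ⟨hH, hQ⟩ := heis h t.fix (A := {δ | R.pair θ δ = 1}) (fun _ e => e) (fun r hr => (h.pair_fix t.fix r).trans hr)
    (fun _ e => RootSys.pair_star_self e) (T.pw_pos hQpos)
  have hA := ncard_level (i := i₀) hw₀.1
  rw [e₀, hd] at hA
  rw [hA] at hQ
  have hnQ : Nz ((S.P {i | R.wt θ i = 0}).comap j) (S.Yg j (insert θ {δ | R.pair θ δ = 1})) := by
    rw [set_eq h t]; exact nz_comap j (S.P_le_normalizer_UJ _)
  have hQle := Q_le h t
  have hX₀ : S.Yg j {R.simple i₀} ≤ S.Yg j (insert θ {δ | R.pair θ δ = 1}) :=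
    Yg_mono (by rintro _ rfl; exact .inr h1)
  have hEQ' := Yg_mono (S := S) (j := j) hEQ
  generalize S.Yg j (insert θ {δ | R.pair θ δ = 1}) = Q at *
  obtain ⟨h3, k, hk⟩ := hH.pow_dvd (p := p) (c := f) (d := f * d) (hU.to_le hQU)
    (by rw [hQ, hZ, hq]; ring) hf fun ω => by rw [hZω, hZ, hq, mul_one]
  have e1 : p ^ (f * d + f) = q ^ (d + 1) := by rw [hq]; ring
  rw [e1] at h3 hk
  obtain ⟨κ₁, b, h4, -, h5, -⟩ := tw.blk (nz_Z h t) hP
  obtain ⟨ω⟩ : Nonempty Ω := inferInstance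
  obtain rfl : q = κ₁ := by simpa only [hZω, hZ, mul_one] using h4 ω
  have hk0 : 0 < k := Nat.pos_of_mul_pos_left (hk ▸ Nat.card_pos)
  obtain rfl : k = q := arith_md (b := b) hq2 hk0 hc0 hc (by rw [mul_comm k, ← hk, h5, hI]; ring_nf)
  have hTU : Tr (S.U.comap j) Ω := tw.tr_top.of_sylow (a := f * (d + 2)) le_top hU
    (hL.sylIn (p := p)).toSylow.not_dvd_index (by rw [hk, hq]; ring)
  have hY : Nat.card (orbitRel.Quotient Q Ω) ≤ k := by
    obtain ⟨κ₂, -, h6, -⟩ := tw.blk hnQ hP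
    have h7 := card_orbits h6
    have h8 : k ^ (d + 1) ≤ κ₂ := Nat.le_of_mul_le_mul_right (h6 ω ▸ h3 ω) Nat.card_pos
    refine Nat.le_of_mul_le_mul_right ?_ (pow_pos hk0 (d + 1))
    calc _ ≤ Nat.card (orbitRel.Quotient Q Ω) * κ₂ := Nat.mul_le_mul_left _ h8
      _ = _ := by rw [h7, hk, mul_comm]
  have hnU := hnQ.mono (hUB.trans hBP)
  have hTQ : Tr Q Ω := by
    refine tr_of_comm hU hQU hnU (hTU.of_okr ((gen_md h).trans (iSup_le fun a => ?_)))
    have hm : okr Q Ω ≤ okr (Q ⊔ ⁅S.U.comap j, S.U.comap j⁆) Ω := fun x hx ω =>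
      let ⟨y, hy, e⟩ := hx ω; ⟨y, Subgroup.mem_sup_left hy, e⟩
    obtain ⟨i, rfl⟩ := T.c_surj a
    by_cases hi : T.π i = i
    · rw [pos_fix h hi]
      by_cases hi₀ : i = i₀
      · rw [hi₀]; exact hX₀.trans ((le_okr Q).trans hm)
      · obtain ⟨l, hl, hA⟩ := hnb i hi hi₀
        exact (fix_le_okr h t (p := p) hnQ hY hi hi₀ hl hA).trans hm
    obtain ⟨x, hx1, hx2, hx3⟩ := hT i hi
    obtain ⟨y, hy, hy1, hy2⟩ := exists_mem_okr (X := S.Yg j (T.pos (T.c i))) hnU hTU (Yg_mono fun _ hr => hr.1)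
      (hY.trans_lt (by
        rw [← T.cls_simple, h.card_cls, T.cls_simple]
        have : 2 ≤ (T.pos (T.c i)).ncard := by
          rw [← Set.ncard_pair (R.simple_injective.ne hi)]
          exact Set.ncard_le_ncard (by
            rintro _ (rfl | rfl)
            exacts [T.simple_mem_pos (T.π_mem_J.2 (T.mem_J_c i)), T.simple_mem_pos (T.mem_J_c i)])
        exact lt_self_pow₀ (by omega) this))
    obtain ⟨s, rfl⟩ := (hx2 y).1 hy
    have hx0 : x 0 = 1 := by simpa using hx1 0 0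
    have hs : s ≠ 0 := by rintro rfl; exact hy1 hx0
    have hnB : Nz (S.B.comap j) (S.U.comap j) := nz_comap j S.B_le_normalizer_U
    have h6 := ((hnQ.mono hBP).sup (hnB.comm hnB)).okr (Ω := Ω)
    intro y hy
    obtain ⟨u, rfl⟩ := (hx2 y).1 hy
    rw [← div_mul_cancel₀ u hs]
    refine forall_of_sq (P := fun v => x (v * s) ∈ okr (Q ⊔ ⁅S.U.comap j, S.U.comap j⁆) Ω) (by simp [hx0])
      (fun a b ha hb => by simpa only [add_mul, hx1] using mul_mem ha hb) (fun l hl => ?_) _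
    obtain ⟨g, hg, e⟩ := hx3 l hl
    exact e s ▸ h6 g hg _ hy2
  refine hH.kill (p := p) (fun e => by rw [e, Subgroup.card_bot] at hZ; omega) hU hQU hnU
    (fun z hz u hu => h.commute (by rintro r hr _ rfl; exact noComb h t (.inl hr)) hu hz) hX₀ hQle
    (Yg_mono (by simp)) hEQ' (fun e he u hu => comm_E h t he hu)
    (by rw [hE, hZ, card_fix h (MD.fix_simple.2 t.fix₀), sq]) (fun e he => ?_) hS hTQ ?_
  · obtain ⟨i, z, hz, rfl⟩ := hg2 e he
    exact ⟨(g i)⁻¹, by simpa [mul_assoc] using hz⟩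
  · rw [hk, hQ, ← pow_succ]
    exact Nat.pow_lt_pow_right (by omega) (by omega)

end CL.T2.Md
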