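/-
CLAS/T2 (S2193): tori of the twisted groups, root tables
-/
import Cfsg.Agent.CLAS.T2.MD2

set_option autoImplicit false

namespace CL.T2.Md

open Cfsg.Lie CL.Chev CL.Chev.StData CL.Chev.StData.Twist

section Tor

variable {ι κ κ' : Type*} [Fintype κ] [DecidableEq κ] {R : RootSys ι κ} [Finite ι] {K Γ G : Type*} [Field K]
  [Group Γ] [Group G] {S : StData R K Γ} {j : G →* Γ} {T : S.Twist κ'} {φ : K →+* K} {m q : ℕ}
  (h : T.MD j φ m q)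
include h

omit [Finite ι] in
theorem tor_of {a : κ'} {X : K → Γ} (h1 : ∀ s t, X (s + t) = X s * X t)
    (h2 : ∀ g, g ∈ S.XS (T.pos a) ⊓ T.Fix ↔ ∃ t, g = X t)
    (h3 : ∀ l : K, l ≠ 0 → ∃ g ∈ j.range, g ∈ S.H ∧ ∀ t, g * X t * g⁻¹ = X (l ^ 2 * t)) :
    ∃ x : K → G, (∀ s t, x (s + t) = x s * x t) ∧ (∀ y, y ∈ S.Yg j (T.pos a) ↔ ∃ t, y = x t) ∧
      ∀ l : K, l ≠ 0 → ∃ g, j g ∈ S.B ∧ ∀ t, g * x t * g⁻¹ = x (l ^ 2 * t) := by
  choose x hx using fun t => h.isTw.pos_le a ((h2 _).2 ⟨t, rfl⟩)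
  refine ⟨x, fun s t => h.inj (by rw [map_mul, hx, hx, hx, h1]), fun y => ⟨fun hy => ?_, ?_⟩, fun l hl => ?_⟩
  · obtain ⟨t, e⟩ := (h2 _).1 ⟨hy, h.fix y⟩
    exact ⟨t, h.inj (e.trans (hx t).symm)⟩
  · rintro ⟨t, rfl⟩
    rw [mem_Yg, hx]
    exact ((h2 _).2 ⟨t, rfl⟩).1
  · obtain ⟨_, ⟨g, rfl⟩, hg, e⟩ := h3 l hl
    exact ⟨g, S.H_le_B hg, fun t => h.inj (by rw [map_mul, map_mul, map_inv, hx, hx, e])⟩

theorem tor_two {i : κ} (hi : T.π i ≠ i) (h2 : ∀ i, T.π (T.π i) = i) (hf : ∀ t, T.f (T.π i) (T.f i t) = t) :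
    ∃ x : K → G, (∀ s t, x (s + t) = x s * x t) ∧ (∀ y, y ∈ S.Yg j (T.pos (T.c i)) ↔ ∃ t, y = x t) ∧
      ∀ l : K, l ≠ 0 → ∃ g, j g ∈ S.B ∧ ∀ t, g * x t * g⁻¹ = x (l ^ 2 * t) := by
  have hA : R.A i (T.π i) = 0 := h.orth _ i (T.mem_J_c i) _ (T.π_mem_J.2 (T.mem_J_c i)) hi.symm
  have hA' := (R.A_eq_zero_comm _ _).1 hA
  have hJ : T.J (T.c i) = {i, T.π i} := Set.ext fun k => T.mem_J_iff_of_invol h2
  refine tor_of h (X := fun t => S.x (R.simple i) t * S.x (R.simple (T.π i)) (T.f i t)) (fun s t => ?_)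
    (fun g => T.mem_pos_two h.good hJ hi.symm hA rfl (h2 i) hf) fun l hl => ?_
  · have := (commute_orth hi hA' (S.x_mem_sub_self R.isSgn_pos _ (T.f i s)) (S.x_mem_sub_self R.isSgn_pos _ t)).eq
    rw [map_add, S.x_add, S.x_add, mul_assoc, mul_assoc, ← mul_assoc (S.x _ (T.f i s)), this, mul_assoc]
  · have hl' : T.f i l ≠ 0 := (map_ne_zero _).2 hl
    refine ⟨_, (h.isTw.h_mem_two h.good hi.symm hA rfl (h2 i) hf l).2,
      mul_mem (S.h_mem_H _ hl) (S.h_mem_H _ hl'), fun t => ?_⟩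
    have e := h_mul_conj (fun r u => S.h_conj (R.simple i) r hl u) (T.π i) hl'
    rw [← conj_mul, e, e]
    simp [R.pair_simple, R.wt_simple, hA, hA', R.A_self]

theorem tor_three {a : κ'} {i k l : κ} (hJ : T.J a = {i, k, l}) (hik : i ≠ k) (hil : i ≠ l) (hkl : k ≠ l)
    (hi : T.π i = k) (hk : T.π k = l) (hl : T.π l = i) (hf : ∀ t, T.f l (T.f k (T.f i t)) = t) :
    ∃ x : K → G, (∀ s t, x (s + t) = x s * x t) ∧ (∀ y, y ∈ S.Yg j (T.pos a) ↔ ∃ t, y = x t) ∧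
      ∀ l : K, l ≠ 0 → ∃ g, j g ∈ S.B ∧ ∀ t, g * x t * g⁻¹ = x (l ^ 2 * t) := by
  have ho := h.orth a
  rw [hJ] at ho
  have h1 : R.A i k = 0 := ho _ (by simp) _ (by simp) hik
  have h2 : R.A i l = 0 := ho _ (by simp) _ (by simp) hil
  have h3 : R.A k l = 0 := ho _ (by simp) _ (by simp) hkl
  refine tor_of h (X := fun t => S.x (R.simple i) t * S.x (R.simple k) (T.f i t) *
      S.x (R.simple l) (T.f k (T.f i t))) (fun s t => ?_)
    (fun g => T.mem_pos_three h.good hJ hik hil hkl h1 h2 h3 hi hk hl hf) fun u hu => ?_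
  · rw [mul_three_orth hik hil hkl h1 h2 h3 (S.x_mem_sub_self R.isSgn_pos _ _) (S.x_mem_sub_self R.isSgn_pos _ _)
      (S.x_mem_sub_self R.isSgn_pos _ _) (S.x_mem_sub_self R.isSgn_pos _ _)]
    simp only [map_add, S.x_add]
  · have hu' : T.f i u ≠ 0 := (map_ne_zero _).2 hu
    have hu'' : T.f k (T.f i u) ≠ 0 := (map_ne_zero _).2 hu'
    refine ⟨_, (h.isTw.h_mem_three h.good hik hil hkl h1 h2 h3 hi hk hl hf u).2,
      mul_mem (mul_mem (S.h_mem_H _ hu) (S.h_mem_H _ hu')) (S.h_mem_H _ hu''), fun t => ?_⟩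
    have e := h_mul_conj (h_mul_conj (fun r v => S.h_conj (R.simple i) r hu v) k hu') l hu''
    rw [← conj_mul, ← conj_mul, e, e, e]
    simp [R.pair_simple, R.wt_simple, h1, h2, h3, (R.A_eq_zero_comm _ _).1 h1, (R.A_eq_zero_comm _ _).1 h2,
      (R.A_eq_zero_comm _ _).1 h3, R.A_self]

end Tor

def nb (C : Cert) (l : ℕ) (p : ℕ → ℕ) (i₀ : ℕ) : Bool :=
  allLt l fun i => Nat.beq i i₀ || !(Nat.beq (p i) i) ||
    Cert.anyLt l fun k => !(Nat.beq k i₀) && ieq (C.wt i (C.smp k)) (-1)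

theorem tab {D : ChevalleyDatum} [Chev.Good D] {K Γ G κ' : Type*} [Field K] [Group Γ] [Group G]
    {S : StData (rootSys D) K Γ} {j : G →* Γ} {T : S.Twist κ'} {φ : K →+* K} {m q : ℕ} [Finite K] [Finite G]
    [IsSimpleGroup G] (h : T.MD j φ m q) (hL : T.IsLie j) {p : ℕ → ℕ} (hp : ∀ i, (T.π i : ℕ) = p i) (θ : Rt D)
    (i₀ : Fin D.rank) {d : ℕ} (h0 : (Chev.Good.C D).md0 D.nroots D.rank p θ i₀ d = true) (par rk : List ℕ)
    (h1 : (Good.C D).mdc D.rank p i₀ par rk = true) (h2 : nb (Good.C D) D.rank p i₀ = true) (h3 : 2 ≤ d) {P : List ℕ}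
    (h4 : ((Chev.Good.C D).nnL D.nroots D.rank p).foldr addMon [] = P) {c : ℕ}
    (h5 : evalP q P * (q - 1) = c * (q ^ (d + 2) - 1)) (h6 : 0 < c) (h7 : c * (q - 1) < q ^ (d + 1) - 1)
    (hT : ∀ i, T.π i ≠ i → ∃ x : K → G, (∀ s t, x (s + t) = x s * x t) ∧
      (∀ y, y ∈ S.Yg j (T.pos (T.c i)) ↔ ∃ t, y = x t) ∧
      ∀ l : K, l ≠ 0 → ∃ g, j g ∈ S.B ∧ ∀ t, g * x t * g⁻¹ = x (l ^ 2 * t))
    {Ω : Type*} [MulAction G Ω] [Finite Ω] (tw : Tw G Ω) (hB : Tr (S.B.comap j) Ω) : False := by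
  obtain ⟨t, hn⟩ := h.top_of_md0 hp h0 (conn_of_mdc hp par rk h1)
  have := Fintype.ofFinite K
  obtain ⟨r, hr⟩ := CharP.exists K
  have : Fact r.Prime := ⟨CharP.char_is_prime K r⟩
  refine main h t (p := r) hL (hn _ t.fix₀) h3 ?_ h6 h7 (fun i hi hi₀ => ?_) hT tw hB
  · rw [h.index_P t (L := Finset.univ.filter fun r : Rt D => (Good.C D).fxF D.rank p r = true)
      (by simp [fix_iff_fxF h.hA hp]), sum_nn, sum_pow_eq h4, h5]
  · simp only [nb, allLt_iff, Bool.or_eq_true, Nat.beq_eq, Bool.not_eq_true', ← Bool.not_eq_true, Cert.anyLt_iff,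
      Bool.and_eq_true, ieq_iff] at h2
    obtain ⟨k, hk, h8, h9⟩ := (h2 i i.2).resolve_left (by simp [← hp, hi, Fin.val_inj, hi₀])
    exact ⟨⟨k, hk⟩, fun e => h8 (congrArg Fin.val e), by rw [rootSys_A, A_sm', sm_val']; exact h9⟩

theorem pow_sub (r n : ℕ) : (r + 2) ^ n - 1 = (r + 1) * evalP (r + 2) (List.replicate n 1) := by
  refine Nat.sub_eq_of_eq_add ?_
  induction n with
  | zero => simp [evalP]
  | succ n ih => rw [pow_succ, ih, List.replicate_succ, evalP]; ring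

end CL.T2.Md
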