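/-
CLAS/T2 (S2193): E6, E7, E8, 2E6, 3D4
-/
import Cfsg.Agent.CLAS.T2.Fish
import Cfsg.Agent.CLAS.T2.Heis
import Cfsg.Agent.CLAS.T2.TrB
import Cfsg.Agent.CLAS.T2.MD3
import Cfsg.Agent.S1070
import Cfsg.Agent.S1071

set_option autoImplicit false

namespace CL.T2

open Cfsg Cfsg.Lie CL.Chev

/-! Setting `T.MD j φ m q`, `T.Top θ i₀` (CHEV/MinDeg2-7; certificates `md0`, `nnL`, `sum_pow_eq` as in S2339-S2342;
`E₇` needs its own: `θ`, `i₀ = 0`, `d = 16`).  `Z = Yg {θ}`, `Q = Yg {β | 1 ≤ ⟨θ, β⟩}` of order `q^(2d+1)`,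
`P = (S.P {i | wt θ i = 0}).comap j ≥ B` (transitive by `trB_*`), `β₀ = star θ α_{i₀}`, `E = Yg {θ, β₀}`.
(1) TF: `E` is covered by the `q + 1` conjugates of `Z` under `X_{-α_{i₀}}` and `n_{α_{i₀}}`: `semi_or_triv`, `not_triv`.
(2) `Heis Q Z` (`MD.nd`, applied to one class of a lowest nontrivial component, or to a maximal isotropic half), so
`q^(d+1) ∣ n` and all `Q`-orbits have length `≥ q^(d+1)`.  (3) `blk`: `b (n - 1) = [G : P] (q - 1) = R (q^(d+2) - 1)`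
(`index_P`): `E₆, d = 10`: `R = (q⁴+1)(q⁶+q³+1)`; `E₇`: `R = 1+q⁴+q⁶+q⁸+q¹⁰+q¹²+q¹⁶`; `E₈, d = 28`:
`R = (q¹⁰+1)(q¹⁸+q¹²+q⁶+1)`; `²E₆, d = 10`: `R = (q⁴+1)(q⁶-q³+1)`; `³D₄, d = 4`: `R = q⁴-q²+1`.  `0 < R < 2 q^d`:
`n = k q^(d+1)`, `b = R + c q^(d+1)`, `c (k q^(d+1) - 1) = R (q - k)`, so `c = 0, k = q` or `k = 1`: `n` is a power of `p`, `U` is
transitive, `Q` has at most `q` orbits.  (4) every simple class `a ≠ c(i₀)` has `X_a ≤ okr Q` (`le_okr_of_class`, `X₀ = ⊥`):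
fixed `α` with a fixed neighbour `α'` in the Levi diagram: `X = X_α X_{α+α'}`, one class under `⟨X_{±α'}⟩`; non-fixed class:
`X = Yg (cls α)` of order `q², q³`, one class under the torus (`²E₆`: `h` of the neighbouring non-fixed class acts by `μ⁻¹`;
`³D₄`: `λ²` (`λ ∈ F_{q³}`) and `μ⁻¹` (`μ ∈ F_q`, contains a nonsquare of `F_{q³}`)); the fixed node of `²A₅`: `MD.nd` with
`δ = α₃ + α₄` (`okr` is normalised by `P`).  With `Gen` (and `X_{i₀} ≤ Q`): `U ≤ okr Q`, `Q` transitive (`Tr.of_okr`).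
(5) `Heis.kill` with `X₀ = X_{i₀}`; `Q ≤ X₀ ⊔ ⁅Q, U⁆` from `Gen` (Dedekind: `U = (X₀ ⁅Q, U⁆) U_L`, `Q ⊓ U_L = ⊥`);
`⁅E, U⁆ ≤ Z` by heights. -/

variable {F : Type} [Field F] [Fintype F] {Ω : Type*} [Finite Ω]

theorem E6_false [MulAction (chevE6.group F) Ω] (tw : Tw (chevE6.group F) Ω) : False := by
  have h0 : (Good.C chevE6).md0 72 6 id 71 1 10 = true := by decide +kernel
  have h := (stG_good (D := chevE6) (F := F)).md_triv stG_top (StData.Twist.long_of_md0 h0)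
  have := isSimpleGroup_group (D := chevE6) (F := F) (by simp) (by rintro (h | h) <;> cases congrArg (·.rank) h)
  obtain ⟨r, hr⟩ := Nat.exists_eq_add_of_le' h.two_le
  refine Md.tab h (isLie_chev F chevE6) (p := id) (fun _ => rfl) (71 : Fin 72) (1 : Fin 6) h0
    [2, 0, 3, 1, 3, 4] [3, 0, 2, 1, 2, 3] (by decide +kernel) (by decide +kernel) (by omega)
    (P := [1, 1, 1, 2, 3, 3, 4, 5, 5, 5, 6, 6, 5, 5, 5, 4, 3, 3, 2, 1, 1, 1])
    (by decide +kernel) (c := evalP (r + 2) [1, 0, 0, 1, 1, 0, 1, 1, 0, 0, 1])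
    ?_ ?_ ?_ (fun i hi => absurd rfl hi) tw (trB_E6 tw)
  all_goals simp only [hr, Md.pow_sub, evalP, List.replicate, show r + 2 - 1 = r + 1 from rfl]
  · ring
  · omega
  · ring_nf; omega

theorem E7_false [MulAction (chevE7.group F) Ω] (tw : Tw (chevE7.group F) Ω) : False := by
  have h0 : (Good.C chevE7).md0 126 7 id 125 0 16 = true := by decide +kernel
  have h := (stG_good (D := chevE7) (F := F)).md_triv stG_top (StData.Twist.long_of_md0 h0)
  have := isSimpleGroup_group (D := chevE7) (F := F) (by simp) (by rintro (h | h) <;> cases congrArg (·.rank) h)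
  obtain ⟨r, hr⟩ := Nat.exists_eq_add_of_le' h.two_le
  refine Md.tab h (isLie_chev F chevE7) (p := id) (fun _ => rfl) (125 : Fin 126) (0 : Fin 7) h0
    [0, 3, 0, 2, 3, 4, 5] [0, 3, 1, 2, 3, 4, 5] (by decide +kernel) (by decide +kernel) (by omega)
    (P := [1, 1, 1, 1, 2, 2, 3, 3, 4, 4, 5, 5, 6, 6, 6, 6, 7, 7, 6, 6, 6, 6, 5, 5, 4, 4, 3, 3, 2, 2, 1, 1, 1, 1])
    (by decide +kernel) (c := evalP (r + 2) [1, 0, 0, 0, 1, 0, 1, 0, 1, 0, 1, 0, 1, 0, 0, 0, 1])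
    ?_ ?_ ?_ (fun i hi => absurd rfl hi) tw (trB_E7 tw)
  all_goals simp only [hr, Md.pow_sub, evalP, List.replicate, show r + 2 - 1 = r + 1 from rfl]
  · ring
  · omega
  · ring_nf; omega

theorem E8_false [MulAction (chevE8.group F) Ω] (tw : Tw (chevE8.group F) Ω) : False := by
  have h0 : (Good.C chevE8).md0 240 8 id 239 7 28 = true := by decide +kernel
  have h := (stG_good (D := chevE8) (F := F)).md_triv stG_top (StData.Twist.long_of_md0 h0)
  have := isSimpleGroup_group (D := chevE8) (F := F) (by simp) (by rintro (h | h) <;> cases congrArg (·.rank) h)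
  obtain ⟨r, hr⟩ := Nat.exists_eq_add_of_le' h.two_le
  refine Md.tab h (isLie_chev F chevE8) (p := id) (fun _ => rfl) (239 : Fin 240) (7 : Fin 8) h0
    [2, 3, 3, 4, 5, 6, 7] [6, 5, 5, 4, 3, 2, 1, 0] (by decide +kernel) (by decide +kernel) (by omega)
    (P := [1, 1, 1, 1, 1, 1, 2, 2, 2, 2, 3, 3, 4, 4, 4, 4, 5, 5, 6, 6, 6, 6, 7, 7, 7, 7, 7, 7, 8, 8, 7, 7, 7, 7, 7, 7, 6, 6, 6, 6, 5, 5, 4, 4, 4, 4, 3, 3, 2, 2, 2, 2, 1, 1, 1, 1, 1, 1])
    (by decide +kernel) (c := evalP (r + 2) [1, 0, 0, 0, 0, 0, 1, 0, 0, 0, 1, 0, 1, 0, 0, 0, 1, 0, 1, 0, 0, 0, 1, 0, 0, 0, 0, 0, 1])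
    ?_ ?_ ?_ (fun i hi => absurd rfl hi) tw (trB_E8 tw)
  all_goals simp only [hr, Md.pow_sub, evalP, List.replicate, show r + 2 - 1 = r + 1 from rfl]
  · ring
  · omega
  · ring_nf; omega

theorem tE6_false {q : ℕ} (hq : IsPrimePow q) (hF : Fintype.card F = q ^ 2) [MulAction (twistedE6 F q) Ω]
    (tw : Tw (twistedE6 F q) Ω) : False := by
  let _ : MulAction (chevE6.genSubgroup F (e6Words F q)) Ω := ‹MulAction (twistedE6 F q) Ω›
  obtain ⟨T, hT, hL⟩ := isLie_2E6 hq (Nat.card_eq_fintype_card.trans hF)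
  have h0 : (Good.C chevE6).md0 72 6 ([5, 1, 4, 3, 2, 0].getD · 0) 71 1 10 = true := by decide +kernel
  have h := hT.md stG_good hL.inj hL.isTw (StData.Twist.long_of_md0 h0)
  have : IsSimpleGroup (chevE6.genSubgroup F (e6Words F q)) := (Cfsg.Agent.S1070.result hq hF).1
  have hp : ∀ i, (T.π i : ℕ) = ([5, 1, 4, 3, 2, 0].getD · 0) i := fun i =>
    (congrArg Fin.val (hT.π i)).trans (by clear * -; revert i; change ∀ i : Fin 6, _; decide)
  obtain ⟨r, hr⟩ := Nat.exists_eq_add_of_le' hq.two_le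
  refine Md.tab (D := chevE6) h hL (p := ([5, 1, 4, 3, 2, 0].getD · 0)) hp (71 : Fin 72) (1 : Fin 6) h0
    [2, 0, 3, 1, 3, 4] [3, 0, 2, 1, 2, 3] (by decide +kernel) (by decide +kernel) (by omega)
    (P := [1, 1, 1, 0, 1, 1, 2, 1, 1, 1, 2, 2, 1, 1, 1, 2, 1, 1, 0, 1, 1, 1]) (by decide +kernel)
    (c := ((r + 2) ^ 4 + 1) * ((r + 2) ^ 3 * (r + 1) * ((r + 2) ^ 2 + r + 3) + 1)) ?_ ?_ ?_
    (fun i hi => Md.tor_two h hi hT.isQS.ππ (hT.ff _ _)) tw (trB_2E6 hT hL tw)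
  · simp only [hr, Md.pow_sub, evalP, List.replicate, show r + 2 - 1 = r + 1 from rfl]; ring
  · positivity
  · simp only [hr, Md.pow_sub, evalP, List.replicate, show r + 2 - 1 = r + 1 from rfl]; ring_nf; omega

theorem tD4_false {q : ℕ} (hq : IsPrimePow q) (hF : Fintype.card F = q ^ 3) [MulAction (twistedD4 F q) Ω]
    (tw : Tw (twistedD4 F q) Ω) : False := by
  let _ : MulAction (chevD4.genSubgroup F (d4Words F q)) Ω := ‹MulAction (twistedD4 F q) Ω›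
  obtain ⟨T, hT, hL⟩ := isLie_3D4 hq (Nat.card_eq_fintype_card.trans hF)
  have h0 : (Good.C chevD4).md0 24 4 ([2, 1, 3, 0].getD · 0) 23 1 4 = true := by decide +kernel
  have h := hT.md stG_good hL.inj hL.isTw (StData.Twist.long_of_md0 h0)
  have : IsSimpleGroup (chevD4.genSubgroup F (d4Words F q)) := (Cfsg.Agent.S1071.result hq hF).1
  have hp : ∀ i, (T.π i : ℕ) = ([2, 1, 3, 0].getD · 0) i := fun i =>
    (congrArg Fin.val (hT.π i)).trans (by clear * -; revert i; change ∀ i : Fin 4, _; decide)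
  obtain ⟨r, hr⟩ := Nat.exists_eq_add_of_le' hq.two_le
  refine Md.tab (D := chevD4) h hL (p := ([2, 1, 3, 0].getD · 0)) hp (23 : Fin 24) (1 : Fin 4) h0
    [] [] (by decide +kernel) (by decide +kernel) (by omega)
    (P := [1, 1, 0, 0, 1, 1, 0, 0, 1, 1]) (by decide +kernel)
    (c := (r + 2) ^ 2 * (r + 1) * (r + 3) + 1) ?_ ?_ ?_ (fun i hi => ?_) tw (trB_3D4 hT hL tw)
  · simp only [hr, Md.pow_sub, evalP, List.replicate, show r + 2 - 1 = r + 1 from rfl]; ring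
  · positivity
  · simp only [hr, Md.pow_sub, evalP, List.replicate, show r + 2 - 1 = r + 1 from rfl]; ring_nf; omega
  · have e : T.c i = 0 := by
      by_contra h1
      have h2 : T.c i = 1 := by omega
      have h3 : i ∈ ({1} : Set (Fin 4)) := hT.J1 ▸ h2
      exact hi (by rw [show i = (1 : Fin 4) from h3]; exact hT.π 1)
    rw [e]
    exact Md.tor_three h hT.J0 (by decide) (by decide) (by decide) (hT.π _) (hT.π _) (hT.π _) (hT.ff _ _ _)

end CL.T2
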