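/-
CLAS/T2 (S2193): the singular points of a polar space as a set with an action of `f.E`, counts, root groups.
-/
import Cfsg.Agent.CLAS.T2.Fish
import Cfsg.Agent.CLAS.T2.Heis
import Cfsg.Agent.KSG.CoopU4

set_option autoImplicit false

namespace CL.T2.Pol

open Module CL.Witt CL.Witt.Form MulAction CL.Coop

variable {F : Type*} [Field F] {T : FormType F} {V : Type*} [AddCommGroup V] [Module F V] {f : Form T V}
  {u u' v w : V}

variable (f) in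
/-- the singular points -/
def Pt : Type _ := {p : Submodule F V // ∃ v, v ≠ 0 ∧ f.q v = 0 ∧ p = F ∙ v}

/-- the point of a vector -/
def pt (v : V) (h0 : v ≠ 0) (hq : f.q v = 0) : Pt f := ⟨F ∙ v, v, h0, hq, rfl⟩

theorem ind (p : Pt f) : ∃ v h0 hq, p = pt v h0 hq :=
  let ⟨_, v, h0, hq, e⟩ := p; ⟨v, h0, hq, Subtype.ext e⟩

theorem pt_eq {h0 h0' hq hq'} : (pt v h0 hq : Pt f) = pt w h0' hq' ↔ w ∈ F ∙ v := by
  refine ⟨fun e => ?_, fun e => Subtype.ext ?_⟩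
  · have : F ∙ v = F ∙ w := congrArg Subtype.val e
    exact this ▸ Submodule.mem_span_singleton_self w
  · obtain ⟨c, rfl⟩ := Submodule.mem_span_singleton.1 e
    exact (Submodule.span_singleton_smul_eq (IsUnit.mk0 c (left_ne_zero_of_smul h0')) v).symm

instance [Finite V] : Finite (Pt f) :=
  Finite.of_surjective (fun v : {v // v ≠ 0 ∧ f.q v = 0} => (pt v.1 v.2.1 v.2.2 : Pt f)) fun p =>
    let ⟨v, h0, hq, e⟩ := ind p; ⟨⟨v, h0, hq⟩, e.symm⟩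

theorem ne0 (g : f.E) (h0 : v ≠ 0) : g.1 v ≠ 0 := by simpa using h0

theorem q0 (g : f.E) (hq : f.q v = 0) : f.q (g.1 v) = 0 := (mem_O_q (E_le_O g.2) v).trans hq

instance : MulAction f.E (Pt f) where
  smul g p := ⟨p.1.map (g.1 : V →ₗ[F] V), by
    obtain ⟨v, h0, hq, e⟩ := p.2
    exact ⟨g.1 v, ne0 g h0, q0 g hq, by rw [e, Submodule.map_span, Set.image_singleton]; rfl⟩⟩
  one_smul p := Subtype.ext (Submodule.map_id _)
  mul_smul g k p := Subtype.ext (Submodule.map_comp _ _ _)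

theorem smul_pt (g : f.E) {h0 hq} : g • (pt v h0 hq : Pt f) = pt (g.1 v) (ne0 g h0) (q0 g hq) :=
  Subtype.ext (by
    change (F ∙ v).map (g.1 : V →ₗ[F] V) = F ∙ _
    rw [Submodule.map_span, Set.image_singleton]; rfl)

theorem smul_pt_eq {g : f.E} {h0 h0' hq hq'} : g • (pt v h0 hq : Pt f) = pt w h0' hq' ↔ ∃ c : F, g.1 v = c • w := by
  rw [smul_pt, eq_comm, pt_eq, Submodule.mem_span_singleton]
  exact exists_congr fun _ => eq_comm

/-- distinct and orthogonal -/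
def adj (p p' : Pt f) : Prop := p ≠ p' ∧ ∀ v ∈ p.1, ∀ w ∈ p'.1, f.B v w = 0

theorem adj_pt {h0 h0' hq hq'} : adj (pt v h0 hq : Pt f) (pt w h0' hq') ↔ w ∉ F ∙ v ∧ f.B v w = 0 := by
  refine and_congr pt_eq.not ⟨fun h => h _ (Submodule.mem_span_singleton_self _) _
    (Submodule.mem_span_singleton_self _), fun h x hx y hy => ?_⟩
  obtain ⟨c, rfl⟩ := Submodule.mem_span_singleton.1 hx
  obtain ⟨d, rfl⟩ := Submodule.mem_span_singleton.1 hy
  rw [B_smul_left, B_smul_right, h, mul_zero, mul_zero]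

theorem adj_symm (p p' : Pt f) (h : adj p p') : adj p' p :=
  ⟨h.1.symm, fun v hv w hw => f.B_eq_zero_symm (h.2 w hw v hv)⟩

theorem adj_irrefl (p : Pt f) : ¬ adj p p := fun h => h.1 rfl

theorem adj_smul (g : f.E) (p p' : Pt f) (h : adj p p') : adj (g • p) (g • p') := by
  refine ⟨fun e => h.1 (smul_left_cancel g e), ?_⟩
  rintro _ ⟨v, hv, rfl⟩ _ ⟨w, hw, rfl⟩
  exact (mem_O_B (E_le_O g.2) v w).trans (h.2 v hv w hw)

theorem B_ne {h0 h0' hq hq'} (h : (pt v h0 hq : Pt f) ≠ pt w h0' hq') (h' : ¬ adj (pt v h0 hq : Pt f) (pt w h0' hq')) :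
    f.B v w ≠ 0 := fun e => h' (adj_pt.2 ⟨mt pt_eq.2 h, e⟩)

theorem card_mul (P : Pt f → Prop) (R : V → Prop) (h : ∀ v h0 hq, P (pt v h0 hq) ↔ R v) [Finite F] :
    Nat.card {p // P p} * (Nat.card F - 1) = Nat.card {v // v ≠ 0 ∧ f.q v = 0 ∧ R v} := by
  choose r h0 hq e using ind (f := f)
  rw [← card_subtype_ne_zero F, ← Nat.card_prod]
  refine Nat.card_eq_of_bijective (fun x => ⟨x.2.1 • r x.1.1, smul_ne_zero x.2.2 (h0 _), f.q_smul_eq_zero (hq _) _,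
    (h _ (smul_ne_zero x.2.2 (h0 _)) (f.q_smul_eq_zero (hq _) _)).1 (by
      convert x.1.2 using 1
      exact ((e _).trans (pt_eq.2 (Submodule.smul_mem _ _ (Submodule.mem_span_singleton_self _)))).symm)⟩) ⟨?_, ?_⟩
  · rintro ⟨⟨p, hp⟩, c, hc⟩ ⟨⟨p', hp'⟩, c', hc'⟩ e'
    have e1 : c • r p = c' • r p' := congrArg Subtype.val e'
    have e2 : p = p' := by
      rw [e p, e p', pt_eq, ← inv_smul_smul₀ hc' (r p'), ← e1]
      exact Submodule.smul_mem _ _ (Submodule.smul_mem _ _ (Submodule.mem_span_singleton_self _))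
    subst e2
    obtain rfl : c = c' := smul_left_injective F (h0 p) e1
    rfl
  · rintro ⟨v, h1, h2, h3⟩
    obtain ⟨c, hc⟩ := Submodule.mem_span_singleton.1 (pt_eq.1 (e (pt v h1 h2)).symm)
    exact ⟨⟨⟨_, (h v h1 h2).2 h3⟩, c, fun e => h1 (by rw [← hc, e, zero_smul])⟩, Subtype.ext hc⟩

variable (f u) in
/-- the unipotent radical of the stabiliser of `⟨u⟩` -/
def Qg : Subgroup f.E := (f.U u).subgroupOf f.E

variable (f) in
/-- the transvections with centre `u` -/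
def Zg (hu : f.q u = 0) : Subgroup f.E where
  carrier := {g | ∃ a, T.π a = 0 ∧ g.1 = f.ei u 0 a}
  one_mem' := ⟨0, map_zero _, (ei_zero u).symm⟩
  mul_mem' := by
    rintro g k ⟨a, ha, e⟩ ⟨b, hb, e'⟩
    exact ⟨a + b, by rw [map_add, ha, hb, add_zero], by
      rw [Subgroup.coe_mul, e, e', ei_zero_mul_ei_zero hu ha hb]⟩
  inv_mem' := by
    rintro g ⟨a, ha, e⟩
    exact ⟨T.ε * T.σ a, by rw [T.π_symm, ha], by
      rw [Subgroup.coe_inv, e, (eichOK_zero hu ha).ei_inv, neg_zero]⟩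

theorem mem_Qg (hu : f.q u = 0) {g : f.E} : g ∈ Qg f u ↔ ∃ v a, f.EichOK u v a ∧ g.1 = f.ei u v a := mem_U hu

theorem mem_Zg {hu : f.q u = 0} {g : f.E} : g ∈ Zg f hu ↔ ∃ a, T.π a = 0 ∧ g.1 = f.ei u 0 a := Iff.rfl

theorem Zg_le (hu : f.q u = 0) : Zg f hu ≤ Qg f u := fun _ ⟨a, _, e⟩ => by
  rw [Qg, Subgroup.mem_subgroupOf, e]; exact ei_mem_U _ _ _

theorem Qg_le {h0 : u ≠ 0} {hu : f.q u = 0} : Qg f u ≤ stabilizer f.E (pt u h0 hu : Pt f) := fun g hg => by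
  obtain ⟨v, a, h, e⟩ := (mem_Qg hu).1 hg
  exact smul_pt_eq.2 ⟨1, by rw [e, h.ei_apply_u, one_smul]⟩

theorem nz_Z {h0 : u ≠ 0} {hu : f.q u = 0} : Nz (stabilizer f.E (pt u h0 hu : Pt f)) (Zg f hu) := by
  rintro g hg x ⟨a, ha, e⟩
  obtain ⟨c, hc⟩ := smul_pt_eq.1 hg
  refine ⟨T.σ c * c * a, by rw [T.π_norm, ha, mul_zero], ?_⟩
  rw [Subgroup.coe_mul, Subgroup.coe_mul, Subgroup.coe_inv, e, (eichOK_zero hu ha).conj_ei (E_le_O g.2), hc, map_zero,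
    (eichOK_zero hu ha).ei_smul_left, smul_zero]

theorem nz_Q {h0 : u ≠ 0} {hu : f.q u = 0} : Nz (stabilizer f.E (pt u h0 hu : Pt f)) (Qg f u) := by
  intro g hg x hx
  obtain ⟨c, hc⟩ := smul_pt_eq.1 hg
  have := conj_mem_U (E_le_O g.2) (show x.1 ∈ f.U u from hx)
  rwa [hc, U_smul hu fun e => ne0 g h0 (by rw [hc, e, zero_smul])] at this

theorem cen_Z (hu : f.q u = 0) : ∀ z ∈ Zg f hu, ∀ x ∈ Qg f u, x * z = z * x := by
  rintro z ⟨a, ha, e⟩ x hx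
  obtain ⟨v, b, h, e'⟩ := (mem_Qg hu).1 hx
  refine Subtype.ext ?_
  rw [Subgroup.coe_mul, Subgroup.coe_mul, e, e', h.ei_mul (eichOK_zero hu ha), (eichOK_zero hu ha).ei_mul h]
  simp [add_comm]

theorem comm_Z (hu : f.q u = 0) : ∀ x ∈ Qg f u, ∀ y ∈ Qg f u, x * y * x⁻¹ * y⁻¹ ∈ Zg f hu := by
  intro x hx y hy
  obtain ⟨v, a, h, e⟩ := (mem_Qg hu).1 hx
  obtain ⟨w, b, h', e'⟩ := (mem_Qg hu).1 hy
  obtain ⟨h1, h2⟩ := h.ei_commutator h'
  exact ⟨_, h1.ha.trans f.q_zero, by rw [← h2, ← e, ← e']; rfl⟩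

theorem card_Zg (hu : f.q u = 0) (huu : f.B u u' = 1) : Nat.card (Zg f hu) = Nat.card T.π.ker := by
  have hv : f.B u' u ≠ 0 := fun e => by simp [f.B_eq_zero_symm e] at huu
  refine (Nat.card_eq_of_bijective (fun a : T.π.ker => (⟨⟨f.ei u 0 a, ei_mem_E _ _ _⟩, a, a.2, rfl⟩ : Zg f hu))
    ⟨fun a b e => Subtype.ext ?_, fun ⟨g, a, ha, e⟩ => ⟨⟨a, ha⟩, Subtype.ext (Subtype.ext e.symm)⟩⟩).symm
  exact (ei_inj huu (eichOK_zero hu a.2) (eichOK_zero hu b.2) (f.B_zero_right _) (f.B_zero_right _)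
    (congrArg (fun x : Zg f hu => x.1.1) e)).2

variable [FiniteDimensional F V]

theorem card_Qg [Finite F] (hf : f.Nondeg) (hu : f.q u = 0) (hu' : f.q u' = 0) (huu : f.B u u' = 1) :
    Nat.card (Qg f u) = Nat.card F ^ (finrank F V - 2) * Nat.card T.π.ker := by
  have := Module.finite_of_finite F (M := V)
  rw [Qg, Nat.card_congr (Subgroup.subgroupOfEquivOfLe (U_le_E u)).toEquiv, ← top_inf_eq (f.U u), card_inf_U hu huu,
    ← card_Wp hf hu hu' huu]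
  congr 1
  · refine Nat.card_congr (Equiv.subtypeEquivRight fun x => ?_)
    rw [mem_perp_span_pair]
    exact and_congr_left fun _ => ⟨fun h => h.B_eq, fun h => (exists_eichOK hu h).imp fun _ h => ⟨h, trivial⟩⟩
  · exact Nat.card_congr (Equiv.subtypeEquivRight fun x => by simp)

theorem pre (hf : f.Nondeg) (hb : f.Big 0) : IsPretransitive f.E (Pt f) := ⟨fun p p' => by
  obtain ⟨v, h0, hq, rfl⟩ := ind p
  obtain ⟨w, h0', hq', rfl⟩ := ind p'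
  obtain ⟨g, hg, c, -, e⟩ := hf.exists_mem_E_apply_eq_smul hb hq h0 hq' h0'
  exact ⟨⟨g, hg⟩, smul_pt_eq.2 ⟨c, e⟩⟩⟩

theorem tr_opp (hf : f.Nondeg) (hb : f.Big 0) (p r p' r' : Pt f) (h1 : p ≠ r) (h2 : ¬ adj p r) (h1' : p' ≠ r')
    (h2' : ¬ adj p' r') : ∃ g : f.E, g • p = p' ∧ g • r = r' := by
  obtain ⟨g, rfl⟩ := (pre hf hb).1 p' p
  obtain ⟨r, rfl⟩ : ∃ s, r = g • s := ⟨g⁻¹ • r, (smul_inv_smul _ _).symm⟩
  replace h1 : p' ≠ r := fun e => h1 (e ▸ rfl)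
  replace h2 : ¬ adj p' r := fun e => h2 (adj_smul g _ _ e)
  obtain ⟨u, h0, hq, rfl⟩ := ind p'
  obtain ⟨v, hv0, hv, rfl⟩ := ind r
  obtain ⟨w, hw0, hw, rfl⟩ := ind r'
  have e1 := B_ne h1 h2
  have e2 := B_ne h1' h2'
  obtain ⟨k, hk, e⟩ := exists_mem_U_apply_eq (w := v) (w' := (f.B u v / f.B u w) • w) hq
    (by rw [hv, f.q_smul_eq_zero hw]) (by rw [B_smul_right, div_mul_cancel₀ _ e2]) e1
  refine ⟨⟨k, U_le_E u hk⟩ * g⁻¹, ?_, ?_⟩ <;> rw [mul_smul, inv_smul_smul]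
  · exact Qg_le hk
  · exact smul_pt_eq.2 ⟨_, e⟩

theorem tr_adj (hf : f.Nondeg) (h2 : f.Idx2) (hb : (∃ a : F, a ≠ 0 ∧ T.π a = 0) ∨ finrank F V ≠ 4)
    (p r p' r' : Pt f) (h : adj p r) (h' : adj p' r') : ∃ g : f.E, g • p = p' ∧ g • r = r' := by
  obtain ⟨y, h0, hy, rfl⟩ := ind p
  obtain ⟨z, hz0, hz, rfl⟩ := ind r
  obtain ⟨y', h0', hy', rfl⟩ := ind p'
  obtain ⟨z', hz0', hz', rfl⟩ := ind r'
  obtain ⟨h1, h3⟩ := adj_pt.1 h
  obtain ⟨h1', h3'⟩ := adj_pt.1 h'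
  obtain ⟨g, hg, e, α, β, e'⟩ := exists_E_flag hf h2 hb hy hy' hz hz' h3 h3' h0 h0' h1 h1'
  obtain ⟨t, ht, ht'⟩ := hf.exists_perp_eq h1' (T.ε * β)
  obtain ⟨a, ha⟩ := exists_eichOK hy' (f.B_eq_zero_symm (ht _ (Submodule.mem_span_singleton_self _)))
  have hα : α ≠ 0 := fun e => h1' (by
    rw [e', e, zero_smul, zero_add]; exact Submodule.smul_mem _ _ (Submodule.mem_span_singleton_self _))
  refine ⟨(⟨_, ei_mem_E y' t a⟩ : f.E)⁻¹ * ⟨g, hg⟩, ?_, ?_⟩ <;> rw [mul_smul, inv_smul_eq_iff, smul_pt, eq_comm, smul_pt_eq]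
  · exact ⟨1, by rw [one_smul]; exact ha.ei_apply_u.trans e.symm⟩
  · refine ⟨α, (ha.ei_apply_of_perp h3').trans ?_⟩
    rw [ht', T.ε_mul_ε_mul, sub_eq_iff_eq_add]
    exact e'

theorem heis (hf : f.Nondeg) (hu : f.q u = 0) (hu' : f.q u' = 0) (huu : f.B u u' = 1)
    (hσ : ∀ a, T.π a = 0 → ∃ c, c - T.ε * T.σ c = a) : Heis (Qg f u) (Zg f hu) := by
  refine ⟨Zg_le hu, cen_Z hu, comm_Z hu, ?_⟩
  rintro x hx hx' z ⟨b, hb, e'⟩
  obtain ⟨v, a, h, h1, e⟩ := exists_ei_Wp hu huu (show x.1 ∈ f.U u from hx)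
  have h0 : v ≠ 0 := fun e0 => hx' ⟨a, by rw [h.ha, e0, f.q_zero], e0 ▸ e⟩
  obtain ⟨c, rfl⟩ := hσ b hb
  obtain ⟨t, ht, ht'⟩ := hf.exists_perp_eq'
    (not_mem_of_Wp hu hu' huu ((mem_perp_span_pair f).2 ⟨h.huv, h1⟩) h0) c
  obtain ⟨d, hd⟩ := exists_eichOK hu (ht u (Submodule.subset_span (by simp)))
  refine ⟨⟨_, ei_mem_E u t d⟩, ei_mem_U _ _ _, Subtype.ext ?_⟩
  rw [e', ← ht', ← f.symm, ← (h.ei_commutator hd).2, ← e]
  rfl

theorem counts [Finite F] (hf : f.Nondeg) (hu : f.q u = 0) (hu' : f.q u' = 0) (huu : f.B u u' = 1) {h0 h0'} :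
    ∃ μ : ℕ, Nat.card {w // adj (pt u h0 hu : Pt f) w ∧ adj (pt u' h0' hu') w} = μ ∧
      Nat.card {w // adj (pt u h0 hu : Pt f) w} = Nat.card F * μ ∧
      Nat.card (Pt f) = 1 + Nat.card F * μ + Nat.card F ^ (finrank F V - 2) * Nat.card T.π.ker ∧
      μ * (Nat.card F - 1) + 1 = Nat.card {w : Wp f u u' // f.q w = 0} := by
  have := Module.finite_of_finite F (M := V)
  have h2 : 2 ≤ Nat.card F := Finite.one_lt_card
  have hv : f.B u' u ≠ 0 := fun e => by simp [f.B_eq_zero_symm e] at huu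
  have e1 := card_mul (fun w => adj (pt u h0 hu : Pt f) w ∧ adj (pt u' h0' hu') w) (· ∈ Wp f u u') fun v h1 hq => by
    rw [adj_pt, adj_pt, mem_perp_span_pair]
    refine ⟨fun h => ⟨h.1.2, h.2.2⟩, fun h => ⟨⟨fun e => ?_, h.1⟩, fun e => ?_, h.2⟩⟩ <;>
      obtain ⟨c, rfl⟩ := Submodule.mem_span_singleton.1 e
    · exact mul_ne_zero (left_ne_zero_of_smul h1) hv ((f.B_smul_right _ _ _).symm.trans h.2)
    · exact mul_ne_zero (left_ne_zero_of_smul h1) (huu ▸ one_ne_zero) ((f.B_smul_right _ _ _).symm.trans h.1)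
  have e2 := card_mul (fun w => adj (pt u h0 hu : Pt f) w) _ fun v h1 hq => adj_pt
  have e3 := card_mul (f := f) (fun _ => True) (fun _ => True) fun _ _ _ => Iff.rfl
  generalize Nat.card {w // adj (pt u h0 hu : Pt f) w ∧ adj (pt u' h0' hu') w} = μ at e1
  have e4 : μ * (Nat.card F - 1) + 1 = Nat.card {w : Wp f u u' // f.q w = 0} := by
    rw [e1, Nat.card_congr (Equiv.subtypeSubtypeEquivSubtypeInter (· ∈ Wp f u u') (f.q · = 0)), card_sing_succ]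
    exact congrArg (· + 1) (Nat.card_congr (Equiv.subtypeEquivRight fun _ => by tauto))
  have e5 := card_value hf hu hu' huu 0
  rw [map_zero, ← e4] at e5
  have e6 := le_card_perp_sing hf h0 hu e5
  have e7 := card_sing_succ (f := f) ⊤
  refine ⟨μ, rfl, Nat.eq_of_mul_eq_mul_right (show 0 < Nat.card F - 1 by omega) ?_,
    Nat.eq_of_mul_eq_mul_right (show 0 < Nat.card F - 1 by omega) ?_, e4⟩
  · rw [e2, mul_assoc, ← e6]
    refine Nat.card_congr (Equiv.subtypeEquivRight fun v => ⟨by tauto, fun h => ⟨fun e => h.1 ?_, by tauto⟩⟩)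
    exact e ▸ zero_mem _
  · rw [Nat.card_congr (Equiv.subtypeUnivEquiv fun _ => trivial)] at e3
    simp only [Submodule.mem_top, true_and, and_true] at e3 e7
    rw [e5, ← e3] at e7
    obtain ⟨k, hk⟩ := Nat.exists_eq_add_of_le' (show 1 ≤ Nat.card F by omega)
    rw [hk, Nat.add_sub_cancel] at e7 ⊢
    linarith

end CL.T2.Pol
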