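/-
CLAS/T2 (S2193): orthogonal groups, the setting.
-/
import Cfsg.Agent.CLAS.T2.Pol
import Cfsg.Agent.KSG.CoopO5

set_option autoImplicit false

namespace CL.T2.Or

open Module CL.Witt CL.Witt.Form CL.Root CL.Coop MulAction Submodule FormType CL.T2.Pol

variable {F : Type*} [Field F] {V : Type*} [AddCommGroup V] [Module F V]
  {f : Form (quad F) V} {Ω : Type*} [MulAction (V ≃ₗ[F] V) Ω]

/-- `f.E` is 2-transitive on the orbit of `ω`, and the stabiliser of a singular flag `u < ⟨u, y⟩` is transitive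
(Levi form: the Levi elements fixing `⟨y⟩` are transitive on the `U u`-orbits) -/
structure St (f : Form (quad F) V) (ω : Ω) : Prop where
  nd : f.Nondeg
  dim : 7 ≤ finrank F V
  tw : Tw f.E (orbit f.E ω)
  ft : ∀ {u u' y : V}, f.q u = 0 → f.q u' = 0 → f.B u u' = 1 → y ∈ Wp f u u' → y ≠ 0 → f.q y = 0 →
    ∀ a ∈ orbit f.E ω, ∀ b ∈ orbit f.E ω,
      ∃ g c, Lv f u u' g c ∧ (∃ l : F, g y = l • y) ∧ g • a ∈ orbit (f.U u) b

/-- the long root elements of the Levi complement lie in `K` -/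
def Long (f : Form (quad F) V) (u u' : V) (K : Subgroup f.E) : Prop :=
  ∀ y ∈ Wp f u u', ∀ z ∈ Wp f u u', f.q y = 0 → f.q z = 0 → f.B y z = 0 →
    (⟨f.ei y z 0, ei_mem_E y z 0⟩ : f.E) ∈ K

theorem coe_smul {ω : Ω} (g : f.E) (a : orbit f.E ω) : ((g • a : orbit f.E ω) : Ω) = g.1 • a.1 := rfl

theorem okr_iff {ω : Ω} {u : V} {g : f.E} :
    g ∈ okr (Qg f u) (orbit f.E ω) ↔ ∀ a ∈ orbit f.E ω, g.1 • a ∈ orbit (f.U u) a :=
  ⟨fun h a ha => let ⟨x, hx, e⟩ := h ⟨a, ha⟩; ⟨⟨x.1, hx⟩, (congrArg Subtype.val e).symm⟩,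
    fun h a => let ⟨x, e⟩ := h a.1 a.2; ⟨⟨x.1, U_le_E u x.2⟩, x.2, Subtype.ext e.symm⟩⟩

end CL.T2.Or
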