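/-
CLAS/T2 (S2193): linear algebra in `SL(V)` for `T2/SL`: transvection groups, Sylow subgroups, generation, homologies.
-/
import Cfsg.Agent.CLAS.T2.Blk
import Cfsg.Agent.KSG.CoopSL
import Cfsg.Agent.CLAS.RkB2

set_option autoImplicit false

namespace CL.T2.SLx

open Module CL.LS CL.Coop MulAction

variable {F V : Type*} [Field F] [AddCommGroup V] [Module F V]

theorem nz_le {G : Type*} [Group G] {P X : Subgroup G} (h : Nz P X) : P ≤ Subgroup.normalizer (X : Set G) :=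
  fun g hg => Subgroup.mem_normalizer_iff.2 fun x =>
    ⟨h g hg x, fun e => by simpa [mul_assoc] using h g⁻¹ (inv_mem hg) _ e⟩

theorem le_syl {G : Type*} [Group G] {p : ℕ} (S : Sylow p G) {X : Subgroup G} (h : Nz S X) (hp : IsPGroup p X) :
    X ≤ S := by
  have := S.is_maximal' (S.isPGroup'.to_sup_of_normal_right' hp (nz_le h)) le_sup_left
  exact this ▸ le_sup_right

/-- normalisers of Sylow subgroups lift through central extensions -/
theorem norm_map {G H : Type*} [Group G] [Group H] [Finite G] {p : ℕ} [Fact p.Prime] {π : G →* H}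
    (hπ : Function.Surjective π) (hk : π.ker ≤ Subgroup.center G) (S : Sylow p G) {g : G}
    (hg : π g ∈ Subgroup.normalizer ((S.mapSurjective hπ : Sylow p H) : Set H)) :
    g ∈ Subgroup.normalizer (S : Set G) := by
  have key : ∀ g : G, π g ∈ Subgroup.normalizer ((S.mapSurjective hπ : Sylow p H) : Set H) →
      ∀ s ∈ S, g * s * g⁻¹ ∈ S := fun g hg s hs => by
    obtain ⟨s', hs', e⟩ : π (g * s * g⁻¹) ∈ (S : Subgroup G).map π := by
      simpa using (Subgroup.mem_normalizer_iff.1 hg (π s)).1 ⟨s, hs, rfl⟩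
    have hz : s'⁻¹ * (g * s * g⁻¹) ∈ Subgroup.center G := hk (by rw [MonoidHom.mem_ker, map_mul, map_inv, e, inv_mul_cancel])
    have hn : g * s * g⁻¹ ∈ Subgroup.normalizer (S : Set G) := by
      rw [← mul_inv_cancel_left s' (g * s * g⁻¹)]
      exact mul_mem (Subgroup.le_normalizer hs') (Subgroup.center_le_normalizer _ hz)
    have hp : IsPGroup p (Subgroup.zpowers (g * s * g⁻¹)) := by
      obtain ⟨k, hk⟩ := S.isPGroup' ⟨s, hs⟩
      refine IsPGroup.of_card_dvd_pow (n := k) ?_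
      rw [Nat.card_zpowers, orderOf_dvd_iff_pow_eq_one, conj_pow, show s ^ p ^ k = 1 from congrArg Subtype.val hk]
      simp
    exact ((hp.inf_normalizer_sylow S).le (Subgroup.mem_inf.2 ⟨Subgroup.mem_zpowers _, hn⟩)).2
  refine Subgroup.mem_normalizer_iff.2 fun x => ⟨key g hg x, fun e => ?_⟩
  have := key g⁻¹ (by rw [map_inv]; exact inv_mem hg) _ e
  rwa [show g⁻¹ * (g * x * g⁻¹) * g⁻¹⁻¹ = x by group] at this

/-- an element of prime order `r` fixes every orbit if there are fewer than `r` orbits -/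
theorem okr_of_pow {G Ω : Type*} [Group G] [MulAction G Ω] [Finite Ω] {P Q : Subgroup G} (hn : Nz P Q) {g : G}
    (hg : g ∈ P) {r : ℕ} (hr : r.Prime) (e : g ^ r = 1) (hlt : Nat.card (orbitRel.Quotient Q Ω) < r) :
    g ∈ okr Q Ω := by
  classical
  letI := Blk.act (Ω := Ω) hn
  have := Fintype.ofFinite (orbitRel.Quotient Q Ω)
  let σ := toPermHom P (orbitRel.Quotient Q Ω) ⟨g, hg⟩
  have h1 : orderOf σ ∣ r := orderOf_dvd_of_pow_eq_one (by rw [← map_pow, show (⟨g, hg⟩ : P) ^ r = 1 from Subtype.ext e, map_one])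
  have h2 : orderOf σ ∣ (Nat.card (orbitRel.Quotient Q Ω)).factorial := by
    rw [Nat.card_eq_fintype_card, ← Fintype.card_perm]; exact orderOf_dvd_card
  rcases (Nat.dvd_prime hr).1 h1 with h | h
  · intro ω
    exact (Blk.act_fix hn ⟨g, hg⟩ ω).1 (congrArg (fun τ : Equiv.Perm _ => τ (Quotient.mk'' ω)) (orderOf_eq_one_iff.1 h))
  · rw [h, hr.dvd_factorial] at h2; omega

section
variable {φ θ : Dual F V} {u x : V}

theorem tv_inv (h : φ x = 0) : (tv φ x)⁻¹ = tv (-φ) x :=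
  inv_eq_of_mul_eq_one_right (by rw [← tv_add_left h (by simp [h]), add_neg_cancel, tv_zero_left])

theorem tv_inv' (h : φ x = 0) : (tv φ x)⁻¹ = tv φ (-x) :=
  inv_eq_of_mul_eq_one_right (by rw [← tv_add_right h (by simp [h]), add_neg_cancel, tv_zero_right])

theorem conj_tv (g : SpecialLinearGroup F V) (h : φ x = 0) :
    g * tv φ x * g⁻¹ = tv (φ ∘ₗ g⁻¹.1.toLinearMap) (g.1 x) := by
  rw [mul_tv (φ' := φ ∘ₗ g⁻¹.1.toLinearMap) g h fun v => by simp [sl_inv_apply], mul_inv_cancel_right]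

theorem conj_tv' (g : SpecialLinearGroup F V) (h : φ x = 0) (hθ : ∀ v, θ (g.1 v) = φ v) :
    g * tv φ x * g⁻¹ = tv θ (g.1 x) := by
  rw [mul_tv g h hθ, mul_inv_cancel_right]

end

/-- transvections with centre `u` and functional in `A` -/
def TU (u : V) (A : Submodule F (Dual F V)) : Subgroup (SpecialLinearGroup F V) where
  carrier := {g | ∃ θ ∈ A, θ u = 0 ∧ g = tv θ u}
  one_mem' := ⟨0, zero_mem _, rfl, (tv_zero_left u).symm⟩
  mul_mem' := by
    rintro _ _ ⟨a, ha, h1, rfl⟩ ⟨b, hb, h2, rfl⟩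
    exact ⟨a + b, add_mem ha hb, by simp [h1, h2], (tv_add_left h1 h2).symm⟩
  inv_mem' := by
    rintro _ ⟨a, ha, h1, rfl⟩
    exact ⟨-a, neg_mem ha, by simp [h1], tv_inv h1⟩

/-- transvections with functional `φ` and centre in `B` -/
def TH (φ : Dual F V) (B : Submodule F V) : Subgroup (SpecialLinearGroup F V) where
  carrier := {g | ∃ x ∈ B, φ x = 0 ∧ g = tv φ x}
  one_mem' := ⟨0, zero_mem _, map_zero _, (tv_zero_right φ).symm⟩
  mul_mem' := by
    rintro _ _ ⟨a, ha, h1, rfl⟩ ⟨b, hb, h2, rfl⟩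
    exact ⟨a + b, add_mem ha hb, by simp [h1, h2], (tv_add_right h1 h2).symm⟩
  inv_mem' := by
    rintro _ ⟨a, ha, h1, rfl⟩
    exact ⟨-a, neg_mem ha, by simp [h1], tv_inv' h1⟩

theorem card_TU {u : V} (hu : u ≠ 0) {A : Submodule F (Dual F V)} (h : ∀ θ ∈ A, θ u = 0) :
    Nat.card (TU u A) = Nat.card A := by
  refine (Nat.card_eq_of_bijective (fun θ : A => (⟨tv θ u, θ, θ.2, h θ θ.2, rfl⟩ : TU u A)) ⟨fun a b e => ?_, ?_⟩).symm
  · refine Subtype.ext (LinearMap.ext fun v => ?_)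
    have := congrArg (fun g : TU u A => g.1.1 v) e
    simp only [tv_apply (h a a.2), tv_apply (h b b.2), add_right_inj] at this
    exact smul_left_injective F hu this
  · rintro ⟨_, θ, h1, h2, rfl⟩
    exact ⟨⟨θ, h1⟩, rfl⟩

theorem card_TH {φ : Dual F V} (hφ : φ ≠ 0) {B : Submodule F V} (h : ∀ x ∈ B, φ x = 0) :
    Nat.card (TH φ B) = Nat.card B := by
  refine (Nat.card_eq_of_bijective (fun x : B => (⟨tv φ x, x, x.2, h x x.2, rfl⟩ : TH φ B)) ⟨fun a b e => ?_, ?_⟩).symm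
  · obtain ⟨v, hv⟩ := exists_dual_of_ne_zero hφ
    have := congrArg (fun g : TH φ B => g.1.1 v) e
    simp only [tv_apply (h a a.2), tv_apply (h b b.2), add_right_inj, hv, one_smul] at this
    exact Subtype.ext this
  · rintro ⟨_, θ, h1, h2, rfl⟩
    exact ⟨⟨θ, h1⟩, rfl⟩

theorem pg_TU (p : ℕ) [CharP F p] (u : V) (A : Submodule F (Dual F V)) : IsPGroup p (TU u A) := by
  rintro ⟨_, θ, -, h, rfl⟩
  exact ⟨1, Subtype.ext (by simp [tv_pow h, tv_zero_left])⟩

theorem pg_TH (p : ℕ) [CharP F p] (φ : Dual F V) (B : Submodule F V) : IsPGroup p (TH φ B) := by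
  rintro ⟨_, θ, -, h, rfl⟩
  exact ⟨1, Subtype.ext (by simp [tv_pow h, tv_zero_left])⟩

/-- `T(u)` is normalised by the stabiliser of the point -/
theorem conj_TU {u : V} {g : SpecialLinearGroup F V} (hg : g.1 u ∈ F ∙ u) {A : Submodule F (Dual F V)}
    (hA : ∀ θ ∈ A, θ ∘ₗ g⁻¹.1.toLinearMap ∈ A) : ∀ x ∈ TU u A, g * x * g⁻¹ ∈ TU u A := by
  rintro _ ⟨θ, h1, h2, rfl⟩
  obtain ⟨c, hc⟩ := Submodule.mem_span_singleton.1 hg
  by_cases hu : u = 0
  · rw [hu, tv_zero_right]; simpa using one_mem _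
  have c0 : c ≠ 0 := by
    rintro rfl
    exact hu (by simpa using hc.symm)
  have h3 : θ (g⁻¹.1 u) = 0 := by
    have := congrArg (fun v => θ (g⁻¹.1 v)) hc
    simpa [sl_inv_apply, h2, c0] using this
  refine ⟨c • θ ∘ₗ g⁻¹.1.toLinearMap, A.smul_mem c (hA θ h1), ?_, ?_⟩
  · show c • θ (g⁻¹.1 u) = 0
    rw [h3, smul_zero]
  · rw [conj_tv g h2, tv_smul (φ := θ ∘ₗ g⁻¹.1.toLinearMap) h3, hc]

@[reducible] def dact : MulAction (SpecialLinearGroup F V) (Dual F V) where
  smul g φ := φ ∘ₗ g⁻¹.1.toLinearMap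
  one_smul φ := rfl
  mul_smul a b φ := by
    show φ ∘ₗ (a * b)⁻¹.1.toLinearMap = (φ ∘ₗ b⁻¹.1.toLinearMap) ∘ₗ a⁻¹.1.toLinearMap
    rw [mul_inv_rev]; rfl

variable [FiniteDimensional F V]

theorem ex_dual (h2 : 2 ≤ finrank F V) (u : V) : ∃ (θ : Dual F V) (v : V), θ v = 1 ∧ θ u = 0 := by
  obtain ⟨v, -, hv⟩ := exists_notMem_of_finrank_lt (U := F ∙ u) (W := ⊤) (by
    have := finrank_span_singleton_le (F := F) u
    rw [finrank_top]; omega)
  obtain ⟨θ, h⟩ := Tv.exists_dual_one_zero hv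
  exact ⟨θ, v, h⟩

/-- the flag of a Sylow `p`-subgroup -/
theorem syl [Finite F] {p : ℕ} [Fact p.Prime] [CharP F p] (h2 : 2 ≤ finrank F V)
    (S : Sylow p (SpecialLinearGroup F V)) :
    ∃ (u : V) (φ : Dual F V), u ≠ 0 ∧ φ ≠ 0 ∧ φ u = 0 ∧ (∀ s ∈ S, s.1 u = u) ∧
      ∀ g ∈ Subgroup.normalizer (S : Set (SpecialLinearGroup F V)),
        g.1 u ∈ F ∙ u ∧ φ ∘ₗ g.1.toLinearMap ∈ F ∙ φ := by
  have : Finite V := Module.finite_of_finite F
  have : Finite (Dual F V) := Module.finite_of_finite F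
  have hq : p ∣ Nat.card F := by
    have := Fintype.ofFinite F
    obtain ⟨n, -, e⟩ := FiniteField.card F p
    rw [Nat.card_eq_fintype_card, e]; exact dvd_pow_self _ n.ne_zero
  obtain ⟨u, hu, hu0⟩ := S.isPGroup'.exists_fixed_point_of_prime_dvd_card_of_fixed_point V (a := 0)
    (by rw [Module.natCard_eq_pow_finrank (K := F)]; exact dvd_pow hq (by omega)) fun g => smul_zero g
  letI := dact (F := F) (V := V)
  obtain ⟨φ, hφ, hφ0⟩ := S.isPGroup'.exists_fixed_point_of_prime_dvd_card_of_fixed_point (Dual F V) (a := 0)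
    (by rw [Module.natCard_eq_pow_finrank (K := F), Subspace.dual_finrank_eq]; exact dvd_pow hq (by omega))
    fun g => LinearMap.zero_comp _
  have fu : ∀ s ∈ S, s.1 u = u := fun s hs => hu ⟨s, hs⟩
  have fφ : ∀ s ∈ S, ∀ v, φ (s.1 v) = φ v := fun s hs v =>
    congrArg (fun ψ : Dual F V => ψ v) (hφ ⟨s⁻¹, inv_mem hs⟩)
  have tu : TU u ⊤ ≤ (S : Subgroup (SpecialLinearGroup F V)) := le_syl S (fun g hg => conj_TU (by rw [fu g hg]; exact Submodule.mem_span_singleton_self u)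
    fun _ _ => Submodule.mem_top) (pg_TU p _ _)
  have th : TH φ ⊤ ≤ (S : Subgroup (SpecialLinearGroup F V)) := le_syl S (by
    rintro g hg _ ⟨x, -, h, rfl⟩
    exact ⟨g.1 x, trivial, by rw [fφ g hg, h], conj_tv' g h (fφ g hg)⟩) (pg_TH p _ _)
  refine ⟨u, φ, hu0.symm, hφ0.symm, ?_, fu, fun g hg => ⟨?_, ?_⟩⟩
  · obtain ⟨θ, v, h1, h0⟩ := ex_dual h2 u
    simpa [tv_apply h0, h1] using fφ _ (tu ⟨θ, trivial, h0, rfl⟩) v
  · by_contra hn
    obtain ⟨θ, h1, h0⟩ := Tv.exists_dual_one_zero hn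
    have := fu _ ((Subgroup.mem_normalizer_iff.1 (inv_mem hg) _).1 (tu ⟨θ, trivial, h0, rfl⟩))
    rw [inv_inv, sl_mul_apply, sl_mul_apply, tv_apply h0, h1, one_smul, map_add, sl_inv_apply] at this
    exact hu0 (by simpa using this : u = 0).symm
  · obtain ⟨v, hv⟩ := exists_dual_of_ne_zero hφ0.symm
    have : ∀ x, φ x = 0 → φ (g.1 x) = 0 := fun x h => by
      have := fφ _ ((Subgroup.mem_normalizer_iff.1 hg _).1 (th ⟨x, trivial, h, rfl⟩)) (g.1 v)
      rw [sl_mul_apply, sl_mul_apply, sl_inv_apply, tv_apply h, hv, one_smul, map_add, map_add] at this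
      simpa using this
    refine Submodule.mem_span_singleton.2 ⟨φ (g.1 v), LinearMap.ext fun w => ?_⟩
    have := this (w - φ w • v) (by simp [hv])
    simp only [map_sub, map_smul, smul_eq_mul] at this
    simp only [LinearMap.smul_apply, smul_eq_mul, LinearMap.comp_apply, LinearEquiv.coe_coe]
    linear_combination -this

/-- `y` is moved to `y'` by an element of `M` fixing `W` pointwise and `φ` -/
def Mv (M : Subgroup (SpecialLinearGroup F V)) (W : Submodule F V) (φ : Dual F V) (y y' : V) : Prop :=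
  ∃ m ∈ M, (∀ w ∈ W, m.1 w = w) ∧ (∀ v, φ (m.1 v) = φ v) ∧ m.1 y = y'

section
variable {M : Subgroup (SpecialLinearGroup F V)} {W : Submodule F V} {φ : Dual F V} {y y' z : V}

omit [FiniteDimensional F V]

theorem Mv.symm (h : Mv M W φ y y') : Mv M W φ y' y := by
  obtain ⟨m, h1, h2, h3, rfl⟩ := h
  exact ⟨m⁻¹, inv_mem h1, fun w hw => by rw [← h2 w hw, sl_inv_apply, h2 w hw],
    fun v => by rw [← h3, sl_apply_inv], sl_inv_apply _ _⟩

theorem Mv.trans (h : Mv M W φ y y') (h' : Mv M W φ y' z) : Mv M W φ y z := by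
  obtain ⟨m, h1, h2, h3, rfl⟩ := h
  obtain ⟨n, k1, k2, k3, rfl⟩ := h'
  exact ⟨n * m, mul_mem k1 h1, fun w hw => by rw [sl_mul_apply, h2 w hw, k2 w hw],
    fun v => by rw [sl_mul_apply, k3, h3], rfl⟩

variable (hM : ∀ (θ : Dual F V) x, θ x = 0 → (∀ w ∈ W, θ w = 0) → φ x = 0 → tv θ x ∈ M)
include hM

theorem mv1 (hy : y ∉ W) (hz : z ∉ W ⊔ F ∙ y) (e : φ y = φ z) : Mv M W φ y z := by
  obtain ⟨θ, h1, h0⟩ := Tv.exists_dual_one (W ⊔ F ∙ (z - y)) (x := y) fun h => by
    obtain ⟨w, hw, _, h', e⟩ := Submodule.mem_sup.1 h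
    obtain ⟨c, rfl⟩ := Submodule.mem_span_singleton.1 h'
    have c0 : c ≠ 0 := by
      rintro rfl
      rw [zero_smul, add_zero] at e
      exact hy (e ▸ hw)
    refine hz (Submodule.mem_sup.2 ⟨-c⁻¹ • w, W.smul_mem _ hw, (1 + c⁻¹) • y,
      Submodule.smul_mem _ _ (Submodule.mem_span_singleton_self y), ?_⟩)
    rw [show w = y - c • (z - y) from eq_sub_of_add_eq e]
    match_scalars <;> field_simp <;> ring
  have h2 : θ (z - y) = 0 := h0 _ (Submodule.mem_sup_right (Submodule.mem_span_singleton_self _))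
  have h3 : ∀ w ∈ W, θ w = 0 := fun w hw => h0 _ (Submodule.mem_sup_left hw)
  have h4 : φ (z - y) = 0 := by rw [map_sub, e, sub_self]
  exact ⟨tv θ (z - y), hM _ _ h2 h3 h4, fun w hw => by simp [tv_apply h2, h3 w hw],
    fun v => by rw [tv_apply h2, map_add, map_smul, h4, smul_zero, add_zero], by simp [tv_apply h2, h1]⟩

theorem mv2 (hy : y ∉ W) (hy' : y' ∉ W) (hz : z ∉ W ⊔ F ∙ y) (e : φ y = φ z) (e' : φ y = φ y') : Mv M W φ y y' := by
  by_cases h : y' ∈ W ⊔ F ∙ y
  · exact (mv1 hM hy hz e).trans (mv1 hM hy' (fun k => hz (sup_le le_sup_left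
      ((Submodule.span_singleton_le_iff_mem _ _).2 h) k)) (e'.symm.trans e)).symm
  · exact mv1 hM hy h e'

end

/-- the pointwise stabiliser of `W` is generated by its transvections -/
theorem gen {M : Subgroup (SpecialLinearGroup F V)} (W : Submodule F V)
    (hM : ∀ (θ : Dual F V) x, θ x = 0 → (∀ w ∈ W, θ w = 0) → tv θ x ∈ M) {g : SpecialLinearGroup F V}
    (hg : ∀ w ∈ W, g.1 w = w) : g ∈ M := by
  induction hn : finrank F V - finrank F W using Nat.strong_induction_on generalizing W g with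
  | _ n ih =>
  by_cases hW : W = ⊤
  · exact (SpecialLinearGroup.ext _ _ fun v => hg v (hW ▸ trivial) : g = 1) ▸ one_mem _
  obtain ⟨x, hx⟩ : ∃ x, x ∉ W := not_forall.1 fun h => hW (top_unique fun x _ => h x)
  by_cases hW' : W ⊔ F ∙ x = ⊤
  · obtain ⟨θ, h1, h0⟩ := Tv.exists_dual_one W hx
    have e : ∀ v, g.1 v = v + θ v • (g.1 x - x) := fun v => by
      obtain ⟨w, hw, _, h', rfl⟩ := Submodule.mem_sup.1 (hW' ▸ trivial : v ∈ W ⊔ F ∙ x)
      obtain ⟨c, rfl⟩ := Submodule.mem_span_singleton.1 h'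
      simp only [map_add, map_smul, hg w hw, h0 w hw, h1]
      module
    have d : LinearMap.det (LinearMap.transvection θ (g.1 x - x)) = 1 := by
      rw [show LinearMap.transvection θ (g.1 x - x) = g.1.toLinearMap from LinearMap.ext fun v => (e v).symm,
        ← LinearEquiv.coe_det, g.2, Units.val_one]
    rw [LinearMap.transvection.det, add_eq_left] at d
    exact (SpecialLinearGroup.ext _ _ fun v => (e v).trans (tv_apply d v).symm : g = tv θ (g.1 x - x)) ▸ hM _ _ d h0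
  · obtain ⟨z, hz⟩ : ∃ z, z ∉ W ⊔ F ∙ x := not_forall.1 fun h => hW' (top_unique fun x _ => h x)
    obtain ⟨m, m1, m2, -, m3⟩ := (mv2 (φ := 0) (fun θ x a b _ => hM θ x a b) hx (y' := g.1 x)
      (fun h => hx (g.1.injective (hg _ h) ▸ h)) hz rfl rfl).symm
    have lt : finrank F W < finrank F (W ⊔ F ∙ x : Submodule F V) := Submodule.finrank_lt_finrank_of_lt
      (lt_of_le_of_ne le_sup_left fun e => hx (e ▸ Submodule.mem_sup_right (Submodule.mem_span_singleton_self x)))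
    have := (W ⊔ F ∙ x).finrank_le
    have := ih _ (by omega) (W ⊔ F ∙ x) (fun θ y a b => hM θ y a fun w hw => b w (Submodule.mem_sup_left hw))
      (g := m * g) (fun v hv => by
        obtain ⟨w, hw, _, h', rfl⟩ := Submodule.mem_sup.1 hv
        obtain ⟨c, rfl⟩ := Submodule.mem_span_singleton.1 h'
        simp only [sl_mul_apply, map_add, map_smul, hg w hw, m2 w hw, m3]) rfl
    simpa using mul_mem (inv_mem m1) this

/-- a homology of order dividing that of `a` -/
theorem ex_hom {θ : Dual F V} {w : V} (h : θ w = 1) {a : F} (ha : a ≠ 0) :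
    ∃ g : SpecialLinearGroup F V, (∀ v, g.1 v = a • v + (a * ((a ^ finrank F V)⁻¹ - 1) * θ v) • w) ∧
      ∀ k, a ^ k = 1 → g ^ k = 1 := by
  obtain ⟨g₀, d, e⟩ := exists_dil h (inv_ne_zero (pow_ne_zero (finrank F V) ha))
  obtain ⟨g, hg⟩ := exists_sl_of_det (g := g₀.trans (LinearEquiv.smulOfNeZero F V a ha)) (by
    rw [show ((g₀.trans (LinearEquiv.smulOfNeZero F V a ha) : V ≃ₗ[F] V) : V →ₗ[F] V) = a • (g₀ : V →ₗ[F] V) from rfl,
      LinearMap.det_smul, d, mul_inv_cancel₀ (pow_ne_zero _ ha)])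
  have e1 : ∀ v, g.1 v = a • v + (a * ((a ^ finrank F V)⁻¹ - 1) * θ v) • w := fun v => by
    rw [hg]
    show a • g₀ v = _
    rw [e]; module
  have e2 : ∀ k v, (g ^ k).1 v = a ^ k • v + (a ^ k * ((a ^ finrank F V)⁻¹ ^ k - 1) * θ v) • w := fun k => by
    induction k with
    | zero => intro v; simp
    | succ k ih =>
      intro v
      rw [pow_succ', sl_mul_apply, ih, e1]
      simp only [map_add, map_smul, h, smul_eq_mul]
      module
  refine ⟨g, e1, fun k hk => SpecialLinearGroup.ext _ _ fun v => ?_⟩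
  show (g ^ k).1 v = v
  rw [e2, inv_pow, ← pow_mul, mul_comm _ k, pow_mul, hk]
  simp

/-- a point-transitive subgroup without transvections contains no homology -/
theorem no_hom [Finite F] (h3 : 3 ≤ finrank F V) {K : Subgroup (SpecialLinearGroup F V)}
    (tf : ∀ (θ : Dual F V) x, θ x = 0 → x ≠ 0 → tv θ x ∈ K → θ = 0)
    (tr : ∀ x ≠ 0, ∀ y ≠ 0, ∃ k ∈ K, ∃ c : F, c • k.1 x = y) {a b : F} (hb : b ≠ 0) (hab : a + b ≠ 0)
    {θ : Dual F V} {w : V} (h : θ w = 1) {g : SpecialLinearGroup F V} (hg : g ∈ K)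
    (e : ∀ v, g.1 v = a • v + (b * θ v) • w) : False := by
  classical
  have : Finite V := Module.finite_of_finite F
  let Hm : Dual F V → V → Prop := fun θ w => θ w = 1 ∧ ∃ g ∈ K, ∀ v, g.1 v = a • v + (b * θ v) • w
  have cj : ∀ {θ w k} {c : F}, Hm θ w → k ∈ K → c ≠ 0 → Hm (c⁻¹ • θ ∘ₗ k⁻¹.1.toLinearMap) (c • k.1 w) := by
    rintro θ w k c ⟨h, g, hg, e⟩ hk hc
    refine ⟨?_, k * g * k⁻¹, mul_mem (mul_mem hk hg) (inv_mem hk), fun v => ?_⟩
    · show c⁻¹ • θ (k⁻¹.1 (c • k.1 w)) = 1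
      rw [map_smul, sl_inv_apply, map_smul, h]; simp [hc]
    · show k.1 (g.1 (k⁻¹.1 v)) = a • v + (b * (c⁻¹ • θ (k⁻¹.1 v))) • c • k.1 w
      rw [e, map_add, map_smul, map_smul, sl_apply_inv, smul_eq_mul]
      match_scalars <;> field_simp
  have ne : ∀ {θ w}, Hm θ w → w ≠ 0 := by
    rintro θ _ ⟨h, -⟩ rfl
    simp at h
  have uq : ∀ {θ θ' w}, Hm θ w → Hm θ' w → θ' = θ := fun {θ θ' w} H H' => by
    obtain ⟨h, g, hg, e⟩ := id H
    obtain ⟨h', g', hg', e'⟩ := H'
    have h0 : ((b / (a + b)) • (θ' - θ)) w = 0 := by simp [h, h']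
    have : g⁻¹ * g' = tv ((b / (a + b)) • (θ' - θ)) w := by
      rw [inv_mul_eq_iff_eq_mul]
      refine SpecialLinearGroup.ext _ _ fun v => ?_
      show g'.1 v = g.1 ((tv _ w).1 v)
      rw [tv_apply h0, e, e']
      simp only [map_add, map_smul, h, smul_eq_mul, LinearMap.smul_apply, LinearMap.sub_apply]
      match_scalars <;> field_simp <;> ring
    have := tf _ _ h0 (ne H) (this ▸ mul_mem (inv_mem hg) hg')
    exact sub_eq_zero.1 ((smul_eq_zero.1 this).resolve_left (div_ne_zero hb hab))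
  have ex : ∀ y, y ≠ 0 → ∃ θ, Hm θ y := fun y hy => by
    obtain ⟨k, hk, c, rfl⟩ := tr w (ne ⟨h, g, hg, e⟩) y hy
    exact ⟨_, cj ⟨h, g, hg, e⟩ hk (left_ne_zero_of_smul hy)⟩
  choose! t ht using ex
  have t0 : ∀ y, y ≠ 0 → t y ≠ 0 := fun y hy e => by simpa [e] using (ht y hy).1
  obtain ⟨v, v0, hv⟩ := CL.Rk.B2.absolute (F := F) (fun v => if v = 0 then ⊤ else LinearMap.ker (t v))
    (fun x y hy => by
      by_cases x0 : x = 0
      · rw [x0]; exact zero_mem _
      by_cases y0 : y = 0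
      · rw [if_pos y0]; trivial
      rw [if_neg x0, LinearMap.mem_ker] at hy
      rw [if_neg y0, LinearMap.mem_ker]
      obtain ⟨h, g, hg, e⟩ := ht x x0
      have a0 : a ≠ 0 := by
        rintro rfl
        exact y0 (by simpa [hy] using e y)
      have := cj (ht y y0) hg (inv_ne_zero a0)
      rw [e, hy, mul_zero, zero_smul, add_zero, inv_smul_smul₀ a0] at this
      have := congrArg (fun ψ : Dual F V => ψ (g.1 x)) (uq (ht y y0) this)
      simp only [LinearMap.smul_apply, LinearMap.comp_apply, LinearEquiv.coe_coe, sl_inv_apply] at this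
      rw [e, h] at this
      simpa [hb] using this)
    (fun x y => by
      have r : ∀ v, finrank F V - 1 ≤ finrank F (if v = 0 then ⊤ else LinearMap.ker (t v) : Submodule F V) := fun v => by
        by_cases h : v = 0
        · rw [if_pos h]; simp
        · rw [if_neg h, finrank_ker_dual (t0 v h)]
      have := Submodule.finrank_sup_add_finrank_inf_eq (if x = 0 then ⊤ else LinearMap.ker (t x))
        (if y = 0 then ⊤ else LinearMap.ker (t y))
      have := ((if x = 0 then ⊤ else LinearMap.ker (t x)) ⊔ (if y = 0 then ⊤ else LinearMap.ker (t y))).finrank_le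
      have := r x
      have := r y
      omega)
  rw [if_neg v0, LinearMap.mem_ker, (ht v v0).1] at hv
  exact one_ne_zero hv

omit [FiniteDimensional F V] in
/-- over `𝔽₄` the product of two opposite transvections has order five -/
theorem pow_five {α β : Dual F V} {x y : V} (h1 : α x = 1) (h2 : α y = 0) (h3 : β x = 0) (h4 : β y = 1) {c : F}
    (h : (2 : F) = 0) (hc : c ^ 2 + c + 1 = 0) : (tv β x * tv (c • α) y) ^ 5 = 1 := by
  have h5 : (c • α) y = 0 := by simp [h2]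
  refine SpecialLinearGroup.ext _ _ fun v => ?_
  show (tv β x * tv (c • α) y).1 ((tv β x * tv (c • α) y).1 ((tv β x * tv (c • α) y).1
    ((tv β x * tv (c • α) y).1 ((tv β x * tv (c • α) y).1 v)))) = v
  simp only [sl_mul_apply, tv_apply h3, tv_apply h5, map_add, map_smul, LinearMap.smul_apply, smul_eq_mul, h1, h2, h3, h4]
  match_scalars <;> grind

end CL.T2.SLx
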