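/-
CLAS/T2 (S2193): orthogonal groups, the normaliser of a Sylow subgroup fixes a singular flag.
-/
import Cfsg.Agent.CLAS.T2.Or0
import Cfsg.Agent.CLAS.T2.SL1

set_option autoImplicit false

namespace CL.T2.Or

open Module CL.Witt CL.Witt.Form CL.Root CL.Coop MulAction Submodule FormType CL.T2.Pol

variable {F : Type*} [Field F] [Finite F] {V : Type*} [AddCommGroup V] [Module F V] [FiniteDimensional F V]
  {f : Form (quad F) V} {u u' y : V}

namespace OrA

omit [FiniteDimensional F V] in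
/-- fixed points of a `p`-group on a quotient space -/
theorem fixq [Finite V] {p : ℕ} [Fact p.Prime] [CharP F p] {H : Subgroup (V ≃ₗ[F] V)} {S : Subgroup H} (hS : IsPGroup p S)
    {D : Submodule F V} (hD : D ≠ ⊤) (h : ∀ s ∈ S, ∀ v ∈ D, s.1 v ∈ D) : ∃ v ∉ D, ∀ s ∈ S, s.1 v - v ∈ D := by
  letI : MulAction S (V ⧸ D) :=
    { smul s := D.mapQ D s.1.1.toLinearMap (h s s.2)
      one_smul c := Submodule.Quotient.induction_on D c fun _ => rfl
      mul_smul _ _ c := Submodule.Quotient.induction_on D c fun _ => rfl }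
  have := Submodule.Quotient.nontrivial_iff.2 hD
  have : Finite (V ⧸ D) := Finite.of_surjective _ (Submodule.Quotient.mk_surjective D)
  obtain ⟨c, hc, c0⟩ := hS.exists_fixed_point_of_prime_dvd_card_of_fixed_point (V ⧸ D) (a := 0) (by
    have := Fintype.ofFinite F
    obtain ⟨n, -, e⟩ := FiniteField.card F p
    rw [Module.natCard_eq_pow_finrank (K := F), Nat.card_eq_fintype_card, e]
    exact dvd_pow (dvd_pow_self _ n.ne_zero) Module.finrank_pos.ne') fun g => map_zero (D.mapQ D g.1.1.toLinearMap _)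
  obtain ⟨v, rfl⟩ := Submodule.Quotient.mk_surjective D c
  exact ⟨v, fun e => c0 ((Submodule.Quotient.mk_eq_zero D).2 e).symm, fun s hs =>
    (Submodule.Quotient.eq D).1 (hc ⟨s, hs⟩)⟩

theorem pg (hf : f.Nondeg) {p : ℕ} [Fact p.Prime] [CharP F p] (hu : f.q u = 0) (h0 : u ≠ 0) : IsPGroup p (Qg f u) := by
  obtain ⟨u', h1, h2⟩ := hf.exists_partner' hu h0
  have := Fintype.ofFinite F
  obtain ⟨n, -, e⟩ := FiniteField.card F p
  exact IsPGroup.of_card (by rw [card_Qg hf hu h1 h2, card_ker_quad, mul_one, Nat.card_eq_fintype_card, e, ← pow_mul])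

omit [Finite F] in
theorem le_pair (hf : f.Nondeg) (hn : 7 ≤ finrank F V) (hu : f.q u = 0) (hu' : f.q u' = 0) (huu : f.B u u' = 1)
    (hy : y ∈ Wp f u u') (h0 : y ≠ 0) (hq : f.q y = 0) {v : V} (h1 : f.ei u y 0 v - v ∈ F ∙ u)
    (h2 : ∀ z ∈ Wp f u u', f.B y z = 0 → f.ei y z (f.q z) v - v ∈ F ∙ u) : ∃ a b : F, v = a • u + b • y := by
  have key : ∀ w ∈ Wp f u u', w ∈ F ∙ u → w = 0 := fun w hw h => by
    obtain ⟨c, rfl⟩ := mem_span_singleton.1 h
    have := (f.mem_perp_span_pair.1 hw).2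
    rw [f.B_smul_right, f.quad_symm, huu, mul_one] at this
    rw [this, zero_smul]
  have e1 : f.B u v = 0 := by
    rw [EichOK.ei_apply (a := 0) ⟨hu, (f.mem_perp_span_pair.1 hy).1, hq.symm⟩] at h1
    have := key (f.B u v • y) (smul_mem _ _ hy) (by
      convert add_mem h1 (smul_mem _ ((quad F).ε * (f.B y v + 0 * f.B u v)) (mem_span_singleton_self u)) using 1
      abel)
    exact (smul_eq_zero.1 this).resolve_right h0
  have e2 : ∀ z ∈ Wp f u u', f.B y z = 0 → f.B y v • z = (f.B z v + f.q z * f.B y v) • y := fun z hz h => by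
    have := h2 z hz h
    rw [EichOK.ei_apply ⟨hq, h, rfl⟩, quad_ε, one_mul, add_sub_assoc, add_sub_cancel_left] at this
    exact sub_eq_zero.1 (key _ (sub_mem (smul_mem _ _ hz) (smul_mem _ _ hy)) this)
  obtain ⟨y', k1⟩ : ∃ y' : Wp f u u', f.B y y' ≠ 0 :=
    not_forall.1 fun h => h0 (congrArg Subtype.val (nondeg_Wp hf hu hu' huu ⟨y, hy⟩ h))
  have e3 : f.B y v = 0 := by
    obtain ⟨z, ⟨z1, z2⟩, z3⟩ := LS.exists_notMem_of_finrank_lt (U := F ∙ y) (W := Wp f u u' ⊓ LinearMap.ker (f.B y)) (by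
      have := LS.finrank_span_singleton_le (F := F) y
      have := finrank_sup_add_finrank_inf_eq (Wp f u u') (LinearMap.ker (f.B y))
      have := (Wp f u u' ⊔ LinearMap.ker (f.B y)).finrank_le
      have := finrank_Wp hf hu hu' huu
      have := LS.finrank_ker_dual (φ := f.B y) fun e => k1 (by simp [e])
      omega)
    by_contra h
    refine z3 ((smul_mem_iff _ h).1 ?_)
    rw [e2 z z1 z2]
    exact smul_mem _ _ (mem_span_singleton_self y)
  have e4 : ∀ z ∈ Wp f u u', f.B y z = 0 → f.B v z = 0 := fun z hz h => by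
    have := e2 z hz h
    rw [e3, zero_smul, mul_zero, add_zero] at this
    rw [f.quad_symm]
    exact (smul_eq_zero.1 this.symm).resolve_right h0
  have := nondeg_Wp hf hu hu' huu ⟨_, sub_mem (proj_mem_Wp hu hu' huu e1) (smul_mem _ (f.B v y' / f.B y y') hy)⟩ fun t => by
    have := e4 (t - (f.B y t / f.B y y') • y') (sub_mem t.2 (smul_mem _ _ y'.2)) (by simp [k1])
    show f.B (v + -((quad F).ε * f.B u' v) • u - (f.B v y' / f.B y y') • y) (t : V) = 0
    simp only [f.B_sub_right, f.B_smul_right] at this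
    simp only [f.B_sub_left, f.B_add_left, f.B_smul_left, quad_σ, (f.mem_perp_span_pair.1 t.2).1]
    linear_combination this
  refine ⟨(quad F).ε * f.B u' v, f.B v y' / f.B y y', ?_⟩
  have := congrArg Subtype.val this
  simp only [ZeroMemClass.coe_zero] at this
  linear_combination (norm := module) this

end OrA

open OrA in
/-- `W = Wp f u u'`.  `X = {g ∈ Qg f y | g u = u, g u' = u'}` (contains all `ei y z (q z)`, `z ∈ W`, `z ⊥ y`) normalises
`Qg f u` (`nz_Q`), both are `p`-groups (`card_Qg`, `card_ker_quad`), so `Qg f u ⊔ X ≤ S` for a Sylow `S` of `f.E`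
(`IsPGroup.to_sup_of_normal_left'`, `exists_le_sylow`); `U = S.mapSurjective hπ`.  If `π g ∈ N(U)`, `s ∈ S`, then
`g s g⁻¹ = s' c`, `c` scalar (central), `c ^ p ^ k = 1`, so `c = 1` (char `p`): `g` normalises `S`.
General fact: a `p`-subgroup `S` of `GL(V)`, `D ≠ ⊤` an `S`-invariant subspace: some `v ∉ D` has `s v - v ∈ D` for all `s`
(fixed points on the finite `p`-group `V ⧸ D`).  `D = ⊥`: `C_V(S) ≠ 0`, `C_V(S) ≤ F ∙ u` (`mem_span_of_fix_U`), so `S` fixes `u`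
and `g u ∈ F ∙ u`.  `D = F ∙ u`: `D₁ = {v | ∀ s ∈ S, s v - v ∈ F ∙ u}` is a `g`-invariant subspace `> F ∙ u`, and
`D₁ ≤ ⟨u, y⟩` (`ei u y 0` gives `v ⊥ u`; `ei y z (q z) v - v ∈ F u ⊓ W = 0` gives `v ⊥ y`, `v ⊥ z` for all `z ∈ W ⊓ y^⊥`;
`proj_mem_Wp`, `nondeg_Wp`, `mem_span_of_perp`), so `y ∈ D₁`, `g y ∈ ⟨u, y⟩`.  Finally `x ∈ U u` with `x (g u') = c⁻¹ u'`
(`exists_mem_U_apply_eq`); `x g y ∈ ⟨u, y⟩` is `⊥ u'`. -/
theorem flag_of_sylow (hf : f.Nondeg) (hn : 7 ≤ finrank F V) {p : ℕ} [Fact p.Prime] [CharP F p] {G : Type*} [Group G]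
    (π : f.E →* G) (hπ : Function.Surjective π) (h1 : ∀ g, π g = 1 → ∃ c : F, ∀ v, g.1 v = c • v)
    (hu : f.q u = 0) (hu' : f.q u' = 0) (huu : f.B u u' = 1) (hy : y ∈ Wp f u u') (h0 : y ≠ 0) (hq : f.q y = 0) :
    ∃ U : Sylow p G, ∀ g : f.E, π g ∈ Subgroup.normalizer (U : Set G) →
      ∃ x ∈ f.U u, ∃ c, Lv f u u' (x * g.1) c ∧ ∃ l : F, (x * g.1) y = l • y := by
  have : Finite V := Module.finite_of_finite F
  have : Finite (V ≃ₗ[F] V) := DFunLike.finite _
  have u0 : u ≠ 0 := by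
    rintro rfl
    simp at huu
  obtain ⟨S, hS⟩ := (((pg hf hq h0).to_inf_left (K := stabilizer f.E (pt u u0 hu : Pt f))).to_sup_of_normal_right'
    (pg hf hu u0) (inf_le_right.trans (SLx.nz_le nz_Q))).exists_le_sylow
  have s1 : ∀ v a, (⟨f.ei u v a, ei_mem_E u v a⟩ : f.E) ∈ S := fun v a => hS (Subgroup.mem_sup_right (ei_mem_U u v a))
  have s2 : ∀ z ∈ Wp f u u', f.B y z = 0 → (⟨f.ei y z (f.q z), ei_mem_E _ _ _⟩ : f.E) ∈ S := fun z hz h =>
    hS (Subgroup.mem_sup_left ⟨ei_mem_U _ _ _, smul_pt_eq.2 ⟨1, by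
      rw [one_smul]
      exact EichOK.ei_apply_fix ⟨hq, h, rfl⟩ (f.B_eq_zero_symm (f.mem_perp_span_pair.1 hy).1)
        (f.B_eq_zero_symm (f.mem_perp_span_pair.1 hz).1)⟩⟩)
  have d0 : ∀ v, (∀ s ∈ S, s.1 v = v) → v ∈ F ∙ u := fun v h =>
    hf.mem_span_of_fix_U (.inr (by omega)) hu u0 fun w a _ => h _ (s1 w a)
  have d1 : ∀ v, (∀ s ∈ S, s.1 v - v ∈ F ∙ u) → ∃ a b : F, v = a • u + b • y := fun v h =>
    le_pair hf hn hu hu' huu hy h0 hq (h _ (s1 y 0)) fun z hz k => h _ (s2 z hz k)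
  have fu : ∀ s ∈ S, s.1 u = u := fun s hs => by
    obtain ⟨v, v0, hv⟩ := fixq S.isPGroup' (D := ⊥) (fun e => u0 ((mem_bot F).1 (e ▸ trivial))) fun s _ v hv => by
      rw [(mem_bot F).1 hv, map_zero]; exact zero_mem _
    simp only [mem_bot, sub_eq_zero] at v0 hv
    obtain ⟨c, rfl⟩ := mem_span_singleton.1 (d0 v hv)
    simpa [left_ne_zero_of_smul v0] using hv s hs
  have fy : ∀ s ∈ S, s.1 y - y ∈ F ∙ u := fun s hs => by
    obtain ⟨v, v0, hv⟩ := fixq S.isPGroup' (D := F ∙ u) (fun e => by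
      have := LS.finrank_span_singleton_le (F := F) u
      rw [e, finrank_top] at this; omega) fun s hs v hv => by
        obtain ⟨c, rfl⟩ := mem_span_singleton.1 hv
        rwa [map_smul, fu s hs]
    obtain ⟨a, b, rfl⟩ := d1 v hv
    have b0 : b ≠ 0 := by
      rintro rfl
      exact v0 (by simpa using smul_mem _ a (mem_span_singleton_self u))
    have := hv s hs
    rwa [map_add, map_smul, map_smul, fu s hs, add_sub_add_left_eq_sub, ← smul_sub, smul_mem_iff _ b0] at this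
  refine ⟨S.mapSurjective hπ, fun g hg => ?_⟩
  have hg := SLx.norm_map hπ (fun k hk => Subgroup.mem_center_iff.2 fun x => Subtype.ext (LinearEquiv.ext fun v => by
    obtain ⟨c, hc⟩ := h1 k hk
    show x.1 (k.1 v) = k.1 (x.1 v)
    rw [hc, hc, map_smul])) S hg
  have cj : ∀ s ∈ S, ∃ t ∈ S, ∀ v, s.1 (g.1 v) = g.1 (t.1 v) := fun s hs =>
    ⟨g⁻¹ * s * g⁻¹⁻¹, (Subgroup.mem_normalizer_iff.1 (inv_mem hg) s).1 hs, fun v => by simp⟩
  obtain ⟨c, hc⟩ := mem_span_singleton.1 (d0 (g.1 u) fun s hs => by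
    obtain ⟨t, ht, e⟩ := cj s hs
    rw [e, fu t ht])
  obtain ⟨a, b, e⟩ := d1 (g.1 y) fun s hs => by
    obtain ⟨t, ht, e⟩ := cj s hs
    obtain ⟨d, hd⟩ := mem_span_singleton.1 (fy t ht)
    rw [e, ← map_sub, ← hd, map_smul, ← hc]
    exact smul_mem _ _ (smul_mem _ _ (mem_span_singleton_self u))
  have c0 : c ≠ 0 := left_ne_zero_of_smul (hc ▸ ne0 g u0)
  have gO := E_le_O g.2
  have k : c * f.B u (g.1 u') = 1 := by rw [← huu, ← mem_O_B gO u u', ← hc, f.B_smul_left, quad_σ]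
  obtain ⟨x, hx, ex⟩ := exists_mem_U_apply_eq (w := g.1 u') (w' := c⁻¹ • u') hu
    (by rw [q0 g hu', f.quad_q_smul, hu', mul_zero])
    (by rw [f.B_smul_right, huu, mul_one]; exact eq_inv_of_mul_eq_one_right k) (right_ne_zero_of_mul_eq_one k)
  obtain ⟨w, d, ok, rfl⟩ := (mem_U hu).1 hx
  refine ⟨_, hx, c, ⟨mul_mem (U_le_E u hx) g.2, c0, ?_, c⁻¹, inv_ne_zero c0, ex⟩, b, ?_⟩
  · rw [LinearEquiv.mul_apply, ← hc, map_smul, ok.ei_apply_u]
  · have k2 := mem_O_B (mul_mem (U_le_O u hx) gO) u' y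
    have hy' := f.mem_perp_span_pair.1 hy
    rw [LinearEquiv.mul_apply, ex, f.B_smul_left, hy'.2, quad_σ, mul_eq_zero_iff_left (inv_ne_zero c0)] at k2
    rw [LinearEquiv.mul_apply, e, map_add, map_smul, map_smul, ok.ei_apply_u, ok.ei_apply_of_perp hy'.1] at k2 ⊢
    simp only [f.B_add_right, f.B_smul_right, f.B_sub_right, f.quad_symm u u', huu, hy'.2] at k2
    linear_combination (norm := module) k2 • u

end CL.T2.Or
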