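/-
CLAS/T2 (S2193): orthogonal groups, additive subgroups of a quadratic space.
-/
import Cfsg.Agent.CLAS.T2.Or0

set_option autoImplicit false

namespace CL.T2.Or

open Module CL.Witt CL.Witt.Form CL.Root CL.Coop MulAction Submodule FormType CL.T2.Pol

variable {F : Type*} [Field F] [Finite F] {V : Type*} [AddCommGroup V] [Module F V] [FiniteDimensional F V]

open MvPolynomial in
theorem OrB.card_le {p : ℕ} [Fact p.Prime] {V W : Type*} [AddCommGroup V] [AddCommGroup W] [Finite V] [Finite W]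
    [Module (ZMod p) V] [Module (ZMod p) W] (B : V →+ V →+ W) (han : ∀ x, B x x = 0 → x = 0) :
    Nat.card V ≤ Nat.card W ^ 2 := by
  classical
  let C' : V →ₗ[ZMod p] V →ₗ[ZMod p] W := ((AddMonoidHom.toZModLinearMapEquiv p).toAddMonoidHom.comp B).toZModLinearMap p
  have hC : ∀ x, B x x = C' x x := fun x => rfl
  let bV := Module.finBasis (ZMod p) V
  let bW := Module.finBasis (ZMod p) W
  let P : Fin (Module.finrank (ZMod p) W) → MvPolynomial (Fin (Module.finrank (ZMod p) V)) (ZMod p) :=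
    fun i => ∑ j, ∑ k, C (bW.repr (C' (bV j) (bV k)) i) * (X j * X k)
  have hp : ∀ i x, eval x (P i) = bW.repr (B (bV.equivFun.symm x) (bV.equivFun.symm x)) i := by
    intro i x
    rw [hC, Module.Basis.equivFun_symm_apply]
    simp only [P, map_sum, map_mul, eval_C, eval_X, map_smul, LinearMap.sum_apply,
      LinearMap.smul_apply, Finsupp.finsetSum_apply, Finsupp.smul_apply, smul_eq_mul, Finset.mul_sum]
    rw [Finset.sum_comm]
    refine Finset.sum_congr rfl fun j _ => Finset.sum_congr rfl fun k _ => by ring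
  have hdeg : ∀ i, (P i).totalDegree ≤ 2 := fun i =>
    totalDegree_finsetSum_le fun j _ => totalDegree_finsetSum_le fun k _ => (totalDegree_mul _ _).trans (by
      rw [totalDegree_C, zero_add]
      exact (totalDegree_mul _ _).trans (by simp))
  by_contra hlt
  rw [not_le, Module.natCard_eq_pow_finrank (K := ZMod p) (V := V), Module.natCard_eq_pow_finrank (K := ZMod p) (V := W),
    ← pow_mul, Nat.card_zmod, Nat.pow_lt_pow_iff_right (Fact.out : p.Prime).one_lt] at hlt
  have h2 := (char_dvd_card_solutions_of_fintype_sum_lt p (lt_of_le_of_lt (Finset.sum_le_card_nsmul _ _ 2 fun i _ => hdeg i)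
    (by simpa using hlt))).trans (dvd_of_eq Fintype.card_eq_nat_card)
  have h3 : Nat.card {x : Fin (Module.finrank (ZMod p) V) → ZMod p // ∀ i, eval x (P i) = 0} = 1 := by
    rw [Nat.card_eq_one_iff_exists]
    refine ⟨⟨0, fun i => by rw [hp]; simp⟩, fun ⟨x, hx⟩ => Subtype.ext ((LinearEquiv.map_eq_zero_iff bV.equivFun.symm).mp (han _ ?_))⟩
    apply bW.repr.injective
    ext i
    rw [← hp, hx]; simp
  exact (Fact.out : p.Prime).one_lt.ne' (Nat.dvd_one.1 (h3 ▸ h2))

/-- Chevalley-Warning over `ZMod p`: `A` is a `ZMod p`-space of dimension `d > 2 e` (`|F| = p ^ e`), `q = 0` is a system of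
`e` quadratic equations (`char_dvd_card_solutions_of_fintype_sum_lt`; model: `CL.PS.card_le_sq_of_anisotropic` in
`CHEV/PSElem.lean`, `p = 2`; `f.toQuad`, `QuadraticMap.toBilin`). -/
theorem sing_of_card (f : Form (quad F) V) (A : AddSubgroup V) (h : Nat.card F ^ 2 < Nat.card A) :
    ∃ y ∈ A, y ≠ 0 ∧ f.q y = 0 := by
  obtain ⟨p, hp⟩ := CharP.exists F
  have : Fact p.Prime := ⟨CharP.char_is_prime F p⟩
  have : Finite V := Module.finite_of_finite F
  obtain ⟨B, hB⟩ := LinearMap.BilinMap.toQuadraticMap_surjective f.toQuad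
  by_contra hc
  let _ : Module (ZMod p) A := AddCommGroup.zmodModule fun v => Subtype.ext (by
    rw [AddSubgroup.coe_nsmul, ← Nat.cast_smul_eq_nsmul F, CharP.cast_eq_zero, zero_smul]; rfl)
  let _ : Module (ZMod p) F := AddCommGroup.zmodModule fun w => by simp
  refine h.not_ge (OrB.card_le (p := p)
    (((LinearMap.toAddMonoidHom'.comp B.toAddMonoidHom).comp A.subtype).compl₂ A.subtype)
    fun x e => by_contra fun x0 => hc ⟨x, x.2, fun k => x0 (Subtype.ext k), ?_⟩)
  rw [← Form.toQuad_apply, ← hB]; exact e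

/-- `E = {(a, b) | a x + b y ∈ A} ≤ F × F`, `m = |snd E|` divides `q`, `|E| = k m`; the elements with `b ≠ 0` lie on the `q`
lines `F (t x + y)`: `q (k - 1) = k (m - 1)`.  `k ∣ q`; if `k > 1`, `q = k w`, `w (k - 1) = m - 1`, `p ∣ m`, so `p ∤ w`, `w = 1`. -/
theorem lines {x y : V} (hx : x ≠ 0) (hy : y ∉ F ∙ x) (A : AddSubgroup V) {k : ℕ}
    (h : ∀ v ∈ span F {x, y}, v ≠ 0 → Nat.card {c : F // c • v ∈ A} = k) : k = 1 ∨ k = Nat.card F := by
  classical
  have := Fintype.ofFinite F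
  obtain ⟨p, hp⟩ := CharP.exists F
  obtain ⟨n, pp, hn⟩ := FiniteField.card F p
  rw [← Nat.card_eq_fintype_card] at hn
  have h1 := h x (subset_span (by simp)) hx
  have h2 : ∀ t : F, Nat.card {c : F // c ≠ 0 ∧ c • (t • x + y) ∈ A} + 1 = k := fun t => by
    rw [← h (t • x + y) (add_mem (smul_mem _ _ (subset_span (by simp))) (subset_span (by simp))) fun e =>
      hy (eq_neg_of_add_eq_zero_right e ▸ neg_mem (smul_mem _ _ (mem_span_singleton_self x))), ← Finite.card_option]
    refine Nat.card_eq_of_bijective (fun o => o.elim ⟨0, by simp⟩ fun c => ⟨c.1, c.2.2⟩) ⟨?_, fun ⟨c, hc⟩ => ?_⟩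
    · rintro (_ | a) (_ | b) e
      exacts [rfl, (b.2.1 (Subtype.mk.inj e).symm).elim, (a.2.1 (Subtype.mk.inj e)).elim, congrArg _ (Subtype.ext (Subtype.mk.inj e))]
    · by_cases c0 : c = 0
      exacts [⟨none, Subtype.ext c0.symm⟩, ⟨some ⟨c, c0, hc⟩, rfl⟩]
  let E : AddSubgroup (F × F) := A.comap ((LinearMap.toSpanSingleton F V x).coprod (LinearMap.toSpanSingleton F V y)).toAddMonoidHom
  have h3 : Nat.card E = k + Nat.card F * (k - 1) := by
    have e : Nat.card {q : F × F // q.2 ≠ 0 ∧ q.2 • (q.1 • x + y) ∈ A} = Nat.card F * (k - 1) := by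
      rw [Nat.card_congr (Equiv.subtypeProdEquivSigmaSubtype fun t c : F => c ≠ 0 ∧ c • (t • x + y) ∈ A), Nat.card_sigma,
        Finset.sum_congr rfl fun t _ => Nat.eq_sub_of_add_eq (h2 t), Finset.sum_const, Finset.card_univ, Nat.card_eq_fintype_card, smul_eq_mul]
    rw [← e]
    nth_rewrite 1 [← h1]
    rw [← Nat.card_sum]
    refine (Nat.card_eq_of_bijective (Sum.elim (fun c => ⟨(c.1, 0), by simpa [E] using c.2⟩)
      fun q => ⟨(q.1.2 * q.1.1, q.1.2), by simpa [E, mul_smul] using q.2.2⟩) ⟨?_, fun ⟨⟨a, b⟩, hc⟩ => ?_⟩).symm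
    · rintro (a | a) (b | b) e <;> obtain ⟨e1, e2⟩ := Prod.mk.inj (Subtype.mk.inj e)
      · exact congrArg _ (Subtype.ext e1)
      · exact (b.2.1 e2.symm).elim
      · exact (a.2.1 e2).elim
      · exact congrArg _ (Subtype.ext (Prod.ext (mul_left_cancel₀ a.2.1 (e1.trans (by rw [e2]))) e2))
    · by_cases b0 : b = 0
      · subst b0
        exact ⟨.inl ⟨a, by simpa [E] using hc⟩, rfl⟩
      · exact ⟨.inr ⟨(a / b, b), b0, by simpa [E, smul_smul, mul_div_cancel₀ _ b0] using hc⟩,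
          Subtype.ext (Prod.ext (mul_div_cancel₀ _ b0) rfl)⟩
  obtain ⟨w, hw⟩ : k ∣ Nat.card F :=
    h1 ▸ AddSubgroup.card_addSubgroup_dvd_card (A.comap (LinearMap.toSpanSingleton F V x).toAddMonoidHom)
  have h4 : 1 + w * (k - 1) ∣ p ^ (n + n : ℕ) := by
    rw [pow_add, ← hn, ← Nat.card_prod]
    exact (Dvd.intro_left k (by rw [h3, hw]; ring)).trans E.card_addSubgroup_dvd_card
  obtain ⟨_ | j, -, rfl⟩ := (Nat.dvd_prime_pow pp).1 (Dvd.intro_left k (hw.symm.trans hn))
  · exact .inr (by simpa using hw.symm)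
  · have h5 := Nat.Coprime.eq_one_of_dvd (Nat.Coprime.pow_right _ (by
      rw [pow_succ', mul_assoc]; simp)) h4
    have := h2 0
    have := pow_pos pp.pos (j + 1)
    rcases Nat.mul_eq_zero.1 (Nat.add_eq_left.1 h5) with e | e <;> omega

end CL.T2.Or
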