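/-
CLAS/T2 (S2193): orthogonal groups, the groups `U u` are semiregular.
-/
import Cfsg.Agent.CLAS.T2.OrB

set_option autoImplicit false

namespace CL.T2.Or

open Module CL.Witt CL.Witt.Form CL.Root CL.Coop MulAction Submodule FormType CL.T2.Pol

variable {F : Type*} [Field F] [Finite F] {V : Type*} [AddCommGroup V] [Module F V] [FiniteDimensional F V]
  {f : Form (quad F) V} {Ω : Type*} [MulAction (V ≃ₗ[F] V) Ω] {ω : Ω} {u u' : V}

theorem St.fam (h : St f ω) (hu : f.q u = 0) (hu' : f.q u' = 0) (huu : f.B u u' = 1) (Φ : Ω → AddSubgroup V)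
    (s : F → F) (hs : ∀ c ≠ 0, s c ≠ 0) (hW : ∀ a, ∀ x ∈ Φ a, x ∈ Wp f u u')
    (hL : ∀ g c a x, Lv f u u' g c → x ∈ Φ a → s c • g x ∈ Φ (g • a))
    (hU : ∀ a b, a ∈ orbit (f.U u) b → Φ a = Φ b) {a₁ : Ω} (h₁ : a₁ ∈ orbit f.E ω)
    (hc : Nat.card F ^ 2 < Nat.card (Φ a₁)) : ∀ a ∈ orbit f.E ω, ∀ x ∈ Wp f u u', x ∈ Φ a := by
  have le1 : ∀ g c a (v v' : V) (l : F), Lv f u u' g c → v ≠ 0 → g v = l • v' →
      Nat.card {d : F // d • v ∈ Φ a} ≤ Nat.card {d : F // d • v' ∈ Φ (g • a)} := fun g c a v v' l hg h0 e => by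
    have hl : l ≠ 0 := fun e' => h0 (by simpa [e'] using e)
    refine Nat.card_le_card_of_injective (fun d => ⟨s c * (d.1 * l), ?_⟩) fun d d' e' => Subtype.ext ?_
    · have := hL g c a _ hg d.2
      rwa [map_smul, e, smul_smul, smul_smul, mul_assoc] at this
    · exact mul_right_cancel₀ hl (mul_left_cancel₀ (hs c hg.ne) (congrArg Subtype.val e'))
  have le2 : ∀ a ∈ orbit f.E ω, ∀ b ∈ orbit f.E ω, ∀ v ∈ Wp f u u', ∀ v' ∈ Wp f u u', v ≠ 0 → v' ≠ 0 → f.q v = 0 →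
      f.q v' = 0 → Nat.card {d : F // d • v ∈ Φ a} ≤ Nat.card {d : F // d • v' ∈ Φ b} :=
    fun a ha b hb v hv v' hv' h0 h0' hq hq' => by
      obtain ⟨g, hg, e⟩ := exists_lv_quad h.nd h.dim hu' huu hu hv hv' h0 h0' (hq'.trans hq.symm)
      obtain ⟨k, c, hk, ⟨l, e'⟩, hb'⟩ := h.ft hu hu' huu hv' h0' hq' _ (smul_mem_orb hg.mem ha) b hb
      exact (le1 g 1 a v v' 1 hg h0 (by rw [e, one_smul])).trans (hU _ _ hb' ▸ le1 k c _ v' v' l hk h0' e')
  obtain ⟨y, hy, h0, hq⟩ := sing_of_card f _ hc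
  obtain ⟨x, x', z, z', hx, hx', hxx, hz, -, hzz, hxz, -, hx'z, -⟩ := idx2_Wp h.nd h.dim hu hu' huu
  replace hx : f.q x.1 = 0 := hx
  replace hx' : f.q x'.1 = 0 := hx'
  replace hz : f.q z.1 = 0 := hz
  replace hxx : f.B x.1 x'.1 = 1 := hxx
  replace hxz : f.B x.1 z.1 = 0 := hxz
  replace hx'z : f.B x'.1 z.1 = 0 := hx'z
  have hz0 : z.1 ≠ 0 := fun e => by
    rw [show z = 0 from Subtype.ext e] at hzz
    simp at hzz
  have hk := lines (F := F) (x := z.1) (y := x.1) hz0 (fun e => by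
    obtain ⟨c, e⟩ := mem_span_singleton.1 e
    rw [← e, B_smul_left, f.B_eq_zero_symm hx'z, mul_zero] at hxx
    exact zero_ne_one hxx) (Φ a₁) (k := Nat.card {d : F // d • y ∈ Φ a₁}) fun v hv hv0 => by
      obtain ⟨α, β, rfl⟩ := mem_span_pair.1 hv
      have h1 : α • z.1 + β • x.1 ∈ Wp f u u' := add_mem (smul_mem _ _ z.2) (smul_mem _ _ x.2)
      have h2 : f.q (α • z.1 + β • x.1) = 0 := by
        simp [quad_q_add, quad_q_smul, hx, hz, f.B_eq_zero_symm hxz]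
      exact le_antisymm (le2 _ h₁ _ h₁ _ h1 _ (hW _ _ hy) hv0 h0 h2 hq) (le2 _ h₁ _ h₁ _ (hW _ _ hy) _ h1 h0 hv0 hq h2)
  replace hk := hk.resolve_left (ne_of_gt (Finite.one_lt_card_iff_nontrivial.2
    ⟨⟨0, by simp⟩, ⟨1, by simpa using hy⟩, fun e => zero_ne_one (congrArg Subtype.val e)⟩))
  refine fun a ha => induction_singular hx hx' (hxx ▸ one_ne_zero) x.2 x'.2 _ fun v hv hq' => ?_
  by_cases hv0 : v = 0
  · exact hv0 ▸ zero_mem _
  have h3 := le2 _ h₁ _ ha _ (hW _ _ hy) _ hv h0 hv0 hq hq'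
  rw [hk] at h3
  obtain ⟨d, e⟩ := (Subtype.val_injective.bijective_of_nat_card_le h3).2 1
  simpa [e] using d.2

theorem St.semi (h : St f ω) (hu : f.q u = 0) (hu' : f.q u' = 0) (huu : f.B u u' = 1) :
    ∀ a ∈ orbit f.E ω, ∀ x ∈ Aw f hu u' a, x = 0 := by
  have : Finite V := Module.finite_of_finite F
  obtain ⟨ψ, hψ⟩ := exists_psi (F := F)
  have h1 := Finite.one_lt_card (α := F)
  have hc := fun a : Ω => card_Bn (hu := hu) h.nd hu' huu hψ a
  intro a ha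
  by_cases hB : Nat.card F ^ 2 < Nat.card (Bn f ψ u u' (Aw f hu u' a))
  · have h2 := h.fam hu hu' huu (fun a => Bn f ψ u u' (Aw f hu u' a)) (·⁻¹) (fun c => inv_ne_zero)
      (fun a x hx => hx.1) (fun g c a x hg => hg.mem_Bn) (fun a b e => by rw [Aw_eq_of_orbit e]) ha hB a ha
    exact fun x hx => eq_zero_of_Wp h.nd hu hu' huu hψ (Aw_le hx) fun y hy => (h2 y hy).2 x hx
  exfalso
  have hA : Nat.card F ^ 2 < Nat.card (Aw f hu u' a) := by
    by_contra hA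
    have h3 := Nat.mul_le_mul (not_lt.1 hB) (not_lt.1 hA)
    rw [hc, card_Wp h.nd hu hu' huu, ← pow_add, Nat.pow_le_pow_iff_right h1] at h3
    have := h.dim
    omega
  have h2 := h.fam hu hu' huu (Aw f hu u') id (fun c => id) (fun a x hx => Aw_le hx)
    (fun g c a x hg => hg.mem_Aw) (fun a b => Aw_eq_of_orbit) ha hA
  have h3 : ∀ g ∈ f.U u, ∀ b ∈ orbit f.E ω, g • b = b := fun g hg b hb => by
    obtain ⟨x, c, e1, e2, rfl⟩ := exists_ei_Wp hu huu hg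
    obtain ⟨⟨c', e3, e4⟩, -⟩ := mem_Aw.1 (h2 b hb x (f.mem_perp_span_pair.2 ⟨e1.huv, e2⟩))
    have : c = c' := e1.ha.trans e3.ha.symm
    rwa [this]
  obtain ⟨b, b', hb⟩ := h.tw.nt
  obtain ⟨k, rfl⟩ := h.tw.pre.1 b b'
  have h4 : f.E ≤ stabilizer _ b.1 := E_le_iff.2 fun v hv0 hv g hg => by
    obtain ⟨e, he, rfl⟩ := ((quad_iso3 f).idx2 h.nd (by have := h.dim; omega)).exists_E_apply_eq h.nd hv0
      (show u ≠ 0 from fun e => by simp [e] at huu) (hv.trans hu.symm)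
    have := h3 _ (conj_mem_U (E_le_O he) hg) _ (smul_mem_orb he b.2)
    rwa [mul_smul, inv_smul_smul, mul_smul, smul_left_cancel_iff] at this
  exact hb (Subtype.ext (h4 k.2).symm)

end CL.T2.Or
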