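/-
CLAS/T2 (S2193): orthogonal groups, the long root elements of the Levi complement fix all `U u`-orbits.
-/
import Cfsg.Agent.CLAS.T2.Or0
import Cfsg.Agent.CLAS.T2.Blk
import Cfsg.Agent.CLAS.AutForm1

set_option autoImplicit false

namespace CL.T2.Or

open Module CL.Witt CL.Witt.Form CL.Root CL.Coop MulAction Submodule FormType CL.T2.Pol

variable {F : Type*} [Field F] [Finite F] {V : Type*} [AddCommGroup V] [Module F V] [FiniteDimensional F V]
  {f : Form (quad F) V} {Ω : Type*} [MulAction (V ≃ₗ[F] V) Ω] [Finite Ω] {ω : Ω} {u u' : V}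

namespace OrD

theorem heis3 {G : Type*} [Group G] {p : ℕ} [Fact p.Prime] [CharP F p] {φ : F → F → F → G} {k : F} (hk : k ≠ 0)
    (hm : ∀ α β γ α' β' γ', φ α β γ * φ α' β' γ' = φ (α + α') (β + β') (γ + γ' - k * β * α'))
    (hi : ∀ α β γ, φ α β γ = 1 → α = 0 ∧ β = 0 ∧ γ = 0) :
    ∃ H Z : Subgroup G, Heis H Z ∧ IsPGroup p H ∧ Nat.card H = Nat.card F ^ 2 * Nat.card Z ∧
      (∀ g ∈ H, ∃ α β γ, g = φ α β γ) ∧ ∀ γ, φ 0 0 γ ∈ Z := by
  have h0 : φ 0 0 0 = 1 := by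
    have := hm 0 0 0 0 0 0
    simp only [add_zero, mul_zero, sub_zero] at this
    exact mul_eq_left.1 this
  have h1 : ∀ α β γ, (φ α β γ)⁻¹ = φ (-α) (-β) (-γ - k * α * β) := fun α β γ =>
    inv_eq_of_mul_eq_one_right (by rw [hm, ← h0]; congr 1 <;> ring)
  have h2 : ∀ α β γ α' β' γ', φ α β γ = φ α' β' γ' → α = α' ∧ β = β' ∧ γ = γ' := fun α β γ α' β' γ' e => by
    have := hm α β γ (-α') (-β') (-γ' - k * α' * β')
    rw [← h1, ← e, mul_inv_cancel] at this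
    obtain ⟨e1, e2, e3⟩ := hi _ _ _ this.symm
    obtain rfl : α = α' := by linear_combination e1
    obtain rfl : β = β' := by linear_combination e2
    exact ⟨rfl, rfl, by linear_combination e3⟩
  have h3 : ∀ α β γ α' β' γ', φ α β γ * φ α' β' γ' * (φ α β γ)⁻¹ * (φ α' β' γ')⁻¹ = φ 0 0 (k * (α * β' - β * α')) :=
    fun α β γ α' β' γ' => by rw [h1, h1, hm, hm, hm]; congr 1 <;> ring
  let H : Subgroup G :=
    { carrier := {g | ∃ α β γ, g = φ α β γ}
      one_mem' := ⟨0, 0, 0, h0.symm⟩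
      mul_mem' := by rintro _ _ ⟨α, β, γ, rfl⟩ ⟨α', β', γ', rfl⟩; exact ⟨_, _, _, hm ..⟩
      inv_mem' := by rintro _ ⟨α, β, γ, rfl⟩; exact ⟨_, _, _, h1 ..⟩ }
  let Z : Subgroup G :=
    { carrier := {g | ∃ γ, g = φ 0 0 γ}
      one_mem' := ⟨0, h0.symm⟩
      mul_mem' := by rintro _ _ ⟨γ, rfl⟩ ⟨γ', rfl⟩; exact ⟨_, by rw [hm, add_zero]⟩
      inv_mem' := by rintro _ ⟨γ, rfl⟩; exact ⟨_, by rw [h1, neg_zero]⟩ }
  have c1 : Nat.card H = Nat.card F ^ 3 := by
    rw [pow_three, ← Nat.card_prod, ← Nat.card_prod]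
    refine (Nat.card_eq_of_bijective (fun x : F × F × F => (⟨φ x.1 x.2.1 x.2.2, _, _, _, rfl⟩ : H))
      ⟨fun x y e => ?_, fun ⟨_, α, β, γ, e⟩ => ⟨(α, β, γ), Subtype.ext e.symm⟩⟩).symm
    obtain ⟨e1, e2, e3⟩ := h2 _ _ _ _ _ _ (congrArg Subtype.val e)
    exact Prod.ext e1 (Prod.ext e2 e3)
  have c2 : Nat.card Z = Nat.card F := (Nat.card_eq_of_bijective (fun x : F => (⟨φ 0 0 x, _, rfl⟩ : Z))
    ⟨fun x y e => (h2 _ _ _ _ _ _ (congrArg Subtype.val e)).2.2, fun ⟨_, γ, e⟩ => ⟨γ, Subtype.ext e.symm⟩⟩).symm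
  refine ⟨H, Z, ⟨fun _ ⟨γ, e⟩ => ⟨_, _, _, e⟩, ?_, ?_, ?_⟩, ?_, by rw [c1, c2, pow_succ], fun _ => id, fun γ => ⟨γ, rfl⟩⟩
  · rintro _ ⟨γ', rfl⟩ _ ⟨α, β, γ, rfl⟩
    rw [hm, hm]; congr 1 <;> ring
  · rintro _ ⟨α, β, γ, rfl⟩ _ ⟨α', β', γ', rfl⟩
    exact ⟨_, h3 ..⟩
  · rintro _ ⟨α, β, γ, rfl⟩ hx _ ⟨δ, rfl⟩
    by_cases ha : α = 0
    · have hb : β ≠ 0 := fun hb => hx ⟨γ, by rw [ha, hb]⟩
      exact ⟨_, ⟨-δ / (k * β), 0, 0, rfl⟩, by rw [h3]; congr 1; field_simp; ring⟩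
    · exact ⟨_, ⟨0, δ / (k * α), 0, rfl⟩, by rw [h3]; congr 1; field_simp; ring⟩
  · have := Fintype.ofFinite F
    obtain ⟨n, -, e⟩ := FiniteField.card F p
    exact .of_card (n := n * 3) (by rw [c1, Nat.card_eq_fintype_card, e, pow_mul])

omit [Finite F] [FiniteDimensional F V] in
theorem nz {K : Subgroup f.E} (h : ∀ g ∈ K, g.1 u = u) : Nz K (Qg f u) := fun g hg x hx => by
  have := conj_mem_U (E_le_O g.2) (show x.1 ∈ f.U u from hx)
  rwa [h g hg] at this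

omit [Finite F] in
theorem exists_c (hf : f.Nondeg) (hn : 7 ≤ finrank F V) (hu : f.q u = 0) (huu : f.B u u' = 1) (y z : V) :
    ∃ c, f.q c ≠ 0 ∧ f.B u c = 0 ∧ f.B u' c = 0 ∧ f.B y c = 0 ∧ f.B z c = 0 := by
  classical
  by_contra! h
  let W := f.perp (span F (({u, u', y, z} : Finset V) : Set V))
  have hW : ∀ c ∈ W, f.B u c = 0 ∧ f.B u' c = 0 ∧ f.B y c = 0 ∧ f.B z c = 0 := fun c hc => by
    simpa using f.mem_perp_span.1 hc
  have h1 := hf.finrank_add_finrank_perp (span F (({u, u', y, z} : Finset V) : Set V))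
  have h2 := (finrank_span_finset_le_card (R := F) ({u, u', y, z} : Finset V)).trans Finset.card_le_four
  have h3 : u ∉ W := fun e => one_ne_zero (huu ▸ f.B_eq_zero_symm (hW u e).2.1)
  have h4 : f.TotSing (W ⊔ F ∙ u) := (quad_totSing_iff f _).2 fun w hw => by
    obtain ⟨c, hc, _, hd, rfl⟩ := mem_sup.1 hw
    obtain ⟨t, rfl⟩ := mem_span_singleton.1 hd
    obtain ⟨e1, e2, e3, e4⟩ := hW c hc
    have : f.q c = 0 := by_contra fun e => h c e e1 e2 e3 e4
    rw [f.q_add_of_B_eq_zero (by rw [f.B_smul_right, f.B_eq_zero_symm e1, mul_zero]), this, f.q_smul_eq_zero hu,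
      add_zero]
  have h5 := h4.two_mul_finrank_le hf
  rw [finrank_sup_span_singleton h3] at h5
  rw [Set.finrank] at h2
  simp only [W] at h5
  omega

end OrD

open OrD

/-- `y = 0`: `ei = 1` (`U_zero`).  Else `X = {g ∈ Qg f y | g u = u, g u' = u'}` is a `p`-group (`card_Qg` with a partner of `y`)
normalising `Qg f u`, so fixes the `U u`-orbit of some `a` (`exists_fix_orbit`).  For any `b` take `g` from `h.ft` (`g a ∈ U u b`,
`g y = l y`, Levi): `g` normalises `X` (`conj_mem_U`, `U_smul`) and `U u`, so `X` fixes the orbit of `g a`, i.e. of `b` (`okr_iff`). -/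
theorem St.long_cop (h : St f ω) {p : ℕ} [Fact p.Prime] [CharP F p] (hu : f.q u = 0) (hu' : f.q u' = 0)
    (huu : f.B u u' = 1) (hM : ¬ p ∣ Nat.card (orbitRel.Quotient (Qg f u) (orbit f.E ω))) :
    Long f u u' (okr (Qg f u) (orbit f.E ω)) := by
  intro y hy z hz qy qz yz
  have := Module.finite_of_finite F (M := V)
  have : Finite (V ≃ₗ[F] V) := Finite.of_injective _ DFunLike.coe_injective
  by_cases h0 : y = 0
  · have : f.ei y z 0 = 1 := by
      have := ei_mem_U (f := f) y z 0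
      rwa [h0, U_zero, Subgroup.mem_bot, ← h0] at this
    simp only [this]; exact one_mem _
  let X : Subgroup f.E := Qg f y ⊓ stabilizer f.E u
  have hX : IsPGroup p X := ((AutForm.U_isPGroup h.nd p qy).comap_subtype (K := f.E)).to_inf_left
  obtain ⟨a, ha⟩ := exists_fix_orbit (Ω := orbit f.E ω) hX (nz fun g hg => hg.2) hM
  refine okr_iff.2 fun b hb => ?_
  obtain ⟨g, c, hg, ⟨l, hl⟩, x₀, e₀⟩ := h.ft hu hu' huu hy h0 qy a a.2 b hb
  have ok : f.EichOK y z 0 := ⟨qy, yz, qz.symm⟩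
  have eu : f.ei y z 0 u = u := ok.ei_apply_fix (f.B_eq_zero_symm ((mem_perp_span_pair f).1 hy).1) (f.B_eq_zero_symm ((mem_perp_span_pair f).1 hz).1)
  have l0 : l ≠ 0 := fun e => h0 (g.injective (by rw [hl, e, zero_smul, map_zero]))
  have gO := E_le_O hg.mem
  obtain ⟨x, hx, e⟩ := ha ⟨g⁻¹ * f.ei y z 0 * g, mul_mem (mul_mem (inv_mem hg.mem) (ei_mem_E _ _ _)) hg.mem⟩ ⟨by
    have := conj_mem_U (inv_mem gO) (ei_mem_U (f := f) y z 0)
    rwa [inv_apply_smul hl l0, U_smul qy (inv_ne_zero l0), inv_inv] at this, by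
    show g⁻¹ (f.ei y z 0 (g u)) = u
    rw [hg.left, map_smul, eu, ← hg.left]; exact g.symm_apply_apply u⟩
  replace e : (g⁻¹ * f.ei y z 0 * g) • a.1 = x.1 • a.1 := congrArg Subtype.val e
  replace e₀ : x₀.1 • b = g • a.1 := e₀
  have h1 : g * x.1 * g⁻¹ ∈ f.U u := by
    have := conj_mem_U gO (show x.1 ∈ f.U u from hx)
    rwa [hg.left, U_smul hu hg.ne] at this
  have h2 : f.ei y z 0 * x₀.1⁻¹ * (f.ei y z 0)⁻¹ ∈ f.U u := by
    have := conj_mem_U (ei_mem_O (f := f) y z 0) (inv_mem x₀.2)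
    rwa [eu] at this
  refine ⟨⟨_, mul_mem (mul_mem h2 h1) x₀.2⟩, ?_⟩
  show (f.ei y z 0 * x₀.1⁻¹ * (f.ei y z 0)⁻¹ * (g * x.1 * g⁻¹) * x₀.1) • b = f.ei y z 0 • b
  rw [mul_smul, e₀, mul_smul, ← mul_smul _ g, inv_mul_cancel_right, mul_smul g, ← e, ← mul_smul g,
    show g * (g⁻¹ * f.ei y z 0 * g) = f.ei y z 0 * g by group, mul_smul _ g, ← e₀, ← mul_smul, ← mul_smul]
  congr 1; group

/-- `y = 0` or `z ∈ F ∙ y`: `ei y z 0 = 1` (`U_zero`, `ei_add_smul_u`).  Else there is a nonsingular `c ⊥ u, u', y, z` (else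
`⟨u⟩ ⊔ ⟨u, u', y, z⟩^⊥` is totally singular of dimension `≥ D - 3`, `TotSing.two_mul_finrank_le`).
`φ α β γ = ei y (α c + γ z) (α² q c) * ei z (β c) (β² q c)` satisfies `φ α β γ * φ α' β' γ' = φ (α + α') (β + β') (γ + γ' + k α' β)`,
`k = ± 2 q c ≠ 0` (`conj_ei`, `ei_mul`, `ei_apply`), is injective, so its image `H` is Heisenberg over `Z = φ 0 0 F`,
`|H| = q² |Z|`, a `p`-group fixing `u` (`nz_Q`): `Heis.le_okr` with `e = q`. -/
theorem long_heis (hf : f.Nondeg) (hn : 7 ≤ finrank F V) (h2 : (2 : F) ≠ 0) (hu : f.q u = 0) (hu' : f.q u' = 0)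
    (huu : f.B u u' = 1) (hM : Nat.card (orbitRel.Quotient (Qg f u) (orbit f.E ω)) ≤ Nat.card F) :
    Long f u u' (okr (Qg f u) (orbit f.E ω)) := by
  intro y hy z hz qy qz yz
  have := Module.finite_of_finite F (M := V)
  have : Finite (V ≃ₗ[F] V) := Finite.of_injective _ DFunLike.coe_injective
  by_cases h0 : y = 0
  · have : f.ei y z 0 = 1 := by
      have := ei_mem_U (f := f) y z 0
      rwa [h0, U_zero, Subgroup.mem_bot, ← h0] at this
    simp only [this]; exact one_mem _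
  by_cases h1 : z ∈ F ∙ y
  · obtain ⟨t, rfl⟩ := mem_span_singleton.1 h1
    have := (EichOK.zero qy).ei_add_smul_u t
    simp only [zero_add, quad_σ, quad_ε, one_mul, sub_self, ei_zero] at this
    simp only [this]; exact one_mem _
  have li : ∀ s t : F, s • y + t • z = 0 → s = 0 ∧ t = 0 := fun s t e => by
    have ht : t = 0 := by_contra fun ht => h1 (mem_span_singleton.2 ⟨-(t⁻¹ * s), by
      rw [← sub_eq_zero, ← neg_eq_zero, ← smul_zero t⁻¹, ← e]; simp [smul_smul, ht, add_comm]⟩)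
    exact ⟨by simpa [ht, h0] using e, ht⟩
  obtain ⟨c, qc, c1, -, c3, c4⟩ := exists_c hf hn hu huu y z
  have c3' := f.B_eq_zero_symm c3
  have c4' := f.B_eq_zero_symm c4
  have zy := f.B_eq_zero_symm yz
  have zz := f.B_self_eq_zero qz
  have cc := quad_B_self f c
  have oa : ∀ α γ : F, f.EichOK y (α • c + γ • z) (α ^ 2 * f.q c) := fun α γ => ⟨qy, by simp [c3, yz], by
    rw [quad_π, quad_q_add, quad_q_smul, quad_q_smul, qz]; simp [c4']⟩
  have ob : ∀ β : F, f.EichOK z (β • c) (β ^ 2 * f.q c) := fun β => ⟨qz, by simp [c4], by rw [quad_π, quad_q_smul]⟩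
  let a : F → F → V ≃ₗ[F] V := fun α γ => f.ei y (α • c + γ • z) (α ^ 2 * f.q c)
  let b : F → V ≃ₗ[F] V := fun β => f.ei z (β • c) (β ^ 2 * f.q c)
  have aa : ∀ α γ α' γ', a α γ * a α' γ' = a (α + α') (γ + γ') := fun α γ α' γ' => by
    rw [(oa α γ).ei_mul (oa α' γ')]
    congr 1
    · module
    · simp [cc, c4, c4', zz, quad_σ]; ring
  have bb : ∀ β β', b β * b β' = b (β + β') := fun β β' => by
    rw [(ob β).ei_mul (ob β')]
    congr 1
    · module
    · simp [cc, quad_σ]; ring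
  have ba : ∀ β α γ, b β * a α γ = a α (γ - 2 * f.q c * β * α) * b β := fun β α γ => by
    rw [← mul_inv_eq_iff_eq_mul, (oa α γ).conj_ei (ei_mem_O _ _ _), (ob β).ei_apply_fix zy (by simp [c3']),
      (ob β).ei_apply_of_perp (by simp [c4, zz])]
    congr 1
    simp only [B_add_right, B_smul_right, B_smul_left, cc, c4', quad_σ, quad_ε]
    module
  have hk : 2 * f.q c ≠ 0 := mul_ne_zero h2 qc
  have := Fintype.ofFinite F
  obtain ⟨p, _, n, hp, -⟩ := FiniteField.card' F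
  have := Fact.mk hp
  obtain ⟨H, Z, e1, e2, e3, e4, e5⟩ := heis3 (p := p) (G := f.E)
    (φ := fun α β γ => ⟨a α γ * b β, mul_mem (ei_mem_E _ _ _) (ei_mem_E _ _ _)⟩) hk
    (fun α β γ α' β' γ' => Subtype.ext (by
      show a α γ * b β * (a α' γ' * b β') = a (α + α') (γ + γ' - 2 * f.q c * β * α') * b (β + β')
      rw [mul_assoc, ← mul_assoc (b β), ba, mul_assoc, bb, ← mul_assoc, aa, add_sub_assoc]))
    fun α β γ e => by
      replace e : a α γ * b β = 1 := congrArg Subtype.val e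
      have e1 : a α γ (b β c) = c := by rw [← LinearEquiv.mul_apply, e]; rfl
      rw [(ob β).ei_apply_of_perp c4, (oa α γ).ei_apply_of_perp (by simp [c3, yz])] at e1
      simp only [B_add_left, B_sub_right, B_smul_right, B_smul_left, cc, c4, c4', zz, quad_σ, quad_ε] at e1
      obtain ⟨e2, e3⟩ := li (α * (2 * f.q c)) (β * (2 * f.q c)) (by linear_combination (norm := module) -e1)
      obtain rfl : α = 0 := (mul_eq_zero.1 e2).resolve_right hk
      obtain rfl : β = 0 := (mul_eq_zero.1 e3).resolve_right hk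
      obtain ⟨w, -, hw⟩ := hf.exists_partner' qy h0
      have e4 : b 0 = 1 := by simp [b, ei_zero]
      rw [e4, mul_one] at e
      have e5 : a 0 γ w = w := by rw [e]; rfl
      rw [(oa 0 γ).ei_apply, hw] at e5
      exact ⟨rfl, rfl, (li (-((quad F).ε * (f.B ((0 : F) • c + γ • z) w + 0 ^ 2 * f.q c * 1))) γ
        (by linear_combination (norm := module) e5)).2⟩
  have := e1.le_okr (Ω := orbit f.E ω) e2 (nz (u := u) fun g hg => by
    obtain ⟨α, β, γ, rfl⟩ := e4 g hg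
    have u1 := f.B_eq_zero_symm c1
    have u2 := f.B_eq_zero_symm ((mem_perp_span_pair f).1 hy).1
    have u3 := f.B_eq_zero_symm ((mem_perp_span_pair f).1 hz).1
    show a α γ (b β u) = u
    rw [(ob β).ei_apply_fix u3 (by simp [u1]), (oa α γ).ei_apply_fix u2 (by simp [u1, u3])]) e3
    (hM.trans_lt (lt_mul_left Nat.card_pos hp.one_lt)) (e5 1)
  simpa [a, b, ei_zero] using this

end CL.T2.Or
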