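/-
CLAS/T2 (S2193): orthogonal groups, the exponent of `P_u / Q_u Ω(W)`.
-/
import Cfsg.Agent.CLAS.T2.Or0

set_option autoImplicit false

namespace CL.T2.Or

open Module CL.Witt CL.Witt.Form CL.Root CL.Coop MulAction Submodule FormType CL.T2.Pol

variable {F : Type*} [Field F] [Finite F] {V : Type*} [AddCommGroup V] [Module F V] [FiniteDimensional F V]
  {f : Form (quad F) V} {u u' : V}

namespace OrE

theorem sq_mem_E (hf : f.Nondeg) (h2 : f.Idx2) {a : V ≃ₗ[F] V} (ha : a ∈ f.O) : a ^ 2 ∈ f.E := by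
  let M : Subgroup (V ≃ₗ[F] V) :=
    { carrier := {a | a ∈ f.O ∧ a ^ 2 ∈ f.E}
      one_mem' := ⟨one_mem _, by rw [one_pow]; exact one_mem _⟩
      mul_mem' := fun {a b} ha hb => ⟨mul_mem ha.1 hb.1, by
        have e : (a * b) ^ 2 = a ^ 2 * (a⁻¹ * b * a⁻¹⁻¹ * b⁻¹) * b ^ 2 := by simp only [pow_two]; group
        rw [e]
        exact mul_mem (mul_mem ha.2 (hf.commutator_O_le_E h2
          (Subgroup.commutator_mem_commutator (inv_mem ha.1) hb.1))) hb.2⟩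
      inv_mem' := fun {a} ha => ⟨inv_mem ha.1, by rw [inv_pow]; exact inv_mem ha.2⟩ }
  refine (hf.O_le (M := M) (fun p _ c h => ⟨f.rk1Equiv_mem_O p c h, ?_⟩)
    (fun e he => ⟨E_le_O he, pow_mem he 2⟩) ha).2
  have e : (f.rk1Equiv p c h)⁻¹ = f.rk1Equiv p c h := by
    ext v
    refine (f.rk1Equiv_symm_apply p c h v).trans ?_
    rw [rk1Equiv_apply]
    change v + (1 * c * _) • p = _
    rw [one_mul]
  rw [pow_two]
  nth_rewrite 1 [← e]
  rw [inv_mul_cancel]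
  exact one_mem _

theorem pow_apply {l : V ≃ₗ[F] V} {c : F} (e : l u = c • u) (n : ℕ) : (l ^ n) u = c ^ n • u := by
  induction n with
  | zero => simp
  | succ n ih => rw [pow_succ', LinearEquiv.mul_apply, ih, map_smul, e, smul_smul, pow_succ]

end OrE

/-- `W = Wp f u u'`, `f' = f.restrict W` (`nondeg_Wp`, `idx2_Wp`), `j = extR (f.isCompl_perp_pair hu hu' huu)` (`extR_ei`).
`j (f'.E) ≤ K` (`Idx2.E_le`; `π a = 0` means `a = 0`).  `a ^ 2 ∈ f'.E` for `a ∈ f'.O` (`Nondeg.O_le` for the subgroup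
`{a ∈ O | a ^ 2 ∈ E}`, `commutator_O_le_E`, `rk1Equiv ^ 2 = 1`).  `g = x⁻¹ l`, `x ∈ U u`, `l u = c u`, `l u' = c⁻¹ u'`
(`exists_mem_U_apply_eq`); `l ^ (q - 1)` fixes `u, u'`, so is `j a`, `a ∈ f'.O`, and `l ^ (2 (q - 1)) = j (a ^ 2) ∈ K`;
`g ≡ l` modulo `K` (normalised by `l`). -/
theorem pow_mem (hf : f.Nondeg) (hn : 7 ≤ finrank F V) (hu : f.q u = 0) (hu' : f.q u' = 0) (huu : f.B u u' = 1)
    {h0 : u ≠ 0} {K : Subgroup f.E} (hQ : Qg f u ≤ K) (hK : Nz (stabilizer f.E (pt u h0 hu : Pt f)) K)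
    (h : Long f u u' K) : ∀ g ∈ stabilizer f.E (pt u h0 hu : Pt f), g ^ (2 * (Nat.card F - 1)) ∈ K := by
  intro g hg
  classical
  have := Fintype.ofFinite F
  have gO : g.1 ∈ f.O := E_le_O g.2
  obtain ⟨c, hc⟩ := smul_pt_eq.1 (mem_stabilizer_iff.1 hg)
  have c0 : c ≠ 0 := fun e => ne0 g h0 (by rw [hc, e, zero_smul])
  have hB : f.B u (g.1 u') = c⁻¹ := by
    have := mem_O_B gO u u'
    rw [hc, huu, B_smul_left] at this
    exact eq_inv_of_mul_eq_one_right this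
  obtain ⟨x, hx, ex⟩ := exists_mem_U_apply_eq (w := g.1 u') (w' := c⁻¹ • u') hu
    (by rw [mem_O_q gO, hu', f.q_smul_eq_zero hu']) (by rw [hB, B_smul_right, huu, mul_one])
    (by rw [hB]; exact inv_ne_zero c0)
  set X : f.E := ⟨x, U_le_E u hx⟩ with hX
  have XQ : X ∈ Qg f u := hx
  have xu : x u = u := by
    obtain ⟨v, a, k, e⟩ := (mem_Qg hu).1 XQ
    have e' : x = f.ei u v a := e
    rw [e', k.ei_apply, k.huu, k.hvu]; simp
  have key : ∀ n : ℕ, g ^ n * ((X * g) ^ n)⁻¹ ∈ K := fun n => by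
    induction n with
    | zero => simp
    | succ n ih =>
      have e : g ^ (n + 1) * ((X * g) ^ (n + 1))⁻¹ = g ^ n * X⁻¹ * (g ^ n)⁻¹ * (g ^ n * ((X * g) ^ n)⁻¹) := by
        rw [pow_succ, pow_succ]; group
      rw [e]
      exact mul_mem (hK _ (Subgroup.pow_mem _ hg n) _ (inv_mem (hQ XQ))) ih
  have l1 : (X * g).1 u = c • u := by
    change x (g.1 u) = _
    rw [hc, map_smul, xu]
  have l2 : (X * g).1 u' = c⁻¹ • u' := ex
  have hj := f.isCompl_perp_pair hu hu' huu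
  obtain ⟨a, ha, ea⟩ := f.exists_extR_eq hj (g := (X * g).1 ^ (Nat.card F - 1)) (Subgroup.pow_mem _ (E_le_O (X * g).2) _)
    (fun w hw => by
      obtain ⟨s, t, rfl⟩ := Submodule.mem_span_pair.1 hw
      rw [map_add, map_smul, map_smul, OrE.pow_apply l1, OrE.pow_apply l2, Nat.card_eq_fintype_card,
        FiniteField.pow_card_sub_one_eq_one c c0, FiniteField.pow_card_sub_one_eq_one _ (inv_ne_zero c0), one_smul, one_smul])
  have hE : (f.restrict (Wp f u u')).E ≤ (K.map f.E.subtype).comap (extR hj) := by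
    refine (idx2_Wp hf hn hu hu' huu).E_le (nondeg_Wp hf hu hu' huu) (fun y b hy hb => ?_) fun y z hy hz hyz => ?_
    · have b0 : b = 0 := hb
      subst b0
      exact ⟨_, h y y.2 0 (zero_mem _) hy f.q_zero (by simp), (f.extR_ei hj le_rfl y 0 0).symm⟩
    · exact ⟨_, h y y.2 z z.2 hy hz hyz, (f.extR_ei hj le_rfl y z 0).symm⟩
  obtain ⟨k, hk, ek⟩ := hE (OrE.sq_mem_E (nondeg_Wp hf hu hu' huu) (idx2_Wp hf hn hu hu' huu) ha)
  have e : k = (X * g) ^ (2 * (Nat.card F - 1)) := Subtype.ext (by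
    refine ek.trans ?_
    rw [map_pow, ea, ← pow_mul, mul_comm]; rfl)
  have := mul_mem (key (2 * (Nat.card F - 1))) (e ▸ hk)
  rwa [inv_mul_cancel_right] at this

end CL.T2.Or
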