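/-
CLAS/T2 (S2193): orthogonal groups, the block equation.
-/
import Cfsg.Agent.CLAS.T2.OrA
import Cfsg.Agent.CLAS.T2.OrC
import Cfsg.Agent.CLAS.T2.OrD
import Cfsg.Agent.CLAS.T2.OrE

set_option autoImplicit false

namespace CL.T2.Or

open Module CL.Witt CL.Witt.Form CL.Root CL.Coop MulAction Submodule FormType CL.T2.Pol

theorem prime_dvd {G Ω : Type*} [Group G] [Finite G] [MulAction G Ω] [Finite Ω] [Nonempty Ω] {P Q : Subgroup G}
    (hP : Tr P Ω) (hQ : Q ≤ P) (hn : Nz P Q) {e r : ℕ} (he : ∀ g ∈ P, g ^ e ∈ okr Q Ω) (hr : r.Prime)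
    (hd : r ∣ Nat.card (orbitRel.Quotient Q Ω)) : r ∣ e := by
  obtain ⟨ω⟩ := ‹Nonempty Ω›
  obtain ⟨h1, h2⟩ := hP.relIndex hQ hn ω
  have := Fact.mk hr
  have hN : ((okr Q Ω).subgroupOf P).Normal := ⟨fun x hx g => hn.okr g g.2 x hx⟩
  have h3 : r ∣ Nat.card (P ⧸ (okr Q Ω).subgroupOf P) :=
    (h1 ▸ hd).trans (Subgroup.index_dvd_of_le fun x hx => (h2 x).2 ⟨x.2, hx ω⟩)
  obtain ⟨x, hx⟩ := exists_prime_orderOf_dvd_card' r h3
  obtain ⟨g, rfl⟩ := QuotientGroup.mk_surjective x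
  rw [← hx, orderOf_dvd_iff_pow_eq_one, ← QuotientGroup.mk_pow, QuotientGroup.eq_one_iff]
  exact he g g.2

variable {F : Type*} [Field F] [Finite F] {V : Type*} [AddCommGroup V] [Module F V] [FiniteDimensional F V]
  {f : Form (quad F) V} {p : ℕ} [Fact p.Prime] [CharP F p]

theorem St.of (hf : f.Nondeg) (hn : 7 ≤ finrank F V) {G Ω Ω' : Type*} [Group G] [MulAction G Ω] [MulAction (V ≃ₗ[F] V) Ω']
    (π : f.E →* G) (hπ : Function.Surjective π) (h1 : ∀ g, π g = 1 → ∃ c : F, ∀ v, g.1 v = c • v) (tw : Tw G Ω)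
    (hU : ∀ U : Sylow p G, Tr (Subgroup.normalizer (U : Set G)) Ω) {ω : Ω} {o : Ω'}
    (key : ∀ g : f.E, g • o = o ↔ π g • ω = ω) : St f o := by
  replace key : ∀ g k : f.E, g • o = k • o ↔ π g • ω = π k • ω := fun g k => by
    rw [← inv_smul_eq_iff, ← mul_smul, ← inv_smul_eq_iff, ← map_inv, ← mul_smul, ← map_mul]
    exact key _
  have hr : ∀ a, ∃ k, π k • ω = a := fun a => by
    obtain ⟨g, rfl⟩ := tw.pre.1 ω a
    obtain ⟨g, rfl⟩ := hπ g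
    exact ⟨g, rfl⟩
  choose r hr using hr
  let e : Ω → orbit f.E o := fun a => ⟨r a • o, mem_orbit _ _⟩
  have e1 : Function.Injective e := fun a b h => by
    rw [← hr a, ← hr b]; exact (key _ _).1 (congrArg Subtype.val h)
  have e2 : Function.Surjective e := fun ⟨_, k, h⟩ => ⟨π k • ω, Subtype.ext (((key _ _).2 (hr _)).trans h)⟩
  have e3 : ∀ g a, e (π g • a) = g • e a := fun g a => Subtype.ext (by
    change r _ • o = g • r a • o
    rw [← mul_smul, key, hr, map_mul, mul_smul, hr])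
  have := tw.nt
  refine ⟨hf, hn, ?_, fun hu hu' huu hy h0 hq a ha b hb => ?_⟩
  · refine ⟨e1.nontrivial, fun a b c d h2 h3 => ?_⟩
    obtain ⟨a, rfl⟩ := e2 a
    obtain ⟨b, rfl⟩ := e2 b
    obtain ⟨c, rfl⟩ := e2 c
    obtain ⟨d, rfl⟩ := e2 d
    obtain ⟨g, h4, h5⟩ := tw.two a b c d (fun h => h2 (h ▸ rfl)) fun h => h3 (h ▸ rfl)
    obtain ⟨g, rfl⟩ := hπ g
    exact ⟨g, by rw [← e3, h4], by rw [← e3, h5]⟩
  obtain ⟨U, h⟩ := flag_of_sylow hf hn (p := p) π hπ h1 hu hu' huu hy h0 hq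
  obtain ⟨a, ea⟩ := e2 ⟨a, ha⟩
  obtain ⟨b, eb⟩ := e2 ⟨b, hb⟩
  obtain ⟨g, hg, h2⟩ := hU U a b
  obtain ⟨g, rfl⟩ := hπ g
  obtain ⟨x, hx, c, h3, h4⟩ := h g hg
  have h5 := e3 g a
  rw [h2, ea, eb] at h5
  exact ⟨_, c, h3, h4, ⟨x, hx⟩, by rw [mul_smul]; exact congrArg (x • ·.1) h5⟩

theorem bridge (hf : f.Nondeg) (hn : 7 ≤ finrank F V) {G Ω : Type*} [Group G] [MulAction G Ω]
    (π : f.E →* G) (hπ : Function.Surjective π) (h1 : ∀ g, π g = 1 → ∃ c : F, ∀ v, g.1 v = c • v) (tw : Tw G Ω)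
    (hU : ∀ U : Sylow p G, Tr (Subgroup.normalizer (U : Set G)) Ω) :
    ∃ (K : Subgroup (V ≃ₗ[F] V)) (ω : (V ≃ₗ[F] V) ⧸ K), St f ω :=
  let ⟨ω, _⟩ := tw.nt
  ⟨((stabilizer G ω).comap π).map f.E.subtype, QuotientGroup.mk 1, St.of hf hn π hπ h1 tw hU (ω := ω) fun g =>
    (SetLike.ext_iff.mp (stabilizer_quotient _) g.1).trans
      (Subgroup.mem_map_iff_mem (f := f.E.subtype) (K := (stabilizer G ω).comap π) Subtype.val_injective)⟩

variable (p) in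
theorem St.core {Ω : Type*} [MulAction (V ≃ₗ[F] V) Ω] [Finite Ω] {ω : Ω} (h : St f ω) {q κ : ℕ} (hq : Nat.card F = q)
    (hκ : q ^ (finrank F V - 2) = κ) : ∃ μ M b : ℕ, (1 + q * μ + κ) * (q - 1) + 1 = Nat.card {v // f.q v = 0} ∧ 2 ≤ M ∧
      b * (M * κ - 1) = (1 + q * μ + κ) * (κ - 1) ∧
      (¬ p ∣ M ∨ (2 : F) ≠ 0 ∧ M ≤ q → ∀ r, r.Prime → r ∣ M → r ∣ 2 * (q - 1)) := by
  subst hq
  have : Finite V := Module.finite_of_finite F
  have : Finite (V ≃ₗ[F] V) := Finite.of_injective _ DFunLike.coe_injective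
  have hf := h.nd
  have hn := h.dim
  have h2 := (quad_iso3 f).idx2 hf (by omega)
  obtain ⟨u, u', y, y', hu, hu', huu, hy, -, hyy, b1, -, b2, -⟩ := id h2
  have h0 : u ≠ 0 := fun e => by simp [e] at huu
  have h0' : u' ≠ 0 := fun e => by simp [e] at huu
  have hP : Tr (stabilizer f.E (pt u h0 hu : Pt f)) (orbit f.E ω) := fun a b => by
    obtain ⟨g, c, hg, -, x, e⟩ := h.ft hu hu' huu (f.mem_perp_span_pair.2 ⟨b1, b2⟩) (fun e => by simp [e] at hyy) hy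
      a.1 a.2 b.1 b.2
    exact ⟨(⟨x.1, U_le_E u x.2⟩ : f.E)⁻¹ * ⟨g, hg.mem⟩, mul_mem (inv_mem (Qg_le x.2)) (smul_pt_eq.2 ⟨c, hg.left⟩), by
      rw [mul_smul, inv_smul_eq_iff]; exact Subtype.ext e.symm⟩
  obtain ⟨κ', b, a1, -, a2, -⟩ := h.tw.blk nz_Q hP
  obtain ⟨μ, -, -, e3, -⟩ := counts hf hu hu' huu (h0 := h0) (h0' := h0')
  have := pre hf h2.big
  have := h.tw.nt
  obtain ⟨a⟩ : Nonempty (orbit f.E ω) := inferInstance
  have e1 : κ = κ' := by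
    have e := a1 a
    rw [(Subgroup.eq_bot_iff_forall (Qg f u ⊓ stabilizer f.E a)).2 fun x hx => ?_, Subgroup.card_bot, mul_one,
      card_Qg hf hu hu' huu, card_ker_quad, mul_one, hκ] at e
    · exact e
    obtain ⟨v, c, e1, e2, e4⟩ := exists_ei_Wp hu huu (show x.1 ∈ f.U u from hx.1)
    obtain rfl := h.semi hu hu' huu a.1 a.2 v (mem_Aw.2 ⟨⟨c, e1, e4 ▸ congrArg Subtype.val hx.2⟩, e2⟩)
    obtain rfl : c = 0 := e1.ha.trans f.q_zero
    exact Subtype.ext (e4.trans (ei_zero u))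
  subst e1
  have e2 := card_orbits a1
  rw [card_ker_quad, mul_one, hκ] at e3
  rw [index_stabilizer_of_transitive, e3, ← e2] at a2
  have e4 := card_mul (f := f) (fun _ => True) (fun _ => True) fun _ _ _ => Iff.rfl
  rw [Nat.card_congr (Equiv.subtypeUnivEquiv fun _ => trivial), e3] at e4
  refine ⟨μ, _, b, by simpa [e4] using (card_zero_succ f.q f.q_zero).symm, ?_, a2, fun hM r hr => prime_dvd hP Qg_le nz_Q
    (pow_mem hf hn hu hu' huu (le_okr _) nz_Q.okr (hM.elim (h.long_cop hu hu' huu) fun e =>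
      long_heis hf hn e.1 hu hu' huu e.2)) hr⟩
  by_contra hM
  refine poor_quad (ω := ω) hf hn hu hu' huu ?_ fun a ha z x hz hx => by_contra fun hx' => ?_
  · have := Nat.mul_le_mul_right κ (show Nat.card (orbitRel.Quotient (Qg f u) (orbit f.E ω)) ≤ 1 by omega)
    have : 0 < κ := hκ ▸ pow_pos Nat.card_pos _
    omega
  · have hz0 : f.q z = 0 := hx.elim fun _ e => e.1.hu
    obtain ⟨z', h3, h4⟩ := hf.exists_partner' hz0 hz
    obtain ⟨v, hv, hv0⟩ := exists_mem_Aw (hu := hz0) h3 h4 hx hx'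
    exact hv0 (h.semi hz0 h3 h4 a ha v hv)

end CL.T2.Or
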