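/-
CLAS/T2 (S2193): orthogonal groups
-/
import Cfsg.Agent.CLAS.T2.Fish
import Cfsg.Agent.CLAS.T2.Heis
import Cfsg.Agent.CLAS.T2.TrB
import Cfsg.Agent.CLAS.T2.OrF

set_option autoImplicit false

namespace CL.T2

open Cfsg Cfsg.Lie

namespace Or

open Module CL.Witt CL.Witt.Form CL.Root CL.Coop CL.Orth

theorem ar0 {R κ M b : ℤ} (hκ : 2 ≤ κ) (hM : 2 ≤ M) (hR : 0 < R) (h : b * (M * κ - 1) = (R + κ) * (κ - 1)) :
    ∃ t, 0 ≤ t ∧ b + κ * t = R ∧ κ * t < R := by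
  have h1 : κ - 1 < M * κ - 1 := by nlinarith
  have h2 : 0 < (R + κ) * (κ - 1) := mul_pos (by omega) (by omega)
  have h3 : 0 < b := (mul_pos_iff_of_pos_right (show 0 < M * κ - 1 by omega)).1 (h ▸ h2)
  have h4 : b < R + κ := lt_of_mul_lt_mul_right (a := κ - 1) (h ▸ mul_lt_mul_of_pos_left h1 h3) (by omega)
  have h5 : b + κ * (R + κ - 1 - b * M) = R := by linear_combination -h
  exact ⟨_, by nlinarith, h5, by omega⟩

theorem ar1 {q μ κ M b : ℤ} (hq : 2 ≤ q) (hκ : 2 ≤ κ) (hM : 2 ≤ M) (hμ : 0 ≤ μ)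
    (h0 : (1 + q * μ + κ) * (q - 1) + 1 = q * κ) (h : b * (M * κ - 1) = (1 + q * μ + κ) * (κ - 1)) : M = q := by
  have hR : 0 < 1 + q * μ := by positivity
  obtain ⟨t, h1, h2, h3⟩ := ar0 hκ hM hR h
  generalize 1 + q * μ = R at *
  obtain rfl : t = 0 := by nlinarith [mul_le_mul_of_nonneg_left (show 1 ≤ q - 1 by omega) hR.le]
  obtain rfl : b = R := by simpa using h2
  refine mul_right_cancel₀ (b := b * κ) (by positivity) ?_
  linear_combination h - κ * h0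

theorem ar2 {q μ M b ε : ℤ} {k : ℕ} (hq : 2 ≤ q) (hε : ε = 1 ∨ ε = -1) (hM : 2 ≤ M) (hμ : 0 ≤ μ)
    (h0 : (1 + q * μ + (q ^ (k + 3)) ^ 2) * (q - 1) = (q * q ^ (k + 3) - ε) * (q ^ (k + 3) + ε))
    (h : b * (M * (q ^ (k + 3)) ^ 2 - 1) = (1 + q * μ + (q ^ (k + 3)) ^ 2) * ((q ^ (k + 3)) ^ 2 - 1)) :
    q = 2 ∧ ¬ 2 ∣ M := by
  have hR : 0 < 1 + q * μ := by positivity
  have hc : IsCoprime (1 + q * μ) (q ^ (k + 3)) := IsCoprime.pow_right ⟨1, -μ, by ring⟩
  have hx : 4 * q ≤ q ^ (k + 3) := by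
    have : 1 ≤ q ^ k := one_le_pow₀ (by omega)
    have : 4 ≤ q ^ 2 := by nlinarith
    rw [show q ^ (k + 3) = q ^ 2 * q ^ k * q by ring]
    gcongr
    nlinarith
  generalize q ^ (k + 3) = x at *
  obtain ⟨t, h1, h2, h3⟩ := ar0 (by nlinarith) hM hR h
  have h4 : (1 + q * μ) * (q - 1) = x ^ 2 - 1 + ε * x * (q - 1) := by
    rcases hε with rfl | rfl <;> linear_combination h0
  rcases h1.eq_or_lt with rfl | h1
  · exfalso
    obtain rfl : b = 1 + q * μ := by simpa using h2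
    have h5 : 1 + q * μ ∣ x ^ 2 - 1 := (hc.pow_right (n := 2)).dvd_of_dvd_mul_left
      ⟨M * x ^ 2 - x ^ 2, by linear_combination -h⟩
    have h6 : 1 + q * μ ∣ x * (q - 1) := by
      have := (dvd_add_right h5).1 (Dvd.intro _ h4)
      rcases hε with rfl | rfl <;> simpa using this
    have h7 := Int.le_of_dvd (by omega) (hc.dvd_of_dvd_mul_left h6)
    obtain rfl : μ = 0 := by nlinarith
    rcases hε with rfl | rfl <;> nlinarith
  have h5 : x ^ 2 < 1 + q * μ := by nlinarith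
  generalize 1 + q * μ = R at *
  have h6 : x ^ 2 * (q - 1) < R * (q - 1) := by gcongr; omega
  obtain rfl : q = 2 := by
    by_contra h7
    have : x ^ 2 * 2 + x ^ 2 * (q - 3) = x ^ 2 * (q - 1) := by ring
    have : 0 ≤ x ^ 2 * (q - 3) := mul_nonneg (by positivity) (by omega)
    rcases hε with rfl | rfl <;> nlinarith
  obtain rfl : ε = 1 := hε.resolve_right fun e => by subst e; nlinarith
  obtain rfl : t = 1 := by nlinarith
  obtain rfl : R = x ^ 2 - 1 + x := by linarith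
  obtain rfl : b = x - 1 := by linarith
  obtain rfl : M = 2 * x + 3 := mul_right_cancel₀ (b := (x - 1) * x ^ 2)
    (mul_pos (by omega) (by positivity)).ne' (by linear_combination h)
  omega

theorem gl {F : Type} [Field F] [Fintype F] {ι : Type} [Fintype ι] [DecidableEq ι] (Q : QuadraticForm F (ι → F))
    (hQ : (QuadraticMap.polarBilin Q).Nondegenerate) {D : ℕ} (hD : Fintype.card ι = D + 2) (h5 : 5 ≤ D) {Ω : Type*}
    {Q' : (ι → F) → F} (e : ⇑Q = Q') [MulAction (POmega F Q') Ω] (tw : Tw (POmega F Q') Ω) {p : ℕ} [Fact p.Prime] [CharP F p]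
    (hU : ∀ U : Sylow p (POmega F Q'), Tr (Subgroup.normalizer (U : Set (POmega F Q'))) Ω) {q : ℕ}
    (hq : Fintype.card F = q) : ∃ μ M b : ℕ, (1 + q * μ + q ^ D) * (q - 1) + 1 = Nat.card {v // Q' v = 0} ∧ 2 ≤ M ∧
      b * (M * q ^ D - 1) = (1 + q * μ + q ^ D) * (q ^ D - 1) ∧
      (¬ p ∣ M ∨ (2 : F) ≠ 0 ∧ M ≤ q → ∀ r, r.Prime → r ∣ M → r ∣ 2 * (q - 1)) := by
  subst e
  have hf := (ofQuad_nondeg_iff Q).mpr hQ
  have hn : finrank F (ι → F) = D + 2 := by rwa [Module.finrank_fintype_fun_eq_card]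
  have h2 := (quad_iso3 _).idx2 hf (by omega)
  obtain ⟨x, hx0, hx⟩ := h2.exists_singular
  obtain ⟨π, hπ, h1⟩ := exists_pi hf (Or.inr (by omega)) hx hx0 ((actE ι F).toMonoidHom.comp
    ((Cfsg.isometryGroup F Q).subtype.comp (Cfsg.Omega F Q).subtype))
    ((actE ι F).injective.comp (Subtype.val_injective.comp Subtype.val_injective)) (by
      ext e
      rw [← act_actE_symm e, ← mem_omegaGL_iff_E hf (by omega)]
      exact ⟨fun ⟨g, hg⟩ => ⟨g.1, g.2, (actE ι F).injective hg⟩,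
        fun ⟨g, hg, h⟩ => ⟨⟨g, hg⟩, congrArg (actE ι F) h⟩⟩)
  obtain ⟨K, ω, h⟩ := bridge hf (by omega) (G := POmega F Q) π hπ h1 tw hU
  have : Finite ((ι → F) ≃ₗ[F] (ι → F)) := Finite.of_injective _ DFunLike.coe_injective
  exact h.core p (Nat.card_eq_fintype_card.trans hq) (by rw [hn]; rfl)

end Or

open CL.T2.Or CL.Orth CL.FormCount

variable {F : Type} [Field F] [Fintype F] {m : ℕ} {Ω : Type*} [Finite Ω]

theorem odd_false (hm : 3 ≤ m) (hF : Odd (Fintype.card F)) [MulAction (POmega F (quadFormOdd m F)) Ω]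
    (tw : Tw (POmega F (quadFormOdd m F)) Ω) : False := by
  obtain ⟨p, _, n, hp, hq⟩ := FiniteField.card' F
  have := Fact.mk hp
  obtain ⟨k, rfl⟩ := Nat.exists_eq_add_of_le' hm
  have h1 := Fintype.one_lt_card (α := F)
  have h2 := FGL.two_ne_zero_of_odd hF
  have hd : p ∣ Fintype.card F := hq ▸ dvd_pow_self p n.ne_zero
  obtain ⟨μ, M, b, e1, e2, e3, e4⟩ := gl (QOdd (k + 3) F) (QOdd_nondeg _ F h2) (D := 2 * k + 5) (by simp; ring) (by omega)
    (Q' := quadFormOdd (k + 3) F) rfl tw (trB_odd (p := p) hm hF tw).2 rfl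
  replace e1 := e1.trans (card_quadFormOdd_eq rfl (k + 3) 0)
  rw [card_sq_eq_zero] at e1
  generalize Fintype.card F = q at *
  have hp' := fun k => Nat.one_le_pow k q (by omega)
  have h3 : 2 ≤ q ^ (2 * k + 5) := Nat.one_lt_pow (by omega) h1
  zify [hp', h1.le, show 1 ≤ M * q ^ (2 * k + 5) by nlinarith] at e1 e3
  obtain rfl : M = q := by
    exact_mod_cast ar1 (q := q) (μ := μ) (M := M) (by omega) (by exact_mod_cast h3) (by omega) (by omega) (by
      rw [e1, show k + 3 - 1 = k + 2 from rfl]; ring) e3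
  rcases hp.dvd_mul.1 (e4 (.inr ⟨h2, le_rfl⟩) p hp hd) with h | h
  · exact Nat.not_even_iff_odd.2 hF (even_iff_two_dvd.2 ((Nat.prime_dvd_prime_iff_eq hp Nat.prime_two).1 h ▸ hd))
  · exact hp.not_dvd_one ((Nat.dvd_sub_iff_right h1.le hd).1 h)

theorem plus_false (hm : 4 ≤ m) [MulAction (POmega F (quadFormPlus m F)) Ω]
    (tw : Tw (POmega F (quadFormPlus m F)) Ω) : False := by
  classical
  obtain ⟨p, _, n, hp, hq⟩ := FiniteField.card' F
  have := Fact.mk hp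
  obtain ⟨k, rfl⟩ := Nat.exists_eq_add_of_le' hm
  have h1 := Fintype.one_lt_card (α := F)
  have hd : p ∣ Fintype.card F := hq ▸ dvd_pow_self p n.ne_zero
  obtain ⟨μ, M, b, e1, e2, e3, e4⟩ := gl (QPlus (k + 4) F) (QPlus_nondeg _ F) (D := 2 * k + 6) (by simp; ring) (by omega)
    (Q' := quadFormPlus (k + 4) F) rfl tw (trB_plus (p := p) hm tw).2 rfl
  replace e1 := e1.trans (card_quadFormPlus_eq rfl (k + 4) 0)
  rw [if_pos rfl] at e1
  generalize Fintype.card F = q at *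
  have hp' := fun k => Nat.one_le_pow k q (by omega)
  zify [hp', h1.le, show 1 ≤ M * q ^ (2 * k + 6) by nlinarith [hp' (2 * k + 6)]] at e1 e3
  rw [show (q : ℤ) ^ (2 * k + 6) = (q ^ (k + 3)) ^ 2 by ring] at e1 e3
  obtain ⟨h3, h4⟩ := ar2 (ε := 1) (by omega) (.inl rfl) (by omega) (by omega) (by
    rw [show k + 4 - 1 = k + 3 from rfl] at e1; linear_combination e1) e3
  obtain rfl : q = 2 := by omega
  obtain rfl := (Nat.prime_dvd_prime_iff_eq hp Nat.prime_two).1 hd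
  have h5 := Nat.minFac_prime (show M ≠ 1 by omega)
  have h6 := Nat.minFac_dvd M
  rw [(Nat.prime_dvd_prime_iff_eq h5 hp).1 (e4 (.inl (by omega)) _ h5 h6)] at h6
  omega

theorem minus_false (hm : 4 ≤ m) {a b : F}
    (hab : ∀ z₁ z₂ : F, z₁ ^ 2 + a * z₁ * z₂ + b * z₂ ^ 2 = 0 → z₁ = 0 ∧ z₂ = 0)
    [MulAction (POmega F (quadFormMinus (m - 1) F a b)) Ω] (tw : Tw (POmega F (quadFormMinus (m - 1) F a b)) Ω) :
    False := by
  classical
  obtain ⟨p, _, n, hp, hq⟩ := FiniteField.card' F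
  have := Fact.mk hp
  have hU := (trB_minus (p := p) hm hab tw).2
  obtain ⟨k, rfl⟩ := Nat.exists_eq_add_of_le' hm
  have h1 := Fintype.one_lt_card (α := F)
  have hd : p ∣ Fintype.card F := hq ▸ dvd_pow_self p n.ne_zero
  obtain ⟨μ, M, b, e1, e2, e3, e4⟩ := gl (QMinus (k + 4 - 1) F a b) (QMinus_nondeg _ F hab) (D := 2 * k + 6)
    (by simp; ring) (by omega) (Q' := quadFormMinus (k + 4 - 1) F a b) rfl tw hU rfl
  replace e1 := e1.trans (card_quadFormMinus_eq rfl (k + 3) hab 0)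
  rw [if_pos rfl] at e1
  generalize Fintype.card F = q at *
  have hp' := fun k => Nat.one_le_pow k q (by omega)
  zify [hp', h1.le, show 1 ≤ M * q ^ (2 * k + 6) by nlinarith [hp' (2 * k + 6)]] at e1 e3
  rw [show (q : ℤ) ^ (2 * k + 6) = (q ^ (k + 3)) ^ 2 by ring] at e1 e3
  obtain ⟨h3, h4⟩ := ar2 (ε := -1) (by omega) (.inr rfl) (by omega) (by omega) (by
    rw [show k + 3 - 1 = k + 2 from rfl] at e1; linear_combination e1) e3
  obtain rfl : q = 2 := by omega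
  obtain rfl := (Nat.prime_dvd_prime_iff_eq hp Nat.prime_two).1 hd
  have h5 := Nat.minFac_prime (show M ≠ 1 by omega)
  have h6 := Nat.minFac_dvd M
  rw [(Nat.prime_dvd_prime_iff_eq h5 hp).1 (e4 (.inl (by omega)) _ h5 h6)] at h6
  omega

end CL.T2
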