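/-
CLAS/T2 (S2193): 2-transitive actions of `SL(V)`, `dim V ≥ 3`.
-/
import Cfsg.Agent.CLAS.T2.Fish
import Cfsg.Agent.CLAS.T2.SL1

set_option autoImplicit false

namespace CL.T2.SLx

open Module CL.LS CL.Coop MulAction

theorem arith {q Q N n b : ℕ} (hq : 2 ≤ q) (hQ : 2 ≤ Q) (hN : N * (q - 1) = q * Q - 1) (hn : 2 ≤ n) (hd : Q ∣ n)
    (hb : b * (n - 1) = N * (Q - 1)) (hM : q - 1 ∣ Q - 1) : n = Q ∨ n = q * Q := by
  obtain ⟨m, rfl⟩ := hd
  obtain ⟨M, hM⟩ := hM
  rcases Nat.lt_or_ge m 2 with h | h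
  · left
    interval_cases m <;> omega
  right
  obtain ⟨r, rfl⟩ : ∃ r, q = r + 1 := ⟨q - 1, by omega⟩
  simp only [Nat.add_sub_cancel] at hN hM
  have h1 : 1 ≤ (r + 1) * Q := by nlinarith
  have h2 : 1 ≤ Q * m := by omega
  have h3 : 1 ≤ Q := by omega
  have h4 : 1 ≤ r := by omega
  zify [h1, h2, h3] at hN hb hM
  zify at h hQ h4 ⊢
  have e : (N : ℤ) = M + Q := by
    have : (r : ℤ) * (N - M - Q) = 0 := by linear_combination hN + hM
    have := (mul_eq_zero.1 this).resolve_left (by omega)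
    linarith
  have M0 : (0 : ℤ) < M := by
    rcases (Int.natCast_nonneg M).eq_or_lt with h0 | h0
    · rw [← h0] at hM; omega
    · exact h0
  have M1 : (M : ℤ) ≤ Q - 1 := by nlinarith
  have b1 : (b : ℤ) ≤ Q - 1 := by
    by_contra hc
    have : (Q : ℤ) * (2 * Q - 1) ≤ b * (Q * m - 1) := mul_le_mul (by omega) (by nlinarith) (by omega) (by omega)
    nlinarith
  have d : (Q : ℤ) ∣ b - M := ⟨b * m - N + 1, by rw [e] at hb ⊢; linear_combination -hb⟩
  have b0 := Int.natCast_nonneg b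
  have e2 : (b : ℤ) - M = 0 := Int.eq_zero_of_abs_lt_dvd d (abs_lt.2 ⟨by omega, by omega⟩)
  have : (M : ℤ) * (Q * m - (r + 1) * Q) = 0 := by
    rw [show (b : ℤ) = M by omega, hM] at hb
    linear_combination hb + M * hN
  have := (mul_eq_zero.1 this).resolve_left M0.ne'
  linarith

theorem ex_unit {F : Type*} [Field F] [Finite F] {l : ℕ} (h : ¬ Nat.card F - 1 ∣ l) :
    ∃ (r k : ℕ) (a : F), r.Prime ∧ r ∣ Nat.card F - 1 ∧ a ≠ 0 ∧ a ^ r ^ k = 1 ∧ a ^ l ≠ 1 := by
  rw [Nat.dvd_iff_prime_pow_dvd_dvd] at h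
  push Not at h
  obtain ⟨r, k, hr, h1, h2⟩ := h
  obtain ⟨ζ, hζ⟩ := IsCyclic.exists_ofOrder_eq_natCard (α := Fˣ)
  rw [Nat.card_units] at hζ
  have o := orderOf_pow_orderOf_div (orderOf_pos ζ).ne' (hζ ▸ h1)
  refine ⟨r, k, (ζ ^ (orderOf ζ / r ^ k) : Fˣ), hr, (dvd_pow_self r ?_).trans h1, Units.ne_zero _, ?_, fun e => h2 ?_⟩
  · rintro rfl
    exact h2 (one_dvd _)
  · rw [← Units.val_pow_eq_pow_val, orderOf_dvd_iff_pow_eq_one.1 o.dvd, Units.val_one]
  · rw [← o, orderOf_dvd_iff_pow_eq_one, ← Units.val_inj, Units.val_pow_eq_pow_val, e, Units.val_one]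

theorem ex_four {F : Type*} [Field F] [Finite F] (h : Nat.card F = 4) : (2 : F) = 0 ∧ ∃ c : F, c ^ 2 + c + 1 = 0 := by
  have := Fintype.ofFinite F
  rw [Nat.card_eq_fintype_card] at h
  constructor
  · have := FiniteField.cast_card_eq_zero F
    rw [h] at this
    exact pow_eq_zero_iff (two_ne_zero) |>.1 (show (2 : F) ^ 2 = 0 by rw [← this]; norm_num)
  · classical
    obtain ⟨c, h0, h1⟩ : ∃ c : F, c ≠ 0 ∧ c ≠ 1 := by
      by_contra! hc
      have := Finset.card_le_card (show (Finset.univ : Finset F) ⊆ {0, 1} from fun c _ => by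
        by_cases e : c = 0
        · simp [e]
        · simp [hc c e])
      have := Finset.card_le_two (a := (0 : F)) (b := 1)
      simp only [Finset.card_univ] at *; omega
    have := FiniteField.pow_card_sub_one_eq_one c h0
    rw [h] at this
    exact ⟨c, mul_left_cancel₀ (sub_ne_zero.2 h1) (by linear_combination this)⟩

variable {F V : Type*} [Field F] [AddCommGroup V] [Module F V]

theorem ex_frame {φ : Dual F V} {u x : V} (h0 : φ ≠ 0) (h1 : φ u = 0) (h2 : φ x = 0) (h3 : x ∉ F ∙ u) :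
    ∃ (y : V) (β : Dual F V), φ y = 1 ∧ β u = 0 ∧ β y = 0 ∧ β x = 1 := by
  obtain ⟨y, hy⟩ := exists_dual_of_ne_zero h0
  obtain ⟨β, b1, b0⟩ := Tv.exists_dual_one_zero h3
  exact ⟨y, β - β y • φ, hy, by simp [b0, h1], by simp [hy], by simp [b1, h2]⟩

theorem card_line {M : Type*} [AddCommGroup M] [Module F M] {x : M} (h : x ≠ 0) : Nat.card (F ∙ x) = Nat.card F :=
  (Nat.card_congr (LinearEquiv.toSpanNonzeroSingleton F M x h).toEquiv).symm

theorem mem_P {u : V} (hu : u ≠ 0) {g : SpecialLinearGroup F V} :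
    g ∈ stabilizer (SpecialLinearGroup F V) (Projectivization.mk F u hu) ↔ g.1 u ∈ F ∙ u := by
  rw [mem_stabilizer_iff, Projectivization.smul_mk, Projectivization.mk_eq_mk_iff', Submodule.mem_span_singleton]
  rfl

variable [FiniteDimensional F V] [Finite F]

theorem card_TU_top {u : V} (hu : u ≠ 0) : Nat.card (TU (F := F) u ⊤) = Nat.card F ^ (finrank F V - 1) := by
  have e : TU (F := F) u ⊤ = TU u (LinearMap.ker (Dual.eval F V u)) :=
    Subgroup.ext fun g => ⟨fun ⟨θ, _, h, e⟩ => ⟨θ, h, h, e⟩, fun ⟨θ, _, h, e⟩ => ⟨θ, trivial, h, e⟩⟩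
  rw [e, card_TU hu fun θ h => h, Module.natCard_eq_pow_finrank (K := F), finrank_ker_dual, Subspace.dual_finrank_eq]
  obtain ⟨l, hl, -⟩ := Tv.exists_dual_one (⊥ : Submodule F V) (x := u) (by simpa)
  intro e
  simpa [hl] using congrArg (fun f => f l) e

theorem card_TH_top {φ : Dual F V} (h : φ ≠ 0) : Nat.card (TH φ ⊤) = Nat.card F ^ (finrank F V - 1) := by
  have e : TH φ ⊤ = TH φ (LinearMap.ker φ) :=
    Subgroup.ext fun g => ⟨fun ⟨θ, _, h, e⟩ => ⟨θ, h, h, e⟩, fun ⟨θ, _, h, e⟩ => ⟨θ, trivial, h, e⟩⟩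
  rw [e, card_TH h fun θ h => h, Module.natCard_eq_pow_finrank (K := F), finrank_ker_dual h]

instance : Finite (SpecialLinearGroup F V) :=
  have : Finite V := Module.finite_of_finite F
  Finite.of_injective (fun g : SpecialLinearGroup F V => (g.1 : V → V)) fun _ _ e =>
    SpecialLinearGroup.ext _ _ (congrFun e)

variable {Ω : Type*} [MulAction (SpecialLinearGroup F V) Ω] [Finite Ω]

omit [Finite F] [Finite Ω] in
theorem notriv (h3 : 3 ≤ finrank F V) (tw : Tw (SpecialLinearGroup F V) Ω) {θ : Dual F V} {x : V} (h : θ x = 0)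
    (hθ : θ ≠ 0) (hx : x ≠ 0) : ¬ ∀ ω : Ω, tv θ x • ω = ω := fun ht => by
  obtain ⟨ω, -⟩ := tw.nt
  refine tw.stab_ne_top ω (top_unique fun g _ => gen ⊥ (fun φ y k _ => ?_) fun w hw => by
    rw [(Submodule.mem_bot F).1 hw, map_zero])
  by_cases hφ : φ = 0
  · rw [hφ, tv_zero_left]; exact one_mem _
  by_cases hy : y = 0
  · rw [hy, tv_zero_right]; exact one_mem _
  obtain ⟨g, e⟩ := exists_conj_tv h3 h hθ hx k hφ hy
  rw [mem_stabilizer_iff, ← mul_inv_eq_iff_eq_mul.2 e, mul_smul, mul_smul, ht, smul_inv_smul]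

/-- no transvection fixes a point -/
theorem tf {p : ℕ} [Fact p.Prime] [CharP F p] (h3 : 3 ≤ finrank F V) (tw : Tw (SpecialLinearGroup F V) Ω)
    {B : Subgroup (SpecialLinearGroup F V)} (hB : Tr B Ω) {u : V} {φ : Dual F V} (hu : u ≠ 0) (hφ : φ ≠ 0)
    (h : φ u = 0) (hN : ∀ g ∈ B, g.1 u ∈ F ∙ u ∧ φ ∘ₗ g.1.toLinearMap ∈ F ∙ φ)
    (θ : Dual F V) (x : V) (k : θ x = 0) (hx : x ≠ 0) (ω : Ω) (e : tv θ x • ω = ω) : θ = 0 := by
  obtain ⟨y', k1, k2⟩ := exists_notMem_of_finrank_lt (U := F ∙ u) (W := LinearMap.ker φ)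
    (by have := finrank_span_singleton_le (F := F) u; rw [finrank_ker_dual hφ]; omega)
  rw [LinearMap.mem_ker] at k1
  obtain ⟨y, β, b1, b2, b3, b4⟩ := ex_frame hφ h k1 k2
  let L : F × F →ₗ[F] Dual F V := (LinearMap.toSpanSingleton F _ φ).coprod (LinearMap.toSpanSingleton F _ β)
  have hL : ∀ a b, L (a, b) = a • φ + b • β := fun _ _ => rfl
  have iL : Function.Injective L := (injective_iff_map_eq_zero L).2 fun ⟨a, b⟩ e => by
    have e1 := congrArg (fun f : Dual F V => f y) e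
    have e2 := congrArg (fun f : Dual F V => f y') e
    simp [hL, b1, b3, b4, k1] at e1 e2
    simp [e1, e2]
  let ψ : Option F → Dual F V := fun i => i.elim β fun c => φ + c • β
  let z : Option F → V := fun i => i.elim (y + y') fun _ => y
  have z1 : ∀ i, φ (z i) = 1 := by rintro (_ | c) <;> simp [z, b1, k1]
  have z2 : ∀ i, ψ i (z i) = 1 := by rintro (_ | c) <;> simp [z, ψ, b1, b3, b4]
  have z3 : ∀ i, ψ i u = 0 := by rintro (_ | c) <;> simp [ψ, h, b2]
  have z4 : ∀ i, (φ - ψ i) (z i) = 0 := fun i => by simp [z1, z2]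
  have cj : ∀ i (c : F), tv (φ - ψ i) (z i) * tv (c • φ) u * (tv (φ - ψ i) (z i))⁻¹ = tv (c • ψ i) u := fun i c => by
    rw [conj_tv' (θ := c • ψ i) _ (by simp [h]) fun v => by simp [tv_apply (z4 i), z2]]
    simp [tv_apply (z4 i), h, z3]
  have hZ : ∀ θ ∈ F ∙ φ, θ u = 0 := fun θ hθ => by
    obtain ⟨c, rfl⟩ := Submodule.mem_span_singleton.1 hθ
    simp [h]
  have mZ : ∀ c : F, tv (c • φ) u ∈ TU u (F ∙ φ) := fun c =>
    ⟨_, Submodule.smul_mem _ c (Submodule.mem_span_singleton_self φ), by simp [h], rfl⟩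
  rcases semi_or_triv (p := p) (q := Nat.card F) (Z := TU u (F ∙ φ)) (E := TU u (LinearMap.range L))
    (fun g hg => conj_TU (hN g hg).1 fun θ hθ => by
      obtain ⟨c, rfl⟩ := Submodule.mem_span_singleton.1 hθ
      exact Submodule.smul_mem _ c (hN _ (inv_mem hg)).2) hB (pg_TU p _ _)
    (by rw [card_TU hu hZ, card_line hφ])
    (by
      rw [card_TU hu (by rintro _ ⟨⟨a, b⟩, rfl⟩; simp [hL, h, b2]),
        ← Nat.card_congr (LinearEquiv.ofInjective L iL).toEquiv, Nat.card_prod, sq])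
    (ι := Option F) Finite.card_option (fun i => tv (φ - ψ i) (z i))
    (by
      rintro i _ ⟨_, hθ, -, rfl⟩
      obtain ⟨c, rfl⟩ := Submodule.mem_span_singleton.1 hθ
      rw [cj]
      refine ⟨_, ?_, by simp [z3], rfl⟩
      rcases i with _ | d
      · exact ⟨(0, c), by simp [hL, ψ]⟩
      · exact ⟨(c, c * d), by simp [hL, ψ, mul_smul]⟩)
    (by
      rintro _ ⟨_, ⟨⟨a, b⟩, rfl⟩, -, rfl⟩
      by_cases ha : a = 0
      · exact ⟨none, _, mZ b, by rw [cj]; simp [hL, ψ, ha]⟩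
      · exact ⟨some (a⁻¹ * b), _, mZ a, by rw [cj]; simp [hL, ψ, smul_smul, ha]⟩) with hS | hT
  · by_contra hθ
    obtain ⟨g, hg⟩ := exists_conj_tv h3 k hθ hx h hφ hu
    have := hS.conj (g := g) (by rw [mul_inv_eq_iff_eq_mul.2 hg]; simpa using mZ 1) e
    exact notriv h3 tw k hθ hx fun ω => by rw [this, one_smul]
  · exact (notriv h3 tw h hφ hu (hT _ (by simpa using mZ 1))).elim

theorem core {p : ℕ} [Fact p.Prime] [CharP F p] (h3 : 3 ≤ finrank F V) (tw : Tw (SpecialLinearGroup F V) Ω)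
    (hB : p ∣ Nat.card Ω → ∀ S : Sylow p (SpecialLinearGroup F V),
      Tr (Subgroup.normalizer (S : Set (SpecialLinearGroup F V))) Ω) :
    Nat.card Ω * (Nat.card F - 1) = Nat.card F ^ finrank F V - 1 ∨
      (finrank F V = 3 ∨ finrank F V = 4) ∧ Nat.card F = 2 ∧ Nat.card Ω = 8 := by
  have : Finite V := Module.finite_of_finite F
  have hp : p.Prime := Fact.out
  have hq : 2 ≤ Nat.card F := Finite.one_lt_card
  obtain ⟨a, ha⟩ : ∃ a, Nat.card F = p ^ a := by
    have := Fintype.ofFinite F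
    obtain ⟨n, -, e⟩ := FiniteField.card F p
    exact ⟨n, by rw [Nat.card_eq_fintype_card, e]⟩
  let S : Sylow p (SpecialLinearGroup F V) := default
  obtain ⟨u, φ, hu, hφ, h, fu, hN⟩ := syl (by omega) S
  have cP := Projectivization.card F V
  rw [Module.natCard_eq_pow_finrank (K := F)] at cP
  by_cases hP : Tr (stabilizer (SpecialLinearGroup F V) (Projectivization.mk F u hu)) Ω
  swap
  · obtain ⟨θ, v, h1, h0⟩ := ex_dual (F := F) (by omega) u
    have v0 : v ≠ 0 := by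
      rintro rfl
      simp at h1
    rw [tw.card_eq ⟨⟨Projectivization.mk F v v0, Projectivization.mk F u hu, fun e => ?_⟩,
      fun _ _ _ _ => is_two_pretransitive_iff.1 inferInstance⟩ hP]
    · exact .inl cP.symm
    · obtain ⟨c, rfl⟩ := (Projectivization.mk_eq_mk_iff' _ _ _ _ _).1 e
      simp [h0] at h1
  set P := stabilizer (SpecialLinearGroup F V) (Projectivization.mk F u hu)
  have nz : Nz P (TU u ⊤) := fun g hg => conj_TU ((mem_P hu).1 hg) fun _ _ => Submodule.mem_top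
  obtain ⟨κ, b, k1, k2, k3, k4, -⟩ := tw.blk nz hP
  rw [index_stabilizer_of_transitive] at k3
  rw [card_TU_top hu] at k1
  obtain ⟨ω₀, -⟩ := tw.nt
  have pn : p ∣ Nat.card Ω := by
    obtain ⟨j, -, rfl⟩ := (Nat.dvd_prime_pow hp).1 (show κ ∣ p ^ (a * (finrank F V - 1)) from
      ⟨_, by rw [pow_mul, ← ha]; exact k1 ω₀⟩)
    refine (dvd_pow_self p ?_).trans k2
    rintro rfl
    exact notriv h3 tw h hφ hu (k4 rfl _ ⟨φ, trivial, h, rfl⟩)
  have TF := tf h3 tw (hB pn S) hu hφ h hN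
  have sm : ∀ ω : Ω, Nat.card (TU u ⊤ ⊓ stabilizer (SpecialLinearGroup F V) ω : Subgroup _) = 1 := fun ω => by
    rw [Subgroup.card_eq_one, eq_bot_iff]
    rintro _ ⟨⟨θ, -, k, rfl⟩, e⟩
    rw [TF θ u k hu ω e, tv_zero_left]; exact one_mem _
  simp only [sm, mul_one] at k1
  obtain rfl := k1 ω₀
  set Q := Nat.card F ^ (finrank F V - 1) with hQ
  have eQ : Nat.card F ^ finrank F V = Nat.card F * Q := by rw [hQ, ← pow_succ']; congr 1; omega
  have Q2 : 2 ≤ Q := hq.trans (Nat.le_self_pow (by omega) _)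
  rw [eQ] at cP ⊢
  rcases arith hq Q2 cP.symm tw.two_le k2 k3 (by simpa using Nat.sub_dvd_pow_sub_pow (Nat.card F) 1 (finrank F V - 1))
    with hn | hn
  · by_cases hex : finrank F V = 4 ∧ Nat.card F = 2
    · exact .inr ⟨.inr hex.1, hex.2, by rw [hn, hQ, hex.1, hex.2]; rfl⟩
    · have := tw.pre
      obtain ⟨ω, hω⟩ := not_forall.1 (notriv h3 tw h hφ hu)
      have := card_ge_sl h3 hex h hω
      rw [eQ, hn, Nat.mul_sub_one, mul_comm] at this
      have := Nat.le_mul_of_pos_right Q (show 0 < Nat.card F by omega)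
      omega
  have co : Nat.card (orbitRel.Quotient (TU (F := F) u ⊤) Ω) = Nat.card F :=
    Nat.eq_of_mul_eq_mul_right (show 0 < Q by omega) ((card_orbits fun ω => by rw [sm, card_TU_top hu, mul_one]).trans hn)
  have fin : (∀ (θ : Dual F V) x, θ ≠ 0 → θ x = 0 → θ u = 0 → x ∉ F ∙ u → tv θ x ∈ okr (TU u ⊤) Ω) → False := fun H => by
    have t1 : Tr (S : Subgroup (SpecialLinearGroup F V)) Ω := tw.tr_top.of_sylow (a := a * finrank F V) le_top S.isPGroup'
      (by rw [Subgroup.relIndex_top_right]; exact S.not_dvd_index) (by rw [pow_mul, ← ha, eQ, hn])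
    have t2 := (t1.of_okr (Q := TU u ⊤) fun s hs => gen (F ∙ u) (fun θ x k k' => ?_) fun w hw => ?_).card_eq ω₀
    · rw [sm, card_TU_top hu, mul_one, hn, ← hQ] at t2
      nlinarith
    · have k2 := k' u (Submodule.mem_span_singleton_self u)
      by_cases h0 : θ = 0
      · rw [h0, tv_zero_left]; exact one_mem _
      by_cases hx : x ∈ F ∙ u
      · obtain ⟨c, rfl⟩ := Submodule.mem_span_singleton.1 hx
        exact le_okr _ ⟨c • θ, trivial, by simp [k2], (tv_smul k2 c).symm⟩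
      · exact H θ x h0 k k2 hx
    · obtain ⟨c, rfl⟩ := Submodule.mem_span_singleton.1 hw
      rw [map_smul, fu s hs]
  have tP : ∀ {θ : Dual F V} {x}, θ x = 0 → θ u = 0 → tv θ x ∈ P := fun k k' => (mem_P hu).2 (by
    rw [tv_apply k, k', zero_smul, add_zero]; exact Submodule.mem_span_singleton_self u)
  rcases h3.eq_or_lt with l3 | l4
  swap
  · refine (fin fun θ x h0 k1 k2 k3 => le_okr_of_class (X := TH θ ⊤) (X₀ := TH θ (F ∙ u)) nz ?_ ?_ ?_ ?_ ?_
      ⟨x, trivial, k1, rfl⟩).elim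
    · rintro _ ⟨y, -, k, rfl⟩
      exact tP k k2
    · rintro _ ⟨y, -, k, rfl⟩
      exact ⟨y, trivial, k, rfl⟩
    · rintro _ ⟨y, hy, k, rfl⟩
      obtain ⟨c, rfl⟩ := Submodule.mem_span_singleton.1 hy
      exact le_okr _ ⟨c • θ, trivial, by simp [k2], (tv_smul k2 c).symm⟩
    · rintro _ ⟨y, -, k, rfl⟩ n _ ⟨y', -, k', rfl⟩ n'
      obtain ⟨z, z1, z2⟩ := exists_notMem_of_finrank_lt (U := (F ∙ u) ⊔ F ∙ y) (W := LinearMap.ker θ) (by
        have := finrank_span_pair_le (F := F) u y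
        rw [Submodule.span_insert] at this
        rw [finrank_ker_dual h0]; omega)
      obtain ⟨m, -, m1, m2, rfl⟩ := mv2 (M := ⊤) (W := F ∙ u) (φ := θ) (y := y) (y' := y') (fun _ _ _ _ _ => trivial)
        (fun e => n ⟨y, e, k, rfl⟩) (fun e => n' ⟨y', e, k', rfl⟩) z2 (k.trans (Eq.symm z1)) (k.trans k'.symm)
      exact ⟨m, (mem_P hu).2 (by rw [m1 u (Submodule.mem_span_singleton_self u)]; exact Submodule.mem_span_singleton_self u),
        conj_tv' m k m2⟩
    · rw [co, card_TH_top h0, card_TH h0 (fun y hy => by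
        obtain ⟨c, rfl⟩ := Submodule.mem_span_singleton.1 hy
        simp [k2]), card_line hu, ← sq]
      exact Nat.pow_lt_pow_right hq (by omega)
  by_cases d3 : Nat.card F - 1 ∣ 3
  · rcases (Nat.dvd_prime Nat.prime_three).1 d3 with e | e
    · have e2 : Nat.card F = 2 := by omega
      exact .inr ⟨.inl l3.symm, e2, by rw [hn, hQ, ← l3, e2]; rfl⟩
    · have e4 : Nat.card F = 4 := by omega
      obtain ⟨c2, c, hc⟩ := ex_four e4
      refine (fin fun θ x h0 k1 k2 k3 => ?_).elim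
      obtain ⟨y, β, b1, b2, b3, b4⟩ := ex_frame h0 k2 k1 k3
      have five : ∀ c : F, c ^ 2 + c + 1 = 0 → tv β y * tv (c • θ) x ∈ okr (TU u ⊤) Ω := fun c hc =>
        okr_of_pow nz (mul_mem (tP b3 b2) (tP (by simp [k1]) (by simp [k2]))) Nat.prime_five
          (pow_five b1 k1 b3 b4 c2 hc) (by omega)
      have := mul_mem (inv_mem (five c hc)) (five (c + 1) (by linear_combination hc + (c + 1) * c2))
      rwa [add_smul, one_smul, tv_add_left (by simp [k1]) k1, ← mul_assoc (tv β y), inv_mul_cancel_left] at this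
  obtain ⟨r, k, s, hr, r1, s0, s1, s2⟩ := ex_unit d3
  obtain ⟨y, hy⟩ := exists_dual_of_ne_zero hφ
  obtain ⟨g, g1, g2⟩ := ex_hom hy s0
  have := Fact.mk hr
  obtain ⟨ω, hω⟩ := exists_fix (Ω := Ω) (g2 _ s1) fun d => hr.one_lt.ne' (by
    rw [hn, ← eQ] at d
    have := (Nat.dvd_sub (hr.dvd_of_dvd_pow d) r1)
    rwa [Nat.sub_sub_self (by omega), Nat.dvd_one] at this)
  rw [← l3] at g1
  have s3 : (s ^ 3)⁻¹ ≠ 0 := inv_ne_zero (pow_ne_zero _ s0)
  refine (no_hom h3 (K := stabilizer (SpecialLinearGroup F V) ω) (fun θ x k hx e => TF θ x k hx ω e) ?_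
    (mul_ne_zero s0 (sub_ne_zero.2 (by simpa using s2))) (by
      rw [mul_sub, mul_one, add_sub_cancel]; exact mul_ne_zero s0 s3) hy hω g1).elim
  have key : ∀ x : Projectivization F V, ∃ k ∈ stabilizer (SpecialLinearGroup F V) ω, k • x = Projectivization.mk F u hu :=
    fun x => by
      obtain ⟨g, hg⟩ := exists_smul_eq (SpecialLinearGroup F V) x (Projectivization.mk F u hu)
      obtain ⟨m, hm, e⟩ := hP (g • ω) ω
      exact ⟨m * g, by rw [mem_stabilizer_iff, mul_smul, e], by rw [mul_smul, hg]; exact hm⟩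
  intro x hx y hy
  obtain ⟨k1, m1, e1⟩ := key (Projectivization.mk F x hx)
  obtain ⟨k2, m2, e2⟩ := key (Projectivization.mk F y hy)
  have : Projectivization.mk F y hy = (k2⁻¹ * k1) • Projectivization.mk F x hx := by
    rw [mul_smul, e1, ← e2, inv_smul_smul]
  rw [Projectivization.smul_mk, Projectivization.mk_eq_mk_iff'] at this
  exact ⟨_, mul_mem (inv_mem m2) m1, this⟩

end CL.T2.SLx
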