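/-
CLAS/T2 (S2193): unitary groups, the numerical alternatives
-/
import Cfsg.Agent.CLAS.T2.Pol
import Cfsg.Agent.KSG.CoopU5

set_option autoImplicit false

namespace CL.T2.SU1

open Cfsg Module CL.Witt CL.Witt.Form MulAction CL.Coop CL.Uni CL.T2.Pol

variable {F : Type} [Field F] [Fintype F] {q : ℕ} (hF : Fintype.card F = q ^ 2) {Ω : Type*} [Finite Ω]
include hF

theorem core {k : ℕ} (hk : 1 ≤ k) (h : ¬ (k + 2 = 3 ∧ q = 2)) [MulAction (PSU (k + 2) F q) Ω]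
    (tw : Tw (PSU (k + 2) F q) Ω) : ∃ μ N c : ℕ,
      μ * (q ^ 2 - 1) = (if Even k then (q ^ k - 1) * (q ^ (k - 1) + 1) else (q ^ k + 1) * (q ^ (k - 1) - 1)) ∧
      N = 1 + q ^ 2 * μ + (q ^ 2) ^ k * q ∧ (q + 1) * c = guOrder q (k + 2) ∧ Nat.card Ω ∣ c ∧
      ((μ = 0 ∧ Nat.card Ω = N) ∨ (0 < μ ∧ Nat.card Ω < N ∧ ∀ r s : ℤ, r * s = μ - q ^ 2 * μ →
          (q ^ 2 * μ : ℤ) * (q ^ 2 * μ - (r + s + μ) - 1) = (N - 1 - q ^ 2 * μ) * μ →
          (Nat.card Ω - 1 : ℤ) * (r - s) = -(q ^ 2 * μ) - s * (N - 1) ∨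
            (Nat.card Ω - 1 : ℤ) * (s - r) = -(q ^ 2 * μ) - r * (N - 1)) ∨
        ∃ q₁ b : ℕ, 2 ≤ q₁ ∧ q₁ ∣ q ∧ q ^ k * q₁ ∣ Nat.card Ω ∧ b * (Nat.card Ω - 1) = N * (q₁ - 1)) := by
  have hσ := sig_ne_id hF
  have hq := two_le_q hF
  have hs := isSimpleGroup_PSU hF (n := k + 2) (by omega) h
  obtain ⟨f, hf, π, hπ, h1⟩ : ∃ f : Form (HT hF) (Fin (k + 2) → F), f.Nondeg ∧ ∃ π : f.E →* PSU (k + 2) F q,
      Function.Surjective π ∧ ∀ g, π g = 1 → ∃ c : F, ∀ v, g.1 v = c • v :=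
    ⟨_, std_nondeg hF _, exists_piSU hF (by omega)⟩
  have : Finite ((Fin (k + 2) → F) ≃ₗ[F] (Fin (k + 2) → F)) := Finite.of_injective _ DFunLike.coe_injective
  obtain ⟨a, ha0, ha⟩ : ∃ a : F, a ≠ 0 ∧ (HT hF).π a = 0 := by
    have := Finite.one_lt_card_iff_nontrivial.1 (show 1 < Nat.card (HT hF).π.ker by rw [card_ker_π]; omega)
    obtain ⟨⟨a, ha⟩, ha0⟩ := exists_ne (0 : (HT hF).π.ker)
    exact ⟨a, fun e => ha0 (Subtype.ext e), ha⟩
  have hn : finrank F (Fin (k + 2) → F) = k + 2 := by simp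
  obtain ⟨u, u', hu, hu', huu⟩ := exists_hyp_pair hσ hf (by omega)
  have h0 : u ≠ 0 := fun e => by simp [e] at huu
  have h0' : u' ≠ 0 := fun e => by simp [e] at huu
  let := MulAction.compHom Ω π
  have tw' : Tw f.E Ω := tw.comp π hπ
  have hb : f.Big 0 := herm_big hσ 0
  have := pre hf hb
  obtain ⟨μ, e1, e2, e3, e4⟩ := counts hf hu hu' huu (h0 := h0) (h0' := h0')
  rw [card_sq hF] at e2 e3 e4
  rw [hn, Nat.add_sub_cancel, card_ker_π] at e3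
  rw [Nat.card_congr (Equiv.subtypeSubtypeEquivSubtypeInter (· ∈ Wp f u u') (f.q · = 0)),
    card_Wp_eq hf hu hu' huu hn, FormCount.card_hermForm_eq_zero hF] at e4
  replace e4 := Nat.add_right_cancel e4
  have hna : ¬ adj (pt u h0 hu : Pt f) (pt u' h0' hu') := fun h => one_ne_zero (huu ▸ (adj_pt.1 h).2)
  have hne : (pt u h0 hu : Pt f) ≠ pt u' h0' hu' := fun e => by
    obtain ⟨c, rfl⟩ := Submodule.mem_span_singleton.1 (pt_eq.1 e)
    rw [B_smul_right, f.B_self_eq_zero hu, mul_zero] at huu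
    exact zero_ne_one huu
  refine ⟨μ, _, Nat.card f.E, e4, e3, by rw [E_eq_SO hσ hf, card_SO hf (by omega), hn],
    (dvd_mul_right _ _).trans tw'.mul_pred_dvd, ?_⟩
  by_cases hP : Tr (stabilizer f.E (pt u h0 hu : Pt f)) Ω
  · obtain ⟨κ, b, a1, -, a2, a3, -⟩ := tw'.blk nz_Z hP
    obtain ⟨p, e, hp, -, he, rfl⟩ := SqField.exists_char hF
    have := Fact.mk hp
    have hZ : Nat.card (Zg f hu) = p ^ e := (card_Zg hu huu).trans (card_ker_π hF)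
    have hQ : Nat.card (Qg f u) = p ^ (2 * (e * k)) * Nat.card (Zg f hu) := by
      rw [card_Qg hf hu hu' huu, card_ker_π, hZ, card_sq hF, hn, Nat.add_sub_cancel]; ring
    obtain ⟨ω, -⟩ := tw.nt
    have hκ : κ ∣ p ^ e := hZ ▸ Dvd.intro _ (a1 ω).symm
    obtain ⟨c, -, rfl⟩ := (Nat.dvd_prime_pow hp).1 hκ
    have hc : 0 < c := Nat.pos_of_ne_zero fun e0 => by
      exact not_scalar_tv hf (by omega) hu h0 ha0 ha (h1 ⟨_, ei_mem_E u 0 a⟩
        (tw.faithful (a3 (by rw [e0, pow_zero]) ⟨_, ei_mem_E u 0 a⟩ ⟨a, ha, rfl⟩)))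
    refine .inr (.inr ⟨_, b, Nat.one_lt_pow hc.ne' hp.one_lt, hκ, ?_, ?_⟩)
    · rw [← pow_mul, ← pow_add]
      exact ((heis hf hu hu' huu fun a ha => (exists_sub_σ_eq hσ (sig_sig hF) ha).imp fun c hc => by
        rw [HT_ε, one_mul]; exact hc).pow_dvd (IsPGroup.of_card (by rw [hQ, hZ, ← pow_add])) hQ hc a1).2
    · rw [a2, index_stabilizer_of_transitive]
  rcases μ.eq_zero_or_pos with rfl | hμ
  · refine .inl ⟨rfl, tw'.card_eq ⟨⟨_, _, hne⟩, fun a b c d hab hcd => ?_⟩ hP⟩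
    have key : ∀ a b : Pt f, ¬ adj a b := fun a b hab => by
      obtain ⟨g, rfl⟩ := this.1 a (pt u h0 hu) |>.imp fun g (hg : g • a = _) => eq_inv_smul_iff.2 hg
      have := adj_smul g _ _ hab
      rw [smul_inv_smul] at this
      exact (Nat.card_pos_iff.2 ⟨⟨⟨_, this⟩⟩, inferInstance⟩).ne' e2
    exact tr_opp hf hb a b c d hab (key _ _) hcd (key _ _)
  have hk2 : 2 ≤ k := by
    by_contra hk2
    obtain rfl : k = 1 := by omega
    have := Nat.one_lt_pow two_ne_zero hq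
    simp at e4; omega
  have hk0 : 0 < q ^ 2 * μ := by positivity
  refine .inr (.inl ⟨hμ, tw'.card_lt (fun hY => ?_) hP, fun r s hrs hl => ?_⟩)
  · obtain ⟨⟨w, hw⟩⟩ := (Nat.card_pos_iff.1 (e2 ▸ hk0)).1
    obtain ⟨g, g1, g2⟩ := hY.two _ _ _ _ hw.1 hne
    exact hna (g1 ▸ g2 ▸ adj_smul g _ _ hw)
  · have := tw'.srg hP adj adj_symm adj_irrefl adj_smul
      (tr_adj hf (idx2 hσ hf (by omega)) (.inl ⟨a, ha0, ha⟩)) (tr_opp hf hb) e2 hk0
      (by have : 0 < (q ^ 2) ^ k * q := by positivity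
          omega) ⟨_, hne, hna, e1⟩ (r := r) (s := s) (by push_cast; exact hrs) (by push_cast; exact hl)
    push_cast at this
    exact this

end CL.T2.SU1
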