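/-
CLAS/T2 (S2193): unitary groups
-/
import Cfsg.Agent.CLAS.T2.SU1
import Cfsg.Agent.S2148
import Cfsg.Agent.S2149
import Cfsg.Agent.S2150

set_option autoImplicit false

namespace CL.T2

open Cfsg Cfsg.Lie

namespace SU1

theorem ar1 {q k q₁ b n μ N : ℕ} (hq : 2 ≤ q) (hk : 1 ≤ k) (h1 : 2 ≤ q₁) (h2 : q₁ ∣ q) (h3 : q ^ k * q₁ ∣ n)
    (h4 : b * (n - 1) = N * (q₁ - 1)) (hN : N = 1 + q ^ 2 * μ + (q ^ 2) ^ k * q) (hn : 2 ≤ n) :
    (n - 1) * (q - 1) < N ∧ (q = 2 → 3 * (n - 1) ≤ N) := by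
  obtain ⟨k, rfl⟩ := Nat.exists_eq_add_of_le' hk
  obtain ⟨t, ht⟩ := h3
  obtain ⟨w, hw⟩ := h2
  obtain ⟨m, rfl⟩ := Nat.exists_eq_add_of_le' (show 1 ≤ n by omega)
  obtain ⟨c, rfl⟩ := Nat.exists_eq_add_of_le' (show 1 ≤ q₁ by omega)
  rw [Nat.add_sub_cancel] at h4 ⊢
  rw [Nat.add_sub_cancel] at h4
  have e : q * (c + 1) ≤ b + c := by
    refine Nat.le_of_dvd (by omega) (Int.natCast_dvd_natCast.1 ⟨b * q ^ k * t - w * (μ + (q ^ 2) ^ k * q) * c, ?_⟩)
    zify at h4 hN ht hw ⊢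
    linear_combination b * ht - h4 - c * hN - q * c * (μ + (q ^ 2) ^ k * q) * hw
  obtain ⟨q, rfl⟩ := Nat.exists_eq_add_of_le' (show 1 ≤ q by omega)
  rw [Nat.add_sub_cancel]
  have hb : q * c + q + 1 ≤ b := by nlinarith
  have := Nat.mul_le_mul_right m hb
  refine ⟨Nat.lt_of_mul_lt_mul_right (a := c) (by nlinarith), fun e => ?_⟩
  obtain rfl : q = 1 := by omega
  obtain rfl : c = 1 := by have := Nat.le_of_dvd two_pos ⟨w, hw⟩; omega
  omega

theorem ar2 {q q₁ b n : ℕ} (hq : 2 ≤ q) (h1 : 2 ≤ q₁) (h2 : q₁ ∣ q) (h3 : q ^ 2 * q₁ ∣ n)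
    (h4 : b * (n - 1) = (1 + q ^ 2 * (q + 1) + (q ^ 2) ^ 2 * q) * (q₁ - 1)) (hn : 2 ≤ n) : n ≤ q ^ 4 := by
  have h5 := Nat.le_of_dvd (by omega) h2
  obtain ⟨t, ht⟩ := h3
  obtain ⟨w, hw⟩ := h2
  zify [show 1 ≤ n by omega, show 1 ≤ q₁ by omega] at *
  have e : (q : ℤ) ^ 2 - q₁ + 1 ≤ b := by
    by_contra hlt
    have := Int.le_of_dvd (a := q ^ 2 * q₁) (b := q ^ 2 - q₁ + 1 - b) (by omega)
      ⟨1 - b * t + w * (1 + q ^ 2) * (q₁ - 1), by
        linear_combination h4 - b * ht + q ^ 2 * (1 + q ^ 2) * (q₁ - 1) * hw⟩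
    nlinarith [Int.natCast_nonneg b]
  have e1 : ((q : ℤ) ^ 2 - q + 1) * (n - 1) ≤ ((q : ℤ) ^ 2 - q + 1) * (q ^ 4 - 1) := by
    have a1 : ((q : ℤ) ^ 2 - q + 1) * (n - 1) ≤ b * (n - 1) := by gcongr; omega; omega
    have a2 : (1 + (q : ℤ) ^ 2 * (q + 1) + (q ^ 2) ^ 2 * q) * (q₁ - 1) ≤ (1 + q ^ 2 * (q + 1) + (q ^ 2) ^ 2 * q) * (q - 1) := by
      gcongr
    linarith
  have := le_of_mul_le_mul_left e1 (by nlinarith)
  omega

theorem ar3 {q n c : ℤ} (hq : 2 ≤ q) (h : (n - 1) * (-q - 1 - (q ^ 2 - 1)) =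
    -(q ^ 2 * (q + 1)) - (q ^ 2 - 1) * (1 + q ^ 2 * (q + 1) + (q ^ 2) ^ 2 * q - 1))
    (hc : (q + 1) * c = (q + 1) * (q ^ 6 * ((q ^ 2 - 1) * ((q ^ 3 + 1) * (q ^ 4 - 1))))) : ¬ n ∣ c := by
  obtain rfl := mul_left_cancel₀ (by omega) hc
  obtain rfl : n = (q ^ 2 + 1) * (q ^ 3 - q ^ 2 + 1) :=
    mul_right_cancel₀ (b := q * (q + 1)) (by positivity) (by linear_combination -h)
  intro hd
  rw [show q ^ 6 * ((q ^ 2 - 1) * ((q ^ 3 + 1) * (q ^ 4 - 1))) =
    (q ^ 2 + 1) * (q ^ 6 * (q - 1) ^ 2 * (q + 1) ^ 3 * (q ^ 2 - q + 1)) by ring,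
    mul_dvd_mul_iff_left (by positivity)] at hd
  have c1 : IsCoprime (q ^ 3 - q ^ 2 + 1) q := ⟨1, q - q ^ 2, by ring⟩
  have c2 : IsCoprime (q ^ 3 - q ^ 2 + 1) (q - 1) := ⟨1, -q ^ 2, by ring⟩
  have c3 : IsCoprime (q ^ 3 - q ^ 2 + 1) (q + 1) := ⟨-1, q ^ 2 - 2 * q + 2, by ring⟩
  have c4 : IsCoprime (q ^ 3 - q ^ 2 + 1) (q ^ 2 - q + 1) := ⟨q, 1 - q ^ 2, by ring⟩
  have := Int.le_of_dvd one_pos (isUnit_iff_dvd_one.1 ((((c1.pow_right.mul_right c2.pow_right).mul_right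
    c3.pow_right).mul_right c4).isUnit_of_dvd hd))
  nlinarith [sq_nonneg q]

end SU1

open SU1 CL.Coop CL.Uni

variable {F : Type} [Field F] [Fintype F] {q : ℕ} (hF : Fintype.card F = q ^ 2) {Ω : Type*} [Finite Ω]
include hF

theorem psu3 (h : q ≠ 2) [MulAction (PSU 3 F q) Ω] (tw : Tw (PSU 3 F q) Ω) : Concl (PSU 3 F q) (Nat.card Ω) := by
  have hq := two_le_q hF
  obtain ⟨μ, N, c, e1, e2, -, -, H⟩ := core hF (k := 1) le_rfl (fun e => h e.2) tw
  obtain rfl : μ = 0 := by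
    have := Nat.one_lt_pow two_ne_zero hq
    simp at e1; omega
  rcases H with ⟨-, e⟩ | ⟨e, -⟩ | ⟨q₁, b, h1, h2, h3, h4⟩
  · exact .inr (.inr (.inl ⟨F, _, _, q, by omega, hF, ⟨MulEquiv.refl _⟩, by rw [e, e2]; ring⟩))
  · omega
  · have h5 := (ar1 hq le_rfl h1 h2 h3 h4 e2 tw.two_le).1
    have h6 : (Nat.card Ω - 1) * 2 ≤ (Nat.card Ω - 1) * (q - 1) := Nat.mul_le_mul_left _ (by omega)
    by_cases h7 : q = 5
    · subst h7
      have := tw.le_card (Agent.S2149.result hF).1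
      omega
    · have := tw.le_card (Agent.S2148.result q hF (by omega) h7).1
      have h8 : 2 ^ 3 ≤ q ^ 3 := Nat.pow_le_pow_left hq 3
      rw [show 1 + q ^ 2 * 0 + (q ^ 2) ^ 1 * q = q ^ 3 + 1 by ring] at e2
      omega

theorem psu_false {m : ℕ} (hm : 4 ≤ m) [MulAction (PSU m F q) Ω] (tw : Tw (PSU m F q) Ω) : False := by
  have hq := two_le_q hF
  have hp := fun k => Nat.one_le_pow k q (by omega)
  have h4 : 2 ^ 2 ≤ q ^ 2 := Nat.pow_le_pow_left hq 2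
  have hn := tw.two_le
  obtain ⟨k, rfl⟩ : ∃ k, m = k + 2 := ⟨m - 2, by omega⟩
  obtain ⟨μ, N, c, e1, e2, e3, e4, H⟩ := core hF (k := k) (by omega) (by omega) tw
  have hN : N ≤ Nat.card Ω → 0 < μ → (q = 2 → Odd k) → False := fun h1 h2 h3 => by
    rcases H with ⟨e, -⟩ | ⟨-, e, -⟩ | ⟨q₁, b, a1, a2, a3, a4⟩
    · omega
    · omega
    obtain ⟨h5, h6⟩ := ar1 hq (by omega) a1 a2 a3 a4 e2 hn
    have h7 : 4 * 1 ≤ q ^ 2 * μ := Nat.mul_le_mul h4 h2
    by_cases h8 : q = 2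
    · have := h6 h8
      omega
    · have : (Nat.card Ω - 1) * 2 ≤ (Nat.card Ω - 1) * (q - 1) := Nat.mul_le_mul_left _ (by omega)
      omega
  rcases Nat.even_or_odd' k with ⟨j, rfl | rfl⟩
  · rw [if_pos (even_two_mul j)] at e1
    rcases j with _ | _ | j
    · omega
    · obtain rfl : μ = q + 1 := Nat.eq_of_mul_eq_mul_right (show 0 < q ^ 2 - 1 by omega) (by rw [e1, mul_comm]; simp)
      have h5 := tw.le_card (Agent.S2150.result q hF hq).1
      have h6 : q ^ 2 ≤ q ^ 3 := Nat.pow_le_pow_right (by omega) (by omega)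
      rw [show (q + 1) * (q ^ 3 + 1) = q ^ 4 + q ^ 3 + q + 1 by ring] at h5
      subst e2
      rcases H with ⟨e, -⟩ | ⟨-, -, e⟩ | ⟨q₁, b, a1, a2, a3, a4⟩
      · omega
      · rcases e (q ^ 2 - 1) (-q - 1) (by push_cast; ring) (by push_cast; ring) with e | e
        · have : (Nat.card Ω : ℤ) = q ^ 4 + q ^ 2 + 1 :=
            mul_right_cancel₀ (b := (q * (q + 1) : ℤ)) (by positivity) (by push_cast at e; linear_combination e)
          zify at h5 h6 hq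
          omega
        · refine ar3 (q := q) (c := c) (by omega) (by push_cast at e; exact e) ?_ (Int.natCast_dvd_natCast.2 e4)
          simp only [guOrder, Finset.prod_range_succ, Finset.prod_range_zero] at e3
          norm_num at e3
          zify [hp] at e3
          linear_combination e3
      · have := ar2 hq a1 a2 a3 a4 hn
        omega
    · have hμ : 0 < μ := Nat.pos_of_ne_zero fun e => by
        have := Nat.one_lt_pow (n := 2 * (j + 1 + 1)) (by omega) hq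
        simp [e] at e1; omega
      have hN' : N * (q ^ 2 - 1) = (q ^ (2 * j + 6) - 1) * (q ^ (2 * j + 5) + 1) := by
        rw [show 2 * (j + 1 + 1) - 1 = 2 * j + 3 by omega] at e1
        zify [hp] at e1 e2 ⊢
        rw [e2]
        linear_combination q ^ 2 * e1
      by_cases h8 : q = 2
      · subst h8
        have key : ¬ 3 * (Nat.card Ω + 1) ≤ (8 * 2 ^ (2 * j + 3) - 1) * (4 * 2 ^ (2 * j + 3)) := fun h => by
          have h' : (Nat.card Ω + 1) * (2 ^ 2 - 1) ≤ (2 ^ (2 * j + 6) - 1) * ((2 - 1) * 2 ^ (2 * j + 5)) := by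
            rw [mul_comm]; convert h using 2 <;> ring_nf
          have := tw.le_card (min_even hF (m := j) (h'.trans (Nat.mul_le_mul_left _ (by omega))) h')
          omega
        have hx : (8 : ℤ) ≤ 2 ^ (2 * j + 3) := by
          rw [pow_add]; have : (0 : ℤ) < 2 ^ (2 * j) := by positivity
          omega
        have hx' := hp (2 * j + 3)
        rw [show 2 * (j + 1 + 1) - 1 = 2 * j + 3 by omega, show 2 * (j + 1 + 1) = 2 * j + 3 + 1 by omega, pow_succ 2 (_ + 3)]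
          at e1
        have e2' := e2
        rw [show ((2 : ℕ) ^ 2) ^ (2 * (j + 1 + 1)) * 2 = 8 * (2 ^ (2 * j + 3)) ^ 2 by rw [← pow_mul]; ring] at e2
        rw [show (2 : ℕ) ^ 2 - 1 = 3 from rfl] at e1
        zify [show 1 ≤ 8 * 2 ^ (2 * j + 3) by omega, show 1 ≤ 2 ^ (2 * j + 3) * 2 by omega] at key e1 e2
        generalize (2 : ℤ) ^ (2 * j + 3) = x at *
        refine key ?_
        rcases H with ⟨e, -⟩ | ⟨-, -, e⟩ | ⟨q₁, b, a1, a2, a3, a4⟩
        · omega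
        · rcases e (2 * x - 1) (-x - 1) (by push_cast; linarith) (by
            push_cast; rw [e2]; linear_combination 4 * μ * e1) with e | e
          · have : 9 * (Nat.card Ω : ℤ) = 32 * x ^ 2 + 28 * x + 5 :=
              mul_right_cancel₀ (b := x) (by omega) (by
                push_cast at e; rw [e2] at e; linear_combination 3 * e + 4 * x * e1)
            nlinarith
          · have : 9 * (Nat.card Ω : ℤ) = 64 * x ^ 2 - 16 * x + 1 :=
              mul_right_cancel₀ (b := x) (by omega) (by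
                push_cast at e; rw [e2] at e; linear_combination -3 * e + 8 * x * e1)
            nlinarith
        · have := (ar1 hq (by omega) a1 a2 a3 a4 e2' hn).2 rfl
          zify [show 1 ≤ Nat.card Ω by omega] at this
          nlinarith
      · refine hN (tw.le_card (min_even hF (m := j) hN'.le (hN'.le.trans (Nat.mul_le_mul_left _ ?_)))) hμ (absurd · h8)
        have : 2 * q ^ (2 * j + 5) ≤ (q - 1) * q ^ (2 * j + 5) := Nat.mul_le_mul_right _ (by omega)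
        have := hp (2 * j + 5)
        omega
  · rw [if_neg (Nat.not_even_iff_odd.2 (odd_two_mul_add_one j)), Nat.add_sub_cancel] at e1
    obtain ⟨j, rfl⟩ : ∃ i, j = i + 1 := ⟨j - 1, by omega⟩
    refine hN (tw.le_card (min_odd' hF (m := j) (le_of_eq ?_))) (Nat.pos_of_ne_zero fun e => ?_) fun _ => odd_two_mul_add_one _
    · zify [hp] at e1 e2 ⊢
      rw [e2]
      linear_combination q ^ 2 * e1
    · have := Nat.one_lt_pow (n := 2 * (j + 1)) (by omega) hq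
      simp [e] at e1; omega

end CL.T2
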