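/-
CLAS/T2 (S2193): symplectic groups
-/
import Cfsg.Agent.CLAS.T2.Fish
import Cfsg.Agent.CLAS.T2.Heis
import Cfsg.Agent.CLAS.T2.SU
import Cfsg.Agent.CLAS.T2.Pol
import Cfsg.Agent.S2141
import Cfsg.Agent.S2142
import Cfsg.Agent.S0822

set_option autoImplicit false

namespace CL.T2.SpX

open Module CL.Witt CL.Witt.Form MulAction CL.Coop FormType Pol

variable {F : Type*} [Field F] {V : Type*} [AddCommGroup V] [Module F V] {f : Form (alt F) V} {u u' v w : V}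

variable (f) in
/-- a transvection -/
def tE (v : V) (c : F) : f.E := ⟨f.tv v c, f.ei_zero_eq_tv v c ▸ ei_mem_E _ _ _⟩

theorem mem_Z {g : f.E} : g ∈ Zg f (f.alt_q v) ↔ ∃ a, g = tE f v a :=
  ⟨fun ⟨a, _, e⟩ => ⟨a, Subtype.ext (e.trans (f.ei_zero_eq_tv v a))⟩,
    fun ⟨a, e⟩ => ⟨a, rfl, e ▸ (f.ei_zero_eq_tv v a).symm⟩⟩

theorem tE_mem (a : F) : tE f v a ∈ Zg f (f.alt_q v) := mem_Z.2 ⟨a, rfl⟩

theorem nzZ (h : f.B w u = 0) : Nz (Zg f (f.alt_q w)) (Zg f (f.alt_q u)) := by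
  intro g hg x hx
  obtain ⟨a, rfl⟩ := mem_Z.1 hg
  obtain ⟨b, rfl⟩ := mem_Z.1 hx
  refine mem_Z.2 ⟨b, Subtype.ext ?_⟩
  change f.tv w a * f.tv u b * (f.tv w a)⁻¹ = f.tv u b
  rw [tv_conj (f.tv_mem_O w a), f.tv_apply_of_B_eq_zero a h]

theorem ord3 (h : f.B u u' = 1) : (tE f u 1 * tE f u' 3) ^ 3 ^ 1 = 1 := by
  have h' : f.B u' u = -1 := by rw [f.alt_symm, h]
  refine Subtype.ext (LinearEquiv.ext fun x => ?_)
  change f.tv u 1 (f.tv u' 3 (f.tv u 1 (f.tv u' 3 (f.tv u 1 (f.tv u' 3 x))))) = x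
  simp only [tv_apply, B_add_right, B_smul_right, h, h', f.alt_B_self]
  module

theorem ord4 (h : f.B u u' = 1) : (tE f u 1 * tE f u' 2) ^ 2 ^ 2 = 1 := by
  have h' : f.B u' u = -1 := by rw [f.alt_symm, h]
  refine Subtype.ext (LinearEquiv.ext fun x => ?_)
  change f.tv u 1 (f.tv u' 2 (f.tv u 1 (f.tv u' 2 (f.tv u 1 (f.tv u' 2 (f.tv u 1 (f.tv u' 2 x))))))) = x
  simp only [tv_apply, B_add_right, B_smul_right, h, h', f.alt_B_self]
  module

variable [FiniteDimensional F V]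

theorem cj (hf : f.Nondeg) (h0 : u ≠ 0) (hv : v ≠ 0) : ∃ g : f.E, ∃ c ≠ 0, g.1 u = c • v ∧
    ∀ a, g * tE f u a * g⁻¹ = tE f v (c ^ 2 * a) := by
  obtain ⟨g, hg, c, hc, e⟩ := hf.exists_mem_E_apply_eq_smul (alt_big 0) (f.alt_q u) h0 (f.alt_q v) hv
  refine ⟨⟨g, hg⟩, c, hc, e, fun a => Subtype.ext ?_⟩
  change g * f.tv u a * g⁻¹ = f.tv v _
  rw [tv_conj (E_le_O hg), e, tv_smul]

theorem ncl (hf : f.Nondeg) (h0 : u ≠ 0) : Subgroup.normalClosure (Zg f (f.alt_q u) : Set f.E) = ⊤ := by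
  refine top_unique fun g _ => ?_
  obtain ⟨k, hk, e⟩ := hf.O_le_of_tv (M := (Subgroup.normalClosure (Zg f (f.alt_q u) : Set f.E)).map f.E.subtype)
    (fun v d => by
      by_cases hv : v = 0
      · rw [hv, tv_zero_left]; exact one_mem _
      obtain ⟨g, c, hc, -, e⟩ := cj hf h0 hv
      refine ⟨tE f v d, ?_, rfl⟩
      rw [← mul_div_cancel₀ d (pow_ne_zero 2 hc), ← e]
      exact Subgroup.normalClosure_normal.conj_mem _ (Subgroup.subset_normalClosure (tE_mem _)) _) (E_le_O g.2)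
  exact Subtype.ext e ▸ hk

variable [Finite F] {Ω : Type*} [Finite Ω] [MulAction f.E Ω]

/-- CASE II -/
theorem two (hf : f.Nondeg) (tw : Tw f.E Ω) (h0 : u ≠ 0) (huu : f.B u u' = 1) (hw : w ∉ F ∙ u) (hwu : f.B w u = 0)
    (hP : Tr (stabilizer f.E (pt u h0 (f.alt_q u) : Pt f)) Ω) {M : ℕ} (hM : Nat.card (Pt f) = 1 + Nat.card F * M)
    (hN : Nat.card (Pt f) * (Nat.card F - 1) + 1 = Nat.card F ^ finrank F V) :
    (Nat.card F + 1) * (Nat.card Ω - 1) ≤ Nat.card (Pt f) * (Nat.card F - 1) := by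
  have := Module.finite_of_finite F (M := V)
  have : Finite (V ≃ₗ[F] V) := Finite.of_injective _ DFunLike.coe_injective
  have := pre hf (alt_big 0)
  obtain ⟨κ, b, h1, ⟨t, h2⟩, h3, h4, h5⟩ := tw.blk nz_Z hP
  rw [index_stabilizer_of_transitive] at h3
  have hZ : ∀ {u u' : V}, f.B u u' = 1 → Nat.card (Zg f (f.alt_q u)) = Nat.card F := fun h =>
    (card_Zg _ h).trans card_ker_alt
  have hκ : κ ≠ 1 := fun e => tw.not_triv (ncl hf h0) (h4 e)
  obtain ⟨ω₀, -⟩ := tw.nt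
  have h6 := h1 ω₀
  rw [hZ huu] at h6
  have hq : 2 ≤ Nat.card F := Finite.one_lt_card
  have hn := tw.two_le
  generalize Nat.card (Zg f (f.alt_q u) ⊓ stabilizer f.E ω₀ : Subgroup f.E) = j at h6
  obtain ⟨k, rfl⟩ : ∃ k, κ = k + 2 := by
    rcases κ with _ | _ | k
    · omega
    · omega
    · exact ⟨k, rfl⟩
  obtain ⟨x, hx⟩ : ∃ x, Nat.card Ω = x + 1 := ⟨Nat.card Ω - 1, by omega⟩
  rw [hx, Nat.add_sub_cancel, show k + 2 - 1 = k + 1 from rfl] at h3
  rw [hx, Nat.add_sub_cancel]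
  have h7 : ((k + 2 : ℕ) : ℤ) ∣ b - 1 := ⟨b * t - 1 - j * M * (k + 1), by
    rw [hx] at h2
    rw [hM, h6] at h3
    zify at h2 h3
    push_cast
    linear_combination b * h2 - h3⟩
  rcases lt_trichotomy b 1 with hb | rfl | hb
  · obtain rfl : b = 0 := by omega
    have := Int.le_of_dvd one_pos (dvd_neg.1 h7)
    omega
  · exfalso
    have key : ∀ v, v ∉ F ∙ u → ∀ d a (ω : Ω), tE f v d • ω = tE f u a • ω → tE f u a • ω = ω := by
      intro v hv d a ω e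
      by_contra hne
      have hv0 : v ≠ 0 := fun e => hv (e ▸ zero_mem _)
      obtain ⟨g, c, hc, e1, e2⟩ := cj hf h0 hv0
      have := h5 g (fun hg => by
        obtain ⟨c', e'⟩ := smul_pt_eq.1 hg
        rw [← inv_smul_smul₀ hc v, ← e1, e'] at hv
        exact hv (Submodule.smul_mem _ _ (Submodule.smul_mem _ _ (Submodule.mem_span_singleton_self _))))
        _ (tE_mem a) _ (tE_mem (d / c ^ 2)) ω hne (by rw [e2, mul_div_cancel₀ d (pow_ne_zero 2 hc), e])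
      omega
    letI := Fintype.ofFinite F
    obtain ⟨p, hp, e, pp, hpe⟩ := FiniteField.card' F
    rw [← Nat.card_eq_fintype_card] at hpe
    haveI := Fact.mk pp
    by_cases hj : j = 1
    · subst hj
      have hu' : u' ∉ F ∙ u := fun e => by
        obtain ⟨c, rfl⟩ := Submodule.mem_span_singleton.1 e
        simp [f.alt_B_self] at huu
      have h8 : Nat.card Ω = p ^ (e * finrank F V) := by
        rw [pow_mul, ← hpe, ← hN, hx, h6, ← one_mul x, h3, mul_one]; rfl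
      have h9 : ∀ d (ω : Ω), (tE f u 1 * tE f u' d) • ω ≠ ω := fun d ω e => by
        have e1 : tE f u (-1) = (tE f u 1)⁻¹ := Subtype.ext (f.tv_inv u 1).symm
        have e2 := key u' hu' d (-1) ω (by rw [e1, eq_inv_smul_iff, ← mul_smul, e])
        have e3 := h1 ω
        rw [hZ huu, h6, Nat.mul_right_inj (by omega), eq_comm, Subgroup.card_eq_one] at e3
        have e4 : tE f u (-1) = 1 := Subgroup.mem_bot.1 (e3 ▸ ⟨tE_mem _, e2⟩)
        have e5 : f.tv u (-1) u' = u' := congrArg (fun g : f.E => g.1 u') e4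
        rw [tv_apply, huu] at e5
        simp [h0] at e5
      have h10 : ∀ r, r.Prime → r ∣ Nat.card Ω → r = p := fun r hr e =>
        (Nat.prime_dvd_prime_iff_eq hr pp).1 (hr.dvd_of_dvd_pow (h8 ▸ e))
      by_cases h2 : 2 ∣ Nat.card Ω
      · haveI : Fact (Nat.Prime 3) := ⟨Nat.prime_three⟩
        obtain ⟨ω, e⟩ := exists_fix (Ω := Ω) (ord3 huu) fun h3 =>
          absurd ((h10 _ Nat.prime_two h2).trans (h10 _ Nat.prime_three h3).symm) (by decide)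
        exact h9 _ _ e
      · obtain ⟨ω, e⟩ := exists_fix (ord4 huu) h2
        exact h9 _ _ e
    · have hw0 : w ≠ 0 := fun e => hw (e ▸ zero_mem _)
      obtain ⟨w', -, hww⟩ := hf.exists_partner' (f.alt_q w) hw0
      have hpj : p ∣ j := by
        obtain ⟨i, -, rfl⟩ := (Nat.dvd_prime_pow pp).1 (hpe ▸ h6 ▸ Dvd.intro_left _ rfl : j ∣ p ^ (e : ℕ))
        exact dvd_pow_self p fun e => hj (by rw [e, pow_zero])
      have h8 := card_orbits h1
      obtain ⟨ω, hω⟩ := exists_fix_orbit (Ω := Ω) (r := p) (IsPGroup.of_card ((hZ hww).trans hpe)) (nzZ hwu) fun hd => by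
        have e : Nat.card (orbitRel.Quotient (Zg f (f.alt_q u)) Ω) = 1 + j * (M * (k + 1)) :=
          Nat.eq_of_mul_eq_mul_right (show 0 < k + 2 by omega) (by rw [h8, hx, ← one_mul x, h3, hM, h6]; ring)
        exact pp.one_lt.ne' (Nat.dvd_one.1 ((Nat.dvd_add_left (hpj.mul_right _)).1 (e ▸ hd)))
      obtain ⟨g, c, hc, -, e2⟩ := cj hf h0 hw0
      have e5 : Zg f (f.alt_q u) ≤ stabilizer f.E (g⁻¹ • ω) := fun y hy => by
        obtain ⟨a, rfl⟩ := mem_Z.1 hy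
        obtain ⟨y, hy, e4⟩ := hω _ (tE_mem (c ^ 2 * a))
        obtain ⟨a', rfl⟩ := mem_Z.1 hy
        rw [key w hw _ _ _ e4, ← e2, mul_smul, mul_smul, ← eq_inv_smul_iff] at e4
        exact e4
      have e3 := h1 (g⁻¹ • ω)
      rw [inf_eq_left.2 e5] at e3
      have := Nat.card_pos (α := Zg f (f.alt_q u))
      nlinarith
  · have h8 : k + 3 ≤ b := by
      have := Int.le_of_dvd (by omega) h7
      omega
    obtain ⟨i, hi⟩ : ∃ i, Nat.card F = k + 2 + i := Nat.exists_eq_add_of_le (h6 ▸ Nat.le_mul_of_pos_right _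
      (Nat.pos_of_ne_zero fun e => by rw [e] at h6; omega))
    rw [hi, show k + 2 + i - 1 = k + 1 + i by omega]
    have h9 : (k + 3) * x ≤ Nat.card (Pt f) * (k + 1) := h3 ▸ Nat.mul_le_mul_right _ h8
    have h10 : x ≤ Nat.card (Pt f) := by nlinarith
    nlinarith

theorem core (hf : f.Nondeg) {m : ℕ} (hm : finrank F V = 2 * m) (h2 : 2 ≤ m) (tw : Tw f.E Ω)
    (h3 : 3 ≤ Nat.card F → (Nat.card F ^ (2 * m) - 1) / (Nat.card F - 1) ≤ Nat.card Ω)
    (h4 : Nat.card F = 2 → 3 ≤ m ∧ 2 ^ (m - 1) * (2 ^ m - 1) ≤ Nat.card Ω) :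
    Nat.card F = 2 ∧ (Nat.card Ω = 2 ^ (m - 1) * (2 ^ m + 1) ∨ Nat.card Ω = 2 ^ (m - 1) * (2 ^ m - 1)) := by
  have := Module.finite_of_finite F (M := V)
  have : Finite (V ≃ₗ[F] V) := Finite.of_injective _ DFunLike.coe_injective
  have := pre hf (alt_big 0)
  obtain ⟨e, e', he⟩ := hf.exists_isHyp_alt (k := 2) (by omega)
  have huu : f.B (e 0) (e' 0) = 1 := by simpa using he.B_pair 0 0
  have hww : f.B (e 1) (e' 1) = 1 := by simpa using he.B_pair 1 1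
  have huw : f.B (e 0) (e' 1) = 0 := by simpa using he.B_pair 0 1
  have hwu : f.B (e 1) (e' 0) = 0 := by simpa using he.B_pair 1 0
  have h0 : e 0 ≠ 0 := fun e => by simp [e] at huu
  have h0' : e' 0 ≠ 0 := fun e => by simp [e] at huu
  have hw0 : e 1 ≠ 0 := fun e => by simp [e] at hww
  have hw : e 1 ∉ F ∙ e 0 := fun h => by
    obtain ⟨c, h⟩ := Submodule.mem_span_singleton.1 h
    rw [← h, B_smul_left, huw] at hww
    simp at hww
  have hne : (pt _ h0 (f.alt_q _) : Pt f) ≠ pt _ h0' (f.alt_q _) := fun h => by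
    obtain ⟨c, h⟩ := Submodule.mem_span_singleton.1 (pt_eq.1 h)
    rw [← h] at huu
    simp [f.alt_B_self] at huu
  have hna : ¬ adj (pt _ h0 (f.alt_q _) : Pt f) (pt _ h0' (f.alt_q _)) := fun h =>
    one_ne_zero (huu.symm.trans (adj_pt.1 h).2)
  have hadj : adj (pt _ h0 (f.alt_q _) : Pt f) (pt _ hw0 (f.alt_q _)) := adj_pt.2 ⟨hw, he.B_left 0 1⟩
  obtain ⟨μ, c1, c2, c3, c4⟩ := counts hf (f.alt_q _) (f.alt_q _) huu (h0 := h0) (h0' := h0')
  rw [Nat.card_congr (Equiv.subtypeUnivEquiv fun x => f.alt_q _), card_Wp hf (f.alt_q _) (f.alt_q _) huu] at c4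
  obtain ⟨k, rfl⟩ : ∃ k, m = k + 1 := ⟨m - 1, by omega⟩
  rw [card_ker_alt] at c3
  rw [hm, show 2 * (k + 1) - 2 = 2 * k by omega] at c3 c4
  have hq : 2 ≤ Nat.card F := Finite.one_lt_card
  have hN : Nat.card (Pt f) * (Nat.card F - 1) + 1 = Nat.card F ^ (2 * (k + 1)) := by
    obtain ⟨i, hi⟩ : ∃ i, Nat.card F = i + 1 := ⟨Nat.card F - 1, by omega⟩
    rw [c3, mul_add 2, pow_add, ← c4, hi, Nat.add_sub_cancel]; ring
  rw [← hN, Nat.add_sub_cancel, Nat.mul_div_cancel _ (by omega)] at h3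
  have hn := tw.two_le
  by_cases hP : Tr (stabilizer f.E (pt _ h0 (f.alt_q _) : Pt f)) Ω
  · exfalso
    have h5 := two hf tw h0 huu hw (he.B_left 1 0) hP (M := μ + Nat.card F ^ (2 * k)) (by rw [c3]; ring) (hm ▸ hN)
    obtain ⟨x, hx⟩ : ∃ x, Nat.card Ω = x + 1 := ⟨Nat.card Ω - 1, by omega⟩
    obtain ⟨i, hi⟩ : ∃ i, Nat.card F = i + 1 := ⟨Nat.card F - 1, by omega⟩
    rw [hx, Nat.add_sub_cancel] at h5
    rcases hq.eq_or_lt with hq | hq
    · obtain ⟨h6, h7⟩ := h4 hq.symm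
      have h8 : 2 ^ 2 ≤ 2 ^ k := Nat.pow_le_pow_right two_pos (by omega)
      rw [← hq, mul_comm 2, pow_mul, pow_succ 2 k] at hN
      rw [Nat.add_sub_cancel, pow_succ, hx] at h7
      rw [← hq] at h5
      generalize 2 ^ k = a at *
      obtain ⟨a, rfl⟩ : ∃ b, a = b + 1 := ⟨a - 1, by omega⟩
      rw [show (a + 1) * 2 - 1 = 2 * a + 1 by omega] at h7
      nlinarith
    · have h6 := h3 hq
      have h7 : 0 < Nat.card F ^ (2 * k) := by positivity
      rw [hi, Nat.add_sub_cancel] at h5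
      rw [hi] at c3 h7
      nlinarith
  rcases hq.eq_or_lt with hq | hq
  swap
  · refine absurd (h3 hq) (not_le.2 (tw.card_lt (fun h => ?_) hP))
    obtain ⟨g, e1, e2⟩ := h.two _ _ _ _ hadj.1 hne
    exact hna (e1 ▸ e2 ▸ adj_smul g _ _ hadj)
  obtain ⟨h6, -⟩ := h4 hq.symm
  have h8 : 2 ^ 2 ≤ 2 ^ k := Nat.pow_le_pow_right two_pos (by omega)
  refine ⟨hq.symm, ?_⟩
  rw [← hq, mul_comm 2 k, pow_mul] at c3 c4
  rw [← hq] at c2
  rw [Nat.add_sub_cancel, pow_succ]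
  generalize 2 ^ k = a at *
  obtain ⟨a, rfl⟩ : ∃ b, a = b + 1 := ⟨a - 1, by omega⟩
  obtain rfl : μ = a * (a + 2) := by nlinarith
  have := tw.srg hP adj adj_symm adj_irrefl adj_smul (tr_adj hf ⟨_, _, _, _, f.alt_q _, f.alt_q _, huu, f.alt_q _,
    f.alt_q _, hww, he.B_left 0 1, huw, f.B_eq_zero_symm hwu, he.B_right 0 1⟩ (.inl ⟨1, one_ne_zero, rfl⟩))
    (tr_opp hf (alt_big 0)) c2 (by nlinarith) (by nlinarith) ⟨_, hne, hna, c1⟩ (r := a) (s := -a - 2)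
    (by push_cast; ring) (by rw [c3]; push_cast; ring)
  rw [c3] at this
  rw [show (a + 1) * 2 - 1 = 2 * a + 1 by omega]
  refine this.imp (fun h => ?_) fun h => ?_ <;> zify <;>
    refine mul_right_cancel₀ (show (2 * (a + 1) : ℤ) ≠ 0 by positivity) ?_ <;> push_cast at h
  · linear_combination h
  · linear_combination -h

end CL.T2.SpX

namespace CL.T2

open Cfsg Cfsg.Lie

/-- `PSp₄(3) ≅ PSU₄(2)` (S0822, `Tw.comp`, `psu_false`).  Otherwise `Y` = points, `N = (q^(2m) - 1) / (q - 1)`, `P = P_u`,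
`Z` = transvections with centre `u`, `Q = O_p(P)` (KSG/Coop*: `exists_piSp`).  CASE I, `P` intransitive: `q ≥ 3`: `card_lt`
against S2141.  `q = 2`: `Tw.srg`, adjacent = orthogonal, `k = 2^(2m-1) - 2`, `μ = 2^(2m-2) - 1`, `r = 2^(m-1) - 1`,
`s = -2^(m-1) - 1`: `n = 2^(m-1) (2^m ± 1)` (last case).  CASE II: `blk` (`X = Z`): `b (n - 1) = N (q₁ - 1)`, `1 < q₁ ∣ q`,
`q₁ ∣ n`, `b ≡ 1 mod q₁`; `n ≥ N` (S2141), resp. `n ≥ 2^(m-1) (2^m - 1)` (S2142, `q = 2`), gives `b = 1`.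
`q₁ = q`: `n = q^(2m)`, `Z` semiregular; take `t ∈ Z`, `t' ∈ Z^g` (opposite transvection groups, `SL₂`) with `t⁻¹ t'`... of order 3
(`p ≠ 3`: trace `-1`) or 4 (`p = 3`: trace `0`); it fixes a point (`exists_fix`), so `t' ω = t ω ≠ ω` and `b ≥ 2`.
`q₁ < q` (so `q ≥ 4`): `n = q₁ N - (N - 1)`, `n / q₁` is prime to `p`.  All `Q`-orbits have the same length (`blk`), a power of
`p` dividing `n`, `≥ q₁`: so the `Q`-orbits are the `Z`-orbits.  `S = Q Z_w` (`w ⊥ u`, `w ∉ ⟨u⟩`) is a `p`-group centralising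
`Z` and normalising `Q`; it fixes a `Q`-orbit `Δ` (`exists_fix_orbit`); `Z` is central in `S` and transitive on `Δ`, so
`⁅S, S⁆` fixes `Δ` pointwise.  But `Z ≤ ⁅S, S⁆`: `⁅t_w(a), E(u, v)⁆ = E(u, a β w) t_u(± a β²)` (`β = B(v, w)`), two of these with
the same `a β` and different `β` have quotient any element of `Z`.  So `q₁ = 1`. -/
theorem psp {F : Type} [Field F] [Fintype F] {m : ℕ} (hm : 2 ≤ m) (h : m = 2 → 3 ≤ Fintype.card F) {Ω : Type*}
    [Finite Ω] [MulAction (PSp m F) Ω] (tw : Tw (PSp m F) Ω) : Concl (PSp m F) (Nat.card Ω) := by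
  by_cases hx : m = 2 ∧ Fintype.card F = 3
  · obtain ⟨rfl, hx⟩ := hx
    letI := Fintype.ofFinite (GaloisField 2 2)
    have hF : Fintype.card (GaloisField 2 2) = 2 ^ 2 := by
      rw [← Nat.card_eq_fintype_card, GaloisField.card 2 2 two_ne_zero]
    obtain ⟨e⟩ := Cfsg.Agent.S0822.result hF hx
    letI := MulAction.compHom Ω e.toMonoidHom
    exact (psu_false hF le_rfl (tw.comp e.toMonoidHom e.surjective)).elim
  obtain ⟨π, hπ, -⟩ := CL.Coop.exists_piSp (F := F) m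
  letI := MulAction.compHom Ω π
  have h3 : Fintype.card F = 2 → 3 ≤ m := fun e => by omega
  have := SpX.core (CL.Sp.spForm_nondeg m F) (CL.Sp.finrank_sp m F) hm (tw.comp π hπ)
  rw [Nat.card_eq_fintype_card (α := F)] at this
  obtain ⟨h1, h2⟩ := this (fun hq => tw.le_card (Cfsg.Agent.S2141.result rfl m hm hq hx).1)
    fun hq => ⟨h3 hq, tw.le_card (Cfsg.Agent.S2142.result hq m (h3 hq)).1⟩
  exact .inr (.inr (.inr (.inr (.inr (.inr (.inr (.inr ⟨F, _, _, m, h3 h1, h1, ⟨.refl _⟩, h2⟩)))))))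

end CL.T2
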