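/-
CLAS/T2 (S2193): Suzuki groups
-/
import Cfsg.Agent.CLAS.T2.Fish
import Cfsg.Agent.CLAS.T2.Heis
import Cfsg.Agent.CLAS.T2.Blk
import Cfsg.Agent.CHEV.SzSub

set_option autoImplicit false

namespace CL.T2

open Cfsg Cfsg.Lie

/-- `G` is 2-transitive on `Y = G ⧸ B`, `|Y| = q² + 1`.  `B` intransitive on `Ω`: `Tw.card_eq`.  `B` transitive: `G = B K`,
`q² + 1 ∣ |K|` for the proper subgroup `K = G_ω`; by S2251 / `CL.Sz.Model.sub_cases` (CHEV/SzSub) `|K|` divides `q² (q - 1)`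
(prime to `q² + 1`), or is at most `4 (q + r + 1) < q² + 1`, or at most `|Sz(q₀)| < q₀⁵ < q²`, `q ≥ q₀³`. -/
theorem sz {F : Type} [Field F] [Fintype F] {m : ℕ} (hm : 1 ≤ m) (hF : Fintype.card F = 2 ^ (2 * m + 1))
    {Ω : Type*} [Finite Ω] [MulAction (Lie.Sz F (2 ^ (m + 1))) Ω] (tw : Tw (Lie.Sz F (2 ^ (m + 1))) Ω) :
    Nat.card Ω = Fintype.card F ^ 2 + 1 := by
  have := CL.Sz.charP_two hF
  have hq := CL.Sz.natCard_eq hF
  set M := CL.Sz.lieModel hF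
  have := M.finite_G
  have h8 : 8 ≤ Nat.card F := hq ▸ Nat.pow_le_pow_right (show 0 < 2 by norm_num) (show 3 ≤ 2 * m + 1 by omega)
  have hΩ := M.card_Ω
  rw [← Nat.card_eq_fintype_card, ← hΩ]
  have tY : Tw (Lie.Sz F (2 ^ (m + 1))) M.Ω := ⟨Finite.one_lt_card_iff_nontrivial.1 (by rw [hΩ]; nlinarith),
    fun a b c d h1 h2 => MulAction.is_two_pretransitive_iff.1 M.two_transitive h1 h2⟩
  have := tY.pre
  refine tw.card_eq tY (y := M.inf) fun ht => ?_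
  rw [M.stabilizer_inf] at ht
  obtain ⟨ω, -⟩ := tw.nt
  have : Nonempty Ω := ⟨ω⟩
  set K := MulAction.stabilizer (Lie.Sz F (2 ^ (m + 1))) ω
  have hd : Nat.card F ^ 2 + 1 ∣ Nat.card K := by
    refine ⟨Nat.card (M.B ⊓ K : Subgroup _), Nat.eq_of_mul_eq_mul_left (Nat.card_pos (α := Ω)) ?_⟩
    have h1 := K.index_mul_card
    rw [tw.index ω, M.card_G] at h1
    rw [h1, mul_left_comm, ← ht.card_eq ω, M.card_B]
    ring
  have hle := Nat.le_of_dvd Nat.card_pos hd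
  obtain ⟨q, hq'⟩ : ∃ q, Nat.card F = q + 1 := ⟨Nat.card F - 1, by omega⟩
  rcases M.sub_cases hm hF K with ⟨g, h⟩ | ⟨g, h⟩ | ⟨x, hx, h⟩ | ⟨g, S, -, h⟩
  · have h1 := hd.trans (Subgroup.card_dvd_of_le h)
    rw [CL.Sz.Model.card_B, hq', Nat.add_sub_cancel] at h1
    have h2 := Nat.le_of_dvd (by omega) ((Nat.dvd_add_right h1).1
      (⟨q, by ring⟩ : (q + 1) ^ 2 + 1 ∣ (q + 1) ^ 2 * q + q))
    nlinarith
  · have h1 := Subgroup.card_le_of_le h
    rw [CL.Sz.Model.card_N, hq', Nat.add_sub_cancel] at h1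
    rw [hq'] at hle
    nlinarith
  · have h1 := Subgroup.card_le_of_le h
    obtain ⟨h2, h3⟩ := hx.card_centralizer hm hF
    have h4 : 2 * 2 ^ (m + 1) ≤ Nat.card F := by
      rw [hq, ← pow_succ']; exact Nat.pow_le_pow_right (by norm_num) (by omega)
    have h5 : 2 * Nat.card (Subgroup.centralizer {x}) ≤ 3 * Nat.card F + 2 := by
      rcases h2 with e | e <;> rw [e] <;> simp only [CL.Sz.kPlus, CL.Sz.kMinus, ← hq] <;> omega
    nlinarith
  · obtain ⟨k, hk, ⟨c, hc⟩, -, h2⟩ := CL.Sz.exists_card_subfield hF S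
    have h3 : k < m := h2 fun e => tw.stab_ne_top ω (h.trans (e ▸ CL.Sz.Model.sub_top _))
    have h4 : 3 ≤ c := by
      rcases c with _ | _ | _ | c
      all_goals omega
    have h5 : Nat.card S ^ 3 ≤ Nat.card F := by
      rw [hk, hq, ← pow_mul, hc]
      exact Nat.pow_le_pow_right (by norm_num) (Nat.mul_le_mul_left _ h4)
    rw [h, CL.Sz.Model.card_sub _ hF] at hle
    obtain ⟨s, hs⟩ : ∃ s, Nat.card S = s + 1 := ⟨Nat.card S - 1, by have := Nat.card_pos (α := S); omega⟩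
    rw [hs] at h5 hle
    have h6 := Nat.pow_le_pow_left h5 2
    rw [Nat.add_sub_cancel] at hle
    have h7 : ((s + 1) ^ 3) ^ 2 = (s + 1) ^ 2 * ((s + 1) ^ 2 + 1) * s + (s + 1) ^ 2 * (s ^ 4 + 3 * s ^ 3 + 4 * s ^ 2 + 2 * s + 1) := by
      ring
    omega

end CL.T2
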