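/-
CLAS/T2 (S2193): the large Ree groups, the argument in the octagon model
-/
import Cfsg.Agent.CLAS.T2.Blk
import Cfsg.Agent.CLAS.T2.Heis
import Cfsg.Agent.INV.RF.Bru

set_option autoImplicit false
set_option linter.unusedSimpArgs false
set_option linter.unusedSectionVars false

namespace CL.T2.TF

open CL.RF CL.RF.U MulAction

theorem arith {q b k : ℤ} (hq : 8 ≤ q) (hb : 0 ≤ b) (hk : 1 ≤ k)
    (h : b * (q ^ 5 * k - 1) = (q + 1) * (q ^ 3 + 1) * (q ^ 6 + 1) * (q - 1)) : False := by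
  obtain ⟨c, hc⟩ : ∃ c, c = k * b - (q ^ 6 - q ^ 4 + q ^ 3 - q + 1) := ⟨_, rfl⟩
  have e1 : b = q ^ 3 - q ^ 2 + 1 + c * q ^ 5 := by rw [hc]; linear_combination -h
  have e2 : q ^ 6 - q ^ 4 + q ^ 3 - q + 1 = k * (q ^ 3 - q ^ 2 + 1) + c * k * q ^ 5 - c := by
    linear_combination hc + k * e1
  have q0 : 0 < q := by omega
  have p2 : 8 * q ≤ q ^ 2 := by nlinarith
  have p3 : 8 * q ^ 2 ≤ q ^ 3 := by nlinarith
  have p4 : 8 * q ^ 3 ≤ q ^ 4 := by nlinarith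
  have p5 : 8 * q ^ 4 ≤ q ^ 5 := by nlinarith
  have c0 : 0 ≤ c := by
    by_contra hn
    have : c * q ^ 5 ≤ -1 * q ^ 5 := mul_le_mul_of_nonneg_right (by omega) (by positivity)
    omega
  rcases c0.eq_or_lt with rfl | c1
  · have e3 : (q ^ 3 + q ^ 2 - k) * (q ^ 3 - q ^ 2 + 1) = q ^ 2 + q - 1 := by linear_combination e2
    have := Int.le_of_dvd (by omega) (Dvd.intro_left _ e3)
    omega
  · rcases lt_or_ge (c * k) q with h1 | h1
    · have k1 : k ≤ q - 1 := by nlinarith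
      have a1 : c * k * q ^ 5 ≤ (q - 1) * q ^ 5 := mul_le_mul_of_nonneg_right (by omega) (by positivity)
      have a2 : k * (q ^ 3 - q ^ 2 + 1) ≤ (q - 1) * q ^ 3 := mul_le_mul k1 (by omega) (by omega) (by omega)
      have a3 : (q - 1) * q ^ 5 = q ^ 6 - q ^ 5 := by ring
      have a4 : (q - 1) * q ^ 3 = q ^ 4 - q ^ 3 := by ring
      omega
    · have a1 : q * (q ^ 5 - 1) ≤ c * k * (q ^ 5 - 1) := mul_le_mul_of_nonneg_right h1 (by omega)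
      have a2 : c ≤ c * k := by nlinarith
      have a3 : 0 ≤ k * (q ^ 3 - q ^ 2 + 1) := mul_nonneg (by omega) (by omega)
      have a4 : q * (q ^ 5 - 1) = q ^ 6 - q := by ring
      have a5 : c * k * (q ^ 5 - 1) = c * k * q ^ 5 - c * k := by ring
      omega

variable {K : Type*} [Field K] {σ : K →+* K} [T : Tits σ]

/-- `V₂ U₃ U₄ U₅ V₆` -/
def R1 (σ : K →+* K) [Tits σ] : Subgroup (U σ) where
  carrier := {g | g.a1 = 0 ∧ g.b2 = 0 ∧ g.b6 = 0 ∧ g.a7 = 0 ∧ g.b8 = 0 ∧ g.c8 = 0}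
  mul_mem' {a b} ha hb := by simp only [Set.mem_ofPred_eq] at *; usimp; simp [*]
  one_mem' := ⟨rfl, rfl, rfl, rfl, rfl, rfl⟩
  inv_mem' {a} ha := by simp only [Set.mem_ofPred_eq] at *; usimp; simp [*]

/-- `V₂ U₃ V₄ U₅ V₆` -/
def M (σ : K →+* K) [Tits σ] : Subgroup (U σ) where
  carrier := {g | g.a1 = 0 ∧ g.b2 = 0 ∧ g.b6 = 0 ∧ g.a7 = 0 ∧ g.b8 = 0 ∧ g.c8 = 0 ∧ g.b4 = 0}
  mul_mem' {a b} ha hb := by simp only [Set.mem_ofPred_eq] at *; usimp; simp [*]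
  one_mem' := ⟨rfl, rfl, rfl, rfl, rfl, rfl, rfl⟩
  inv_mem' {a} ha := by simp only [Set.mem_ofPred_eq] at *; usimp; simp [*]

theorem mem_R1 {g : U σ} : g ∈ R1 σ ↔ g.a1 = 0 ∧ g.b2 = 0 ∧ g.b6 = 0 ∧ g.a7 = 0 ∧ g.b8 = 0 ∧ g.c8 = 0 := Iff.rfl
theorem mem_M {g : U σ} : g ∈ M σ ↔ g.a1 = 0 ∧ g.b2 = 0 ∧ g.b6 = 0 ∧ g.a7 = 0 ∧ g.b8 = 0 ∧ g.c8 = 0 ∧ g.b4 = 0 := Iff.rfl

theorem cm {x m : U σ} (hx : x ∈ Q) (hm : m ∈ M σ) :
    x * m * x⁻¹ * m⁻¹ = y4 0 (x.a1 * m.c6 + x.b2 * m.a5 + x.b6 * m.a3 + x.a7 * m.c2) := by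
  have := T.char
  rw [mul_inv_eq_iff_eq_mul, mul_inv_eq_iff_eq_mul]
  obtain ⟨h1, h2⟩ := hx
  obtain ⟨k1, k2, k3, k4, k5, k6, k7⟩ := hm
  usimp
  simp only [h1, h2, k1, k2, k3, k4, k5, k6, k7]
  usimp
  and_intros <;> grind

theorem card_Z : Nat.card (Z : Subgroup (U σ)) = Nat.card K :=
  Nat.card_congr ⟨fun g => g.1.c4, fun c => ⟨y4 0 c, c, rfl⟩, fun ⟨_, _, rfl⟩ => rfl, fun _ => rfl⟩

theorem card_V : Nat.card (V : Subgroup (U σ)) = Nat.card K ^ 2 := by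
  rw [sq, ← Nat.card_prod]
  exact Nat.card_congr ⟨fun g => (g.1.c4, g.1.c6), fun c => ⟨vv c.1 c.2, _, _, rfl⟩, fun ⟨_, _, _, rfl⟩ => rfl, fun _ => rfl⟩

theorem card_Q : Nat.card (Q : Subgroup (U σ)) = Nat.card K ^ 10 := by
  rw [← Nat.card_fin 10, ← Nat.card_fun]
  refine Nat.card_congr ⟨fun g => ![g.1.a1, g.1.b2, g.1.c2, g.1.a3, g.1.b4, g.1.c4, g.1.a5, g.1.b6, g.1.c6, g.1.a7],
    fun f => ⟨⟨f 0, f 1, f 2, f 3, f 4, f 5, f 6, f 7, f 8, f 9, 0, 0⟩, rfl, rfl⟩, fun ⟨g, h1, h2⟩ => Subtype.ext ?_, fun f => ?_⟩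
  · ext <;> first | rfl | exact h1.symm | exact h2.symm
  · funext i; fin_cases i <;> rfl

theorem card_R1 : Nat.card (R1 σ) = Nat.card K ^ 6 := by
  rw [← Nat.card_fin 6, ← Nat.card_fun]
  refine Nat.card_congr ⟨fun g => ![g.1.c2, g.1.a3, g.1.b4, g.1.c4, g.1.a5, g.1.c6],
    fun f => ⟨⟨0, 0, f 0, f 1, f 2, f 3, f 4, 0, f 5, 0, 0, 0⟩, rfl, rfl, rfl, rfl, rfl, rfl⟩,
      fun ⟨g, h1, h2, h3, h4, h5, h6⟩ => Subtype.ext ?_, fun f => ?_⟩
  · ext <;> first | rfl | (symm; assumption)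
  · funext i; fin_cases i <;> rfl

variable [Finite K]

theorem card_inf (A : Subgroup (U σ)) :
    Nat.card (A ⊓ R1 σ : Subgroup (U σ)) ≤ Nat.card K * Nat.card (A ⊓ M σ : Subgroup (U σ)) := by
  let f : (A ⊓ R1 σ : Subgroup (U σ)) →* Multiplicative K :=
    { toFun := fun g => .ofAdd g.1.b4
      map_one' := rfl
      map_mul' := fun a b => by
        rw [← ofAdd_add, Subgroup.coe_mul, mul_b4, a.2.2.2.2.2.2.1, a.2.2.2.2.2.2.2]
        simp }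
  rw [← f.ker.index_mul_card, Subgroup.index_ker]
  refine Nat.mul_le_mul (Nat.card_le_card_of_injective _ Subtype.val_injective) (Nat.card_le_card_of_injective
    (fun g => ⟨g.1.1, g.1.2.1, ?_⟩) fun a b e => Subtype.ext (Subtype.ext (Subtype.mk.inj e)))
  obtain ⟨h1, h2, h3, h4, h5, h6⟩ := g.1.2.2
  exact ⟨h1, h2, h3, h4, h5, h6, g.2⟩

/-- a subgroup of `Q` meeting `Z` trivially has order at most `q⁵` -/
theorem card_le {A : Subgroup (U σ)} (hA : A ≤ Q) (hZ : A ⊓ Z = ⊥) : Nat.card A ≤ Nat.card K ^ 5 := by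
  have := T.char
  have h := pairing (Q := Q) (M := M σ) (Z := Z) (R₁ := R1 σ) (R₂ := Z) (A := A) (fun g h => ⟨h.2.2.2.2.1, h.2.2.2.2.2.1⟩)
    (by rintro _ ⟨c, rfl⟩; exact ⟨rfl, rfl⟩) (by rintro _ ⟨c, rfl⟩ x -; exact comm_Z c x)
    (fun x hx m hm => ⟨_, cm hx hm⟩) (fun g h => h.2.2.2.2) (fun x hx m hm => by
      have e := cm (x := x) hx.2.2.2.2 hm
      obtain ⟨h1, h2, h3, h4, -⟩ := hx
      rw [h1, h2, h3, h4] at e
      simp only [zero_mul, add_zero] at e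
      exact mul_inv_eq_iff_eq_mul.1 (mul_inv_eq_one.1 e))
    (by
      rintro m hm hn _ ⟨c, rfl⟩
      by_cases h1 : m.c6 = 0
      · by_cases h2 : m.a5 = 0
        · by_cases h3 : m.a3 = 0
          · by_cases h4 : m.c2 = 0
            · obtain ⟨k1, k2, k3, k4, k5, k6, k7⟩ := hm
              exact (hn ⟨m.c4, by usimp; simp [*]⟩).elim
            · exact ⟨x7 (c / m.c2), ⟨rfl, rfl⟩, by rw [cm ⟨rfl, rfl⟩ hm]; simp [h4]⟩
          · exact ⟨y6 (c / m.a3) 0, ⟨rfl, rfl⟩, by rw [cm ⟨rfl, rfl⟩ hm]; simp [h3]⟩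
        · exact ⟨y2 (c / m.a5) 0, ⟨rfl, rfl⟩, by rw [cm ⟨rfl, rfl⟩ hm]; simp [h2]⟩
      · exact ⟨x1 (c / m.c6), ⟨rfl, rfl⟩, by rw [cm ⟨rfl, rfl⟩ hm]; simp [h1]⟩) hA fun h => by
      have : (y4 0 1 : U σ) ∈ A ⊓ Z := ⟨h ⟨1, rfl⟩, 1, rfl⟩
      rw [hZ, Subgroup.mem_bot] at this
      exact one_ne_zero (congrArg U.c4 this)
  rw [hZ, Subgroup.card_bot, mul_one, card_R1, card_Q] at h
  have h2 := h.trans (Nat.mul_le_mul_left _ (card_inf A))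
  have p1 : 0 < Nat.card (A ⊓ M σ : Subgroup (U σ)) := Nat.card_pos
  have p2 : 0 < Nat.card K := Nat.card_pos
  refine Nat.le_of_mul_le_mul_left (c := Nat.card (A ⊓ M σ : Subgroup (U σ)) * Nat.card K ^ 6) ?_ (by positivity)
  calc _ = _ := by ring
    _ ≤ _ := h2
    _ = _ := by ring

variable {r : R8 K} {G Ω : Type*} [Group G] [Finite G] [MulAction G Ω] [Finite Ω]

theorem semi [IsSimpleGroup G] (A : P81 σ r G) (tw : Tw G Ω) (hP : Tr (Subgroup.normalizer (A.Z : Set G)) Ω) : Semi A.Z Ω := by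
  have := T.char
  have n1i : A.n1⁻¹ = A.n1 := inv_eq_of_mul_eq_one_right A.n1n1
  have key : ∀ t c, A.u (x1 t) * A.n1 * A.u (y4 0 c) * (A.u (x1 t) * A.n1)⁻¹ = A.u (vv (t * c) c) := fun t c => by
    have e := A.n1u (vv c 0) rfl
    rw [w1_vv] at e
    rw [← vv_zero, mul_inv_rev, n1i, show ∀ a b c : G, a * b * c * (b * a⁻¹) = a * (b * c * b) * a⁻¹ from fun _ _ _ => by group, e,
      ← map_inv, ← map_mul, ← map_mul, conj_vv]
    simp
  refine (semi_or_triv (p := 2) (q := Nat.card K) (E := A.V) (fun g hg x hx => (Subgroup.mem_normalizer_iff.1 hg x).1 hx) hP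
    (A.isPGroup_S.to_le (Subgroup.map_le_range _ _)) ((Subgroup.card_map_of_injective A.inj).trans card_Z)
    ((Subgroup.card_map_of_injective A.inj).trans card_V) (ι := Option K) Finite.card_option
    (fun i => i.elim 1 fun t => A.u (x1 t) * A.n1) ?_ ?_).resolve_right fun h => ?_
  · rintro (_ | t) z hz <;> obtain ⟨c, rfl⟩ := PC.mem_Z.1 hz
    · exact PC.mem_V.2 ⟨c, 0, by simp [vv_zero]⟩
    · exact PC.mem_V.2 ⟨_, _, key t c⟩
  · intro e he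
    obtain ⟨c, a, rfl⟩ := PC.mem_V.1 he
    by_cases ha : a = 0
    · exact ⟨none, _, PC.mem_Z.2 ⟨c, rfl⟩, by simp [ha, vv_zero]⟩
    · exact ⟨some (c / a), _, PC.mem_Z.2 ⟨a, rfl⟩, by rw [Option.elim_some, key, div_mul_cancel₀ _ ha]⟩
  · have := A.inj ((tw.faithful (h _ (PC.mem_Z.2 ⟨1, rfl⟩))).trans (map_one A.u).symm)
    exact one_ne_zero (congrArg U.c4 this)

theorem false_of [IsSimpleGroup G] (A : P81 σ r G) (tw : Tw G Ω) (hP : Tr (Subgroup.normalizer (A.Z : Set G)) Ω)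
    {a : ℕ} (ha : Nat.card K = 2 ^ a) (h8 : 8 ≤ Nat.card K)
    (hi : (Subgroup.normalizer (A.Z : Set G)).index = (Nat.card K + 1) * (Nat.card K ^ 3 + 1) * (Nat.card K ^ 6 + 1)) : False := by
  have hS := semi A tw hP
  have hb : ∀ ω : Ω, A.Z ⊓ stabilizer G ω = ⊥ := fun ω => eq_bot_iff.2 fun x hx => hS x hx.1 ω hx.2
  obtain ⟨k, hk⟩ : (2 ^ a) ^ 5 ∣ Nat.card Ω := by
    rw [← pow_mul]
    refine pow_dvd_card (Q := A.Q) (A.isPGroup_S.to_le (Subgroup.map_le_range _ _)) fun ω => ?_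
    have e : A.Q ⊓ stabilizer G ω = (Q ⊓ (stabilizer G ω).comap A.u).map A.u := by
      ext x
      exact ⟨fun ⟨⟨g, h, e⟩, h'⟩ => ⟨g, ⟨h, e.symm.subst (motive := (· ∈ stabilizer G ω)) h'⟩, e⟩,
        fun ⟨g, h, e⟩ => ⟨⟨g, h.1, e⟩, e.subst (motive := (· ∈ stabilizer G ω)) h.2⟩⟩
    have h := card_le (σ := σ) (A := Q ⊓ (stabilizer G ω).comap A.u) inf_le_left (eq_bot_iff.2 fun x hx =>
      A.inj ((Subgroup.mem_bot.1 ((hb ω).le ⟨⟨x, hx.2, rfl⟩, hx.1.2⟩)).trans (map_one A.u).symm))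
    rw [e, Subgroup.card_map_of_injective A.inj, PC.Q, Subgroup.card_map_of_injective A.inj, card_Q, pow_mul, ← ha]
    calc _ ≤ _ := Nat.mul_le_mul_left _ h
      _ = _ := by ring
  obtain ⟨κ, b, h1, -, h2, -⟩ := tw.blk (X := A.Z) (fun g hg x hx => (Subgroup.mem_normalizer_iff.1 hg x).1 hx) hP
  obtain ⟨ω, -⟩ := tw.nt
  have h3 := h1 ω
  rw [hb, Subgroup.card_bot, mul_one, PC.Z, Subgroup.card_map_of_injective A.inj, card_Z] at h3
  have h4 := tw.two_le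
  rw [← h3, hi, hk, ← ha] at h2
  rw [hk, ← ha] at h4
  generalize Nat.card K = q at h2 h4 h8
  have k1 : 1 ≤ k := Nat.pos_of_ne_zero fun e => by simp [e] at h4
  zify [show 1 ≤ q ^ 5 * k by omega, show 1 ≤ q by omega] at h2
  exact arith (by exact_mod_cast h8) (by positivity) (by exact_mod_cast k1) h2

theorem h_conj (A : P8 σ r G) (s : Kˣ) (c : K) : A.h (1, s) * A.u (y4 0 c) * (A.h (1, s))⁻¹ = A.u (y4 0 (s * c)) := by
  rw [A.hu, tor_apply]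
  congr 1
  usimp

/-- lower bound for the order of `N(Z)` -/
theorem le_card (A : P8 σ r G) :
    Nat.card K ^ 12 * (Nat.card K - 1) * (Nat.card K ^ 2 + 1) * (Nat.card K - 1) ≤ Nat.card (Subgroup.normalizer (A.Z : Set G)) := by
  have hC : ∀ x ∈ A.C, x ∈ Subgroup.normalizer (A.Z : Set G) := fun x hx =>
    Subgroup.centralizer_le_normalizer _ fun z hz => by
      obtain ⟨c, rfl⟩ := PC.mem_Z.1 hz
      exact (PC.comm_Z hx c).symm
  rw [← A.card_C, ← Nat.card_units, ← Nat.card_prod]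
  refine Nat.card_le_card_of_injective (fun p => ⟨p.1.1 * A.h (1, p.2), mul_mem (hC _ p.1.2) (Subgroup.mem_normalizer_fintype fun z hz => by
      obtain ⟨c, rfl⟩ := PC.mem_Z.1 hz
      exact PC.mem_Z.2 ⟨_, h_conj A _ c⟩)⟩) ?_
  rintro ⟨⟨x, hx⟩, s⟩ ⟨⟨y, hy⟩, t⟩ e
  have e' : x * A.h (1, s) = y * A.h (1, t) := congrArg Subtype.val e
  have k : ∀ x ∈ A.C, ∀ s : Kˣ, x * A.h (1, s) * A.u (y4 0 1) * (x * A.h (1, s))⁻¹ = A.u (y4 0 s) := fun x hx s => by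
    have := h_conj A s 1
    rw [mul_one] at this
    rw [show ∀ a b c : G, a * b * c * (a * b)⁻¹ = a * (b * c * b⁻¹) * a⁻¹ from fun _ _ _ => by group, this, PC.comm_Z hx,
      mul_inv_cancel_right]
  have := k x hx s
  rw [e', k y hy t] at this
  obtain rfl : t = s := Units.ext (congrArg U.c4 (A.inj this))
  rw [Prod.mk.injEq, Subtype.mk.injEq]
  exact ⟨mul_right_cancel e', rfl⟩

theorem norm_le (A : PC σ r G) : Subgroup.normalizer (A.S : Set G) ≤ Subgroup.normalizer (A.Z : Set G) := fun x hx => by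
  refine Subgroup.mem_normalizer_fintype fun z hz => ?_
  obtain ⟨c, rfl⟩ := PC.mem_Z.1 hz
  obtain ⟨g, e⟩ := (Subgroup.mem_normalizer_iff.1 hx _).1 (A.u_mem_S (y4 0 c))
  rw [← e]
  refine PC.u_mem_map.2 (mem_Z_of_comm fun k _ _ => A.inj ?_)
  obtain ⟨k', e'⟩ := (Subgroup.mem_normalizer_iff.1 (inv_mem hx) _).1 (A.u_mem_S k)
  have h := congrArg A.u (comm_Z c k')
  rw [map_mul, map_mul, e'] at h
  rw [map_mul, map_mul, e]
  calc _ = x * (A.u (y4 0 c) * (x⁻¹ * A.u k * x⁻¹⁻¹)) * x⁻¹ := by group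
    _ = _ := by rw [← h]; group

end CL.T2.TF
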