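/-
CLAS/T2 (S2193): the large Ree groups
-/
import Cfsg.Agent.CLAS.T2.Fish
import Cfsg.Agent.CLAS.T2.Heis
import Cfsg.Agent.CLAS.T2.TrB
import Cfsg.Agent.CLAS.T2.TF4a
import Cfsg.Agent.INV.RF.Model
import Cfsg.Agent.CHEV.TwPar
import Cfsg.Agent.S1072

set_option autoImplicit false
set_option backward.isDefEq.respectTransparency false

namespace CL.T2

open Cfsg Cfsg.Lie

theorem TF.glue {F G Ω : Type*} [Field F] [Fintype F] [Group G] [IsSimpleGroup G] {m : ℕ} (hm : 1 ≤ m) [Finite Ω] [MulAction G Ω]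
    (tw : Tw G Ω) {T : (CL.Chev.stG chevF4 F).Twist (Fin 2)} {θ : F →+* F} {j₀ : G →* chevF4.group F}
    (hT : CL.Chev.StData.Twist.IsF4 (R := CL.Chev.rootSys chevF4) T m θ (CL.Chev.rF4 28) (CL.Chev.rF4 30)) (h : T.IsLie j₀)
    {σ : F →+* F} [CL.RF.Tits σ] {r : CL.RF.R8 F} (A : CL.RF.OS σ r G) (hA : Odd A.S.index) : False := by
  have hK : Nat.card F = 2 ^ (2 * m + 1) := hT.card
  have := hT.charP
  have c0 := (Nat.card_congr (MonoidHom.ofInjective h.inj).toEquiv).trans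
    (hT.card_eq h.good h.isTw h.adj h.gen (by simp [chevF4]))
  have h8 : 8 ≤ Nat.card F := hK ▸ (Nat.pow_le_pow_right two_pos (by omega) : 2 ^ 3 ≤ _)
  rw [← hK] at c0
  have : Finite G := Nat.finite_of_card_ne_zero (by
    refine c0.trans_ne (Nat.pos_iff_ne_zero.1 ?_)
    have : 0 < Nat.card F - 1 := by omega
    have : 0 < Nat.card F ^ 4 - 1 := Nat.sub_pos_of_lt (Nat.one_lt_pow (by decide) (by omega))
    positivity)
  obtain ⟨j, hj, e⟩ := h.exists_sylow (p := 2) (A.isPGroup_S.toSylow fun k => (Nat.not_even_iff_odd.2 hA) (even_iff_two_dvd.2 k))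
  have e' : (CL.Chev.stG chevF4 F).U.comap j = A.S := e
  have hP : Tr (Subgroup.normalizer (A.Z : Set G)) Ω := (trB_2F4 hm hT hj tw).mono fun g hg =>
    TF.norm_le A.toPC (e' ▸ Subgroup.mem_normalizer_fintype fun x hx => by
      simpa using (Subgroup.mem_normalizer_iff.1 ((CL.Chev.stG chevF4 F).B_le_normalizer_U hg) _).1 hx)
  refine TF.false_of A.toP81 tw hP hK h8 ?_
  obtain ⟨a, ha⟩ := h.isTw.exists_card_dvd_two h.good (p := 2) h.inj rfl h.adj h.top (X := A.Z)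
    (A.isPGroup_S.to_le (Subgroup.map_le_range _ _)) fun k => by
      have := A.inj ((Subgroup.mem_bot.1 (k.le (CL.RF.PC.mem_Z.2 ⟨1, rfl⟩))).trans (map_one A.u).symm)
      exact one_ne_zero (congrArg CL.RF.U.c4 this)
  rw [h.isTw.card_B h.good, hT.card_U h.good h.isTw (by simp [chevF4]), hT.card_H h.good h.isTw h.adj h.gen, hT.cJ_eq h.good,
    ← hK] at ha
  have l := TF.le_card A.toP8
  have i := (Subgroup.normalizer (A.Z : Set G)).index_mul_card.trans c0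
  obtain ⟨q, hq⟩ : ∃ q, Nat.card F = q + 1 := ⟨_, (Nat.succ_pred_eq_of_pos Nat.card_pos).symm⟩
  rw [hq] at ha l i h8 ⊢
  have q0 : 0 < q := by omega
  have e4 : (q + 1) ^ 4 - 1 = q * (q + 2) * ((q + 1) ^ 2 + 1) := Nat.sub_eq_of_eq_add (by ring)
  rw [Nat.add_sub_cancel] at ha l i
  rw [e4] at i
  have u := Nat.le_of_dvd (by positivity) ha
  have u' : (q + 1) ^ 12 * q ^ 2 * (1 + if a = 0 then q + 1 else (q + 1) ^ 2) ≤ (q + 1) ^ 12 * q * ((q + 1) ^ 2 + 1) * q := by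
    calc _ ≤ (q + 1) ^ 12 * q ^ 2 * (1 + (q + 1) ^ 2) := by
          gcongr
          split_ifs
          exacts [Nat.le_self_pow two_ne_zero _, le_rfl]
      _ = _ := by ring
  rw [(u.trans u').antisymm l] at i
  refine Nat.eq_of_mul_eq_mul_right (by positivity) (i.trans ?_)
  ring

/-- Octagon notation `U = U₁ ⋯ U₈`, `|U_odd| = q`, `|U_even| = q²`, `V_i = Z(U_i)` (`i` even) (CHEV/TwF4, CHEV/FS `md_2F4`, `Oc.*`).
`B` is transitive (`trB_2F4`).  `Z = V₄ = Z(U)`, `P = ⟨B, n₈⟩ = N(Z)`, `[G : P] = (q + 1)(q³ + 1)(q⁶ + 1)` (`card_P_J`),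
`Q = U₁ ⋯ U₇` of order `q¹⁰`.  TF: `E = V₄ V₆` is covered by the conjugates of `V₆` under `U₁` and `V₄ = V₆^{n₁}`
(`⁅U₁, V₆⁆ = V₄`).  `pairing` with `M = V₂ U₃ V₄ U₅ V₆` (`q⁵`), `R₁ = M U₄` (`q⁶`, centralises `M`), `R₂ = Z`: `A = Q_ω`,
`A ∩ Z = 1`, `|A ∩ R₁| ≤ q |A ∩ M|`, so `|A| ≤ q⁵`, `q⁵ ∣ n` (`pow_dvd_card`).  `blk`: `b (n - 1) = (q⁶+1)(q³+1)(q²-1)`,
`b = b₀ + c q⁵`, `b₀ = q³ - q² + 1`, `n = k q⁵`: `c (k q⁵ - 1) + k b₀ = q⁶ - q⁴ + q³ - q + 1 =: y`.  `c = 0`: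
`y = b₀ (q³ + q²) - (q² + q - 1)`, not divisible by `b₀`.  `c ≥ 1`: `c k < q` gives left side `< q⁶ - q⁵ + q⁴ < y`, `c k ≥ q` gives
left side `≥ q⁶ - q > y` (if `c k = q`; larger is worse). -/
theorem tF4_false {F : Type} [Field F] [Fintype F] {m : ℕ} (hm : 1 ≤ m) (hF : Fintype.card F = 2 ^ (2 * m + 1))
    {Ω : Type*} [Finite Ω] [MulAction (twistedF4 F (2 ^ m)) Ω] (tw : Tw (twistedF4 F (2 ^ m)) Ω) : False := by
  have hK : Nat.card F = 2 ^ (2 * m + 1) := Nat.card_eq_fintype_card.trans hF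
  have := (Cfsg.Agent.S1072.result hm hF).1
  obtain ⟨T, θ, hT, h⟩ := CL.Chev.isLie_2F4 hK
  obtain ⟨σ, _, r, A, -, hA⟩ := CL.RF.exists_OS hK
  exact TF.glue (G := twistedF4 F (2 ^ m)) hm tw hT h A hA

end CL.T2
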